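import Cfsg.Agent.Blocks.Extraspecial27.Dot

/-!
# Orthogonal congruent columns of norm nine
-/

set_option autoImplicit false
set_option linter.unusedSectionVars false
set_option linter.unusedVariables false

namespace CfsgLib.Blocks.Extraspecial27

open Finset

variable {ι : Type*} [Fintype ι] [DecidableEq ι]

/-- A column: norm nine, one at the origin. -/
structure IsCol (o : ι) (X : ι → ℤ) : Prop where
  norm : dot X X = 9
  one : X o = 1

theorem IsCol.bound {o : ι} {X : ι → ℤ} (h : IsCol o X) (i : ι) :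
    X i = 0 ∨ X i = 1 ∨ X i = -1 ∨ X i = 2 ∨ X i = -2 := by
  by_cases hi : i = o
  · rw [hi, h.one]; omega
  · have h2 : X o * X o + X i * X i ≤ dot X X := by
      calc X o * X o + X i * X i = ∑ j ∈ {o, i}, X j * X j :=
          (Finset.sum_pair (f := fun j => X j * X j) (Ne.symm hi)).symm
        _ ≤ _ := Finset.sum_le_sum_of_subset_of_nonneg (subset_univ _)
          fun j _ _ => mul_self_nonneg _
    rw [h.norm, h.one] at h2
    have := abs_le_of_sq_lt (x := X i) (n := 2) (by norm_num) (by omega)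
    omega

/-- The positions of weight two. -/
def twos (X : ι → ℤ) : Finset ι := univ.filter fun i => X i = 2 ∨ X i = -2

theorem mem_twos {X : ι → ℤ} {i : ι} : i ∈ twos X ↔ X i = 2 ∨ X i = -2 := by simp [twos]

theorem IsCol.card_supp {o : ι} {X : ι → ℤ} (h : IsCol o X) :
    (supp X).card + 3 * (twos X).card = 9 := by
  have h1 : (((supp X).card + 3 * (twos X).card : ℕ) : ℤ) = dot X X := by
    rw [supp, twos, Finset.card_filter, Finset.card_filter, Nat.cast_add, Nat.cast_mul,
      Nat.cast_sum, Nat.cast_sum, Finset.mul_sum, ← Finset.sum_add_distrib]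
    refine Finset.sum_congr rfl fun i _ => ?_
    rcases h.bound i with e | e | e | e | e <;> simp [e]
  rw [h.norm] at h1
  exact_mod_cast h1

/-- Two congruent orthogonal columns change places at two points. -/
theorem IsCol.exists_swap {o : ι} {X Y : ι → ℤ} (hX : IsCol o X) (hY : IsCol o Y)
    (hXY : dot X Y = 0) (hcong : ∀ i, (3 : ℤ) ∣ X i - Y i) :
    ∃ u v, u ∈ twos X ∧ u ∉ twos Y ∧ v ∈ twos Y ∧ v ∉ twos X ∧ u ≠ v ∧ Y u ≠ 0 ∧ X v ≠ 0 ∧
      u ≠ o ∧ v ≠ o ∧ ∀ i, i ≠ u → i ≠ v → X i = Y i := by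
  set D := univ.filter fun i => X i ≠ Y i with hD
  have hval : ∀ i, X i ≠ Y i → (X i = 2 ∨ X i = -2) ∧ (Y i = 1 ∨ Y i = -1) ∨
      (Y i = 2 ∨ Y i = -2) ∧ (X i = 1 ∨ X i = -1) := fun i hi => by
    obtain ⟨d, hd⟩ := hcong i
    rcases hX.bound i with e | e | e | e | e <;> rcases hY.bound i with f | f | f | f | f <;>
      omega
  have h18 : ∑ i ∈ D, (X i - Y i) * (X i - Y i) = 18 := by
    rw [Finset.sum_subset (subset_univ D) fun i _ hi => by
      have : X i = Y i := by simpa [hD] using hi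
      simp [this]]
    have : ∑ i, (X i - Y i) * (X i - Y i) = dot X X - 2 * dot X Y + dot Y Y := by
      simp only [dot, Finset.mul_sum, ← Finset.sum_sub_distrib, ← Finset.sum_add_distrib]
      exact Finset.sum_congr rfl fun i _ => by ring
    rw [this, hX.norm, hXY, hY.norm]; norm_num
  have hD2 : D.card = 2 := by
    rw [Finset.sum_congr rfl (g := fun _ => (9 : ℤ)) fun i hi => by
      rcases hval i (Finset.mem_filter.1 hi).2 with ⟨e, f⟩ | ⟨e, f⟩ <;>
        obtain ⟨d, hd⟩ := hcong i <;> rcases e with e | e <;> rcases f with f | f <;>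
        first
        | omega
        | (rw [e, f]; norm_num)] at h18
    simp at h18; omega
  obtain ⟨u, v, huv, hDuv⟩ := Finset.card_eq_two.1 hD2
  have hoff : ∀ i, i ≠ u → i ≠ v → X i = Y i := fun i h1 h2 => by
    by_contra hne
    have : i ∈ D := Finset.mem_filter.2 ⟨mem_univ i, hne⟩
    rw [hDuv] at this
    simp [h1, h2] at this
  have hu : X u ≠ Y u := (Finset.mem_filter.1 (show u ∈ D by simp [hDuv])).2
  have hv : X v ≠ Y v := (Finset.mem_filter.1 (show v ∈ D by simp [hDuv])).2
  have hsum : X u * X u + X v * X v = Y u * Y u + Y v * Y v := by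
    have h0 : ∑ i ∈ D, (X i * X i - Y i * Y i) = 0 := by
      rw [Finset.sum_subset (subset_univ D) fun i _ hi => by
        have : X i = Y i := by simpa [hD] using hi
        simp [this], Finset.sum_sub_distrib]
      exact sub_eq_zero.2 (hX.norm.trans hY.norm.symm)
    rw [hDuv, Finset.sum_pair huv] at h0
    omega
  have ho : ∀ i, X i ≠ Y i → i ≠ o := fun i hi e => hi (by rw [e, hX.one, hY.one])
  rcases hval u hu with ⟨e, f⟩ | ⟨e, f⟩ <;> rcases hval v hv with ⟨e', f'⟩ | ⟨e', f'⟩
  · exfalso; rcases e with e | e <;> rcases f with f | f <;> rcases e' with e' | e' <;>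
      rcases f' with f' | f' <;> rw [e, f, e', f'] at hsum <;> norm_num at hsum
  · exact ⟨u, v, mem_twos.2 e, fun h => by have := mem_twos.1 h; omega, mem_twos.2 e',
      fun h => by have := mem_twos.1 h; omega, huv, by omega, by omega, ho u hu, ho v hv, hoff⟩
  · exact ⟨v, u, mem_twos.2 e', fun h => by have := mem_twos.1 h; omega, mem_twos.2 e,
      fun h => by have := mem_twos.1 h; omega, Ne.symm huv, by omega, by omega, ho v hv, ho u hu,
      fun i h1 h2 => hoff i h2 h1⟩
  · exfalso; rcases e with e | e <;> rcases f with f | f <;> rcases e' with e' | e' <;>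
      rcases f' with f' | f' <;> rw [e, f, e', f'] at hsum <;> norm_num at hsum

/-- Each column has exactly one weight two. -/
theorem IsCol.card_twos {o : ι} {X Y : ι → ℤ} (hX : IsCol o X) (hY : IsCol o Y)
    (hXY : dot X Y = 0) (hcong : ∀ i, (3 : ℤ) ∣ X i - Y i) : (twos X).card = 1 := by
  obtain ⟨u, v, hu, huY, hv, hvX, huv, hYu, hXv, huo, hvo, hoff⟩ := hX.exists_swap hY hXY hcong
  have h := hX.card_supp
  have h1 : 1 ≤ (twos X).card := Finset.card_pos.2 ⟨u, hu⟩
  have hsub : insert o (insert v (twos X)) ⊆ supp X := by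
    intro i hi
    simp only [Finset.mem_insert] at hi
    rw [mem_supp]
    rcases hi with rfl | rfl | hi
    · rw [hX.one]; exact one_ne_zero
    · exact hXv
    · have := mem_twos.1 hi; omega
  have h3 := Finset.card_le_card hsub
  rw [Finset.card_insert_of_notMem, Finset.card_insert_of_notMem hvX] at h3
  · omega
  · simp only [Finset.mem_insert, not_or]
    exact ⟨Ne.symm hvo, fun ho => by have := mem_twos.1 ho; rw [hX.one] at this; omega⟩

/-- A twist making all columns congruent to one on the common support. -/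
theorem exists_frame {m : ℕ} (hm : 2 ≤ m) {o : ι} {π : Equiv.Perm ι} (hπ : ∀ i, π (π i) = i)
    (hπo : π o = o) (X : Fin m → ι → ℤ) (hX : ∀ j, IsCol o (X j))
    (horth : ∀ j k, j ≠ k → dot (X j) (X k) = 0)
    (hcong : ∀ j k i, (3 : ℤ) ∣ X j i - X k i) (hπX : ∀ j i, X j (π i) = X j i) :
    ∃ (F : Frame ι m) (σ : ι → ℤ), F.o = o ∧ F.π = π ∧ σ o = 1 ∧ (∀ i, σ i * σ i = 1) ∧
      (∀ i, σ (π i) = σ i) ∧
      (∀ j i, i ∈ F.S → σ i * X j i = if i = F.s j then -2 else 1) ∧
      (∀ j i, i ∉ F.S → X j i = 0) := by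
  have : Nontrivial (Fin m) := Fin.nontrivial_iff_two_le.2 hm
  have h1 : ∀ j, ∃ s, twos (X j) = {s} := fun j => by
    obtain ⟨k, hk⟩ := exists_ne j
    exact Finset.card_eq_one.1 ((hX j).card_twos (hX k) (horth j k hk.symm) fun i => hcong j k i)
  choose s hs using h1
  have htwo : ∀ j i, (X j i = 2 ∨ X j i = -2) ↔ i = s j := fun j i => by
    rw [← mem_twos, hs j, Finset.mem_singleton]
  have hinj : Function.Injective s := fun j k h => by
    by_contra hne
    obtain ⟨u, v, hu, huY, -⟩ := (hX j).exists_swap (hX k) (horth j k hne) fun i => hcong j k i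
    rw [hs, h] at hu
    exact huY (hs k ▸ hu)
  let j0 : Fin m := ⟨0, by omega⟩
  have hS : ∀ j i, X j i = 0 ↔ X j0 i = 0 := fun j i => by
    rcases (hX j).bound i with e | e | e | e | e <;> rcases (hX j0).bound i with f | f | f | f | f <;>
      obtain ⟨d, hd⟩ := hcong j j0 i <;> omega
  set σ : ι → ℤ := fun i => if (X j0 i = 1 ∨ X j0 i = -2 ∨ X j0 i = 0) then 1 else -1 with hσ
  have hσX : ∀ i, σ (π i) = σ i := fun i => by simp only [hσ, hπX]
  have hso : ∀ j, s j ≠ o := fun j e => by
    have := ((htwo j) o).2 e.symm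
    rw [(hX j).one] at this; omega
  refine ⟨⟨supp (X j0), o, s, π, ?_, ?_, ?_, hso, hinj, hπ, hπo, ?_, ?_⟩, σ, rfl, rfl, ?_, ?_,
    hσX, ?_, ?_⟩
  · have := (hX j0).card_supp
    rw [hs, Finset.card_singleton] at this
    omega
  · rw [mem_supp, (hX j0).one]; exact one_ne_zero
  · intro j
    rw [mem_supp, ne_eq, ← hS j]
    intro e
    have := ((htwo j) (s j)).2 rfl
    omega
  · intro j
    refine ((htwo j) _).1 ?_
    rw [hπX]; exact ((htwo j) _).2 rfl
  · intro i
    rw [mem_supp, mem_supp, hπX]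
  · show σ o = 1
    simp only [hσ, (hX j0).one, true_or, if_true]
  · intro i; simp only [hσ]; split_ifs <;> norm_num
  · intro j i hi
    rw [mem_supp] at hi
    have h2 := htwo j i
    obtain ⟨d, hd⟩ := hcong j j0 i
    show σ i * X j i = if i = s j then -2 else 1
    have hσi : (X j0 i = 1 ∨ X j0 i = -2 ∨ X j0 i = 0) ∧ σ i = 1 ∨
        ¬(X j0 i = 1 ∨ X j0 i = -2 ∨ X j0 i = 0) ∧ σ i = -1 := by
      by_cases hc : X j0 i = 1 ∨ X j0 i = -2 ∨ X j0 i = 0
      · exact Or.inl ⟨hc, if_pos hc⟩
      · exact Or.inr ⟨hc, if_neg hc⟩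
    have hif : (i = s j ∧ (if i = s j then (-2 : ℤ) else 1) = -2) ∨
        (i ≠ s j ∧ (if i = s j then (-2 : ℤ) else 1) = 1) := by
      by_cases hc : i = s j
      · exact Or.inl ⟨hc, if_pos hc⟩
      · exact Or.inr ⟨hc, if_neg hc⟩
    rcases hσi with ⟨hc, es⟩ | ⟨hc, es⟩ <;> rcases hif with ⟨hw, ew⟩ | ⟨hw, ew⟩ <;> rw [es, ew] <;>
      first
      | (have := h2.2 hw
         rcases (hX j).bound i with e | e | e | e | e <;>
           rcases (hX j0).bound i with f | f | f | f | f <;> omega)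
      | (have : ¬ (X j i = 2 ∨ X j i = -2) := fun h => hw (h2.1 h)
         rcases (hX j).bound i with e | e | e | e | e <;>
           rcases (hX j0).bound i with f | f | f | f | f <;> omega)
  · intro j i hi
    rw [mem_supp, not_not] at hi
    exact (hS j i).2 hi

end CfsgLib.Blocks.Extraspecial27
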