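import Cfsg.Agent.Blocks.Extraspecial27.Section
import Cfsg.Agent.Blocks.Extraspecial27.Columns

/-!
# The centralizer of `z` and its characters trivial on `z`
-/

set_option autoImplicit false
set_option linter.style.haveILetI false
set_option linter.unusedSectionVars false

namespace CfsgLib.Blocks.Extraspecial27

open Cfsg CfsgLib CfsgLib.Blocks
open scoped ComplexConjugate

universe u

section Restrict

variable {G : Type u} [Group G] [Finite G] {P : Sylow 3 G} {z : G} {m : ℕ} {xs : Fin m → G}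

theorem Classes.mem_centralizer (hc : Classes P z xs) (j : Fin m) :
    xs j ∈ Subgroup.centralizer ({z} : Set G) := hc.base.le_centralizer (hc.mem j)

theorem Classes.z_mem_centralizer (hc : Classes P z xs) :
    z ∈ Subgroup.centralizer ({z} : Set G) := hc.base.le_centralizer hc.base.mem

/-- The centralizer of `z` has the same classes. -/
theorem Classes.restrict (hc : Classes P z xs) :
    Classes (P.subtype hc.base.le_centralizer) (⟨z, hc.z_mem_centralizer⟩ : Subgroup.centralizer ({z} : Set G))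
      (fun j => ⟨xs j, hc.mem_centralizer j⟩) := by
  set H := Subgroup.centralizer ({z} : Set G) with hH
  have hle := hc.base.le_centralizer
  have hmem : ∀ x : H, x ∈ ((P.subtype hle : Sylow 3 H) : Subgroup H) ↔ (x : G) ∈ (P : Subgroup G) :=
    fun x => by rw [Sylow.coe_subtype, Subgroup.mem_subgroupOf]
  have hzp : ∀ x : H, x ∈ Subgroup.zpowers (⟨z, hc.z_mem_centralizer⟩ : H) ↔
      (x : G) ∈ Subgroup.zpowers z := fun x => by
    simp only [Subgroup.mem_zpowers_iff, Subtype.ext_iff, SubgroupClass.coe_zpow]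
  refine ⟨⟨(hmem _).2 hc.base.mem, by rw [Subgroup.orderOf_mk]; exact hc.base.ord,
    fun p hp => Subtype.ext (hc.base.central _ ((hmem p).1 hp)), fun u hu hcu => ?_,
    fun p hp u hu => ?_, fun x hx => Subtype.ext (hc.base.exp _ ((hmem x).1 hx)), ?_,
    fun n hn => Subtype.ext (Subgroup.mem_centralizer_singleton_iff.1 n.2)⟩,
    fun j => (hmem _).2 (hc.mem j), fun j h => hc.nz j ((hzp _).1 h), fun u hu hu' => ?_,
    fun i j h => hc.sep i j ?_, fun j => ?_, fun j i => ?_⟩
  · exact (hzp u).2 (hc.base.cen _ ((hmem u).1 hu) fun p hp =>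
      congrArg Subtype.val (hcu ⟨p, hle hp⟩ ((hmem _).2 hp)))
  · obtain ⟨i, hi⟩ := hc.base.conjz _ ((hmem p).1 hp) _ ((hmem u).1 hu)
    exact ⟨i, Subtype.ext (by simpa using hi)⟩
  · rw [Sylow.coe_subtype, Nat.card_congr (Subgroup.subgroupOfEquivOfLe hle).toEquiv]
    exact hc.base.card
  · obtain ⟨j, c, hcz, hcu⟩ := hc.cover _ ((hmem u).1 hu) (fun h => hu' ((hzp u).2 h))
    exact ⟨j, ⟨c, Subgroup.mem_centralizer_singleton_iff.2 hcz.eq⟩, Subtype.ext hcz.eq,
      Subtype.ext hcu⟩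
  · obtain ⟨c, hc'⟩ := isConj_iff.1 h
    exact isConj_iff.2 ⟨c, by simpa using congrArg Subtype.val hc'⟩
  · obtain ⟨c, hcz, hcu⟩ := hc.inv j
    exact ⟨⟨c, Subgroup.mem_centralizer_singleton_iff.2 hcz.eq⟩, Subtype.ext hcz.eq,
      Subtype.ext hcu⟩
  · obtain ⟨c, hcz, hcu⟩ := hc.zmul j i
    exact ⟨⟨c, Subgroup.mem_centralizer_singleton_iff.2 hcz.eq⟩, Subtype.ext hcz.eq,
      Subtype.ext (by simpa using hcu)⟩

theorem Classes.z_mem_center (hc : Classes P z xs) :
    (⟨z, hc.z_mem_centralizer⟩ : Subgroup.centralizer ({z} : Set G)) ∈ Subgroup.center _ :=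
  Subgroup.mem_center_iff.2 fun g => Subtype.ext (Subgroup.mem_centralizer_singleton_iff.1 g.2)

end Restrict

variable {K : Type u} [Group K] [Fintype K] {P : Sylow 3 K} {z : K} {m : ℕ} {xs : Fin m → K}
  {M : Ideal AlgInt}

/-- The members of the principal block trivial on `z`. -/
def bar (M : Ideal AlgInt) (z : K) : Set (IrrCharacter K) :=
  {ψ | ψ ∈ principalBlock M K ∧ (ψ : K → ℂ) z = (ψ : K → ℂ) 1}

theorem apply_z_mul {ψ : IrrCharacter K} (hz : z ∈ Subgroup.center K)
    (h : (ψ : K → ℂ) z = (ψ : K → ℂ) 1) (g : K) : (ψ : K → ℂ) (z * g) = (ψ : K → ℂ) g := by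
  rw [Chars.map_mul_of_mem_center ψ hz g, h, div_self (Chars.map_one_ne_zero ψ), one_mul]

theorem apply_zpow_mul {ψ : IrrCharacter K} (hz : z ∈ Subgroup.center K)
    (h : (ψ : K → ℂ) z = (ψ : K → ℂ) 1) (i : ℕ) (g : K) :
    (ψ : K → ℂ) (z ^ i * g) = (ψ : K → ℂ) g := by
  induction i with
  | zero => simp
  | succ i ih => rw [pow_succ', mul_assoc, apply_z_mul hz h, ih]

namespace Classes

variable (hc : Classes P z xs) (hz : z ∈ Subgroup.center K)
include hc hz

/-- A character moved by `z` vanishes at the noncentral representatives. -/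
theorem apply_xs_eq_zero {ψ : IrrCharacter K} (h : (ψ : K → ℂ) z ≠ (ψ : K → ℂ) 1) (j : Fin m) :
    (ψ : K → ℂ) (xs j) = 0 := by
  obtain ⟨c, -, hcx⟩ := hc.zmul j 1
  have e : (ψ : K → ℂ) (z * xs j) = (ψ : K → ℂ) (xs j) := by
    rw [← pow_one z, ← hcx, irrCharacter_conj]
  rw [Chars.map_mul_of_mem_center ψ hz] at e
  by_contra hne
  exact h (div_eq_one_iff_eq (Chars.map_one_ne_zero ψ) |>.1
    (mul_right_cancel₀ hne (e.trans (one_mul _).symm)))

open scoped Classical in
theorem sum_bar_eq (j : Fin m) (F : IrrCharacter K → ℂ) :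
    ∑ ψ ∈ (bar M z).toFinite.toFinset, (ψ : K → ℂ) (xs j) * F ψ =
      ∑ ψ ∈ (principalBlock M K).toFinite.toFinset, (ψ : K → ℂ) (xs j) * F ψ := by
  refine Finset.sum_subset (fun ψ h => ?_) fun ψ h h' => ?_
  · exact (Set.Finite.mem_toFinset _).2 ((Set.Finite.mem_toFinset _).1 h).1
  · rw [hc.apply_xs_eq_zero hz (fun e => h' ((Set.Finite.mem_toFinset _).2
      ⟨(Set.Finite.mem_toFinset _).1 h, e⟩)) j, zero_mul]

open scoped Classical in
theorem sum_bar_xs_xs (hM : IsPModular 3 M) (i j : Fin m) :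
    ∑ ψ ∈ (bar M z).toFinite.toFinset, (ψ : K → ℂ) (xs i) * (ψ : K → ℂ) (xs j) =
      if i = j then 9 else 0 := by
  rw [hc.sum_bar_eq hz, hc.sum_xs_mul_xs hM]

open scoped Classical in
/-- The virtual character of a column is nine times its section. -/
theorem sum_bar_xs_mul [Fact (Nat.Prime 3)] (hM : IsPModular 3 M) (j : Fin m) (y : K) :
    ∑ ψ ∈ (bar M z).toFinite.toFinset, (ψ : K → ℂ) (xs j) * (ψ : K → ℂ) y =
      if IsConj (xs j) (ppart 3 y) then 9 else 0 := by
  have := isMaximal_of_isPModular hM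
  have hB : IsPBlock M (principalBlock M K) := PrincipalLinear.isPBlock_principal M
  rw [hc.sum_bar_eq hz]
  split_ifs with hj
  · obtain ⟨c, hcy⟩ := isConj_iff.1 hj.symm
    obtain ⟨w, hw, hcomm, -, hreg⟩ := isPPart_ppart (p := 3) y
    rw [Finset.sum_congr rfl fun ψ hψ => by
      rw [← irrCharacter_conj ψ y c, ← hw,
        show c * (ppart 3 y * w) * c⁻¹ = c * ppart 3 y * c⁻¹ * (c * w * c⁻¹) by group, hcy,
        hc.apply_xs_mul hM ((Set.Finite.mem_toFinset _).1 hψ) j ((isPRegular_conj_iff c w).2 hreg)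
          (show Commute (xs j) (c * w * c⁻¹) from by
            rw [← hcy]
            exact (show c * ppart 3 y * c⁻¹ * (c * w * c⁻¹) = c * w * c⁻¹ * (c * ppart 3 y * c⁻¹) by
              rw [show c * ppart 3 y * c⁻¹ * (c * w * c⁻¹) = c * (ppart 3 y * w) * c⁻¹ by group,
                hcomm]; group))]]
    rw [hc.sum_xs_mul_xs hM, if_pos rfl]
  · have hp : IsPPart 3 (xs j) (xs j) :=
      ⟨1, mul_one _, Commute.one_right _, hc.pPower_xs j, by simp [IsPRegular]⟩
    have h := finsum_block_mul_conj_eq_zero_of_pPart hM hB (isPPart_ppart (p := 3) y) hp hj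
    rw [finsum_block_eq_sum] at h
    rw [← h]
    exact Finset.sum_congr rfl fun ψ _ => by rw [hc.conj_apply_xs, mul_comm]

/-- No member trivial on `z` vanishes at all representatives. -/
theorem exists_xs_ne_zero (hM : IsPModular 3 M) (hm : 0 < m) {ψ : IrrCharacter K}
    (hψ : ψ ∈ bar M z) : ∃ j, (ψ : K → ℂ) (xs j) ≠ 0 := by
  classical
  haveI : Fact (Nat.Prime 3) := ⟨Nat.prime_three⟩
  by_contra hno
  push Not at hno
  have hone : ψ ≠ Chars.oneChar K := fun e => by
    have := hno ⟨0, hm⟩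
    rw [e, Chars.oneChar_apply] at this
    exact one_ne_zero this
  have hsum : ∑ y : K, (ψ : K → ℂ) y = 0 := by
    have h := Chars.classInner_of_ne (G := K) hone
    simp only [classInner, Chars.oneChar_apply, map_one, mul_one, mul_eq_zero] at h
    exact h.resolve_left (inv_ne_zero Chars.natCard_ne_zero)
  -- split along the `3`-part
  have hz3 := hc.base.z_cube
  have hpart : ∀ y : K, (ψ : K → ℂ) y ≠ 0 → ∃ s, IsPRegular 3 s ∧ ∃ i, i < 3 ∧ y = z ^ i * s := by
    intro y hy
    obtain ⟨w, hw, hcomm, hpp, hreg⟩ := isPPart_ppart (p := 3) y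
    have hcz : ∀ d : K, Commute d z := fun d => Subgroup.mem_center_iff.1 hz d
    rcases hc.exists_rep hpp with h | h | h | ⟨j, h⟩
    · obtain ⟨d, hd⟩ := isConj_iff.1 h
      rw [conj_eq_one_iff] at hd
      exact ⟨w, hreg, 0, by norm_num, by rw [pow_zero, ← hd, hw]⟩
    · obtain ⟨d, hd⟩ := isConj_iff.1 h
      refine ⟨w, hreg, 1, by norm_num, ?_⟩
      rw [pow_one, ← hw]; congr 1
      calc ppart 3 y = d⁻¹ * (d * ppart 3 y * d⁻¹) * d := by group
        _ = z := by rw [hd, mul_assoc, ← (hcz d).eq, inv_mul_cancel_left]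
    · obtain ⟨d, hd⟩ := isConj_iff.1 h
      refine ⟨w, hreg, 2, by norm_num, ?_⟩
      rw [eq_inv_of_mul_eq_one_left (show z ^ 2 * z = 1 by rw [← pow_succ, hz3]), ← hw]; congr 1
      calc ppart 3 y = d⁻¹ * (d * ppart 3 y * d⁻¹) * d := by group
        _ = z⁻¹ := by rw [hd, mul_assoc, ← (hcz d).inv_right.eq, inv_mul_cancel_left]
    · exfalso
      obtain ⟨d, hd⟩ := isConj_iff.1 h
      refine hy ?_
      rw [← irrCharacter_conj ψ y d, ← hw,
        show d * (ppart 3 y * w) * d⁻¹ = d * ppart 3 y * d⁻¹ * (d * w * d⁻¹) by group, hd,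
        hc.apply_xs_mul hM hψ.1 j ((isPRegular_conj_iff d w).2 hreg) (show Commute (xs j) _ from by
          rw [← hd]
          exact (show d * ppart 3 y * d⁻¹ * (d * w * d⁻¹) = d * w * d⁻¹ * (d * ppart 3 y * d⁻¹) by
            rw [show d * ppart 3 y * d⁻¹ * (d * w * d⁻¹) = d * (ppart 3 y * w) * d⁻¹ by group,
              hcomm]; group))]
      exact hno j
  have hpp : ∀ i : ℕ, ∀ s : K, IsPRegular 3 s → ppart 3 (z ^ i * s) = z ^ i := fun i s hs =>
    ppart_mul (Commute.pow_left (Commute.symm (Subgroup.mem_center_iff.1 hz s)) i)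
      (by
        haveI : Fact (Nat.Prime 3) := ⟨Nat.prime_three⟩
        obtain ⟨k, -, hk⟩ := (Nat.dvd_prime_pow Nat.prime_three).1
          (show orderOf (z ^ i) ∣ 3 ^ 1 by
            rw [pow_one]; exact orderOf_dvd_of_pow_eq_one (by rw [← pow_mul, mul_comm, pow_mul, hz3, one_pow]))
        exact ⟨k, hk⟩) hs
  have hreg : ∑ y : K, (ψ : K → ℂ) y = 3 * ∑ s ∈ regSet 3 K, (ψ : K → ℂ) s := by
    rw [show (3 : ℂ) * ∑ s ∈ regSet 3 K, (ψ : K → ℂ) s =
      ∑ x ∈ Finset.range 3 ×ˢ regSet 3 K, (ψ : K → ℂ) (z ^ x.1 * x.2) by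
        rw [Finset.sum_product, Finset.sum_congr rfl fun i _ => Finset.sum_congr rfl fun s _ =>
          apply_zpow_mul hz hψ.2 i s, Finset.sum_const, Finset.card_range, nsmul_eq_mul]; norm_num,
      ← Finset.sum_image (g := fun x : ℕ × K => z ^ x.1 * x.2) (f := fun y => (ψ : K → ℂ) y)]
    · refine (Finset.sum_subset (Finset.subset_univ _) fun y _ hy => ?_).symm
      by_contra hne
      obtain ⟨s, hs, i, hi, rfl⟩ := hpart y hne
      exact hy (Finset.mem_image.2 ⟨(i, s), Finset.mem_product.2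
        ⟨Finset.mem_range.2 hi, mem_regSet.2 hs⟩, rfl⟩)
    · intro a ha b hb hab
      simp only [Finset.coe_product, Set.mem_prod, Finset.mem_coe, Finset.mem_range, mem_regSet] at ha hb
      have e := congrArg (ppart 3) hab
      simp only [hpp _ _ ha.2, hpp _ _ hb.2] at e
      rw [pow_inj_mod, hc.base.ord, Nat.mod_eq_of_lt ha.1, Nat.mod_eq_of_lt hb.1] at e
      refine Prod.ext e ?_
      simp only at hab
      rw [e] at hab
      exact mul_left_cancel hab
  rw [hreg] at hsum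
  exact sum_regSet_ne_zero hM hψ.1 ((mul_eq_zero.1 hsum).resolve_left (by norm_num))

end Classes

end CfsgLib.Blocks.Extraspecial27
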