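import Cfsg.Agent.Blocks.Extraspecial27.Fusion
import Cfsg.Agent.Chars.Basic

/-!
# The classes of `3`-elements
-/

set_option autoImplicit false
set_option linter.style.haveILetI false
set_option linter.unusedSectionVars false

namespace CfsgLib.Blocks.Extraspecial27

open Cfsg CfsgLib

universe u

variable {G : Type u} [Group G] [Finite G] {P : Sylow 3 G} {z : G}

/-- Representatives of the noncentral classes, fused inside the centralizer of `z`. -/
structure Classes (P : Sylow 3 G) (z : G) {m : ℕ} (xs : Fin m → G) : Prop where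
  base : Base P z
  mem : ∀ j, xs j ∈ (P : Subgroup G)
  nz : ∀ j, xs j ∉ Subgroup.zpowers z
  cover : ∀ u ∈ (P : Subgroup G), u ∉ Subgroup.zpowers z →
    ∃ j c, Commute c z ∧ c * u * c⁻¹ = xs j
  sep : ∀ i j, IsConj (xs i) (xs j) → i = j
  inv : ∀ j, ∃ c, Commute c z ∧ c * (xs j)⁻¹ * c⁻¹ = xs j
  zmul : ∀ j (i : ℕ), ∃ c, Commute c z ∧ c * xs j * c⁻¹ = z ^ i * xs j

namespace Base

/-- The elements fixing `z` and the coset of `u`. -/
def cosetStab (u : G) (h : Base P z) : Subgroup G where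
  carrier := {x | x * z * x⁻¹ = z ∧ ∃ i : ℕ, x * u * x⁻¹ = z ^ i * u}
  one_mem' := ⟨by simp, 0, by simp⟩
  mul_mem' := by
    rintro a b ⟨ha, i, hi⟩ ⟨hb, j, hj⟩
    refine ⟨by rw [show a * b * z * (a * b)⁻¹ = a * (b * z * b⁻¹) * a⁻¹ by group, hb, ha],
      i + j, ?_⟩
    rw [show a * b * u * (a * b)⁻¹ = a * (b * u * b⁻¹) * a⁻¹ by group, hj,
      show a * (z ^ j * u) * a⁻¹ = (a * z * a⁻¹) ^ j * (a * u * a⁻¹) by
        rw [conj_pow]; group, ha, hi, ← mul_assoc, ← pow_add, add_comm]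
  inv_mem' := by
    rintro a ⟨ha, i, hi⟩
    have ha' : a⁻¹ * z * a⁻¹⁻¹ = z := by
      calc a⁻¹ * z * a⁻¹⁻¹ = a⁻¹ * (a * z * a⁻¹) * a := by rw [ha, inv_inv]
        _ = z := by group
    refine ⟨ha', 2 * i, ?_⟩
    have e1 : a⁻¹ * (z ^ i * u) * a⁻¹⁻¹ = u := by rw [← hi]; group
    rw [show a⁻¹ * (z ^ i * u) * a⁻¹⁻¹ = (a⁻¹ * z * a⁻¹⁻¹) ^ i * (a⁻¹ * u * a⁻¹⁻¹) by
      rw [conj_pow]; group, ha'] at e1
    calc a⁻¹ * u * a⁻¹⁻¹ = z ^ (2 * i) * (z ^ i * (a⁻¹ * u * a⁻¹⁻¹)) := by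
          rw [← mul_assoc, ← pow_add, show 2 * i + i = 3 * i by ring, pow_mul, h.z_cube,
            one_pow, one_mul]
      _ = z ^ (2 * i) * u := by rw [e1]

theorem core_le_cosetStab (h : Base P z) {u : G} (hu : u ∈ (P : Subgroup G)) :
    (P : Subgroup G) ⊔ Subgroup.centralizer ((P : Subgroup G) : Set G) ≤ h.cosetStab u := by
  refine sup_le (fun p hp => ⟨by rw [h.central p hp, mul_inv_cancel_right], h.conjz p hp u hu⟩)
    fun c hc => ?_
  have hcu := fun w (hw : w ∈ (P : Subgroup G)) => Subgroup.mem_centralizer_iff.1 hc w hw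
  exact ⟨by rw [← hcu z h.mem, mul_inv_cancel_right], 0,
    by rw [pow_zero, one_mul, ← hcu u hu, mul_inv_cancel_right]⟩

theorem core_le_normalizer :
    (P : Subgroup G) ⊔ Subgroup.centralizer ((P : Subgroup G) : Set G) ≤
      Subgroup.normalizer ((P : Subgroup G) : Set G) :=
  sup_le Subgroup.le_normalizer fun c hc => Subgroup.mem_normalizer_iff.2 fun w => by
    constructor
    · intro hw
      rw [← Subgroup.mem_centralizer_iff.1 hc w hw, mul_inv_cancel_right]
      exact hw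
    · intro hw
      have := Subgroup.mem_centralizer_iff.1 hc _ hw
      rw [inv_mul_cancel_right] at this
      rwa [← mul_left_cancel this] at hw

theorem core_normal :
    ((((P : Subgroup G) ⊔ Subgroup.centralizer ((P : Subgroup G) : Set G))).subgroupOf
      (Subgroup.normalizer ((P : Subgroup G) : Set G))).Normal := by
  refine ⟨fun x hx n => ?_⟩
  rw [Subgroup.mem_subgroupOf] at hx ⊢
  have hle : ((P : Subgroup G) ⊔ Subgroup.centralizer ((P : Subgroup G) : Set G)).map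
      (MulAut.conj (n : G)).toMonoidHom ≤
      (P : Subgroup G) ⊔ Subgroup.centralizer ((P : Subgroup G) : Set G) := by
    rw [Subgroup.map_sup]
    refine sup_le_sup ?_ ?_
    · rintro _ ⟨w, hw, rfl⟩
      exact (Subgroup.mem_normalizer_iff.1 n.2 w).1 hw
    · rintro _ ⟨w, hw, rfl⟩
      refine Subgroup.mem_centralizer_iff.2 fun q hq => ?_
      have h1 : (n : G)⁻¹ * q * n ∈ (P : Subgroup G) := by
        refine (Subgroup.mem_normalizer_iff.1 n.2 _).2 ?_
        rw [show (n : G) * ((n : G)⁻¹ * q * n) * (n : G)⁻¹ = q by group]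
        exact hq
      simp only [MulEquiv.coe_toMonoidHom, MulAut.conj_apply]
      calc q * ((n : G) * w * (n : G)⁻¹) = n * ((n : G)⁻¹ * q * n * w) * (n : G)⁻¹ := by group
        _ = n * (w * ((n : G)⁻¹ * q * n)) * (n : G)⁻¹ := by rw [Subgroup.mem_centralizer_iff.1 hw _ h1]
        _ = (n : G) * w * (n : G)⁻¹ * q := by group
  exact hle ⟨_, hx, rfl⟩

theorem pow_relIndex_mem (n : G) (hn : n ∈ Subgroup.normalizer ((P : Subgroup G) : Set G)) :
    n ^ ((P : Subgroup G) ⊔ Subgroup.centralizer ((P : Subgroup G) : Set G)).relIndex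
      (Subgroup.normalizer ((P : Subgroup G) : Set G)) ∈
      (P : Subgroup G) ⊔ Subgroup.centralizer ((P : Subgroup G) : Set G) := by
  haveI := core_normal (P := P)
  have := Subgroup.pow_index_mem (((P : Subgroup G) ⊔ Subgroup.centralizer
    ((P : Subgroup G) : Set G)).subgroupOf (Subgroup.normalizer ((P : Subgroup G) : Set G))) ⟨n, hn⟩
  rwa [Subgroup.mem_subgroupOf] at this

/-- The inertial quotient acts freely on the noncentral cosets. -/
theorem mem_core_of_fix (h : Base P z)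
    (he : ¬ 3 ∣ ((P : Subgroup G) ⊔ Subgroup.centralizer ((P : Subgroup G) : Set G)).relIndex
      (Subgroup.normalizer ((P : Subgroup G) : Set G)))
    {u : G} (hu : u ∈ (P : Subgroup G)) (hu' : u ∉ Subgroup.zpowers z) {n : G}
    (hn : n ∈ Subgroup.normalizer ((P : Subgroup G) : Set G))
    {i : ℕ} (hi : n * u * n⁻¹ = z ^ i * u) :
    n ∈ (P : Subgroup G) ⊔ Subgroup.centralizer ((P : Subgroup G) : Set G) := by
  set K := (P : Subgroup G) ⊔ Subgroup.centralizer ((P : Subgroup G) : Set G) with hK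
  set e := K.relIndex (Subgroup.normalizer ((P : Subgroup G) : Set G))
  obtain ⟨p, hp, hpu⟩ := h.exists_conj_mul hu hu' (2 * i)
  set n1 := p * n with hn1d
  have hn1 : n1 ∈ Subgroup.normalizer ((P : Subgroup G) : Set G) :=
    mul_mem (Subgroup.le_normalizer hp) hn
  have hn1u : n1 * u * n1⁻¹ = u := by
    rw [hn1d, show p * n * u * (p * n)⁻¹ = p * (n * u * n⁻¹) * p⁻¹ by group, hi,
      show p * (z ^ i * u) * p⁻¹ = p * z ^ i * p⁻¹ * (p * u * p⁻¹) by group,
      (Commute.pow_right (h.central p hp) i).eq, mul_inv_cancel_right, hpu, ← mul_assoc, ← pow_add,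
      show i + 2 * i = 3 * i by ring, pow_mul, h.z_cube, one_pow, one_mul]
  have hn1z : n1 * z = z * n1 := h.nc _ hn1
  obtain ⟨y, hy, hyu⟩ := h.exists_conj_mul hu hu' 1
  rw [pow_one] at hyu
  set y' := n1 * y * n1⁻¹ with hy'd
  have hy' : y' ∈ (P : Subgroup G) := (Subgroup.mem_normalizer_iff.1 hn1 y).1 hy
  have hy'u : y' * u * y'⁻¹ = z * u := by
    calc y' * u * y'⁻¹ = y' * (n1 * u * n1⁻¹) * y'⁻¹ := by rw [hn1u]
      _ = n1 * (y * u * y⁻¹) * n1⁻¹ := by rw [hy'd]; group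
      _ = (n1 * z * n1⁻¹) * (n1 * u * n1⁻¹) := by rw [hyu]; group
      _ = z * u := by rw [hn1u, hn1z, mul_inv_cancel_right]
  set w := y⁻¹ * y' with hwd
  have hwP : w ∈ (P : Subgroup G) := mul_mem (inv_mem hy) hy'
  have hwu : w * u * w⁻¹ = u := by
    calc w * u * w⁻¹ = y⁻¹ * (y' * u * y'⁻¹) * y := by rw [hwd]; group
      _ = y⁻¹ * (y * u * y⁻¹) * y := by rw [hy'u, hyu]
      _ = u := by group
  have hwR : w ∈ Subgroup.closure ({z, u} : Set G) := by
    rw [(h.card_inf_centralizer hu hu').2]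
    exact ⟨hwP, Subgroup.mem_centralizer_singleton_iff.2 (mul_inv_eq_iff_eq_mul.1 hwu)⟩
  have hfix : Commute n1 w := by
    have hle : Subgroup.closure ({z, u} : Set G) ≤ Subgroup.centralizer ({n1} : Set G) := by
      rw [Subgroup.closure_le]
      intro v hv
      simp only [Set.mem_insert_iff, Set.mem_singleton_iff] at hv
      refine Subgroup.mem_centralizer_singleton_iff.2 ?_
      rcases hv with rfl | rfl
      · exact hn1z.symm
      · exact (mul_inv_eq_iff_eq_mul.1 hn1u).symm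
    exact (Subgroup.mem_centralizer_singleton_iff.1 (hle hwR)).symm
  have hpow : ∀ k : ℕ, n1 ^ k * y * (n1 ^ k)⁻¹ = y * w ^ k := fun k => by
    induction k with
    | zero => simp
    | succ k ih =>
      calc n1 ^ (k + 1) * y * (n1 ^ (k + 1))⁻¹ = n1 * (n1 ^ k * y * (n1 ^ k)⁻¹) * n1⁻¹ := by
            rw [pow_succ']; group
        _ = n1 * y * n1⁻¹ * (n1 * w ^ k * n1⁻¹) := by rw [ih]; group
        _ = y * w * w ^ k := by
            rw [(hfix.pow_right k).eq, mul_inv_cancel_right, hwd, mul_inv_cancel_left]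
        _ = y * w ^ (k + 1) := by rw [pow_succ', mul_assoc]
  have hyne : y ∉ Subgroup.zpowers z := fun hm => by
    obtain ⟨k, rfl⟩ := Subgroup.mem_zpowers_iff.1 hm
    rw [← ((Commute.zpow_right (h.central u hu) k)).eq, mul_inv_cancel_right] at hyu
    have := h.ord
    rw [mul_right_cancel ((show u = z * u from hyu).symm.trans (one_mul u).symm), orderOf_one] at this
    omega
  obtain ⟨j, hj⟩ := (h.core_le_cosetStab hy (pow_relIndex_mem n1 hn1)).2
  rw [hpow e, (Commute.pow_right (h.central y hy) j).eq.symm] at hj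
  have hwe : w ^ e = z ^ j := mul_left_cancel hj
  have hwz : w ∈ Subgroup.zpowers z := by
    have h3 : w ^ 3 = 1 := h.exp w hwP
    rcases (show e % 3 = 1 ∨ e % 3 = 2 by omega) with e1 | e1
    · have : w = z ^ j := by
        rw [← hwe]; conv_rhs => rw [← Nat.mod_add_div e 3, pow_add, pow_mul, h3, one_pow, mul_one, e1, pow_one]
      exact this ▸ Subgroup.npow_mem_zpowers _ j
    · have h2 : w ^ 2 = z ^ j := by
        rw [← hwe]; conv_rhs => rw [← Nat.mod_add_div e 3, pow_add, pow_mul, h3, one_pow, mul_one, e1]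
      have : w = (z ^ j) ^ 2 := by rw [← h2, ← pow_mul, show 2 * 2 = 3 + 1 by norm_num, pow_add, h3]; simp
      exact this ▸ pow_mem (Subgroup.npow_mem_zpowers _ j) 2
  obtain ⟨a, -, ha⟩ : ∃ a, a < 3 ∧ z ^ a = w := by
    classical
    rw [mem_zpowers_iff_mem_range_orderOf, h.ord] at hwz
    obtain ⟨a, ha, ha'⟩ := Finset.mem_image.1 hwz
    exact ⟨a, Finset.mem_range.1 ha, ha'⟩
  have huy : ∀ k : ℕ, u ^ k * y * (u ^ k)⁻¹ = (z ^ k)⁻¹ * y := fun k => by
    have h1 : u * y * u⁻¹ = z⁻¹ * y := by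
      have e1 : y * u = z * u * y := mul_inv_eq_iff_eq_mul.1 hyu
      rw [mul_inv_eq_iff_eq_mul, mul_assoc, e1]
      group
    induction k with
    | zero => simp
    | succ k ih =>
      calc u ^ (k + 1) * y * (u ^ (k + 1))⁻¹ = u * (u ^ k * y * (u ^ k)⁻¹) * u⁻¹ := by
            rw [pow_succ']; group
        _ = (u * (z ^ k)⁻¹ * u⁻¹) * (u * y * u⁻¹) := by rw [ih]; group
        _ = (z ^ k)⁻¹ * (z⁻¹ * y) := by
            rw [((Commute.pow_right (h.central u hu) k).inv_right).eq, mul_inv_cancel_right, h1]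
        _ = (z ^ (k + 1))⁻¹ * y := by rw [pow_succ', mul_inv_rev, mul_assoc]
  set n2 := u ^ a * n1 with hn2d
  have c1 : ∀ v, n1 * v * n1⁻¹ = v → u ^ a * v * (u ^ a)⁻¹ = v → v * n2 = n2 * v := fun v e1 e2 => by
    have : n2 * v * n2⁻¹ = v := by
      rw [hn2d, show u ^ a * n1 * v * (u ^ a * n1)⁻¹ = u ^ a * (n1 * v * n1⁻¹) * (u ^ a)⁻¹ by group,
        e1, e2]
    exact (mul_inv_eq_iff_eq_mul.1 this).symm
  have hn2y : y * n2 = n2 * y := by
    have e1 : n1 * y * n1⁻¹ = z ^ a * y := by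
      rw [← (Commute.pow_right (h.central y hy) a).eq, ha, hwd, mul_inv_cancel_left]
    have : n2 * y * n2⁻¹ = y := by
      rw [hn2d, show u ^ a * n1 * y * (u ^ a * n1)⁻¹ = u ^ a * (n1 * y * n1⁻¹) * (u ^ a)⁻¹ by group,
        e1, show u ^ a * (z ^ a * y) * (u ^ a)⁻¹ =
          u ^ a * z ^ a * (u ^ a)⁻¹ * (u ^ a * y * (u ^ a)⁻¹) by group,
        (Commute.pow_right (h.central (u ^ a) (pow_mem hu a)) a).eq, mul_inv_cancel_right, huy,
        mul_inv_cancel_left]
    exact (mul_inv_eq_iff_eq_mul.1 this).symm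
  have hP : (P : Subgroup G) ≤ Subgroup.closure ({z, u} : Set G) ⊔ Subgroup.zpowers y := by
    have hle : Subgroup.closure ({z, u} : Set G) ⊔ Subgroup.zpowers y ≤ (P : Subgroup G) :=
      sup_le ((h.pair_le hu).trans inf_le_left) (Subgroup.zpowers_le.2 hy)
    refine (Subgroup.eq_of_le_of_card_ge hle ?_).ge
    have hd := Subgroup.card_dvd_of_le hle
    rw [h.card, show 27 = 3 ^ 3 by norm_num] at hd
    obtain ⟨k, hk, hke⟩ := (Nat.dvd_prime_pow Nat.prime_three).1 hd
    have h9 := (h.card_inf_centralizer hu hu')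
    have hlt : 9 < 3 ^ k := by
      rw [← hke, ← h9.1, ← h9.2]
      refine lt_of_le_of_ne (Subgroup.card_le_of_le le_sup_left) fun e' => ?_
      have := Subgroup.eq_of_le_of_card_ge (le_sup_left (b := Subgroup.zpowers y)) e'.ge
      have hyR : y ∈ Subgroup.closure ({z, u} : Set G) := this ▸ le_sup_right (a := Subgroup.closure ({z, u} : Set G)) (Subgroup.mem_zpowers y)
      rw [h9.2] at hyR
      rw [Subgroup.mem_centralizer_singleton_iff.1 hyR.2, mul_inv_cancel_right] at hyu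
      have := h.ord
      rw [mul_right_cancel ((show u = z * u from hyu).symm.trans (one_mul u).symm), orderOf_one] at this
      omega
    rw [hke, h.card]
    interval_cases k <;> norm_num at *
  have hC : n2 ∈ Subgroup.centralizer ((P : Subgroup G) : Set G) := by
    refine Subgroup.mem_centralizer_iff.2 fun v hv => ?_
    have hle : Subgroup.closure ({z, u} : Set G) ⊔ Subgroup.zpowers y ≤
        Subgroup.centralizer ({n2} : Set G) := by
      refine sup_le ((Subgroup.closure_le _).2 fun v hv => ?_)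
        (Subgroup.zpowers_le.2 (Subgroup.mem_centralizer_singleton_iff.2 hn2y))
      simp only [Set.mem_insert_iff, Set.mem_singleton_iff] at hv
      refine Subgroup.mem_centralizer_singleton_iff.2 ?_
      rcases hv with rfl | rfl
      · exact c1 _ (by rw [hn1z, mul_inv_cancel_right])
          (by rw [h.central _ (pow_mem hu a), mul_inv_cancel_right])
      · exact c1 _ hn1u (by group)
    exact Subgroup.mem_centralizer_singleton_iff.1 (hle (hP hv))
  have hnK : n = p⁻¹ * ((u ^ a)⁻¹ * n2) := by rw [hn2d, hn1d]; group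
  rw [hnK]
  exact mul_mem (Subgroup.mem_sup_left (inv_mem hp))
    (mul_mem (Subgroup.mem_sup_left (inv_mem (pow_mem hu a))) (Subgroup.mem_sup_right hC))

/-- The normalizer carries a noncentral element to `3e` elements. -/
theorem card_orbit (h : Base P z)
    (he : ¬ 3 ∣ ((P : Subgroup G) ⊔ Subgroup.centralizer ((P : Subgroup G) : Set G)).relIndex
      (Subgroup.normalizer ((P : Subgroup G) : Set G)))
    {u : G} (hu : u ∈ (P : Subgroup G)) (hu' : u ∉ Subgroup.zpowers z) :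
    Nat.card {v : G // ∃ n ∈ Subgroup.normalizer ((P : Subgroup G) : Set G), n * u * n⁻¹ = v} =
      3 * ((P : Subgroup G) ⊔ Subgroup.centralizer ((P : Subgroup G) : Set G)).relIndex
        (Subgroup.normalizer ((P : Subgroup G) : Set G)) := by
  classical
  set K := (P : Subgroup G) ⊔ Subgroup.centralizer ((P : Subgroup G) : Set G) with hK
  have key : ∀ (H : Subgroup G), u ∈ H →
      Nat.card {v : G // ∃ n ∈ H, n * u * n⁻¹ = v} =
        (Subgroup.centralizer ({u} : Set G)).relIndex H := by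
    intro H huH
    haveI := Fintype.ofFinite H
    have hc := Chars.card_carrier_eq_index (⟨u, huH⟩ : H)
    have e : (Subgroup.centralizer ({u} : Set G)).relIndex H =
        (Subgroup.centralizer ({(⟨u, huH⟩ : H)} : Set H)).index := by
      rw [Subgroup.relIndex]
      congr 1
      ext x
      simp [Subgroup.mem_subgroupOf, Subgroup.mem_centralizer_singleton_iff, Subtype.ext_iff]
    rw [e, ← hc]
    refine Nat.card_congr
      { toFun := fun v => ⟨⟨v.1, ?_⟩, ?_⟩
        invFun := fun c => ⟨(c.1 : G), ?_⟩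
        left_inv := fun v => rfl
        right_inv := fun c => rfl }
    · obtain ⟨n, hn, e⟩ := v.2
      rw [← e]
      exact H.mul_mem (H.mul_mem hn huH) (H.inv_mem hn)
    · obtain ⟨n, hn, e⟩ := v.2
      rw [ConjClasses.mem_carrier_iff_mk_eq, ConjClasses.mk_eq_mk_iff_isConj]
      exact (isConj_iff.2 ⟨⟨n, hn⟩, Subtype.ext e⟩).symm
    · obtain ⟨d, hd⟩ := isConj_iff.1 (ConjClasses.mk_eq_mk_iff_isConj.1
        (ConjClasses.mem_carrier_iff_mk_eq.1 c.2)).symm
      exact ⟨d, d.2, congrArg Subtype.val hd⟩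
  have hKu : u ∈ K := Subgroup.mem_sup_left hu
  have hN := key _ (Subgroup.le_normalizer (H := (P : Subgroup G)) hu)
  rw [hN]
  have hKN : K ≤ Subgroup.normalizer ((P : Subgroup G) : Set G) := core_le_normalizer
  have hsub : Subgroup.centralizer ({u} : Set G) ⊓ Subgroup.normalizer ((P : Subgroup G) : Set G) ≤ K :=
    fun n hn => h.mem_core_of_fix he hu hu' hn.2 (i := 0) (by
      rw [pow_zero, one_mul, Subgroup.mem_centralizer_singleton_iff.1 hn.1, mul_inv_cancel_right])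
  rw [← Subgroup.inf_relIndex_right, ← Subgroup.relIndex_mul_relIndex _ K _ hsub hKN]
  congr 1
  rw [show Subgroup.centralizer ({u} : Set G) ⊓ Subgroup.normalizer ((P : Subgroup G) : Set G) =
    Subgroup.centralizer ({u} : Set G) ⊓ K from le_antisymm (le_inf inf_le_left hsub)
      (inf_le_inf_left _ hKN), Subgroup.inf_relIndex_right, ← key K hKu]
  -- three elements in the coset
  rw [← h.ord, ← Nat.card_zpowers]
  symm
  refine Nat.card_congr (Equiv.ofBijective (fun w => ⟨(w : G) * u, ?_⟩) ⟨fun a b hab => ?_, fun v => ?_⟩)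
  · rcases h.mem_zpowers_iff'.1 w.2 with e | e | e
    · exact ⟨1, one_mem _, by simp [e]⟩
    · obtain ⟨p, hp, hpu⟩ := h.exists_conj_mul hu hu' 1
      exact ⟨p, Subgroup.mem_sup_left hp, by rw [hpu, pow_one, e]⟩
    · obtain ⟨p, hp, hpu⟩ := h.exists_conj_mul hu hu' 2
      refine ⟨p, Subgroup.mem_sup_left hp, ?_⟩
      rw [hpu, e, eq_inv_of_mul_eq_one_left (show z ^ 2 * z = 1 by rw [← pow_succ, h.z_cube])]
  · exact Subtype.ext (mul_right_cancel (congrArg Subtype.val hab))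
  · obtain ⟨n, hn, hv⟩ := v.2
    obtain ⟨-, i, hi⟩ := h.core_le_cosetStab hu hn
    exact ⟨⟨z ^ i, Subgroup.npow_mem_zpowers _ i⟩, Subtype.ext (by rw [← hv, hi])⟩

theorem notMem_conj (h : Base P z) {u n : G} (hu : u ∉ Subgroup.zpowers z)
    (hn : n ∈ Subgroup.normalizer ((P : Subgroup G) : Set G)) :
    n * u * n⁻¹ ∉ Subgroup.zpowers z := fun hm => hu <| by
  obtain ⟨k, hk⟩ := Subgroup.mem_zpowers_iff.1 hm
  refine Subgroup.mem_zpowers_iff.2 ⟨k, ?_⟩
  have hc : Commute n z := h.nc n hn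
  calc z ^ k = n⁻¹ * (z ^ k * n) := by rw [← (hc.zpow_right k).eq, inv_mul_cancel_left]
    _ = u := by rw [hk]; group

/-- **The classes.** -/
theorem exists_classes (h : Base P z) {e : ℕ}
    (hK : ((P : Subgroup G) ⊔ Subgroup.centralizer ((P : Subgroup G) : Set G)).relIndex
      (Subgroup.normalizer ((P : Subgroup G) : Set G)) = e) (he : ¬ 3 ∣ e) (h2 : 2 ∣ e) :
    ∃ (m : ℕ) (xs : Fin m → G), m * e = 8 ∧ Classes P z xs := by
  classical
  haveI := Fintype.ofFinite G
  set N := Subgroup.normalizer ((P : Subgroup G) : Set G)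
  let orb : G → Finset G := fun u => Finset.univ.filter fun v => ∃ n ∈ N, n * u * n⁻¹ = v
  have mo : ∀ u v, v ∈ orb u ↔ ∃ n ∈ N, n * u * n⁻¹ = v := fun u v => by simp [orb]
  have hself : ∀ u, u ∈ orb u := fun u => (mo u u).2 ⟨1, one_mem _, by simp⟩
  have horb : ∀ u v, v ∈ orb u → orb v = orb u := by
    intro u v hv
    obtain ⟨n, hn, rfl⟩ := (mo u v).1 hv
    ext w
    rw [mo, mo]
    constructor
    · rintro ⟨d, hd, rfl⟩
      exact ⟨d * n, mul_mem hd hn, by group⟩
    · rintro ⟨d, hd, rfl⟩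
      exact ⟨d * n⁻¹, mul_mem hd (inv_mem hn), by group⟩
  set Ω : Finset G := Finset.univ.filter fun u => u ∈ (P : Subgroup G) ∧ u ∉ Subgroup.zpowers z
  have mΩ : ∀ u, u ∈ Ω ↔ u ∈ (P : Subgroup G) ∧ u ∉ Subgroup.zpowers z := fun u => by simp [Ω]
  have hclosed : ∀ u ∈ Ω, ∀ v ∈ orb u, v ∈ Ω := fun u hu v hv => by
    obtain ⟨n, hn, rfl⟩ := (mo u v).1 hv
    exact (mΩ _).2 ⟨(Subgroup.mem_normalizer_iff.1 hn u).1 ((mΩ u).1 hu).1,
      h.notMem_conj ((mΩ u).1 hu).2 hn⟩
  have hΩ : Ω.card = 24 := by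
    have e1 : Ω = (Finset.univ.filter fun u => u ∈ (P : Subgroup G)) \
        (Finset.univ.filter fun u => u ∈ Subgroup.zpowers z) := by ext u; simp [Ω]
    rw [e1, Finset.card_sdiff_of_subset fun u hu => by
      simp only [Finset.mem_filter, Finset.mem_univ, true_and] at hu ⊢
      exact Subgroup.zpowers_le.2 h.mem hu, ← Fintype.card_subtype, ← Fintype.card_subtype,
      ← Nat.card_eq_fintype_card, ← Nat.card_eq_fintype_card]
    rw [show Nat.card {u // u ∈ (P : Subgroup G)} = 27 from h.card,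
      show Nat.card {u // u ∈ Subgroup.zpowers z} = 3 from (Nat.card_zpowers z).trans h.ord]
  have hsize : ∀ u ∈ Ω, (orb u).card = 3 * e := fun u hu => by
    rw [← hK, ← h.card_orbit (hK ▸ he) ((mΩ u).1 hu).1 ((mΩ u).1 hu).2, Nat.card_eq_fintype_card,
      Fintype.card_subtype]
  have hcount : 24 = (Ω.image orb).card * (3 * e) := by
    rw [← hΩ, Finset.card_eq_sum_card_image orb Ω, Finset.sum_congr rfl (g := fun _ => 3 * e),
      Finset.sum_const, smul_eq_mul]
    intro b hb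
    obtain ⟨u, hu, rfl⟩ := Finset.mem_image.1 hb
    rw [← hsize u hu]
    congr 1
    ext v
    rw [Finset.mem_filter]
    exact ⟨fun ⟨hv, hve⟩ => hve ▸ hself v, fun hv => ⟨hclosed u hu v hv, horb u v hv⟩⟩
  let E := (Ω.image orb).equivFin.symm
  have hrep : ∀ j, ∃ u ∈ Ω, orb u = (E j : Finset G) := fun j => Finset.mem_image.1 (E j).2
  choose xs hxs hxo using hrep
  have hconjmem : ∀ u v g : G, u ∈ Ω → v ∈ Ω → g * u * g⁻¹ = v → orb u = orb v := by
    intro u v g hu hv hg
    obtain ⟨n, hn, i, hi⟩ := h.exists_normalizer_conj ((mΩ u).1 hu).1 ((mΩ u).1 hu).2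
      ((mΩ v).1 hv).1 ((mΩ v).1 hv).2 hg
    obtain ⟨p, hp, hpv⟩ := h.exists_conj_mul ((mΩ v).1 hv).1 ((mΩ v).1 hv).2 i
    refine (horb u v ((mo u v).2 ⟨p⁻¹ * n, mul_mem (inv_mem (Subgroup.le_normalizer hp)) hn, ?_⟩)).symm
    rw [show p⁻¹ * n * u * (p⁻¹ * n)⁻¹ = p⁻¹ * (n * u * n⁻¹) * p by group, hi, ← hpv]
    group
  refine ⟨(Ω.image orb).card, xs, by nlinarith, h, fun j => ((mΩ _).1 (hxs j)).1,
    fun j => ((mΩ _).1 (hxs j)).2, fun u hu hu' => ?_, fun i j hij => ?_, fun j => ?_, fun j i => ?_⟩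
  · set j := E.symm ⟨orb u, Finset.mem_image_of_mem orb ((mΩ u).2 ⟨hu, hu'⟩)⟩ with hj
    have ho : orb (xs j) = orb u := by rw [hxo, hj, Equiv.apply_symm_apply]
    obtain ⟨n, hn, hnv⟩ := (mo u _).1 (ho ▸ hself (xs j))
    exact ⟨j, n, h.nc n hn, hnv⟩
  · obtain ⟨g, hg⟩ := isConj_iff.1 hij
    refine E.injective (Subtype.ext ?_)
    rw [← hxo, ← hxo]
    exact hconjmem _ _ g (hxs i) (hxs j) hg
  · obtain ⟨hx, hx'⟩ := (mΩ _).1 (hxs j)
    haveI : Fact (Nat.Prime 2) := ⟨Nat.prime_two⟩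
    haveI := core_normal (P := P)
    obtain ⟨q, hq⟩ := exists_prime_orderOf_dvd_card'
      (G := N ⧸ ((P : Subgroup G) ⊔ Subgroup.centralizer ((P : Subgroup G) : Set G)).subgroupOf N) 2
      (by rw [← Subgroup.index_eq_card]; exact (hK ▸ h2 : 2 ∣ Subgroup.relIndex _ N))
    obtain ⟨⟨n, hn⟩, rfl⟩ := QuotientGroup.mk_surjective q
    have hnK : n ∉ (P : Subgroup G) ⊔ Subgroup.centralizer ((P : Subgroup G) : Set G) := fun hm => by
      rw [(QuotientGroup.eq_one_iff _).2 (Subgroup.mem_subgroupOf.2 hm : (⟨n, hn⟩ : N) ∈ _),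
        orderOf_one] at hq
      omega
    have hn2 : n * n ∈ (P : Subgroup G) ⊔ Subgroup.centralizer ((P : Subgroup G) : Set G) := by
      have := pow_orderOf_eq_one (QuotientGroup.mk ⟨n, hn⟩ : N ⧸ ((P : Subgroup G) ⊔
        Subgroup.centralizer ((P : Subgroup G) : Set G)).subgroupOf N)
      rw [hq, pow_two, ← QuotientGroup.mk_mul, QuotientGroup.eq_one_iff, Subgroup.mem_subgroupOf] at this
      exact this
    obtain ⟨-, i, hi⟩ := h.core_le_cosetStab hx hn2
    set v := n * xs j * n⁻¹ with hv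
    have hvP : v ∈ (P : Subgroup G) := (Subgroup.mem_normalizer_iff.1 hn _).1 hx
    have ht : xs j * v ∈ Subgroup.zpowers z := by
      by_contra hne
      obtain ⟨l, hl⟩ := h.conjz v hvP (xs j) hx
      refine hnK (h.mem_core_of_fix (hK ▸ he) (mul_mem hx hvP) hne hn (i := i + l) ?_)
      calc n * (xs j * v) * n⁻¹ = v * (n * n * xs j * (n * n)⁻¹) := by rw [hv]; group
        _ = z ^ i * (v * xs j * v⁻¹ * v) := by
            rw [hi, ← mul_assoc v, (Commute.pow_right (h.central v hvP) i).eq]; group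
        _ = z ^ (i + l) * (xs j * v) := by rw [hl, pow_add]; group
    obtain ⟨k, hk⟩ : ∃ k : ℕ, v = z ^ k * (xs j)⁻¹ := by
      rcases h.mem_zpowers_iff'.1 ht with e1 | e1 | e1
      · exact ⟨0, by rw [pow_zero, one_mul, eq_inv_of_mul_eq_one_right e1]⟩
      · refine ⟨1, ?_⟩
        rw [pow_one, ← (Commute.inv_left (h.central _ hx)).eq, ← e1, inv_mul_cancel_left]
      · refine ⟨2, ?_⟩
        rw [eq_inv_of_mul_eq_one_left (show z ^ 2 * z = 1 by rw [← pow_succ, h.z_cube]),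
          ← (Commute.inv_left (Commute.inv_right (h.central _ hx))).eq, ← e1, inv_mul_cancel_left]
    have hxi' : (xs j)⁻¹ ∉ Subgroup.zpowers z := fun hm => hx' (by simpa using inv_mem hm)
    obtain ⟨p, hp, hpv⟩ := h.exists_conj_mul (inv_mem hx) hxi' k
    refine ⟨n⁻¹ * p, (Commute.inv_left (h.nc n hn)).mul_left (h.central p hp), ?_⟩
    rw [show n⁻¹ * p * (xs j)⁻¹ * (n⁻¹ * p)⁻¹ = n⁻¹ * (p * (xs j)⁻¹ * p⁻¹) * n by group, hpv, ← hk,
      hv]
    group
  · obtain ⟨hx, hx'⟩ := (mΩ _).1 (hxs j)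
    obtain ⟨p, hp, hpv⟩ := h.exists_conj_mul hx hx' i
    exact ⟨p, h.central p hp, hpv⟩

end Base

end CfsgLib.Blocks.Extraspecial27
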