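import Mathlib

/-!
# Small integer vectors
-/

set_option autoImplicit false
set_option linter.unusedSectionVars false
set_option linter.unusedVariables false

namespace CfsgLib.Blocks.Extraspecial27

open Finset

variable {ι : Type*} [Fintype ι] [DecidableEq ι]

/-- The scalar product. -/
def dot (f g : ι → ℤ) : ℤ := ∑ i, f i * g i

theorem dot_comm (f g : ι → ℤ) : dot f g = dot g f :=
  Finset.sum_congr rfl fun i _ => mul_comm _ _

theorem dot_add_left (f g h : ι → ℤ) : dot (f + g) h = dot f h + dot g h := by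
  simp [dot, add_mul, Finset.sum_add_distrib]

theorem dot_sub_left (f g h : ι → ℤ) : dot (f - g) h = dot f h - dot g h := by
  simp [dot, sub_mul, Finset.sum_sub_distrib]

theorem dot_perm (σ : Equiv.Perm ι) (f g : ι → ℤ) : dot (f ∘ σ) (g ∘ σ) = dot f g :=
  Equiv.sum_comp σ fun i => f i * g i

theorem dot_eq_sum (S : Finset ι) {f : ι → ℤ} (g : ι → ℤ) (h : ∀ i, i ∉ S → f i = 0) :
    dot f g = ∑ i ∈ S, f i * g i :=
  (Finset.sum_subset (subset_univ S) fun i _ hi => by rw [h i hi, zero_mul]).symm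

theorem dot_split (S : Finset ι) (f g : ι → ℤ) :
    dot f g = ∑ i ∈ S, f i * g i + ∑ i ∈ Sᶜ, f i * g i :=
  (Finset.sum_add_sum_compl S _).symm

theorem sum_sq_nonneg (S : Finset ι) (f : ι → ℤ) : 0 ≤ ∑ i ∈ S, f i * f i :=
  Finset.sum_nonneg fun i _ => mul_self_nonneg _

theorem sq_le_dot (f : ι → ℤ) (i : ι) : f i * f i ≤ dot f f :=
  Finset.single_le_sum (f := fun j => f j * f j) (fun j _ => mul_self_nonneg _) (mem_univ i)

theorem abs_le_of_sq_lt {x : ℤ} {n : ℤ} (hn : 0 ≤ n) (h : x * x < (n + 1) * (n + 1)) :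
    -n ≤ x ∧ x ≤ n := by constructor <;> nlinarith

omit [Fintype ι] [DecidableEq ι] in
theorem sq_sum_pos {S : Finset ι} {f : ι → ℤ} (h : ∀ i ∈ S, f i ≠ 0) :
    (S.card : ℤ) ≤ ∑ i ∈ S, f i * f i := by
  rw [← mul_one (S.card : ℤ), ← nsmul_eq_mul, ← Finset.sum_const]
  exact Finset.sum_le_sum fun i hi => by
    have := mul_self_pos.2 (h i hi)
    omega

/-- The support. -/
def supp (f : ι → ℤ) : Finset ι := univ.filter fun i => f i ≠ 0

theorem mem_supp {f : ι → ℤ} {i : ι} : i ∈ supp f ↔ f i ≠ 0 := by simp [supp]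

omit [Fintype ι] in
/-- Three units. -/
theorem abs_one_of_sum_sq {S : Finset ι} {f : ι → ℤ} {n : ℕ} (hn : n < 4)
    (h : ∑ i ∈ S, f i * f i = n) {i : ι} (hi : i ∈ S) : f i = 0 ∨ f i = 1 ∨ f i = -1 := by
  have h1 : f i * f i ≤ n := h ▸ Finset.single_le_sum (f := fun j => f j * f j)
    (fun j _ => mul_self_nonneg _) hi
  have := abs_le_of_sq_lt (x := f i) (n := 1) (by norm_num) (by omega)
  omega

omit [Fintype ι] in
theorem card_filter_of_units {S : Finset ι} {f : ι → ℤ} {n : ℕ}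
    (h : ∑ i ∈ S, f i * f i = n) (hu : ∀ i ∈ S, f i = 0 ∨ f i = 1 ∨ f i = -1) :
    (S.filter fun i => f i ≠ 0).card = n := by
  have : ∑ i ∈ S, f i * f i = ((S.filter fun i => f i ≠ 0).card : ℤ) := by
    rw [Finset.card_filter, Nat.cast_sum]
    exact Finset.sum_congr rfl fun i hi => by rcases hu i hi with e | e | e <;> simp [e]
  omega

/-- A pair, moved by an involution to an orthogonal pair, is moved off itself. -/
theorem disjoint_pair {π : Equiv.Perm ι} (hπ : ∀ i, π (π i) = i) {a : ι → ℤ} {T : Finset ι}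
    (hT : T.card = 2) (hsupp : ∀ i ∈ T, a i = 1 ∨ a i = -1)
    (h0 : ∑ i ∈ T with π i ∈ T, a i * a (π i) = 0) :
    ∀ i ∈ T, π i ∉ T := by
  intro i hi hπi
  obtain ⟨t, u, htu, rfl⟩ := Finset.card_eq_two.1 hT
  simp only [mem_insert, mem_singleton] at hi hπi
  have ht := hsupp t (by simp)
  have hu := hsupp u (by simp)
  rw [Finset.sum_filter, Finset.sum_pair htu] at h0
  have h1 := hπ t
  have h2 := hπ u
  rcases hi with rfl | rfl <;> rcases hπi with e | e
  · have : π u = u ∨ π u ∉ ({i, u} : Finset ι) := by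
      by_cases hh : π u = u
      · exact Or.inl hh
      · refine Or.inr fun hm => ?_
        simp only [mem_insert, mem_singleton] at hm
        rcases hm with hm | hm
        · exact htu (e ▸ hm ▸ hπ u)
        · exact hh hm
    rcases this with hh | hh
    · rw [e, hh, if_pos (by simp), if_pos (by simp)] at h0
      rcases ht with a1 | a1 <;> rcases hu with a2 | a2 <;> simp [a1, a2] at h0
    · rw [e, if_pos (by simp), if_neg hh] at h0
      rcases ht with a1 | a1 <;> simp [a1] at h0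
  · rw [e] at h1 h0
    rw [h1, if_pos (by simp), if_pos (by simp)] at h0
    rcases ht with a1 | a1 <;> rcases hu with a2 | a2 <;> simp [a1, a2] at h0
  · rw [e] at h2 h0
    rw [h2, if_pos (by simp), if_pos (by simp)] at h0
    rcases ht with a1 | a1 <;> rcases hu with a2 | a2 <;> simp [a1, a2] at h0
  · have : π t = t ∨ π t ∉ ({t, i} : Finset ι) := by
      by_cases hh : π t = t
      · exact Or.inl hh
      · refine Or.inr fun hm => ?_
        simp only [mem_insert, mem_singleton] at hm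
        rcases hm with hm | hm
        · exact hh hm
        · exact htu (by rw [← h1, hm, e])
    rcases this with hh | hh
    · rw [e, hh, if_pos (by simp), if_pos (by simp)] at h0
      rcases ht with a1 | a1 <;> rcases hu with a2 | a2 <;> simp [a1, a2] at h0
    · rw [e, if_neg hh, if_pos (by simp)] at h0
      rcases hu with a2 | a2 <;> simp [a2] at h0

/-- A normalised frame: six points, one weight two in each column. -/
structure Frame (ι : Type*) [Fintype ι] [DecidableEq ι] (m : ℕ) where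
  S : Finset ι
  o : ι
  s : Fin m → ι
  π : Equiv.Perm ι
  card_S : S.card = 6
  o_mem : o ∈ S
  s_mem : ∀ j, s j ∈ S
  s_ne : ∀ j, s j ≠ o
  s_inj : Function.Injective s
  invol : ∀ i, π (π i) = i
  π_o : π o = o
  π_s : ∀ j, π (s j) = s j
  π_S : ∀ i, i ∈ S ↔ π i ∈ S

namespace Frame

variable {m : ℕ} (F : Frame ι m)

/-- The points of weight one in every column, other than the trivial one. -/
def W : Finset ι := F.S \ insert F.o (univ.image F.s)

theorem card_W : F.W.card = 5 - m := by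
  rw [W, Finset.card_sdiff_of_subset, F.card_S, Finset.card_insert_of_notMem, Finset.card_image_of_injective _ F.s_inj]
  · simp
  · simp [F.s_ne]
  · simp [Finset.insert_subset_iff, F.o_mem, Finset.image_subset_iff, F.s_mem]

theorem mem_W {i : ι} : i ∈ F.W ↔ i ∈ F.S ∧ i ≠ F.o ∧ ∀ j, i ≠ F.s j := by
  simp [W, eq_comm]

theorem π_W {i : ι} : i ∈ F.W ↔ F.π i ∈ F.W := by
  rw [F.mem_W, F.mem_W, ← F.π_S]
  refine and_congr_right fun _ => and_congr ?_ (forall_congr' fun j => ?_)
  · rw [not_iff_not]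
    exact ⟨fun h => by rw [h, F.π_o], fun h => by rw [← F.invol i, h, F.π_o]⟩
  · rw [not_iff_not]
    exact ⟨fun h => by rw [h, F.π_s], fun h => by rw [← F.invol i, h, F.π_s]⟩

theorem sum_S (f : ι → ℤ) :
    ∑ i ∈ F.S, f i = f F.o + ∑ j, f (F.s j) + ∑ i ∈ F.W, f i := by
  have hsub : insert F.o (univ.image F.s) ⊆ F.S := by
    simp [Finset.insert_subset_iff, F.o_mem, Finset.image_subset_iff, F.s_mem]
  rw [← Finset.sum_sdiff hsub, Finset.sum_insert (by simp [F.s_ne]),
    Finset.sum_image fun a _ b _ h => F.s_inj h]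
  rw [W]; ring

/-- Orthogonality to the columns. -/
def Orth (f : ι → ℤ) : Prop := ∀ j, ∑ i ∈ F.S, f i = 3 * f (F.s j)

/-- The sum of squares outside the frame. -/
def out (f : ι → ℤ) : ℤ := ∑ i ∈ F.Sᶜ, f i * f i

theorem dot_self (f : ι → ℤ) :
    dot f f = f F.o * f F.o + ∑ j, f (F.s j) * f (F.s j) + ∑ i ∈ F.W, f i * f i + F.out f := by
  rw [dot_split F.S, F.sum_S fun i => f i * f i]
  rfl

theorem dot_eq (f g : ι → ℤ) :
    dot f g = f F.o * g F.o + ∑ j, f (F.s j) * g (F.s j) + ∑ i ∈ F.W, f i * g i +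
      ∑ i ∈ F.Sᶜ, f i * g i := by
  rw [dot_split F.S, F.sum_S fun i => f i * g i]

theorem sum_compl_eq {T : Finset ι} (hT : T ⊆ F.Sᶜ) {f : ι → ℤ} (g : ι → ℤ)
    (h : ∀ i, i ∉ F.S → i ∉ T → f i = 0) :
    ∑ i ∈ F.Sᶜ, f i * g i = ∑ i ∈ T, f i * g i :=
  (Finset.sum_subset hT fun i hi hi' => by rw [h i (Finset.mem_compl.1 hi) hi', zero_mul]).symm

/-- The support outside the frame. -/
def outSupp (f : ι → ℤ) : Finset ι := F.Sᶜ.filter fun i => f i ≠ 0

theorem mem_outSupp {f : ι → ℤ} {i : ι} : i ∈ F.outSupp f ↔ i ∉ F.S ∧ f i ≠ 0 := by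
  simp [outSupp]

theorem outSupp_units {f : ι → ℤ} {n : ℕ} (hn : n < 4) (h : F.out f = n) :
    (F.outSupp f).card = n ∧ ∀ i ∈ F.outSupp f, f i = 1 ∨ f i = -1 := by
  have hu := fun i (hi : i ∈ F.Sᶜ) => abs_one_of_sum_sq (f := f) hn h hi
  refine ⟨card_filter_of_units h hu, fun i hi => ?_⟩
  obtain ⟨hi, hne⟩ := Finset.mem_filter.1 hi
  rcases hu i hi with e | e | e
  · exact absurd e hne
  · exact Or.inl e
  · exact Or.inr e

theorem dot_outSupp (f g : ι → ℤ) : ∑ i ∈ F.Sᶜ, f i * g i = ∑ i ∈ F.outSupp f, f i * g i :=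
  F.sum_compl_eq (Finset.filter_subset _ _) g fun i hi hi' => by
    by_contra hne
    exact hi' (F.mem_outSupp.2 ⟨hi, hne⟩)

/-- An orthogonal image of a pair is disjoint from it. -/
theorem pair_disjoint {f : ι → ℤ} (h2 : F.out f = 2)
    (h0 : ∑ i ∈ F.Sᶜ, f i * f (F.π i) = 0) :
    ∀ i ∈ F.outSupp f, F.π i ∉ F.outSupp f := by
  obtain ⟨hc, hu⟩ := F.outSupp_units (n := 2) (by norm_num) h2
  refine disjoint_pair F.invol hc hu ?_
  rw [← h0, dot_outSupp, Finset.sum_filter]
  refine Finset.sum_congr rfl fun i hi => ?_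
  split_ifs with h
  · rfl
  · have : f (F.π i) = 0 := by
      by_contra hne
      exact h (F.mem_outSupp.2 ⟨fun hs => (F.mem_outSupp.1 hi).1 ((F.π_S i).2 hs), hne⟩)
    rw [this, mul_zero]

end Frame

end CfsgLib.Blocks.Extraspecial27
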