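import Cfsg.Agent.Blocks.Extraspecial27.Sunflower
import Cfsg.Agent.Blocks.Extraspecial27.Columns

/-!
# Sixteen characters: one column and a lattice of rank five
-/

set_option autoImplicit false
set_option linter.unusedSectionVars false
set_option linter.unusedVariables false

namespace CfsgLib.Blocks.Extraspecial27

open Finset

variable {ι : Type*} [Fintype ι] [DecidableEq ι] {π : Equiv.Perm ι}

/-- The shape of four petals. -/
structure Shape (π : Equiv.Perm ι) (u : Fin 4 → ι → ℤ) (p : ι) (c r : Fin 4 → ι) (ε : ι → ℤ) :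
    Prop where
  supp_eq : ∀ k, supp (u k) = {p, c k, r k}
  c_ne_p : ∀ k, c k ≠ p
  r_ne_p : ∀ k, r k ≠ p
  c_ne_r : ∀ k, c k ≠ r k
  π_c : ∀ k, π (c k) = c k
  only : ∀ k l i, i ∈ supp (u k) → π i ∈ supp (u l) → k = l ∧ i = c k
  meet : ∀ k l i, k ≠ l → i ∈ supp (u k) → i ∈ supp (u l) → i = p
  ε_sq : ∀ i, ε i = 1 ∨ ε i = -1
  ε_π : ∀ i, ε (π i) = ε i
  ε_val : ∀ k i, i ∈ supp (u k) → u k i = ε i

theorem Petals.exists_shape {u : Fin 4 → ι → ℤ} (h : Petals 4 π u) :
    ∃ p c r ε, Shape π u p c r ε := by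
  obtain ⟨p, hp⟩ := h.exists_center
  choose c hc hπc using h.own (by norm_num)
  have hcm : ∀ k, c k ∈ supp (u k) := fun k =>
    (Finset.mem_inter.1 (hc k ▸ Finset.mem_singleton_self (c k))).1
  have hown : ∀ k i, i ∈ supp (u k) → π i ∈ supp (u k) → i = c k := fun k i h1 h2 => by
    have : i ∈ supp (u k) ∩ supp (u k ∘ π) :=
      Finset.mem_inter.2 ⟨h1, mem_supp.2 (show u k (π i) ≠ 0 from mem_supp.1 h2)⟩
    rwa [hc k, Finset.mem_singleton] at this
  have meet : ∀ k l i, k ≠ l → i ∈ supp (u k) → i ∈ supp (u l) → i = p := fun k l i hkl h1 h2 =>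
    h.unique hkl h1 h2 (hp k) (hp l)
  have hcp : ∀ k, c k ≠ p := by
    intro k e
    -- the centre would be fixed
    have hπp : π p = p := e ▸ hπc k
    have hall : ∀ l, c l = p := fun l => (hown l p (hp l) (hπp.symm ▸ hp l)).symm
    have hpt : ∀ l, l ≠ k → ∃ x ∈ (supp (u k)).erase p, π x ∈ (supp (u l)).erase p := fun l hl => by
      by_contra hno
      have : dot (u k) (u l ∘ π) = u k p * u l (π p) := by
        refine Finset.sum_eq_single p (fun i _ hi => ?_) (fun h' => absurd (mem_univ p) h')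
        by_contra hne
        exact hno ⟨i, Finset.mem_erase.2 ⟨hi, mem_supp.2 (left_ne_zero_of_mul hne)⟩,
          Finset.mem_erase.2 ⟨fun e' => hi (by rw [← h.invol i, e', hπp]),
            mem_supp.2 (right_ne_zero_of_mul hne)⟩⟩
      rw [h.uv, if_neg hl.symm, hπp] at this
      rcases mul_eq_zero.1 this.symm with e' | e'
      · exact mem_supp.1 (hp k) e'
      · exact mem_supp.1 (hp l) e'
    have hpt' : ∀ l, ∃ x, l = k ∨ (x ∈ (supp (u k)).erase p ∧ π x ∈ (supp (u l)).erase p) := fun l => by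
      by_cases e' : l = k
      · exact ⟨p, Or.inl e'⟩
      · obtain ⟨x, hx⟩ := hpt l e'
        exact ⟨x, Or.inr hx⟩
    choose x hx using hpt'
    have hx' : ∀ l ∈ univ.erase k, x l ∈ (supp (u k)).erase p ∧ π (x l) ∈ (supp (u l)).erase p :=
      fun l hl => (hx l).resolve_left (Finset.ne_of_mem_erase hl)
    have := Finset.card_le_card (Finset.image_subset_iff.2 fun l hl => (hx' l hl).1 :
      (univ.erase k).image x ⊆ (supp (u k)).erase p)
    rw [Finset.card_image_of_injOn fun a ha b hb e' => by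
      by_contra hab
      exact Finset.ne_of_mem_erase (hx' a ha).2 (meet a b _ hab (Finset.mem_of_mem_erase (hx' a ha).2)
        (e' ▸ Finset.mem_of_mem_erase (hx' b hb).2)),
      Finset.card_erase_of_mem (hp k), (supp_units (by simpa using h.uu k k)).1,
      Finset.card_erase_of_mem (mem_univ k)] at this
    simp at this
  have hr : ∀ k, ∃ r, supp (u k) = {p, c k, r} ∧ r ≠ p ∧ c k ≠ r := fun k => by
    obtain ⟨c3, -⟩ := supp_units (f := u k) (by simpa using h.uu k k)
    have hm := Finset.mem_erase.2 ⟨hcp k, hcm k⟩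
    obtain ⟨r, hr⟩ := Finset.card_eq_one.1 (show (((supp (u k)).erase p).erase (c k)).card = 1 by
      rw [Finset.card_erase_of_mem hm, Finset.card_erase_of_mem (hp k), c3])
    have hrm : r ∈ ((supp (u k)).erase p).erase (c k) := hr ▸ Finset.mem_singleton_self r
    refine ⟨r, ?_, Finset.ne_of_mem_erase (Finset.mem_of_mem_erase hrm),
      (Finset.ne_of_mem_erase hrm).symm⟩
    rw [← Finset.insert_erase (hp k), ← Finset.insert_erase hm, hr]
  choose r hr hrp hcr using hr
  have mem : ∀ k i, i ∈ supp (u k) → i = p ∨ i = c k ∨ i = r k := fun k i hi => by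
    rw [hr k] at hi; simpa using hi
  have hq : ∀ l, π p ∉ supp (u l) := fun l hm => by
    exact hcp l (hown l p (hp l) hm).symm
  have only : ∀ k l i, i ∈ supp (u k) → π i ∈ supp (u l) → k = l ∧ i = c k := by
    intro k l i h1 h2
    by_cases hkl : k = l
    · exact ⟨hkl, hown k i h1 (hkl.symm ▸ h2)⟩
    · exfalso
      rcases mem k i h1 with rfl | rfl | rfl
      · exact hq l h2
      · rw [hπc] at h2; exact hcp k (meet k l _ hkl (hcm k) h2)
      · have hd : dot (u k) (u l ∘ π) = u k (r k) * u l (π (r k)) := by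
          refine Finset.sum_eq_single (r k) (fun i _ hi => ?_) (fun h' => absurd (mem_univ _) h')
          by_contra hne
          have m1 := mem_supp.2 (left_ne_zero_of_mul hne)
          have m2 : π i ∈ supp (u l) := mem_supp.2 (right_ne_zero_of_mul hne)
          rcases mem k i m1 with rfl | rfl | rfl
          · exact hq l m2
          · rw [hπc] at m2; exact hcp k (meet k l _ hkl (hcm k) m2)
          · exact hi rfl
        rw [h.uv, if_neg hkl] at hd
        rcases mul_eq_zero.1 hd.symm with e' | e'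
        · exact mem_supp.1 h1 e'
        · exact mem_supp.1 h2 e'
  refine ⟨p, c, r, fun i => if ∃ k, u k i = -1 ∨ u k (π i) = -1 then -1 else 1,
    hr, hcp, hrp, hcr, hπc, only, meet, fun i => by split_ifs <;> simp, fun i => ?_, fun k i hi => ?_⟩
  · simp only [h.invol, or_comm]
  · rcases (supp_units (f := u k) (by simpa using h.uu k k)).2 i hi with e | e
    · rw [if_neg, e]
      rintro ⟨l, hl | hl⟩
      · by_cases hkl : k = l
        · rw [← hkl, e] at hl; norm_num at hl
        · have := h.value hkl hi (mem_supp.2 (by rw [hl]; norm_num))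
          rw [e, hl] at this; norm_num at this
      · obtain ⟨hkl, hic⟩ := only k l i hi (mem_supp.2 (by rw [hl]; norm_num))
        rw [← hkl, hic, hπc, ← hic, e] at hl; norm_num at hl
    · rw [if_pos ⟨k, Or.inl e⟩, e]

/-- The vector without its entry at the origin. -/
def off (o : ι) (f : ι → ℤ) : ι → ℤ := fun i => if i = o then 0 else f i

theorem dot_off (o : ι) (f g : ι → ℤ) : dot f (off o g) = dot f g - f o * g o := by
  have : dot f g - dot f (off o g) = f o * g o := by
    rw [dot, dot, ← Finset.sum_sub_distrib]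
    refine (Finset.sum_eq_single o (fun i _ hi => ?_) fun h' => absurd (mem_univ o) h').trans ?_
    · simp [off, hi]
    · simp [off]
  omega

theorem dot_off_off (o : ι) (f g : ι → ℤ) : dot (off o f) (off o g) = dot f g - f o * g o := by
  rw [dot_off o (off o f) g, dot_comm (off o f) g, dot_off o g f, dot_comm g f]
  simp only [off, if_pos, zero_mul, sub_zero]
  ring

theorem off_perm {o : ι} (hπ : ∀ i, π (π i) = i) (hπo : π o = o) (f : ι → ℤ) :
    off o f ∘ π = off o (f ∘ π) := by
  funext i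
  simp only [Function.comp_apply, off]
  by_cases e : i = o
  · rw [e, hπo, if_pos rfl]
  · rw [if_neg e, if_neg fun e' => e (by rw [← hπ i, e', hπo])]

theorem petals_of_roots {n : ℕ} {o : ι} (hπ : ∀ i, π (π i) = i) (hπo : π o = o)
    {a : Fin n → ι → ℤ} (hao : ∀ r, a r o = -1)
    (haa : ∀ r t, dot (a r) (a t) = if r = t then 4 else 2)
    (hab : ∀ r t, dot (a r) (a t ∘ π) = if r = t then 2 else 1) :
    Petals n π fun r => off o (a r) := by
  refine ⟨hπ, fun i j => ?_, fun i j => ?_⟩
  · rw [dot_off_off, haa, hao, hao]; split_ifs <;> norm_num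
  · rw [off_perm hπ hπo, dot_off_off, hab, Function.comp_apply, hπo, hao, hao]
    split_ifs <;> norm_num

/-- The hypotheses. -/
structure EightData (o : ι) (π : Equiv.Perm ι) (a : Fin 4 → ι → ℤ) (d X : ι → ℤ) : Prop where
  invol : ∀ i, π (π i) = i
  π_o : π o = o
  aa : ∀ r t, dot (a r) (a t) = if r = t then 4 else 2
  ab : ∀ r t, dot (a r) (a t ∘ π) = if r = t then 2 else 1
  dd : dot d d = 6
  da : ∀ r, dot d (a r) = if r = 3 then 0 else 2
  db : ∀ r, dot d (a r ∘ π) = if r = 3 then 0 else 1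
  ao : ∀ r, a r o = -1
  d_o : d o = -1
  col : IsCol o X
  πX : ∀ i, X (π i) = X i
  aX : ∀ r, dot (a r) X = 0
  cong : ∀ i, (3 : ℤ) ∣ a 0 i + a 1 i + a 2 i - d i - X i
  nz : ∀ i, i ≠ o → (∃ r, a r i ≠ 0 ∨ a r (π i) ≠ 0) ∨ d i ≠ 0 ∨ d (π i) ≠ 0

/-- The arithmetic of the four groups. -/
theorem eight_arith {A B YP O Z : ℤ} {C R T YC YR : Fin 4 → ℤ}
    (e1 : ∀ k, A + C k + R k = if k = 3 then -1 else 1)
    (e2 : ∀ k, B + C k + T k = if k = 3 then -1 else 0)
    (e3 : ∀ k, YP + YC k + YR k = 1)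
    (cP : (3 : ℤ) ∣ A + YP) (cQ : (3 : ℤ) ∣ B + YP)
    (cC : ∀ k, (3 : ℤ) ∣ (if k = 3 then 0 else 1) - C k - YC k)
    (cR : ∀ k, (3 : ℤ) ∣ (if k = 3 then 0 else 1) - R k - YR k)
    (cT : ∀ k, (3 : ℤ) ∣ T k + YR k)
    (bP : -2 ≤ YP ∧ YP ≤ 2) (bC : ∀ k, -2 ≤ YC k ∧ YC k ≤ 2) (bR : ∀ k, -2 ≤ YR k ∧ YR k ≤ 2)
    (hbud : A * A + B * B + (∑ k, (C k * C k + R k * R k + T k * T k)) + O = 5) (hO : 0 ≤ O)
    (hX : (9 : ℤ) = 1 + (2 * (YP * YP) + ∑ k, (YC k * YC k + 2 * (YR k * YR k))) + Z)
    (hZ : O = 0 → Z = 0) :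
    A = 0 ∧ B = 0 ∧ YP = 0 ∧ (∀ k, YC k = 1 ∧ YR k = 0) ∧ O = 1 ∧ Z = 4 := by
  have l1 : ∀ x : ℤ, x ≤ x * x ∧ -x ≤ x * x ∧ 0 ≤ x * x := fun x => by
    refine ⟨?_, ?_, mul_self_nonneg x⟩ <;> rcases le_or_gt x 0 with e | e <;> nlinarith
  set N := fun k => C k * C k + R k * R k + T k * T k with hN
  have hbud' : A * A + B * B + (N 0 + N 1 + N 2 + N 3) + O = 5 := by
    rw [Fin.sum_univ_four] at hbud; exact hbud
  have hN0 : ∀ k, 0 ≤ N k := fun k =>
    add_nonneg (add_nonneg (l1 (C k)).2.2 (l1 (R k)).2.2) (l1 (T k)).2.2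
  have hN1 : ∀ k, k ≠ 3 → 1 ≤ N k := fun k hk => by
    have a := e1 k; have b := e2 k
    rw [if_neg hk] at a b
    have := l1 (C k); have := l1 (R k); have := l1 (T k)
    simp only [hN]
    omega
  have h123 := hN1 0 (by decide); have h1 := hN1 1 (by decide); have h2 := hN1 2 (by decide)
  have h3 := hN0 3
  have hAb : -1 ≤ A ∧ A ≤ 1 := abs_le_of_sq_lt (by norm_num) (by have := (l1 B).2.2; omega)
  have hBb : -1 ≤ B ∧ B ≤ 1 := abs_le_of_sq_lt (by norm_num) (by have := (l1 A).2.2; omega)
  have hAB : A = B := by omega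
  have hA0 : A = 0 := by
    by_contra hne
    have sA : A * A = 1 := by
      rcases (show A = 1 ∨ A = -1 by omega) with e | e <;> rw [e] <;> norm_num
    have sB : B * B = 1 := by rw [← hAB]; exact sA
    have hC3 := l1 (C 3); have hR3 := l1 (R 3); have hT3 := l1 (T 3)
    have a3 := e1 3; simp only [if_true] at a3
    have hC0 := l1 (C 0); have hR0 := l1 (R 0); have hT0 := l1 (T 0)
    have a0 := e1 0; have b0 := e2 0
    simp only [show (0 : Fin 4) ≠ 3 by decide, if_false] at a0 b0
    simp only [hN] at hbud' h123 h1 h2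
    omega
  subst hA0
  have hB0 : B = 0 := hAB.symm
  subst hB0
  have hYP : YP = 0 := by omega
  subst hYP
  have hNge : ∀ k, 1 ≤ N k := fun k => by
    by_cases hk : k = 3
    · subst hk
      have a := e1 3; simp only [if_true] at a
      have := l1 (C 3); have := l1 (R 3); have := l1 (T 3)
      simp only [hN]; omega
    · exact hN1 k hk
  have hsmall : ∀ k, N k ≤ 2 := fun k => by
    have := hNge 0; have := hNge 1; have := hNge 2; have := hNge 3
    fin_cases k <;> simp <;> omega
  have grp : ∀ k, (YC k = 1 ∧ YR k = 0) ∨ (N k = 2 ∧ YC k = 0 ∧ YR k = 1) := fun k => by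
    have := e1 k; have := e2 k; have := e3 k; have := cC k; have := cR k; have := cT k
    have := bC k; have := bR k; have := hsmall k
    have := l1 (C k); have := l1 (R k); have := l1 (T k)
    simp only [hN] at *
    split_ifs at * with hk <;> omega
  have hQ : ∀ k, YC k * YC k + 2 * (YR k * YR k) ≤ 2 ∧
      (N k = 1 → YC k * YC k + 2 * (YR k * YR k) = 1) := fun k => by
    rcases grp k with ⟨a, b⟩ | ⟨n, a, b⟩ <;> rw [a, b] <;> norm_num
    omega
  rw [Fin.sum_univ_four] at hX
  have hall : ∀ k, N k = 1 := by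
    intro k
    by_contra hne
    have := hNge 0; have := hNge 1; have := hNge 2; have := hNge 3
    have := hQ 0; have := hQ 1; have := hQ 2; have := hQ 3
    have h5 : O = 0 := by
      have : 2 ≤ N k := by have := hNge k; omega
      fin_cases k <;> simp at this <;> omega
    have := hZ h5
    omega
  refine ⟨rfl, rfl, rfl, fun k => (grp k).resolve_right fun e => by have := hall k; omega, ?_, ?_⟩
  · have := hall 0; have := hall 1; have := hall 2; have := hall 3; omega
  · have := (hQ 0).2 (hall 0); have := (hQ 1).2 (hall 1); have := (hQ 2).2 (hall 2)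
    have := (hQ 3).2 (hall 3); omega

theorem EightData.card_eq {o : ι} {a : Fin 4 → ι → ℤ} {d X : ι → ℤ} (h : EightData o π a d X) :
    Fintype.card ι = 16 ∧ (supp X).card = 6 := by
  obtain ⟨p, c, r, ε, hs⟩ := (petals_of_roots h.invol h.π_o h.ao h.aa h.ab).exists_shape
  set u := fun k => off o (a k) with hu
  have hsum : ∀ k (f : ι → ℤ), dot f (u k) = ε p * f p + ε (c k) * f (c k) + ε (r k) * f (r k) := by
    intro k f
    rw [dot_comm, dot_eq_sum {p, c k, r k} f fun i hi =>
      eq_zero_of_notMem_supp (f := u k) (hs.supp_eq k ▸ hi),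
      Finset.sum_insert (by simp [(hs.c_ne_p k).symm, (hs.r_ne_p k).symm]),
      Finset.sum_pair (hs.c_ne_r k), hs.ε_val k p (by simp [hs.supp_eq k]),
      hs.ε_val k (c k) (by simp [hs.supp_eq k]), hs.ε_val k (r k) (by simp [hs.supp_eq k])]
    ring
  have hsum' : ∀ k (f : ι → ℤ), dot f (u k ∘ π) =
      ε p * f (π p) + ε (c k) * f (c k) + ε (r k) * f (π (r k)) := by
    intro k f
    rw [← dot_perm π f, show (u k ∘ π) ∘ π = u k from funext fun i => by simp [h.invol], hsum]
    simp [Function.comp_apply, hs.π_c]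
  -- the equations
  have e1 : ∀ k, ε p * d p + ε (c k) * d (c k) + ε (r k) * d (r k) = if k = 3 then -1 else 1 := by
    intro k
    rw [← hsum, hu, dot_off, h.da, h.d_o, h.ao]
    split_ifs <;> norm_num
  have e2 : ∀ k, ε p * d (π p) + ε (c k) * d (c k) + ε (r k) * d (π (r k)) =
      if k = 3 then -1 else 0 := by
    intro k
    rw [← hsum', hu, off_perm h.invol h.π_o, dot_off, h.db, h.d_o, Function.comp_apply, h.π_o, h.ao]
    split_ifs <;> norm_num
  have e3 : ∀ k, ε p * X p + ε (c k) * X (c k) + ε (r k) * X (r k) = 1 := by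
    intro k
    rw [← hsum, hu, dot_off, dot_comm, h.aX, h.col.one, h.ao]
    norm_num
  have hpo : ∀ k i, i ∈ supp (u k) → i ≠ o := fun k i hi e => mem_supp.1 hi (by simp [hu, off, e])
  have hav : ∀ k i, i ≠ o → a k i = u k i := fun k i hi => by simp [hu, off, hi]
  have mP : ∀ k, p ∈ supp (u k) := fun k => by simp [hs.supp_eq k]
  have mC : ∀ k, c k ∈ supp (u k) := fun k => by simp [hs.supp_eq k]
  have mR : ∀ k, r k ∈ supp (u k) := fun k => by simp [hs.supp_eq k]
  have hπne : ∀ i, i ≠ o → π i ≠ o := fun i hi e => hi (by rw [← h.invol i, e, h.π_o])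
  have hz : ∀ k i, i ≠ o → i ∉ supp (u k) → a k i = 0 := fun k i hi hm => by
    rw [hav k i hi, eq_zero_of_notMem_supp hm]
  have hq : ∀ k, π p ∉ supp (u k) := fun k hm => hs.c_ne_p k
    ((hs.only k k p (mP k) hm).2).symm
  have hπr : ∀ k l, π (r k) ∉ supp (u l) := fun k l hm => hs.c_ne_r k (hs.only k l _ (mR k) hm).2.symm
  have hC : ∀ k l, k ≠ l → c k ∉ supp (u l) := fun k l hkl hm =>
    hs.c_ne_p k (hs.meet k l _ hkl (mC k) hm)
  have hR : ∀ k l, k ≠ l → r k ∉ supp (u l) := fun k l hkl hm =>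
    hs.r_ne_p k (hs.meet k l _ hkl (mR k) hm)
  have hε : ∀ i, ε i * ε i = 1 := fun i => by rcases hs.ε_sq i with e | e <;> rw [e] <;> norm_num
  have hcong : ∀ i, (3 : ℤ) ∣ ε i * a 0 i + ε i * a 1 i + ε i * a 2 i - ε i * d i - ε i * X i :=
    fun i => by
      have := (h.cong i).mul_left (ε i)
      rwa [mul_sub, mul_sub, mul_add, mul_add] at this
  have aval : ∀ k i, i ∈ supp (u k) → ε i * a k i = 1 := fun k i hi => by
    rw [hav k i (hpo k i hi), hs.ε_val k i hi, hε]
  have az : ∀ k i, i ≠ o → i ∉ supp (u k) → ε i * a k i = 0 := fun k i hi hm => by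
    rw [hz k i hi hm, mul_zero]
  set A := ε p * d p with hA
  set B := ε p * d (π p) with hB
  set C := fun k => ε (c k) * d (c k) with hCdef
  set R := fun k => ε (r k) * d (r k) with hRdef
  set T := fun k => ε (r k) * d (π (r k)) with hTdef
  set YP := ε p * X p with hYP
  set YC := fun k => ε (c k) * X (c k) with hYC
  set YR := fun k => ε (r k) * X (r k) with hYR
  have cP : (3 : ℤ) ∣ A + YP := by
    have := hcong p
    rw [aval 0 p (mP 0), aval 1 p (mP 1), aval 2 p (mP 2)] at this
    rw [hA, hYP]; omega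
  have cQ : (3 : ℤ) ∣ B + YP := by
    have := hcong (π p)
    have hne := hπne p (hpo 0 p (mP 0))
    rw [az 0 _ hne (hq 0), az 1 _ hne (hq 1), az 2 _ hne (hq 2), hs.ε_π, h.πX] at this
    rw [hB, hYP]; omega
  have cC : ∀ k, (3 : ℤ) ∣ (if k = 3 then 0 else 1) - C k - YC k := by
    intro k
    have := hcong (c k)
    have hne := hpo k _ (mC k)
    simp only [hCdef, hYC]
    obtain rfl | rfl | rfl | rfl :=
      (by decide : ∀ b : Fin 4, b = 0 ∨ b = 1 ∨ b = 2 ∨ b = 3) k
    · rw [aval 0 _ (mC 0), az 1 _ hne (hC 0 1 (by decide)), az 2 _ hne (hC 0 2 (by decide))] at this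
      simp at this ⊢; omega
    · rw [aval 1 _ (mC 1), az 0 _ hne (hC 1 0 (by decide)), az 2 _ hne (hC 1 2 (by decide))] at this
      simp at this ⊢; omega
    · rw [aval 2 _ (mC 2), az 0 _ hne (hC 2 0 (by decide)), az 1 _ hne (hC 2 1 (by decide))] at this
      simp at this ⊢; omega
    · rw [az 0 _ hne (hC 3 0 (by decide)), az 1 _ hne (hC 3 1 (by decide)),
        az 2 _ hne (hC 3 2 (by decide))] at this
      simp at this ⊢; omega
  have cR : ∀ k, (3 : ℤ) ∣ (if k = 3 then 0 else 1) - R k - YR k := by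
    intro k
    have := hcong (r k)
    have hne := hpo k _ (mR k)
    simp only [hRdef, hYR]
    obtain rfl | rfl | rfl | rfl :=
      (by decide : ∀ b : Fin 4, b = 0 ∨ b = 1 ∨ b = 2 ∨ b = 3) k
    · rw [aval 0 _ (mR 0), az 1 _ hne (hR 0 1 (by decide)), az 2 _ hne (hR 0 2 (by decide))] at this
      simp at this ⊢; omega
    · rw [aval 1 _ (mR 1), az 0 _ hne (hR 1 0 (by decide)), az 2 _ hne (hR 1 2 (by decide))] at this
      simp at this ⊢; omega
    · rw [aval 2 _ (mR 2), az 0 _ hne (hR 2 0 (by decide)), az 1 _ hne (hR 2 1 (by decide))] at this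
      simp at this ⊢; omega
    · rw [az 0 _ hne (hR 3 0 (by decide)), az 1 _ hne (hR 3 1 (by decide)),
        az 2 _ hne (hR 3 2 (by decide))] at this
      simp at this ⊢; omega
  have cT : ∀ k, (3 : ℤ) ∣ T k + YR k := by
    intro k
    have := hcong (π (r k))
    have hne := hπne _ (hpo k _ (mR k))
    rw [az 0 _ hne (hπr k 0), az 1 _ hne (hπr k 1), az 2 _ hne (hπr k 2), hs.ε_π, h.πX] at this
    simp only [hTdef, hYR]; omega
  -- the fifteen points
  have hpq : π p ≠ p := fun e => hq 0 (e.symm ▸ mP 0)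
  have hcc : Function.Injective c := fun k l e => by
    by_contra hne; exact hC k l hne (e ▸ mC l)
  have hrr : Function.Injective r := fun k l e => by
    by_contra hne; exact hR k l hne (e ▸ mR l)
  have hcr : ∀ k l, c k ≠ r l := fun k l e => by
    by_cases hkl : k = l
    · exact hs.c_ne_r k (hkl ▸ e)
    · exact hC k l hkl (e ▸ mR l)
  have hrt : ∀ k l, π (r k) ≠ r l := fun k l e => hπr k l (e ▸ mR l)
  have hct : ∀ k l, π (r k) ≠ c l := fun k l e => hπr k l (e ▸ mC l)
  have hrq : ∀ k, π (r k) ≠ π p := fun k e => hs.r_ne_p k (π.injective e)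
  let pts : Bool ⊕ (Fin 4 ⊕ (Fin 4 ⊕ Fin 4)) → ι :=
    Sum.elim (fun b => if b then p else π p) (Sum.elim c (Sum.elim r fun k => π (r k)))
  have hinj : Function.Injective pts := by
    rintro (b | k | k | k) (b' | l | l | l) e <;> simp only [pts, Sum.elim_inl, Sum.elim_inr] at e
    · cases b <;> cases b' <;> simp at e ⊢ <;> first | exact hpq e | exact hpq e.symm
    · exfalso; cases b <;> simp at e
      · exact hq l (e ▸ mC l)
      · exact hs.c_ne_p l e.symm
    · exfalso; cases b <;> simp at e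
      · exact hq l (e ▸ mR l)
      · exact hs.r_ne_p l e.symm
    · exfalso; cases b <;> simp at e
      · exact hrq l (congrArg π e).symm
      · exact hπr l l (e ▸ mP l)
    · exfalso; cases b' <;> simp at e
      · exact hq k (e ▸ mC k)
      · exact hs.c_ne_p k e
    · rw [hcc e]
    · exact absurd e (hcr k l)
    · exact absurd e.symm (hct l k)
    · exfalso; cases b' <;> simp at e
      · exact hq k (e ▸ mR k)
      · exact hs.r_ne_p k e
    · exact absurd e.symm (hcr l k)
    · rw [hrr e]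
    · exact absurd e.symm (hrt l k)
    · exfalso; cases b' <;> simp at e
      · exact hrq k (congrArg π e)
      · exact hπr k k (e ▸ mP k)
    · exact absurd e (hct k l)
    · exact absurd e (hrt k l)
    · rw [hrr (π.injective e)]
  set U := univ.image pts with hU
  have hoU : o ∉ U := fun hm => by
    obtain ⟨x, -, hx⟩ := Finset.mem_image.1 hm
    rcases x with b | k | k | k <;> simp only [pts, Sum.elim_inl, Sum.elim_inr] at hx
    · cases b <;> simp at hx
      · exact hπne p (hpo 0 p (mP 0)) hx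
      · exact hpo 0 p (mP 0) hx
    · exact hpo k _ (mC k) hx
    · exact hpo k _ (mR k) hx
    · exact hπne _ (hpo k _ (mR k)) hx
  have split : ∀ f : ι → ℤ, dot f f = f o * f o + ((f p * f p + f (π p) * f (π p)) +
      ((∑ k, f (c k) * f (c k)) + ((∑ k, f (r k) * f (r k)) + ∑ k, f (π (r k)) * f (π (r k))))) +
      ∑ i ∈ (insert o U)ᶜ, f i * f i := fun f => by
    rw [dot_split (insert o U), Finset.sum_insert hoU, hU, Finset.sum_image fun a _ b _ e => hinj e,
      Fintype.sum_sum_type, Fintype.sum_sum_type, Fintype.sum_sum_type, Fintype.sum_bool]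
    rfl
  have sqε : ∀ i j, (ε i * d j) * (ε i * d j) = d j * d j := fun i j => by
    have := hε i; linear_combination (d j * d j) * this
  have hn := split d
  rw [h.dd, h.d_o] at hn
  simp only [Fin.sum_univ_four] at hn
  have hout0 : 0 ≤ ∑ i ∈ (insert o U)ᶜ, d i * d i := sum_sq_nonneg _ _
  have ex : ∀ x : ℤ, ∃ n : ℤ, x ≤ n ∧ -x ≤ n ∧ n ≤ x * x := fun x => by
    refine ⟨|x|, le_abs_self x, neg_le_abs x, ?_⟩
    rw [← abs_mul_abs_self x]
    rcases eq_or_ne x 0 with e | e
    · simp [e]
    · exact le_mul_of_one_le_left (abs_nonneg x) (abs_pos.2 e)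
  have Ybnd : ∀ i j, -2 ≤ ε i * X j ∧ ε i * X j ≤ 2 := fun i j => by
    rcases hs.ε_sq i with e | e <;> rcases h.col.bound j with b | b | b | b | b <;> rw [e, b] <;> norm_num
  have sq : ∀ i, X i * X i = (ε i * X i) * (ε i * X i) := fun i => by
    have := hε i; linear_combination -(X i * X i) * this
  have hbud : A * A + B * B + (∑ k, (C k * C k + R k * R k + T k * T k)) +
      (∑ i ∈ (insert o U)ᶜ, d i * d i) = 5 := by
    simp only [hA, hB, hCdef, hRdef, hTdef, sqε, Fin.sum_univ_four]
    linarith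
  have hXeq : (9 : ℤ) = 1 + (2 * (YP * YP) + ∑ k, (YC k * YC k + 2 * (YR k * YR k))) +
      ∑ i ∈ (insert o U)ᶜ, X i * X i := by
    have hX := split X
    rw [h.col.norm, h.col.one] at hX
    simp only [h.πX, Fin.sum_univ_four] at hX
    simp only [hYP, hYC, hYR, ← sq, Fin.sum_univ_four]
    linarith
  have hXout : (∑ i ∈ (insert o U)ᶜ, d i * d i) = 0 → ∑ i ∈ (insert o U)ᶜ, X i * X i = 0 := fun h0 => by
    refine Finset.sum_eq_zero fun i hi => ?_
    have hd0 := mul_self_eq_zero.1
      ((Finset.sum_eq_zero_iff_of_nonneg fun j _ => mul_self_nonneg (d j)).1 h0 i hi)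
    have hio : i ≠ o := fun e => by simp [e] at hi
    have hnot : ∀ k, a k i = 0 := fun k => hz k i hio fun hm => by
      apply Finset.mem_compl.1 hi
      rw [hs.supp_eq k] at hm
      simp only [Finset.mem_insert, Finset.mem_singleton] at hm
      rcases hm with rfl | rfl | rfl
      · exact Finset.mem_insert_of_mem (Finset.mem_image.2 ⟨.inl true, mem_univ _, rfl⟩)
      · exact Finset.mem_insert_of_mem (Finset.mem_image.2 ⟨.inr (.inl k), mem_univ _, rfl⟩)
      · exact Finset.mem_insert_of_mem (Finset.mem_image.2 ⟨.inr (.inr (.inl k)), mem_univ _, rfl⟩)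
    have := h.cong i
    rw [hnot, hnot, hnot, hd0] at this
    rcases h.col.bound i with b | b | b | b | b <;> rw [b] at this ⊢ <;> omega
  obtain ⟨hA0, hB0, hYP0, grp, hOD1, hXO⟩ := eight_arith (A := A) (B := B) (C := C) (R := R) (T := T)
    (O := ∑ i ∈ (insert o U)ᶜ, d i * d i) (Z := ∑ i ∈ (insert o U)ᶜ, X i * X i)
    (YP := YP) (YC := YC) (YR := YR) e1 e2 e3 cP cQ cC cR cT (Ybnd p p)
    (fun k => Ybnd (c k) (c k)) (fun k => Ybnd (r k) (r k)) hbud hout0 hXeq hXout
  have hbnd : ∀ i, X i = 0 ∨ X i = 1 ∨ X i = -1 ∨ X i = 2 ∨ X i = -2 := h.col.bound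
  have hDu := fun i (hi : i ∈ (insert o U)ᶜ) => abs_one_of_sum_sq (f := d) (n := 1) (by norm_num) hOD1 hi
  obtain ⟨e, he⟩ := Finset.card_eq_one.1 (card_filter_of_units (n := 1) hOD1 hDu)
  have hem := Finset.mem_filter.1 (he ▸ Finset.mem_singleton_self e)
  have hamem : ∀ i, (∃ k, a k i ≠ 0) → i ∈ insert o U := fun i ⟨k, hk⟩ => by
    by_cases hio : i = o
    · simp [hio]
    · have hm : i ∈ supp (u k) := by by_contra hn'; exact hk (hz k i hio hn')
      rw [hs.supp_eq k] at hm
      simp only [Finset.mem_insert, Finset.mem_singleton] at hm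
      rcases hm with rfl | rfl | rfl
      · exact Finset.mem_insert_of_mem (Finset.mem_image.2 ⟨.inl true, mem_univ _, rfl⟩)
      · exact Finset.mem_insert_of_mem (Finset.mem_image.2 ⟨.inr (.inl k), mem_univ _, rfl⟩)
      · exact Finset.mem_insert_of_mem (Finset.mem_image.2 ⟨.inr (.inr (.inl k)), mem_univ _, rfl⟩)
  have hUπ : ∀ i, i ∈ insert o U → π i ∈ insert o U := fun i hi => by
    rcases Finset.mem_insert.1 hi with rfl | hm
    · simp [h.π_o]
    · obtain ⟨x, -, rfl⟩ := Finset.mem_image.1 hm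
      rcases x with b | k | k | k <;> simp only [pts, Sum.elim_inl, Sum.elim_inr]
      · cases b <;> simp only [if_true, if_false, Bool.false_eq_true]
        · rw [h.invol]
          exact Finset.mem_insert_of_mem (Finset.mem_image.2 ⟨.inl true, mem_univ _, rfl⟩)
        · exact Finset.mem_insert_of_mem (Finset.mem_image.2 ⟨.inl false, mem_univ _, rfl⟩)
      · rw [hs.π_c]
        exact Finset.mem_insert_of_mem (Finset.mem_image.2 ⟨.inr (.inl k), mem_univ _, rfl⟩)
      · exact Finset.mem_insert_of_mem (Finset.mem_image.2 ⟨.inr (.inr (.inr k)), mem_univ _, rfl⟩)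
      · rw [h.invol]
        exact Finset.mem_insert_of_mem (Finset.mem_image.2 ⟨.inr (.inr (.inl k)), mem_univ _, rfl⟩)
  have hXcong : ∀ i, i ∉ insert o U → (3 : ℤ) ∣ d i + X i := fun i hi => by
    have hnot : ∀ k, a k i = 0 := fun k => by by_contra hk; exact hi (hamem i ⟨k, hk⟩)
    have := h.cong i
    rw [hnot, hnot, hnot] at this
    omega
  have donly : ∀ i, i ∉ insert o U → d i ≠ 0 → i = e := fun i hi hd => by
    have : i ∈ ({e} : Finset ι) := he ▸ Finset.mem_filter.2 ⟨Finset.mem_compl.2 hi, hd⟩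
    exact Finset.mem_singleton.1 this
  have heU := Finset.mem_compl.1 hem.1
  have hπe : π e = e := by
    have hπeU : π e ∉ insert o U := fun hm => heU (h.invol e ▸ hUπ _ hm)
    refine donly _ hπeU fun h0 => ?_
    have c1' := hXcong _ hπeU
    rw [h0, h.πX] at c1'
    have c2' := hXcong _ heU
    rcases hDu e hem.1 with q | q | q
    · exact hem.2 q
    all_goals rw [q] at c2'; omega
  have huniv : insert e (insert o U) = univ := Finset.eq_univ_of_forall fun i => by
    by_contra hi
    simp only [Finset.mem_insert, not_or] at hi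
    have hiU : i ∉ insert o U := by simp [hi.2.1, hi.2.2]
    have hπU : π i ∉ insert o U := fun hm => hiU (h.invol i ▸ hUπ _ hm)
    rcases h.nz i hi.2.1 with ⟨k, q | q⟩ | q | q
    · exact hiU (hamem i ⟨k, q⟩)
    · exact hπU (hamem _ ⟨k, q⟩)
    · exact hi.1 (donly i hiU q)
    · exact hi.1 (by rw [← h.invol i, donly _ hπU q, hπe])
  have hUc : U.card = 14 := by
    rw [hU, Finset.card_image_of_injective _ hinj]; simp
  refine ⟨?_, ?_⟩
  · rw [← Finset.card_univ, ← huniv, Finset.card_insert_of_notMem heU,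
      Finset.card_insert_of_notMem hoU, hUc]
  · have he2 : X e = 2 ∨ X e = -2 := by
      have : ∑ i ∈ (insert o U)ᶜ, X i * X i = X e * X e := by
        refine Finset.sum_eq_single e (fun i hi hne => ?_) (fun h' => absurd hem.1 h')
        have hmem : i ∈ insert e (insert o U) := huniv ▸ mem_univ i
        rcases Finset.mem_insert.1 hmem with q | q
        · exact absurd q hne
        · exact absurd q (Finset.mem_compl.1 hi)
      rw [hXO] at this
      rcases hbnd e with b | b | b | b | b <;> rw [b] at this <;> omega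
    have hcs := h.col.card_supp
    have hfour : ∀ i, X i = 2 ∨ X i = -2 → i = e := fun i hi => by
      by_contra hne
      have hmem : i ∈ insert e (insert o U) := huniv ▸ mem_univ i
      simp only [Finset.mem_insert, hne, false_or] at hmem
      rcases hmem with rfl | hm
      · rw [h.col.one] at hi; omega
      · obtain ⟨x, -, rfl⟩ := Finset.mem_image.1 hm
        have hq' : ∀ k, X (c k) * X (c k) ≤ 1 ∧ X (r k) * X (r k) ≤ 1 := fun k => by
          rw [sq (c k), sq (r k)]
          obtain ⟨y1, y2⟩ := grp k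
          simp only [hYC, hYR] at y1 y2
          rw [y1, y2]; norm_num
        rcases x with b | k | k | k <;> simp only [pts, Sum.elim_inl, Sum.elim_inr] at hi
        · have hXp : X p = 0 := by
            have := hYP0; rw [hYP] at this
            rcases mul_eq_zero.1 this with q | q
            · rcases hs.ε_sq p with q' | q' <;> omega
            · exact q
          cases b <;> simp [h.πX, hXp] at hi
        · have := (hq' k).1; rcases hi with q | q <;> rw [q] at this <;> omega
        · have := (hq' k).2; rcases hi with q | q <;> rw [q] at this <;> omega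
        · rw [h.πX] at hi
          have := (hq' k).2; rcases hi with q | q <;> rw [q] at this <;> omega
    have : twos X = {e} := by
      ext i; rw [mem_twos, Finset.mem_singleton]
      exact ⟨hfour i, fun q => q ▸ he2⟩
    rw [this, Finset.card_singleton] at hcs
    omega

/-- Eight roots cannot all be congruent to one column. -/
theorem no_eight {o : ι} (hπ : ∀ i, π (π i) = i) (hπo : π o = o) {a : Fin 8 → ι → ℤ} {X : ι → ℤ}
    (haa : ∀ r t, dot (a r) (a t) = if r = t then 4 else 2)
    (hab : ∀ r t, dot (a r) (a t ∘ π) = if r = t then 2 else 1)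
    (hao : ∀ r, a r o = -1) (hπX : ∀ i, X (π i) = X i)
    (hcong : ∀ i, (3 : ℤ) ∣ (∑ r, a r i) - X i) : False := by
  have h8 := petals_of_roots hπ hπo hao haa hab
  have sub : ∀ (f : Fin 4 → Fin 8), Function.Injective f →
      Petals 4 π fun k => off o (a (f k)) := fun f hf =>
    ⟨hπ, fun i j => by rw [h8.uu]; simp only [hf.eq_iff],
      fun i j => by rw [h8.uv]; simp only [hf.eq_iff]⟩
  obtain ⟨p, hp⟩ := (sub (Fin.castAdd 4) (Fin.castAdd_injective 4 4)).exists_center
  have h01 : (0 : Fin 8) ≠ 1 := by decide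
  have hall : ∀ k, p ∈ supp (off o (a k)) := by
    intro k
    by_cases hk : (k : ℕ) < 4
    · exact hp ⟨k, hk⟩
    · have hf : Function.Injective ![(0 : Fin 8), 1, 2, k] := by
        have h0 : k ≠ 0 := fun e => hk (by rw [e]; norm_num)
        have h1 : k ≠ 1 := fun e => hk (by rw [e]; norm_num)
        have h2 : k ≠ 2 := fun e => hk (by rw [e]; norm_num)
        intro i j hij
        fin_cases i <;> fin_cases j <;> simp at hij ⊢ <;>
          first
          | exact absurd hij.symm h0 | exact absurd hij.symm h1 | exact absurd hij.symm h2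
          | exact absurd hij h0 | exact absurd hij h1 | exact absurd hij h2
      obtain ⟨p', hp'⟩ := (sub _ hf).exists_center
      have : p = p' := h8.unique h01 (hp 0) (hp 1) (hp' 0) (hp' 1)
      exact this ▸ hp' 3
  have hq : ∀ k, π p ∉ supp (off o (a k)) := by
    intro k hm
    obtain ⟨s, hs⟩ : ∃ f : Fin 4 → Fin 8, Function.Injective f ∧ f 0 = k := by
      refine ⟨fun i => k + ⟨i, by omega⟩, fun i j hij => ?_, show k + (0 : Fin 8) = k from add_zero k⟩
      exact Fin.ext (by simpa using congrArg Fin.val (add_left_cancel hij))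
    obtain ⟨p', c, r, ε, hsh⟩ := (sub s hs.1).exists_shape
    have hpp : p' = p := by
      have m : ∀ i, p' ∈ supp (off o (a (s i))) := fun i => by rw [hsh.supp_eq i]; simp
      exact h8.unique (hs.1.ne (by decide : (0 : Fin 4) ≠ 1)) (m 0) (m 1) (hall _) (hall _)
    subst hpp
    exact hsh.c_ne_p 0 ((hsh.only 0 0 p' (hall _) (hs.2.symm ▸ hm)).2).symm
  have hpo : p ≠ o := fun e => mem_supp.1 (hall 0) (by simp [off, e])
  have hπpo : π p ≠ o := fun e => hpo (by rw [← hπ p, e, hπo])
  have hval : ∀ k, a k p = a 0 p := fun k => by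
    by_cases e : k = 0
    · rw [e]
    · have := h8.value e (hall k) (hall 0)
      simpa [off, hpo] using this
  have h0 : a 0 p = 1 ∨ a 0 p = -1 := by
    have := (supp_units (f := off o (a 0)) (by simpa using h8.uu 0 0)).2 p (hall 0)
    simpa [off, hpo] using this
  have c1 := hcong p
  rw [Finset.sum_congr rfl fun k _ => hval k] at c1
  have c2 := hcong (π p)
  rw [Finset.sum_eq_zero fun k _ => by
    have := eq_zero_of_notMem_supp (hq k); simpa [off, hπpo] using this, hπX] at c2
  simp at c1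
  omega

end CfsgLib.Blocks.Extraspecial27
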