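import Cfsg.Agent.Blocks.Extraspecial27.Dot

/-!
# Fourteen characters: two columns and a lattice of rank four
-/

set_option autoImplicit false
set_option linter.unusedSectionVars false
set_option linter.unusedVariables false

namespace CfsgLib.Blocks.Extraspecial27

open Finset

variable {ι : Type*} [Fintype ι] [DecidableEq ι]

/-- The hypotheses. -/
structure FourData (F : Frame ι 2) (a : Fin 3 → ι → ℤ) (d : ι → ℤ) : Prop where
  aa : ∀ r t, dot (a r) (a t) = if r = t then 4 else 2
  ab : ∀ r t, dot (a r) (a t ∘ F.π) = if r = t then 2 else 1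
  dd : dot d d = 6
  da : ∀ r, dot d (a r) = 2
  db : ∀ r, dot d (a r ∘ F.π) = 1
  ao : ∀ r, a r F.o = -1
  d_o : d F.o = -1
  orth_a : ∀ r, F.Orth (a r)
  orth_d : F.Orth d
  cin : ∀ i ∈ F.S, (3 : ℤ) ∣ a 0 i + a 1 i + a 2 i - d i - 1
  cout : ∀ i, i ∉ F.S → (3 : ℤ) ∣ a 0 i + a 1 i + a 2 i - d i
  nz : ∀ i, i ∉ F.S → (∃ r, a r i ≠ 0 ∨ a r (F.π i) ≠ 0) ∨ d i ≠ 0 ∨ d (F.π i) ≠ 0

namespace FourData

variable {F : Frame ι 2} {a : Fin 3 → ι → ℤ} {d : ι → ℤ}

theorem orth_eqs {f : ι → ℤ} (hf : F.Orth f) :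
    f (F.s 1) = f (F.s 0) ∧ f F.o + ∑ i ∈ F.W, f i = f (F.s 0) ∧
    dot f f = f F.o * f F.o + 2 * (f (F.s 0) * f (F.s 0)) + ∑ i ∈ F.W, f i * f i + F.out f := by
  have h0 := hf 0
  have h1 := hf 1
  have e : f (F.s 1) = f (F.s 0) := by omega
  rw [F.sum_S, Fin.sum_univ_two, e] at h0
  refine ⟨e, by omega, ?_⟩
  rw [F.dot_self, Fin.sum_univ_two, e]; ring

theorem sum_W_perm (f : ι → ℤ) : ∑ i ∈ F.W, f (F.π i) = ∑ i ∈ F.W, f i :=
  Finset.sum_bij (fun i _ => F.π i) (fun i hi => F.π_W.1 hi)
    (fun i _ j _ h => F.π.injective h)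
    (fun j hj => ⟨F.π j, F.π_W.1 hj, F.invol j⟩) fun i _ => rfl

/-- Each root has one point in `W`. -/
theorem exists_w (h : FourData F a d) (r : Fin 3) :
    ∃ w ∈ F.W, (∀ i ∈ F.W, a r i = if i = w then 1 else 0) ∧
      a r (F.s 0) = 0 ∧ a r (F.s 1) = 0 ∧ F.out (a r) = 2 := by
  obtain ⟨e1, es, en⟩ := orth_eqs (h.orth_a r)
  have hn := h.aa r r
  rw [if_pos rfl] at hn
  rw [hn, h.ao] at en
  rw [h.ao] at es
  set g := a r (F.s 0) with hg
  have o0 : 0 ≤ F.out (a r) := sum_sq_nonneg _ _
  have w0 : 0 ≤ ∑ i ∈ F.W, a r i * a r i := sum_sq_nonneg _ _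
  have hgb := abs_le_of_sq_lt (x := g) (n := 1) (by norm_num) (by omega)
  have hWu : ∀ i ∈ F.W, a r i = 0 ∨ a r i = 1 ∨ a r i = -1 := fun i hi => by
    have : a r i * a r i ≤ ∑ i ∈ F.W, a r i * a r i :=
      Finset.single_le_sum (f := fun j => a r j * a r j) (fun j _ => mul_self_nonneg _) hi
    have := abs_le_of_sq_lt (x := a r i) (n := 1) (by norm_num) (by nlinarith [mul_self_nonneg g])
    omega
  have hWc := Frame.card_W F
  obtain ⟨w1, w2, w3, h12, h13, h23, hW⟩ := Finset.card_eq_three.1 (show F.W.card = 3 from hWc)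
  have hs : ∀ f : ι → ℤ, ∑ i ∈ F.W, f i = f w1 + f w2 + f w3 := fun f => by
    rw [hW, Finset.sum_insert (by simp [h12, h13]), Finset.sum_pair h23]; ring
  have hab := h.ab r r
  rw [if_pos rfl, F.dot_eq, Fin.sum_univ_two] at hab
  simp only [Function.comp_apply, F.π_o, F.π_s, h.ao, e1] at hab
  rw [← hg] at hab
  have hπout : F.out (a r) = 0 → ∑ i ∈ F.Sᶜ, a r i * a r (F.π i) = 0 := fun h0 => by
    refine Finset.sum_eq_zero fun i hi => ?_
    have := (Finset.sum_eq_zero_iff_of_nonneg fun j _ => mul_self_nonneg (a r j)).1 h0 i hi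
    rw [mul_self_eq_zero.1 this, zero_mul]
  have hπW : ∀ i ∈ F.W, F.π i = w1 ∨ F.π i = w2 ∨ F.π i = w3 := fun i hi => by
    have := F.π_W.1 hi; simpa [hW] using this
  have m1 := hWu w1 (by simp [hW]); have m2 := hWu w2 (by simp [hW])
  have m3 := hWu w3 (by simp [hW])
  rw [hs] at es
  rw [hs (fun i => a r i * a r i)] at en
  rw [hs (fun i => a r i * a r (F.π i))] at hab
  have hg0 : g = 0 := by
    by_contra hne
    have hgm : g = -1 := by
      rcases (show g = 1 ∨ g = -1 by omega) with e | e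
      · exfalso
        rw [e] at es en
        rcases m1 with a1 | a1 | a1 <;> rcases m2 with a2 | a2 | a2 <;>
          rcases m3 with a3 | a3 | a3 <;> rw [a1, a2, a3] at es en <;> omega
      · exact e
    rw [hgm] at es en hab
    have z : a r w1 = 0 ∧ a r w2 = 0 ∧ a r w3 = 0 ∧ F.out (a r) = 1 := by
      rcases m1 with a1 | a1 | a1 <;> rcases m2 with a2 | a2 | a2 <;>
        rcases m3 with a3 | a3 | a3 <;> rw [a1, a2, a3] at es en <;> omega
    rw [z.1, z.2.1, z.2.2.1, zero_mul, zero_mul, zero_mul] at hab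
    obtain ⟨hc, hu⟩ := F.outSupp_units (n := 1) (by norm_num) z.2.2.2
    obtain ⟨t, ht⟩ := Finset.card_eq_one.1 hc
    rw [F.dot_outSupp, ht, Finset.sum_singleton] at hab
    have htt := hu t (by simp [ht])
    have : a r (F.π t) = 0 ∨ F.π t = t := by
      by_cases hp : a r (F.π t) = 0
      · exact Or.inl hp
      · have hmem : F.π t ∈ F.outSupp (a r) := F.mem_outSupp.2
          ⟨fun hs' => (F.mem_outSupp.1 (show t ∈ F.outSupp (a r) by simp [ht])).1
            ((F.π_S t).2 hs'), hp⟩
        rw [ht] at hmem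
        exact Or.inr (Finset.mem_singleton.1 hmem)
    rcases this with e | e <;> rw [e] at hab <;> rcases htt with e' | e' <;> rw [e'] at hab <;>
      omega
  rw [hg0] at es en hab
  have hsingle : ∀ w ∈ F.W, a r w = 1 → (∀ i ∈ F.W, i ≠ w → a r i = 0) → F.out (a r) = 2 →
      ∃ w ∈ F.W, (∀ i ∈ F.W, a r i = if i = w then 1 else 0) ∧
      g = 0 ∧ a r (F.s 1) = 0 ∧ F.out (a r) = 2 := fun w hw h1 h2 h3 =>
    ⟨w, hw, fun i hi => by
      by_cases e : i = w
      · rw [if_pos e, e, h1]
      · rw [if_neg e, h2 i hi e], hg0, e1.trans hg0, h3⟩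
  have hmem : w1 ∈ F.W ∧ w2 ∈ F.W ∧ w3 ∈ F.W := by simp [hW]
  rcases m1 with a1 | a1 | a1 <;> rcases m2 with a2 | a2 | a2 <;>
    rcases m3 with a3 | a3 | a3 <;> rw [a1, a2, a3] at es en <;> (try omega) <;>
    first
    | exact hsingle w1 hmem.1 a1 (fun i hi hne => by
        rw [hW] at hi; simp at hi; rcases hi with rfl | rfl | rfl <;> first | assumption | exact absurd rfl hne)
        (by omega)
    | exact hsingle w2 hmem.2.1 a2 (fun i hi hne => by
        rw [hW] at hi; simp at hi; rcases hi with rfl | rfl | rfl <;> first | assumption | exact absurd rfl hne)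
        (by omega)
    | exact hsingle w3 hmem.2.2 a3 (fun i hi hne => by
        rw [hW] at hi; simp at hi; rcases hi with rfl | rfl | rfl <;> first | assumption | exact absurd rfl hne)
        (by omega)
    | (exfalso
       rw [hπout (by omega)] at hab
       have p1 := hπW w1 hmem.1; have p2 := hπW w2 hmem.2.1; have p3 := hπW w3 hmem.2.2
       rcases p1 with p1 | p1 | p1 <;> rcases p2 with p2 | p2 | p2 <;>
         rcases p3 with p3 | p3 | p3 <;> rw [p1, p2, p3, a1, a2, a3] at hab <;>
         first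
         | omega
         | exact h12 (F.π.injective (p1.trans p2.symm))
         | exact h13 (F.π.injective (p1.trans p3.symm))
         | exact h23 (F.π.injective (p2.trans p3.symm)))

/-- A sum of products over `W` against a root. -/
theorem sum_W_mul {f g : ι → ℤ} {w : ι} (hw : w ∈ F.W)
    (hf : ∀ i ∈ F.W, f i = if i = w then 1 else 0) : ∑ i ∈ F.W, g i * f i = g w := by
  rw [Finset.sum_congr rfl fun i hi => by rw [hf i hi, mul_ite, mul_one, mul_zero]]
  simp [hw]

theorem sum_W_mul_π {f g : ι → ℤ} {w : ι} (hw : w ∈ F.W)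
    (hf : ∀ i ∈ F.W, f i = if i = w then 1 else 0) :
    ∑ i ∈ F.W, g i * f (F.π i) = g (F.π w) := by
  rw [← sum_W_mul (g := fun i => g (F.π i)) hw hf, ← sum_W_perm (fun i => g i * f (F.π i))]
  exact Finset.sum_congr rfl fun i _ => by rw [F.invol]

/-- The fourth vector vanishes at both weights, and the roots have distinct points. -/
theorem distinct (h : FourData F a d) :
    ∃ w : Fin 3 → ι, Function.Injective w ∧ (∀ r, w r ∈ F.W) ∧
      (∀ r, ∀ i ∈ F.W, a r i = if i = w r then 1 else 0) ∧
      (∀ r, a r (F.s 0) = 0 ∧ a r (F.s 1) = 0 ∧ F.out (a r) = 2) ∧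
      d (F.s 0) = -1 ∧ d (F.s 1) = -1 ∧ (∀ i ∈ F.W, d i = 0) ∧ F.out d = 3 := by
  choose w hw hwv hs0 hs1 hout using h.exists_w
  obtain ⟨e1, es, en⟩ := orth_eqs h.orth_d
  rw [h.dd, h.d_o] at en
  rw [h.d_o] at es
  have o0 : 0 ≤ F.out d := sum_sq_nonneg _ _
  have w0 : 0 ≤ ∑ i ∈ F.W, d i * d i := sum_sq_nonneg _ _
  have hg : d (F.s 0) = -1 := by
    have hgb := abs_le_of_sq_lt (x := d (F.s 0)) (n := 1) (by norm_num) (by omega)
    have := h.cin _ (F.s_mem 0)
    rw [hs0, hs0, hs0] at this
    omega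
  rw [hg] at es en
  have hcW : ∀ i ∈ F.W, (3 : ℤ) ∣ (if i = w 0 then 1 else 0) + (if i = w 1 then 1 else 0) +
      (if i = w 2 then 1 else 0) - d i - 1 := fun i hi => by
    rw [← hwv 0 i hi, ← hwv 1 i hi, ← hwv 2 i hi]
    exact h.cin i (F.mem_W.1 hi).1
  have hWu : ∀ i ∈ F.W, d i = 0 ∨ d i = 1 ∨ d i = -1 := fun i hi => by
    have h3 : d i * d i ≤ ∑ i ∈ F.W, d i * d i :=
      Finset.single_le_sum (f := fun j => d j * d j) (fun j _ => mul_self_nonneg _) hi
    have := abs_le_of_sq_lt (x := d i) (n := 1) (by norm_num) (by omega)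
    omega
  have hdist : ∀ r t u : Fin 3, r ≠ t → u ≠ r → u ≠ t → w r ≠ w t := by
    intro r t u hrt hur hut heq
    -- the congruence on `W`
    have hc : ∀ i ∈ F.W, (3 : ℤ) ∣ (if i = w r then 1 else 0) + (if i = w t then 1 else 0) +
        (if i = w u then 1 else 0) - d i - 1 := fun i hi => by
      have := hcW i hi
      have : (if i = w r then (1 : ℤ) else 0) + (if i = w t then 1 else 0) +
          (if i = w u then 1 else 0) = (if i = w 0 then 1 else 0) + (if i = w 1 then 1 else 0) +
          (if i = w 2 then 1 else 0) := by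
        fin_cases r <;> fin_cases t <;> fin_cases u <;> simp at hrt hur hut ⊢ <;> omega
      omega
    obtain ⟨B, C, hB, hC, hBC, hBr, hCr⟩ : ∃ B C, B ∈ F.W ∧ C ∈ F.W ∧ B ≠ C ∧ B ≠ w r ∧ C ≠ w r := by
      obtain ⟨B, C, hBC, hp⟩ := Finset.card_eq_two.1
        (show (F.W.erase (w r)).card = 2 by
          rw [Finset.card_erase_of_mem (hw r), F.card_W])
      have hB : B ∈ F.W.erase (w r) := by simp [hp]
      have hC : C ∈ F.W.erase (w r) := by simp [hp]
      exact ⟨B, C, Finset.mem_of_mem_erase hB, Finset.mem_of_mem_erase hC, hBC,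
        Finset.ne_of_mem_erase hB, Finset.ne_of_mem_erase hC⟩
    have hW : F.W = {w r, B, C} := (Finset.eq_of_subset_of_card_le
      (by simp [Finset.insert_subset_iff, hw r, hB, hC])
      (by rw [F.card_W, Finset.card_insert_of_notMem (by simp [Ne.symm hBr, Ne.symm hCr]),
        Finset.card_pair hBC])).symm
    have hsum : ∀ f : ι → ℤ, ∑ i ∈ F.W, f i = f (w r) + f B + f C := fun f => by
      rw [hW, Finset.sum_insert (by simp [Ne.symm hBr, Ne.symm hCr]), Finset.sum_pair hBC]; ring
    rw [hsum] at es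
    rw [hsum (fun i => d i * d i)] at en
    have cr := hc _ (hw r); have cB := hc _ hB; have cC := hc _ hC
    rw [if_pos rfl, if_pos heq] at cr
    rw [if_neg hBr, if_neg (heq ▸ hBr)] at cB
    rw [if_neg hCr, if_neg (heq ▸ hCr)] at cC
    by_cases hu : w u = w r
    · rw [if_pos hu.symm] at cr
      rw [if_neg (hu ▸ hBr)] at cB
      rw [if_neg (hu ▸ hCr)] at cC
      have := hWu _ (hw r); have := hWu _ hB; have := hWu _ hC
      omega
    · rw [if_neg (Ne.symm hu)] at cr
      have huB : w u = B ∨ w u = C := by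
        have := hw u
        rw [hW] at this
        simpa [hu] using this
      -- the single point outside
      have hv : d (w r) = 1 ∧ (∀ i, i = w u → d i = 0) ∧ F.out d = 1 := by
        have m1 := hWu _ (hw r); have m2 := hWu _ hB; have m3 := hWu _ hC
        rcases huB with e | e
        · rw [if_pos e.symm] at cB
          rw [if_neg (e ▸ Ne.symm hBC)] at cC
          have e1 : d (w r) = 1 := by omega
          have e2 : d B = 0 := by omega
          have e3 : d C = -1 := by omega
          rw [e1, e2, e3] at en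
          exact ⟨e1, fun i hi => by rw [hi, e, e2], by omega⟩
        · rw [if_pos e.symm] at cC
          rw [if_neg (e ▸ hBC)] at cB
          have e1 : d (w r) = 1 := by omega
          have e2 : d C = 0 := by omega
          have e3 : d B = -1 := by omega
          rw [e1, e2, e3] at en
          exact ⟨e1, fun i hi => by rw [hi, e, e2], by omega⟩
      obtain ⟨hdr, hdu, hdo⟩ := hv
      obtain ⟨hc1, hu1⟩ := F.outSupp_units (n := 1) (by norm_num) hdo
      obtain ⟨p, hp⟩ := Finset.card_eq_one.1 hc1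
      have hdp := hu1 p (by simp [hp])
      have hda : ∀ v, d p * a v p = 1 + (if v = u then 0 else -1) ∨ v ∉ ({r, t, u} : Finset (Fin 3)) := by
        intro v
        by_cases hv : v ∈ ({r, t, u} : Finset (Fin 3))
        · left
          have := h.da v
          rw [F.dot_eq, Fin.sum_univ_two, hs0, hs1, h.d_o, h.ao, sum_W_mul (hw v) (hwv v),
            F.dot_outSupp, hp, Finset.sum_singleton] at this
          simp only [Finset.mem_insert, Finset.mem_singleton] at hv
          rcases hv with rfl | rfl | rfl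
          · rw [if_neg (Ne.symm hur)]; rw [hdr] at this; omega
          · rw [if_neg (Ne.symm hut)]; rw [← heq, hdr] at this; omega
          · rw [if_pos rfl]; rw [hdu _ rfl] at this; omega
        · exact Or.inr hv
      have har : a r p = 0 := by
        rcases hda r with e | e
        · rw [if_neg (Ne.symm hur)] at e
          rcases hdp with e' | e' <;> rw [e'] at e <;> omega
        · simp at e
      have hat : a t p = 0 := by
        rcases hda t with e | e
        · rw [if_neg (Ne.symm hut)] at e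
          rcases hdp with e' | e' <;> rw [e'] at e <;> omega
        · simp at e
      have hau : a u p ≠ 0 := fun h0 => by
        rcases hda u with e | e
        · rw [if_pos rfl, h0, mul_zero] at e; omega
        · simp at e
      obtain ⟨hcu, huu⟩ := F.outSupp_units (n := 2) (by norm_num) (hout u)
      have hpm : p ∈ F.outSupp (a u) :=
        F.mem_outSupp.2 ⟨(F.mem_outSupp.1 (show p ∈ F.outSupp d by simp [hp])).1, hau⟩
      obtain ⟨y, hy⟩ := Finset.card_eq_one.1 (show ((F.outSupp (a u)).erase p).card = 1 by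
        rw [Finset.card_erase_of_mem hpm, hcu])
      have hshare : ∀ v, v ≠ u → w v = w r → a v p = 0 → a v y = a u y ∧ a v y ≠ 0 := by
        intro v hvu hwvr hvp
        have := h.aa u v
        rw [if_neg (Ne.symm hvu), F.dot_eq, Fin.sum_univ_two, hs0, hs1, h.ao, h.ao,
          sum_W_mul (hw v) (hwv v), hwvr, hwv u _ (hw r), if_neg (Ne.symm hu),
          F.dot_outSupp, ← Finset.add_sum_erase _ _ hpm, hy, Finset.sum_singleton, hvp] at this
        simp only [mul_zero, zero_mul, zero_add, add_zero] at this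
        have hyu := huu y (Finset.mem_of_mem_erase (show y ∈ (F.outSupp (a u)).erase p by simp [hy]))
        rcases hyu with e | e <;> rw [e] at this ⊢ <;> omega
      obtain ⟨her, hnr⟩ := hshare r (Ne.symm hur) rfl har
      obtain ⟨het, hnt⟩ := hshare t (Ne.symm hut) heq.symm hat
      have hy' : y ∉ F.S := (F.mem_outSupp.1
        (Finset.mem_of_mem_erase (show y ∈ (F.outSupp (a u)).erase p by simp [hy]))).1
      -- the two pairs agree modulo two
      obtain ⟨hcr, hur'⟩ := F.outSupp_units (n := 2) (by norm_num) (hout r)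
      obtain ⟨hct, hut'⟩ := F.outSupp_units (n := 2) (by norm_num) (hout t)
      have hyr : y ∈ F.outSupp (a r) := F.mem_outSupp.2 ⟨hy', hnr⟩
      have hyt : y ∈ F.outSupp (a t) := F.mem_outSupp.2 ⟨hy', hnt⟩
      obtain ⟨z, hz⟩ := Finset.card_eq_one.1 (show ((F.outSupp (a r)).erase y).card = 1 by
        rw [Finset.card_erase_of_mem hyr, hcr])
      have hort := h.aa r t
      rw [if_neg hrt, F.dot_eq, Fin.sum_univ_two, hs0, hs1, h.ao, h.ao,
        sum_W_mul (hw t) (hwv t), ← heq, hwv r _ (hw r), if_pos rfl,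
        F.dot_outSupp, ← Finset.add_sum_erase _ _ hyr, hz, Finset.sum_singleton, her, het] at hort
      have hyy := huu y (Finset.mem_of_mem_erase (show y ∈ (F.outSupp (a u)).erase p by simp [hy]))
      have hzr := hur' z (Finset.mem_of_mem_erase (show z ∈ (F.outSupp (a r)).erase y by simp [hz]))
      have hzm : z ∈ (F.outSupp (a r)).erase y := by simp [hz]
      have hzt : a t z ≠ 0 := fun h0 => by
        rw [h0, mul_zero] at hort
        rcases hyy with e | e <;> rw [e] at hort <;> omega
      have heq2 : F.outSupp (a r) = F.outSupp (a t) := by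
        refine Finset.eq_of_subset_of_card_le (fun i hi => ?_) (by rw [hcr, hct])
        by_cases hiy : i = y
        · exact hiy ▸ hyt
        · have : i ∈ (F.outSupp (a r)).erase y := Finset.mem_erase.2 ⟨hiy, hi⟩
          rw [hz, Finset.mem_singleton] at this
          rw [this]
          exact F.mem_outSupp.2 ⟨(F.mem_outSupp.1 (Finset.mem_of_mem_erase hzm)).1, hzt⟩
      have heven : ∀ i, i ∉ F.S → (2 : ℤ) ∣ a r i - a t i := fun i hi => by
        by_cases hm : i ∈ F.outSupp (a r)
        · have := hur' i hm; have := hut' i (heq2 ▸ hm); omega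
        · have h1 : a r i = 0 := by by_contra e; exact hm (F.mem_outSupp.2 ⟨hi, e⟩)
          have h2 : a t i = 0 := by
            by_contra e; exact hm (heq2.symm ▸ F.mem_outSupp.2 ⟨hi, e⟩)
          omega
      have h1 := h.ab r r
      have h2 := h.ab t r
      rw [if_pos rfl] at h1
      rw [if_neg (Ne.symm hrt)] at h2
      have hd : (2 : ℤ) ∣ dot (a r - a t) (a r ∘ F.π) := by
        rw [F.dot_eq, Fin.sum_univ_two]
        simp only [Pi.sub_apply, h.ao, hs0, hs1, sub_self, zero_mul, zero_add]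
        rw [Finset.sum_eq_zero fun i hi => by rw [hwv r i hi, hwv t i hi, heq, sub_self, zero_mul],
          zero_add]
        exact Finset.dvd_sum fun i hi => Dvd.dvd.mul_right (heven i (Finset.mem_compl.1 hi)) _
      rw [dot_sub_left, h1, h2] at hd
      omega
  have hinj : Function.Injective w := by
    intro r t hrt
    by_contra hne
    obtain ⟨u, hu⟩ := (by decide : ∀ r t : Fin 3, ∃ u, u ≠ r ∧ u ≠ t) r t
    exact hdist r t u hne hu.1 hu.2 hrt
  have hdW : ∀ i ∈ F.W, d i = 0 := fun i hi => by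
    have hc := hcW i hi
    have h1 : (if i = w 0 then (1 : ℤ) else 0) + (if i = w 1 then 1 else 0) +
        (if i = w 2 then 1 else 0) = 1 := by
      have himg : univ.image w = F.W := Finset.eq_of_subset_of_card_le
        (Finset.image_subset_iff.2 fun r _ => hw r)
        (by rw [F.card_W, Finset.card_image_of_injective _ hinj]; simp)
      rw [← himg] at hi
      obtain ⟨r, -, rfl⟩ := Finset.mem_image.1 hi
      fin_cases r <;> simp [hinj.eq_iff]
    have := hWu i hi
    omega
  refine ⟨w, hinj, hw, hwv, fun r => ⟨hs0 r, hs1 r, hout r⟩, hg, e1.trans hg, hdW, ?_⟩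
  rw [Finset.sum_eq_zero fun i hi => by rw [hdW i hi, mul_zero]] at en
  omega

/-- **Fourteen.** -/
theorem card_eq (h : FourData F a d) : Fintype.card ι = 14 := by
  obtain ⟨w, hinj, hw, hwv, ha, hd0, hd1, hdW, hdo⟩ := h.distinct
  obtain ⟨hdc, hdu⟩ := F.outSupp_units (n := 3) (by norm_num) hdo
  set L := F.outSupp d with hL
  have hPc : ∀ r, (F.outSupp (a r)).card = 2 ∧ ∀ i ∈ F.outSupp (a r), a r i = 1 ∨ a r i = -1 :=
    fun r => F.outSupp_units (n := 2) (by norm_num) (ha r).2.2
  have hw0 : ∀ r t, a r (w t) = if w t = w r then 1 else 0 := fun r t => hwv r _ (hw t)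
  have hPP : ∀ r t, r ≠ t → ∑ i ∈ F.outSupp (a r), a r i * a t i = 1 := fun r t hrt => by
    have := h.aa r t
    rw [if_neg hrt, F.dot_eq, Fin.sum_univ_two, (ha r).1, (ha r).2.1, h.ao, h.ao,
      sum_W_mul (hw t) (hwv t), hw0, if_neg (fun e => hrt (hinj e).symm), F.dot_outSupp] at this
    omega
  have hPd : ∀ r, ∑ i ∈ F.outSupp (a r), a r i * d i = 1 := fun r => by
    have := h.da r
    rw [dot_comm, F.dot_eq, Fin.sum_univ_two, (ha r).1, (ha r).2.1, h.ao, h.d_o,
      Finset.sum_eq_zero (s := F.W) fun i hi => by rw [hdW i hi, mul_zero], F.dot_outSupp] at this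
    omega
  have hLQ : ∀ r, ∑ i ∈ L, d i * a r (F.π i) = 0 := fun r => by
    have := h.db r
    rw [F.dot_eq, Fin.sum_univ_two] at this
    simp only [Function.comp_apply, F.π_o, F.π_s, (ha r).1, (ha r).2.1, h.ao, h.d_o,
      mul_zero, add_zero] at this
    rw [Finset.sum_eq_zero (s := F.W) fun i hi => by rw [hdW i hi, zero_mul], F.dot_outSupp,
      ← hL] at this
    omega
  -- two pairs share exactly one point
  have hone : ∀ r t, r ≠ t → ∃ p, F.outSupp (a r) ∩ F.outSupp (a t) = {p} ∧ a r p = a t p := by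
    intro r t hrt
    have h1 := hPP r t hrt
    obtain ⟨x, y, hxy, hP⟩ := Finset.card_eq_two.1 (hPc r).1
    rw [hP, Finset.sum_pair hxy] at h1
    have hx := (hPc r).2 x (by simp [hP])
    have hy := (hPc r).2 y (by simp [hP])
    have hxS : x ∉ F.S := (F.mem_outSupp.1 (show x ∈ F.outSupp (a r) by simp [hP])).1
    have hyS : y ∉ F.S := (F.mem_outSupp.1 (show y ∈ F.outSupp (a r) by simp [hP])).1
    have mem : ∀ i, i ∉ F.S → (i ∈ F.outSupp (a t) ↔ a t i ≠ 0) := fun i hi =>
      ⟨fun hm => (F.mem_outSupp.1 hm).2, fun hn => F.mem_outSupp.2 ⟨hi, hn⟩⟩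
    have bx : a t x = 0 ∨ a t x = 1 ∨ a t x = -1 := by
      by_cases e : a t x = 0
      · exact Or.inl e
      · exact Or.inr ((hPc t).2 x ((mem x hxS).2 e))
    have by' : a t y = 0 ∨ a t y = 1 ∨ a t y = -1 := by
      by_cases e : a t y = 0
      · exact Or.inl e
      · exact Or.inr ((hPc t).2 y ((mem y hyS).2 e))
    by_cases e : a t x = 0
    · refine ⟨y, ?_, ?_⟩
      · rw [hP]; ext i
        simp only [Finset.mem_inter, Finset.mem_insert, Finset.mem_singleton]
        refine ⟨?_, fun hi => ⟨Or.inr hi, hi ▸ (mem y hyS).2 fun e' => by rw [e, e'] at h1; omega⟩⟩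
        rintro ⟨rfl | rfl, hi⟩
        · exact absurd e ((mem _ hxS).1 hi)
        · rfl
      · rw [e, mul_zero, zero_add] at h1
        rcases hy with q | q <;> rw [q] at h1 ⊢ <;> omega
    · have hy0 : a t y = 0 := by
        rcases hx with q | q <;> rcases hy with q' | q' <;> rw [q, q'] at h1 <;>
          rcases bx with b | b | b <;> rcases by' with c | c | c <;> omega
      refine ⟨x, ?_, ?_⟩
      · rw [hP]; ext i
        simp only [Finset.mem_inter, Finset.mem_insert, Finset.mem_singleton]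
        refine ⟨?_, fun hi => ⟨Or.inl hi, hi ▸ (mem x hxS).2 e⟩⟩
        rintro ⟨rfl | rfl, hi⟩
        · rfl
        · exact absurd hy0 ((mem _ hyS).1 hi)
      · rw [hy0, mul_zero, add_zero] at h1
        rcases hx with q | q <;> rw [q] at h1 ⊢ <;> omega
  obtain ⟨p, hp, hpv⟩ := hone 0 1 (by decide)
  obtain ⟨p', hp', hpv'⟩ := hone 0 2 (by decide)
  obtain ⟨p'', hp'', hpv''⟩ := hone 1 2 (by decide)
  have mp : p ∈ F.outSupp (a 0) ∧ p ∈ F.outSupp (a 1) :=
    Finset.mem_inter.1 (hp ▸ Finset.mem_singleton_self p)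
  have mp' : p' ∈ F.outSupp (a 0) ∧ p' ∈ F.outSupp (a 2) :=
    Finset.mem_inter.1 (hp' ▸ Finset.mem_singleton_self p')
  have mp'' : p'' ∈ F.outSupp (a 1) ∧ p'' ∈ F.outSupp (a 2) :=
    Finset.mem_inter.1 (hp'' ▸ Finset.mem_singleton_self p'')
  have hz : ∀ r i, i ∉ F.S → i ∉ F.outSupp (a r) → a r i = 0 := fun r i hi hm => by
    by_contra e; exact hm (F.mem_outSupp.2 ⟨hi, e⟩)
  have hdb : ∀ i, i ∉ F.S → d i = 0 ∨ d i = 1 ∨ d i = -1 := fun i hi => by
    by_cases e : d i = 0
    · exact Or.inl e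
    · exact Or.inr (hdu i (F.mem_outSupp.2 ⟨hi, e⟩))
  have hpp : p = p' := by
    by_contra hne
    have hP0 : F.outSupp (a 0) = {p, p'} := (Finset.eq_of_subset_of_card_le
      (by simp [Finset.insert_subset_iff, mp.1, mp'.1])
      (by rw [(hPc 0).1, Finset.card_pair hne])).symm
    have h2p : p ∉ F.outSupp (a 2) := fun hm => hne (Finset.mem_singleton.1
      (hp' ▸ Finset.mem_inter.2 ⟨mp.1, hm⟩ : p ∈ ({p'} : Finset ι)))
    have h1p : p' ∉ F.outSupp (a 1) := fun hm => hne (Finset.mem_singleton.1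
      (hp ▸ Finset.mem_inter.2 ⟨mp'.1, hm⟩ : p' ∈ ({p} : Finset ι))).symm
    have hpS := (F.mem_outSupp.1 mp.1).1
    have hpS' := (F.mem_outSupp.1 mp'.1).1
    have c1 := h.cout p hpS
    have c2 := h.cout p' hpS'
    rw [hz 2 p hpS h2p] at c1
    rw [hz 1 p' hpS' h1p] at c2
    have e0 := hPd 0
    rw [hP0, Finset.sum_pair hne] at e0
    have b1 := (hPc 0).2 p mp.1; have b2 := (hPc 0).2 p' mp'.1
    have := hdb p hpS; have := hdb p' hpS'
    rcases b1 with q | q <;> rcases b2 with q' | q' <;> rw [q, q'] at e0 <;> omega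
  subst hpp
  have hp2 : ∀ r, p ∈ F.outSupp (a r) := by
    intro r; fin_cases r
    exacts [mp.1, mp.2, mp'.2]
  have hval : ∀ r, a r p = a 0 p := by
    intro r; fin_cases r
    exacts [rfl, hpv.symm, hpv'.symm]
  have hl : ∀ r, ∃ l, F.outSupp (a r) = {p, l} ∧ l ≠ p := fun r => by
    obtain ⟨l, hl⟩ := Finset.card_eq_one.1 (show ((F.outSupp (a r)).erase p).card = 1 by
      rw [Finset.card_erase_of_mem (hp2 r), (hPc r).1])
    refine ⟨l, ?_, Finset.ne_of_mem_erase (hl ▸ Finset.mem_singleton_self l)⟩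
    rw [← Finset.insert_erase (hp2 r), hl]
  choose l hl hlp using hl
  have hlmem : ∀ r, l r ∈ F.outSupp (a r) := fun r => by simp [hl r]
  have hlS : ∀ r, l r ∉ F.S := fun r => (F.mem_outSupp.1 (hlmem r)).1
  have hlne : ∀ r t, r ≠ t → l r ≠ l t := fun r t hrt e => by
    obtain ⟨q, hq, -⟩ := hone r t hrt
    have h1 : l r ∈ ({q} : Finset ι) := hq ▸ Finset.mem_inter.2 ⟨hlmem r, e ▸ hlmem t⟩
    have h2 : p ∈ ({q} : Finset ι) := hq ▸ Finset.mem_inter.2 ⟨hp2 r, hp2 t⟩
    exact hlp r ((Finset.mem_singleton.1 h1).trans (Finset.mem_singleton.1 h2).symm)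
  have hpS : p ∉ F.S := (F.mem_outSupp.1 mp.1).1
  have hlz : ∀ r t, r ≠ t → a t (l r) = 0 := fun r t hrt => hz t _ (hlS r) fun hm => by
    rw [hl t] at hm
    simp only [Finset.mem_insert, Finset.mem_singleton] at hm
    exact hm.elim (hlp r) (hlne r t hrt)
  have hdp : d p = 0 := by
    have c := h.cout p hpS
    rw [hval 1, hval 2] at c
    have := hdb p hpS
    omega
  have hdl : ∀ r, d (l r) ≠ 0 := fun r e => by
    have := hPd r
    rw [hl r, Finset.sum_pair (Ne.symm (hlp r)), e, hdp] at this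
    omega
  have hLl : L = univ.image l := (Finset.eq_of_subset_of_card_le
    (Finset.image_subset_iff.2 fun r _ => F.mem_outSupp.2 ⟨hlS r, hdl r⟩)
    (by rw [hdc, Finset.card_image_of_injective _ fun r t e => by
      by_contra hne; exact hlne r t hne e]; simp)).symm
  -- the image under the involution is disjoint
  have hπout : ∀ i, i ∉ F.S → F.π i ∉ F.S := fun i hi hc => hi ((F.π_S i).2 hc)
  have hQL : ∀ r, F.π p ∈ L ↔ F.π (l r) ∈ L := fun r => by
    have := hLQ r
    rw [← Finset.sum_filter_of_ne (p := fun i => i = F.π p ∨ i = F.π (l r)) fun i hi hne => by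
      have hiS := (F.mem_outSupp.1 hi).1
      have : F.π i ∈ F.outSupp (a r) := F.mem_outSupp.2 ⟨hπout i hiS, fun e => hne (by rw [e, mul_zero])⟩
      rw [hl r, Finset.mem_insert, Finset.mem_singleton] at this
      exact this.imp (fun e => by rw [← e, F.invol]) (fun e => by rw [← e, F.invol])] at this
    have hne : F.π p ≠ F.π (l r) := fun e => hlp r (F.π.injective e).symm
    have v1 := (hPc r).2 p (hp2 r)
    have v2 := (hPc r).2 _ (hlmem r)
    constructor <;> intro hm <;> by_contra hn
    · rw [show L.filter (fun i => i = F.π p ∨ i = F.π (l r)) = {F.π p} by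
        ext i; simp only [Finset.mem_filter, Finset.mem_singleton]
        exact ⟨fun ⟨h1, h2⟩ => h2.resolve_right fun e => hn (e ▸ h1),
          fun e => ⟨e ▸ hm, Or.inl e⟩⟩, Finset.sum_singleton, F.invol] at this
      have hd' := hdu _ hm
      rcases v1 with q | q <;> rw [q] at this <;> omega
    · rw [show L.filter (fun i => i = F.π p ∨ i = F.π (l r)) = {F.π (l r)} by
        ext i; simp only [Finset.mem_filter, Finset.mem_singleton]
        exact ⟨fun ⟨h1, h2⟩ => h2.resolve_left fun e => hn (e ▸ h1),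
          fun e => ⟨e ▸ hm, Or.inr e⟩⟩, Finset.sum_singleton, F.invol] at this
      have hd' := hdu _ hm
      rcases v2 with q | q <;> rw [q] at this <;> omega
  have hq : F.π p ∉ L := fun hm => by
    have hsub : insert (F.π p) (univ.image fun r => F.π (l r)) ⊆ L := by
      rw [Finset.insert_subset_iff, Finset.image_subset_iff]
      exact ⟨hm, fun r _ => (hQL r).1 hm⟩
    have := Finset.card_le_card hsub
    rw [Finset.card_insert_of_notMem (by
      simp only [Finset.mem_image, not_exists, not_and]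
      exact fun r _ e => hlp r (F.π.injective e)),
      Finset.card_image_of_injective _ fun r t e => by
        by_contra hne; exact hlne r t hne (F.π.injective e), hdc] at this
    simp at this
  have hm : ∀ r t, F.π (l r) ≠ l t := fun r t e =>
    hq ((hQL r).2 (e ▸ hLl ▸ Finset.mem_image_of_mem l (mem_univ t)))
  have hπl : ∀ r, F.π p ≠ l r := fun r e => hq (e ▸ hLl ▸ Finset.mem_image_of_mem l (mem_univ r))
  have hπpp : F.π p ≠ p := by
    intro e
    obtain ⟨r, hr⟩ : ∃ r, F.π (w r) = w r := by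
      by_contra hno
      have himg : univ.image w = F.W := Finset.eq_of_subset_of_card_le
        (Finset.image_subset_iff.2 fun r _ => hw r)
        (by rw [F.card_W, Finset.card_image_of_injective _ hinj]; simp)
      have : ∀ r, ∃ t, F.π (w r) = w t := fun r => by
        have := F.π_W.1 (hw r)
        rw [← himg] at this
        obtain ⟨t, -, ht⟩ := Finset.mem_image.1 this
        exact ⟨t, ht.symm⟩
      choose f hf using this
      have hff : ∀ r, f (f r) = r := fun r => hinj (by rw [← hf, ← hf, F.invol])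
      have hfn : ∀ r, f r ≠ r := fun r e => hno ⟨r, by rw [hf, e]⟩
      exact (by decide : ∀ f : Fin 3 → Fin 3, (∀ r, f (f r) = r) → ∃ r, f r = r) f hff |>.elim
        fun r hr => hfn r hr
    obtain ⟨t, htr⟩ := exists_ne r
    have := h.ab r t
    rw [if_neg htr.symm, F.dot_eq, Fin.sum_univ_two] at this
    simp only [Function.comp_apply, F.π_o, F.π_s, (ha r).1, (ha r).2.1, h.ao] at this
    rw [sum_W_mul_π (hw t) (hwv t), hwv r _ (F.π_W.1 (hw t)),
      if_neg (fun e' => htr (hinj (F.π.injective (e'.trans hr.symm)))),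
      F.dot_outSupp, hl r, Finset.sum_pair (Ne.symm (hlp r)), e,
      hz t (F.π (l r)) (hπout _ (hlS r)) (fun hm' => by
        rw [hl t, Finset.mem_insert, Finset.mem_singleton] at hm'
        exact hm'.elim (fun e' => hlp r (F.π.injective (e'.trans e.symm))) (hm r t)),
      hval r, hval t] at this
    rcases (hPc 0).2 p (hp2 0) with q | q <;> rw [q] at this <;> omega
  set A := insert p L with hA
  have hd1 : Disjoint A (A.image F.π) := Finset.disjoint_left.2 fun i hi hi' => by
    obtain ⟨j, hj, rfl⟩ := Finset.mem_image.1 hi'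
    simp only [hA, hLl, Finset.mem_insert, Finset.mem_image, Finset.mem_univ, true_and] at hi hj
    rcases hj with rfl | ⟨r, rfl⟩ <;> rcases hi with e | ⟨t, e⟩
    · exact hπpp e
    · exact hπl t e.symm
    · exact hπl r (by rw [← e, F.invol])
    · exact hm r t e.symm
  have hAS : ∀ i ∈ A, i ∉ F.S := fun i hi => by
    simp only [hA, hLl, Finset.mem_insert, Finset.mem_image, Finset.mem_univ, true_and] at hi
    rcases hi with rfl | ⟨r, rfl⟩
    exacts [hpS, hlS r]
  have hd2 : Disjoint F.S (A ∪ A.image F.π) := Finset.disjoint_left.2 fun i hi hi' => by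
    rcases Finset.mem_union.1 hi' with h' | h'
    · exact hAS i h' hi
    · obtain ⟨j, hj, rfl⟩ := Finset.mem_image.1 h'
      exact hAS j hj ((F.π_S j).2 hi)
  have hcov : F.S ∪ (A ∪ A.image F.π) = univ := Finset.eq_univ_of_forall fun i => by
    by_cases hi : i ∈ F.S
    · simp [hi]
    · have key : ∀ j, j ∉ F.S → ((∃ r, a r j ≠ 0) ∨ d j ≠ 0) → j ∈ A := by
        intro j hj hh
        rcases hh with ⟨r, hr⟩ | hd'
        · have := F.mem_outSupp.2 ⟨hj, hr⟩
          rw [hl r, Finset.mem_insert, Finset.mem_singleton] at this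
          rw [hA, hLl]
          rcases this with rfl | rfl
          · simp
          · simp
        · exact Finset.mem_insert_of_mem (F.mem_outSupp.2 ⟨hj, hd'⟩)
      simp only [Finset.mem_union, hi, false_or]
      have k2 : F.π i ∈ A → i ∈ A.image F.π := fun hh => Finset.mem_image.2 ⟨_, hh, F.invol i⟩
      rcases h.nz i hi with ⟨r, e | e⟩ | e | e
      · exact Or.inl (key i hi (Or.inl ⟨r, e⟩))
      · exact Or.inr (k2 (key _ (hπout i hi) (Or.inl ⟨r, e⟩)))
      · exact Or.inl (key i hi (Or.inr e))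
      · exact Or.inr (k2 (key _ (hπout i hi) (Or.inr e)))
  have hcard := congrArg Finset.card hcov
  rw [Finset.card_union_of_disjoint hd2, Finset.card_union_of_disjoint hd1,
    Finset.card_image_of_injective _ F.π.injective, F.card_S, hA,
    Finset.card_insert_of_notMem (fun hh => (F.mem_outSupp.1 hh).2 hdp), hdc,
    Finset.card_univ] at hcard
  omega

end FourData

end CfsgLib.Blocks.Extraspecial27
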