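import Cfsg.Prelude.Def_Transfer
import Cfsg.Agent.Eq.Def_Transfer
import Cfsg.Agent.PGroup.Extraspecial
import Cfsg.Agent.Transfer.NormalPComplement

/-!
# Fusion around an extraspecial Sylow subgroup of order 27 whose normalizer centralizes its centre
-/

set_option autoImplicit false
set_option linter.style.haveILetI false

namespace CfsgLib.Blocks.Extraspecial27

open Cfsg CfsgLib
open scoped commutatorElement

universe u

variable {G : Type u} [Group G] [Finite G]

/-- The conditions on the Sylow subgroup and a generator of its centre. -/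
structure Base (P : Sylow 3 G) (z : G) : Prop where
  mem : z ∈ (P : Subgroup G)
  ord : orderOf z = 3
  central : ∀ p ∈ (P : Subgroup G), p * z = z * p
  cen : ∀ u ∈ (P : Subgroup G), (∀ p ∈ (P : Subgroup G), p * u = u * p) → u ∈ Subgroup.zpowers z
  conjz : ∀ p ∈ (P : Subgroup G), ∀ u ∈ (P : Subgroup G), ∃ i : ℕ, p * u * p⁻¹ = z ^ i * u
  exp : ∀ x ∈ (P : Subgroup G), x ^ 3 = 1
  card : Nat.card (P : Subgroup G) = 27
  nc : ∀ n ∈ Subgroup.normalizer ((P : Subgroup G) : Set G), n * z = z * n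

theorem exists_base (P : Sylow 3 G) (hE : IsExtraspecial 3 ↥(P : Subgroup G))
    (h27 : Nat.card ↥(P : Subgroup G) = 27) (hexp : ∀ x ∈ (P : Subgroup G), x ^ 3 = 1)
    (hNC : ∀ g ∈ Subgroup.normalizer ((P : Subgroup G) : Set G), ∀ z ∈ (P : Subgroup G),
      (∀ y ∈ (P : Subgroup G), z * y = y * z) → g * z = z * g) :
    ∃ z, Base P z := by
  classical
  haveI : Fact (Nat.Prime 3) := ⟨Nat.prime_three⟩
  obtain ⟨⟨zP, hzc⟩, hz⟩ := isCyclic_iff_exists_zpowers_eq_top.1
    (isCyclic_of_prime_card hE.2 : IsCyclic (Subgroup.center (P : Subgroup G)))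
  have hord : orderOf (zP : G) = 3 := by
    rw [Subgroup.orderOf_coe]
    have : orderOf (⟨zP, hzc⟩ : Subgroup.center (P : Subgroup G)) = 3 := by
      rw [← Nat.card_zpowers, hz, Subgroup.card_top]; exact hE.2
    rwa [← Subgroup.orderOf_coe] at this
  have hpow : ∀ c : (P : Subgroup G), c ∈ Subgroup.center (P : Subgroup G) →
      ∃ i : ℕ, (c : G) = (zP : G) ^ i := fun c hc => by
    have : (⟨c, hc⟩ : Subgroup.center (P : Subgroup G)) ∈ Subgroup.zpowers ⟨zP, hzc⟩ := hz ▸ trivial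
    rw [mem_zpowers_iff_mem_range_orderOf] at this
    obtain ⟨i, -, hi⟩ := Finset.mem_image.1 this
    exact ⟨i, by simpa using (congrArg (fun x : Subgroup.center (P : Subgroup G) => ((x : (P : Subgroup G)) : G)) hi).symm⟩
  refine ⟨zP, zP.2, hord, fun p hp => congrArg Subtype.val (Subgroup.mem_center_iff.1 hzc ⟨p, hp⟩),
    fun u hu huc => ?_, fun p hp u hu => ?_, hexp, h27, fun n hn => ?_⟩
  · obtain ⟨i, hi⟩ := hpow ⟨u, hu⟩ (Subgroup.mem_center_iff.2 fun q => Subtype.ext (huc q q.2))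
    exact (show u = _ from hi).symm ▸ Subgroup.npow_mem_zpowers _ i
  · obtain ⟨i, hi⟩ := hpow ⁅(⟨p, hp⟩ : (P : Subgroup G)), ⟨u, hu⟩⁆
      (hE.1.2.2 ▸ Subgroup.commutator_mem_commutator (Subgroup.mem_top _) (Subgroup.mem_top _))
    refine ⟨i, ?_⟩
    rw [← hi]
    simp [commutatorElement_def, mul_assoc]
  · exact hNC n hn zP zP.2 fun y hy =>
      (congrArg Subtype.val (Subgroup.mem_center_iff.1 hzc ⟨y, hy⟩)).symm

namespace Base

variable {P : Sylow 3 G} {z : G}

theorem z_cube (h : Base P z) : z ^ 3 = 1 := h.ord ▸ pow_orderOf_eq_one z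

theorem z_ne_inv (h : Base P z) : z ≠ z⁻¹ := fun e => by
  have h2 : z ^ 2 = 1 := by rw [pow_two]; nth_rw 2 [e]; exact mul_inv_cancel z
  have := orderOf_dvd_of_pow_eq_one h2
  rw [h.ord] at this
  omega

theorem mem_zpowers_iff' (h : Base P z) {w : G} :
    w ∈ Subgroup.zpowers z ↔ w = 1 ∨ w = z ∨ w = z⁻¹ := by
  constructor
  · intro hw
    classical
    rw [mem_zpowers_iff_mem_range_orderOf, h.ord] at hw
    obtain ⟨i, hi, rfl⟩ := Finset.mem_image.1 hw
    have hi' := Finset.mem_range.1 hi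
    interval_cases i
    · simp
    · simp
    · exact Or.inr (Or.inr (eq_inv_of_mul_eq_one_left (by rw [← pow_succ, h.z_cube])))
  · rintro (rfl | rfl | rfl)
    exacts [one_mem _, Subgroup.mem_zpowers _, inv_mem (Subgroup.mem_zpowers _)]

theorem zpow_mem (h : Base P z) (i : ℕ) : z ^ i ∈ (P : Subgroup G) := pow_mem h.mem i

/-- Some element of the Sylow subgroup multiplies `u` by any given power of `z`. -/
theorem exists_conj_mul (h : Base P z) {u : G} (hu : u ∈ (P : Subgroup G))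
    (hu' : u ∉ Subgroup.zpowers z) (j : ℕ) :
    ∃ p ∈ (P : Subgroup G), p * u * p⁻¹ = z ^ j * u := by
  obtain ⟨q, hq, hne⟩ : ∃ q ∈ (P : Subgroup G), q * u ≠ u * q := by
    by_contra hno
    push Not at hno
    exact hu' (h.cen u hu hno)
  obtain ⟨i, hi⟩ := h.conjz q hq u hu
  have hpow : ∀ k : ℕ, q ^ k * u * (q ^ k)⁻¹ = z ^ (i * k) * u := fun k => by
    induction k with
    | zero => simp
    | succ k ih =>
      have hc : q * z ^ (i * k) = z ^ (i * k) * q := ((Commute.pow_right (h.central q hq) _)).eq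
      calc q ^ (k + 1) * u * (q ^ (k + 1))⁻¹ = q * (q ^ k * u * (q ^ k)⁻¹) * q⁻¹ := by
            rw [pow_succ']; group
        _ = z ^ (i * k) * (q * u * q⁻¹) := by rw [ih, ← mul_assoc q, hc]; group
        _ = z ^ (i * (k + 1)) * u := by rw [hi, ← mul_assoc, ← pow_add]; congr 2
  have hi3 : ¬ 3 ∣ i := fun ⟨c, hc⟩ => hne (by
    rw [hc, pow_mul, h.z_cube, one_pow, one_mul, mul_inv_eq_iff_eq_mul] at hi
    exact hi)
  obtain ⟨k, hk⟩ : ∃ k, i * k % 3 = j % 3 := by
    refine ⟨i * j, ?_⟩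
    rcases (show i % 3 = 1 ∨ i % 3 = 2 by omega) with e | e <;>
      simp [Nat.mul_mod, e] <;> omega
  refine ⟨q ^ k, pow_mem hq k, ?_⟩
  rw [hpow, ← pow_mod_orderOf z (i * k), h.ord, hk, ← h.ord, pow_mod_orderOf]

theorem le_centralizer (h : Base P z) : (P : Subgroup G) ≤ Subgroup.centralizer ({z} : Set G) :=
  fun p hp => Subgroup.mem_centralizer_singleton_iff.2 (h.central p hp)

/-- No element inverts `z`. -/
theorem not_conj_inv (h : Base P z) (g : G) : g * z * g⁻¹ ≠ z⁻¹ := by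
  intro hg
  haveI : Fact (Nat.Prime 3) := ⟨Nat.prime_three⟩
  set H := Subgroup.centralizer ({z} : Set G)
  have hgP : (g • P : Sylow 3 G) ≤ H := by
    intro x hx
    rw [Sylow.smul_def, Sylow.pointwise_smul_def, Subgroup.mem_pointwise_smul_iff_inv_smul_mem] at hx
    have hc := h.central _ hx
    simp only [map_inv, MulAut.smul_def, MulAut.conj_inv_apply] at hc
    refine Subgroup.mem_centralizer_singleton_iff.2 ?_
    have e : g⁻¹ * x * g * z * (g⁻¹ * x * g)⁻¹ = z := by rw [hc]; group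
    have : x * (g * z * g⁻¹) * x⁻¹ = g * z * g⁻¹ := by
      calc x * (g * z * g⁻¹) * x⁻¹ = g * (g⁻¹ * x * g * z * (g⁻¹ * x * g)⁻¹) * g⁻¹ := by group
        _ = _ := by rw [e]
    rw [hg, mul_inv_eq_iff_eq_mul] at this
    exact (Commute.inv_right_iff.1 this).eq
  obtain ⟨c, hc⟩ := MulAction.exists_smul_eq H ((g • P).subtype hgP) (P.subtype h.le_centralizer)
  rw [Sylow.smul_subtype] at hc
  have hc' : (c : G) • (g • P) = P := by
    have := Sylow.subtype_injective hc
    exact this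
  have hn : (c : G) * g ∈ Subgroup.normalizer ((P : Subgroup G) : Set G) := by
    exact Sylow.smul_eq_iff_mem_normalizer.1 ((mul_smul _ _ _).trans hc')
  have hcz : (c : G) * z⁻¹ = z⁻¹ * (c : G) :=
    (Commute.inv_right (Subgroup.mem_centralizer_singleton_iff.1 c.2)).eq
  have := h.nc _ hn
  rw [← mul_inv_eq_iff_eq_mul] at this
  rw [show (c : G) * g * z * ((c : G) * g)⁻¹ = (c : G) * (g * z * g⁻¹) * (c : G)⁻¹ by group, hg,
    hcz, mul_inv_cancel_right] at this
  exact h.z_ne_inv this.symm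

/-- `z` is not fused outside the centre. -/
theorem not_conj_noncentral (h : Base P z) {u : G} (hu : u ∈ (P : Subgroup G))
    (hu' : u ∉ Subgroup.zpowers z) (g : G) : g * z * g⁻¹ ≠ u := by
  intro hg
  haveI : Fact (Nat.Prime 3) := ⟨Nat.prime_three⟩
  set H := Subgroup.centralizer ({u} : Set G) with hH
  -- a Sylow subgroup of the centralizer containing `z`
  have hQ : (g • P : Sylow 3 G) ≤ H := by
    intro x hx
    rw [Sylow.smul_def, Sylow.pointwise_smul_def, Subgroup.mem_pointwise_smul_iff_inv_smul_mem] at hx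
    have hc := h.central _ hx
    simp only [map_inv, MulAut.smul_def, MulAut.conj_inv_apply] at hc
    refine Subgroup.mem_centralizer_singleton_iff.2 ?_
    rw [← hg]
    calc x * (g * z * g⁻¹) = g * (g⁻¹ * x * g * z) * g⁻¹ := by group
      _ = g * (z * (g⁻¹ * x * g)) * g⁻¹ := by rw [hc]
      _ = g * z * g⁻¹ * x := by group
  have hzH : z ∈ H := Subgroup.mem_centralizer_singleton_iff.2 (h.central u hu).symm
  obtain ⟨S, hS⟩ := (IsPGroup.of_card (n := 1) (by rw [Nat.card_zpowers, Subgroup.orderOf_mk, h.ord,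
    pow_one]) : IsPGroup 3 (Subgroup.zpowers (⟨z, hzH⟩ : H))).exists_le_sylow
  obtain ⟨c, hc⟩ := MulAction.exists_smul_eq H ((g • P).subtype hQ) S
  set k : G := (c : G) * g with hk
  have hku : k * z * k⁻¹ = u := by
    rw [hk, show (c : G) * g * z * ((c : G) * g)⁻¹ = (c : G) * (g * z * g⁻¹) * (c : G)⁻¹ by group,
      hg, Subgroup.mem_centralizer_singleton_iff.1 c.2, mul_inv_cancel_right]
  have hzk : k⁻¹ * z * k ∈ (P : Subgroup G) := by
    have : (⟨z, hzH⟩ : H) ∈ (S : Subgroup H) := hS (Subgroup.mem_zpowers _)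
    rw [← hc, Sylow.coe_subgroup_smul, Subgroup.mem_pointwise_smul_iff_inv_smul_mem,
      Sylow.coe_subtype, Subgroup.mem_subgroupOf] at this
    simp only [map_inv, MulAut.smul_def, MulAut.conj_inv_apply, Subgroup.coe_mul,
      InvMemClass.coe_inv] at this
    rw [Sylow.smul_def, Sylow.pointwise_smul_def, Subgroup.mem_pointwise_smul_iff_inv_smul_mem] at this
    simp only [map_inv, MulAut.smul_def, MulAut.conj_inv_apply] at this
    rw [hk]
    simpa [mul_assoc] using this
  have hzk' : k⁻¹ * z * k ∉ Subgroup.zpowers z := by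
    intro hm
    have hz' : z ∈ Subgroup.zpowers u := by
      obtain ⟨i, hi⟩ := Subgroup.mem_zpowers_iff.1 hm
      refine Subgroup.mem_zpowers_iff.2 ⟨i, ?_⟩
      rw [← hku, conj_zpow, hi]; group
    obtain ⟨i, hi⟩ := Subgroup.mem_zpowers_iff.1 hz'
    have hu3 : orderOf u = 3 := by
      rw [← hku]
      exact (MulEquiv.orderOf_eq (MulAut.conj k) z).trans h.ord
    have he : Subgroup.zpowers z = Subgroup.zpowers u :=
      Subgroup.eq_of_le_of_card_ge (Subgroup.zpowers_le.2 hz')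
        (by rw [Nat.card_zpowers, Nat.card_zpowers, h.ord, hu3])
    exact hu' (he ▸ Subgroup.mem_zpowers u)
  obtain ⟨y0, hy0, hy⟩ := h.exists_conj_mul hzk hzk' 1
  obtain ⟨q, hq, hqu⟩ := h.exists_conj_mul hu hu' 2
  set y := k * y0 * k⁻¹ with hyd
  have hyz : y * z * y⁻¹ = u * z := by
    calc y * z * y⁻¹ = k * (y0 * (k⁻¹ * z * k) * y0⁻¹) * k⁻¹ := by rw [hyd]; group
      _ = k * z * k⁻¹ * z := by rw [hy, pow_one]; group
      _ = u * z := by rw [hku]
  have hyu : y * u * y⁻¹ = u := by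
    calc y * u * y⁻¹ = k * (y0 * z * y0⁻¹) * k⁻¹ := by rw [← hku, hyd]; group
      _ = u := by rw [h.central y0 hy0, mul_inv_cancel_right, hku]
  have hqz : q * z * q⁻¹ = z := by rw [h.central q hq, mul_inv_cancel_right]
  have hcomm : u * z = z * u := h.central u hu
  have hz2 : z ^ 2 = z⁻¹ := eq_inv_of_mul_eq_one_left (by rw [← pow_succ, h.z_cube])
  have cj : ∀ a b v w : G, a * v * a⁻¹ = w → ∀ r, b * w * b⁻¹ = r → b * a * v * (b * a)⁻¹ = r :=
    fun a b v w e r e' => by rw [← e', ← e]; group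
  have cm : ∀ a v w : G, a * (v * w) * a⁻¹ = (a * v * a⁻¹) * (a * w * a⁻¹) := fun a v w => by group
  have ci : ∀ a v : G, a * v⁻¹ * a⁻¹ = (a * v * a⁻¹)⁻¹ := fun a v => by group
  have q_uz : q * (u * z) * q⁻¹ = u := by
    rw [cm, hqz, hqu, hz2, mul_assoc, hcomm, ← mul_assoc, inv_mul_cancel, one_mul]
  set n := y * q * y with hn
  have nz : n * z * n⁻¹ = u := by
    rw [hn, mul_assoc y q y]
    exact cj _ _ _ _ (cj _ _ _ _ hyz _ q_uz) _ hyu
  have nu : n * u * n⁻¹ = z⁻¹ := by
    rw [hn, mul_assoc y q y]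
    refine cj _ _ _ _ (cj _ _ _ _ hyu _ hqu) _ ?_
    rw [cm, hyu, show y * z ^ 2 * y⁻¹ = (u * z) ^ 2 by rw [← hyz, conj_pow],
      (show Commute u z from hcomm).mul_pow, hz2]
    have hu3 := h.exp u hu
    calc u ^ 2 * z⁻¹ * u = u ^ 2 * (z⁻¹ * u) := mul_assoc _ _ _
      _ = u ^ 2 * (u * z⁻¹) := by rw [((show Commute u z from hcomm).inv_right).eq]
      _ = z⁻¹ := by rw [← mul_assoc, ← pow_succ, hu3, one_mul]
  exact h.not_conj_inv (n * n) (cj _ _ _ _ nz _ nu)

theorem not_conj_noncentral' (h : Base P z) {u : G} (hu : u ∈ (P : Subgroup G))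
    (hu' : u ∉ Subgroup.zpowers z) (g : G) : g * z⁻¹ * g⁻¹ ≠ u := fun e =>
  h.not_conj_noncentral (inv_mem hu) (fun hm => hu' (by simpa using inv_mem hm)) g
    (by rw [← e]; group)

/-- A conjugate of `z` in the Sylow subgroup is `z`. -/
theorem eq_of_conj_mem (h : Base P z) {g : G} (hg : g * z * g⁻¹ ∈ (P : Subgroup G)) :
    g * z * g⁻¹ = z := by
  by_cases hm : g * z * g⁻¹ ∈ Subgroup.zpowers z
  · rcases h.mem_zpowers_iff'.1 hm with e | e | e
    · rw [conj_eq_one_iff] at e
      have := h.ord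
      rw [e, orderOf_one] at this
      omega
    · exact e
    · exact absurd e (h.not_conj_inv g)
  · exact absurd rfl (h.not_conj_noncentral hg hm g)

theorem card_centralizer_not_dvd (h : Base P z) {u : G} (hu : u ∈ (P : Subgroup G))
    (hu' : u ∉ Subgroup.zpowers z) :
    ¬ 27 ∣ Nat.card (Subgroup.centralizer ({u} : Set G)) := by
  intro hd
  haveI : Fact (Nat.Prime 3) := ⟨Nat.prime_three⟩
  set H := Subgroup.centralizer ({u} : Set G) with hH
  obtain ⟨K, hK⟩ := Sylow.exists_subgroup_card_pow_prime 3 (n := 3) (G := H) (by norm_num; exact hd)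
  set Q := K.map H.subtype with hQ
  have hQc : Nat.card Q = 27 := by
    rw [hQ, Subgroup.card_map_of_injective H.subtype_injective, hK]; norm_num
  let Q' : Sylow 3 G := Sylow.ofCard Q (by rw [hQc, ← h.card, ← P.card_eq_multiplicity])
  obtain ⟨g, hg⟩ := MulAction.exists_smul_eq G Q' P
  have hgQ : ∀ x, x ∈ Q ↔ g * x * g⁻¹ ∈ (P : Subgroup G) := fun x => by
    rw [← hg, Sylow.smul_def, Sylow.pointwise_smul_def, Subgroup.mem_pointwise_smul_iff_inv_smul_mem]
    simp [mul_assoc, Q']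
  have hQu : ∀ x ∈ Q, x * u = u * x := fun x hx => by
    obtain ⟨w, -, rfl⟩ := Subgroup.mem_map.1 hx
    exact Subgroup.mem_centralizer_singleton_iff.1 w.2
  -- `u` lies in the conjugate, hence in its centre
  have huQ : u ∈ Q := by
    by_contra hnu
    have huH : u ∈ H := Subgroup.mem_centralizer_singleton_iff.2 rfl
    have hsup : IsPGroup 3 (K ⊔ Subgroup.zpowers (⟨u, huH⟩ : H) : Subgroup H) := by
      haveI : (Subgroup.zpowers (⟨u, huH⟩ : H)).Normal := ⟨fun a ha b => by
        obtain ⟨i, rfl⟩ := Subgroup.mem_zpowers_iff.1 ha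
        have hc : Commute b (⟨u, huH⟩ : H) :=
          Subtype.ext (Subgroup.mem_centralizer_singleton_iff.1 b.2)
        rw [(hc.zpow_right i).eq, mul_inv_cancel_right]
        exact Subgroup.zpow_mem_zpowers _ i⟩
      refine IsPGroup.to_sup_of_normal_right (IsPGroup.of_card hK) ?_
      have hd' : orderOf (⟨u, huH⟩ : H) ∣ 3 :=
        orderOf_dvd_of_pow_eq_one (Subtype.ext (h.exp u hu))
      rcases (Nat.dvd_prime Nat.prime_three).1 hd' with e | e
      · exact IsPGroup.of_card (n := 0) (by rw [Nat.card_zpowers, e, pow_zero])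
      · exact IsPGroup.of_card (n := 1) (by rw [Nat.card_zpowers, e, pow_one])
    obtain ⟨n, hn⟩ := hsup.exists_card_eq
    have hlt : 27 < 3 ^ n := by
      rw [← hn]
      have h27' : Nat.card K = 27 := by rw [hK]; norm_num
      refine lt_of_le_of_ne (h27' ▸ Subgroup.card_le_of_le le_sup_left) fun e => ?_
      have : K = K ⊔ Subgroup.zpowers (⟨u, huH⟩ : H) :=
        Subgroup.eq_of_le_of_card_ge le_sup_left (by rw [← e, hK]; norm_num)
      have hm : (⟨u, huH⟩ : H) ∈ K := by
        rw [this]; exact le_sup_right (a := K) (Subgroup.mem_zpowers _)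
      exact hnu (Subgroup.mem_map.2 ⟨_, hm, rfl⟩)
    have hn4 : 4 ≤ n := by
      by_contra hlt'
      have := Nat.pow_le_pow_right (show 0 < 3 by norm_num) (show n ≤ 3 by omega)
      omega
    have hdvd : 3 ^ n ∣ Nat.card G := (hn ▸ Subgroup.card_subgroup_dvd_card _).trans
      (Subgroup.card_subgroup_dvd_card H)
    have hfac := (Nat.prime_three.pow_dvd_iff_le_factorization Nat.card_pos.ne').1 hdvd
    have h3 : (3 : ℕ) ^ (Nat.card G).factorization 3 = 27 := P.card_eq_multiplicity ▸ h.card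
    have := Nat.pow_le_pow_right (show 0 < 3 by norm_num) (hn4.trans hfac)
    omega
  have hmem : g * u * g⁻¹ ∈ Subgroup.zpowers z := by
    refine h.cen _ ((hgQ u).1 huQ) fun p hp => ?_
    have hx : g⁻¹ * p * g ∈ Q := (hgQ _).2 (by simpa [mul_assoc] using hp)
    calc p * (g * u * g⁻¹) = g * (g⁻¹ * p * g * u) * g⁻¹ := by group
      _ = g * (u * (g⁻¹ * p * g)) * g⁻¹ := by rw [hQu _ hx]
      _ = g * u * g⁻¹ * p := by group
  rcases h.mem_zpowers_iff'.1 hmem with e | e | e
  · rw [conj_eq_one_iff] at e; exact hu' (e ▸ one_mem _)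
  · exact h.not_conj_noncentral hu hu' g⁻¹ (by rw [← e]; group)
  · exact h.not_conj_noncentral' hu hu' g⁻¹ (by rw [← e]; group)

theorem orderOf_eq (h : Base P z) {u : G} (hu : u ∈ (P : Subgroup G))
    (hu' : u ∉ Subgroup.zpowers z) : orderOf u = 3 := by
  haveI : Fact (Nat.Prime 3) := ⟨Nat.prime_three⟩
  exact orderOf_eq_prime (h.exp u hu) fun e => hu' (e ▸ one_mem _)

theorem pair_le (h : Base P z) {u : G} (hu : u ∈ (P : Subgroup G)) :
    Subgroup.closure ({z, u} : Set G) ≤ (P : Subgroup G) ⊓ Subgroup.centralizer ({u} : Set G) := by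
  rw [Subgroup.closure_le]
  intro w hw
  simp only [Set.mem_insert_iff, Set.mem_singleton_iff] at hw
  rcases hw with rfl | rfl
  · exact ⟨h.mem, Subgroup.mem_centralizer_singleton_iff.2 (h.central u hu).symm⟩
  · exact ⟨hu, Subgroup.mem_centralizer_singleton_iff.2 rfl⟩

/-- `z` and `u` generate the centralizer of `u` in the Sylow subgroup, of order nine. -/
theorem card_inf_centralizer (h : Base P z) {u : G} (hu : u ∈ (P : Subgroup G))
    (hu' : u ∉ Subgroup.zpowers z) :
    Nat.card ((P : Subgroup G) ⊓ Subgroup.centralizer ({u} : Set G) : Subgroup G) = 9 ∧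
      Subgroup.closure ({z, u} : Set G) =
        (P : Subgroup G) ⊓ Subgroup.centralizer ({u} : Set G) := by
  have h1 : Nat.card (Subgroup.zpowers z) = 3 := by rw [Nat.card_zpowers, h.ord]
  have hd : Nat.card ((P : Subgroup G) ⊓ Subgroup.centralizer ({u} : Set G) : Subgroup G) ∣ 3 ^ 3 := by
    have := Subgroup.card_dvd_of_le
      (inf_le_left : (P : Subgroup G) ⊓ Subgroup.centralizer ({u} : Set G) ≤ P)
    rw [h.card] at this; simpa using this
  have hne : Nat.card ((P : Subgroup G) ⊓ Subgroup.centralizer ({u} : Set G) : Subgroup G) ≠ 27 :=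
    fun e => h.card_centralizer_not_dvd hu hu' (e ▸ Subgroup.card_dvd_of_le inf_le_right)
  set R := Subgroup.closure ({z, u} : Set G) with hR
  have hzR : Subgroup.zpowers z < R := by
    refine lt_of_le_of_ne (Subgroup.zpowers_le.2 (Subgroup.subset_closure (by simp))) fun e => hu' ?_
    rw [e]; exact Subgroup.subset_closure (by simp)
  have hlt : 3 < Nat.card R := by
    rw [← h1]
    exact lt_of_le_of_ne (Subgroup.card_le_of_le hzR.le)
      fun e => hzR.ne (Subgroup.eq_of_le_of_card_ge hzR.le (by rw [e]))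
  obtain ⟨a, ha, hae⟩ := (Nat.dvd_prime_pow Nat.prime_three).1 hd
  obtain ⟨b, hb, hbe⟩ := (Nat.dvd_prime_pow Nat.prime_three).1
    ((Subgroup.card_dvd_of_le (h.pair_le hu)).trans hd)
  have hab : Nat.card R ≤ 3 ^ a := hae ▸ Subgroup.card_le_of_le (h.pair_le hu)
  have ha2 : a = 2 := by interval_cases a <;> simp_all <;> omega
  have hb2 : b = 2 := by
    have h4 : b ≤ 2 := by
      by_contra hc
      have := Nat.pow_le_pow_right (show 0 < 3 by norm_num) (show 3 ≤ b by omega)
      subst ha2; rw [hbe] at hab; omega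
    rw [hbe] at hlt
    interval_cases b <;> simp_all
  subst ha2 hb2
  exact ⟨by rw [hae]; norm_num, Subgroup.eq_of_le_of_card_ge (h.pair_le hu) (by rw [hae, hbe])⟩

theorem factorization_centralizer (h : Base P z) {u : G} (hu : u ∈ (P : Subgroup G))
    (hu' : u ∉ Subgroup.zpowers z) :
    (Nat.card (Subgroup.centralizer ({u} : Set G))).factorization 3 = 2 := by
  have h1 : 3 ^ 2 ∣ Nat.card (Subgroup.centralizer ({u} : Set G)) := by
    have := Subgroup.card_dvd_of_le
      (inf_le_right : (P : Subgroup G) ⊓ Subgroup.centralizer ({u} : Set G) ≤ _)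
    rw [(h.card_inf_centralizer hu hu').1] at this
    simpa using this
  have h2 := (Nat.prime_three.pow_dvd_iff_le_factorization Nat.card_pos.ne').1 h1
  have h3 : ¬ 3 ≤ (Nat.card (Subgroup.centralizer ({u} : Set G))).factorization 3 := fun e =>
    h.card_centralizer_not_dvd hu hu' (by
      simpa using (Nat.prime_three.pow_dvd_iff_le_factorization Nat.card_pos.ne').2 e)
  omega

/-- The centralizer of a noncentral element has a normal `3`-complement. -/
theorem hasNormalPComplement_centralizer (h : Base P z) {u : G} (hu : u ∈ (P : Subgroup G))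
    (hu' : u ∉ Subgroup.zpowers z) :
    HasNormalPComplement 3 (Subgroup.centralizer ({u} : Set G)) := by
  classical
  haveI : Fact (Nat.Prime 3) := ⟨Nat.prime_three⟩
  set H := Subgroup.centralizer ({u} : Set G) with hH
  set R := (P : Subgroup G) ⊓ H with hR
  have hcR : Nat.card (R.subgroupOf H) = 9 := by
    rw [Nat.card_congr (Subgroup.subgroupOfEquivOfLe inf_le_right).toEquiv]
    exact (h.card_inf_centralizer hu hu').1
  let S : Sylow 3 H := Sylow.ofCard (R.subgroupOf H) (by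
    rw [hcR, h.factorization_centralizer hu hu']; norm_num)
  refine Transfer.hasNormalPComplement_of_normalizer_le_centralizer S fun n hn => ?_
  have hmem : ∀ x : H, x ∈ (S : Subgroup H) ↔ (x : G) ∈ R := fun x => Subgroup.mem_subgroupOf
  replace hn := fun x => (Subgroup.mem_normalizer_iff (H := (S : Subgroup H))).1 hn x
  have hzR : z ∈ R := (h.pair_le hu) (Subgroup.subset_closure (by simp))
  have hnz : (n : G) * z * (n : G)⁻¹ = z := by
    have := (hn ⟨z, hzR.2⟩).1 ((hmem _).2 hzR)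
    exact h.eq_of_conj_mem ((hmem _).1 this).1
  rw [Subgroup.mem_centralizer_iff]
  intro x hx
  have hxR : (x : G) ∈ R := (hmem x).1 hx
  rw [hR, ← (h.card_inf_centralizer hu hu').2] at hxR
  have hle : Subgroup.closure ({z, u} : Set G) ≤ Subgroup.centralizer ({(n : G)} : Set G) := by
    rw [Subgroup.closure_le]
    intro w hw
    simp only [Set.mem_insert_iff, Set.mem_singleton_iff] at hw
    refine Subgroup.mem_centralizer_singleton_iff.2 ?_
    rcases hw with rfl | rfl
    · exact (mul_inv_eq_iff_eq_mul.1 hnz).symm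
    · exact (Subgroup.mem_centralizer_singleton_iff.1 n.2).symm
  exact Subtype.ext (Subgroup.mem_centralizer_singleton_iff.1 (hle hxR))

/-- Fusion of noncentral elements happens in the normalizer, up to the centre. -/
theorem exists_normalizer_conj (h : Base P z) {u u' g : G} (hu : u ∈ (P : Subgroup G))
    (hu' : u ∉ Subgroup.zpowers z) (hv : u' ∈ (P : Subgroup G)) (hv' : u' ∉ Subgroup.zpowers z)
    (hg : g * u * g⁻¹ = u') :
    ∃ n ∈ Subgroup.normalizer ((P : Subgroup G) : Set G), ∃ i : ℕ, n * u * n⁻¹ = z ^ i * u' := by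
  classical
  haveI : Fact (Nat.Prime 3) := ⟨Nat.prime_three⟩
  set H := Subgroup.centralizer ({u'} : Set G) with hH
  have hcard : ∀ K : Subgroup G, K ≤ H → Nat.card K = 9 → ∃ S : Sylow 3 H, (S : Subgroup H) = K.subgroupOf H :=
    fun K hK hc => ⟨Sylow.ofCard (K.subgroupOf H) (by
      rw [Nat.card_congr (Subgroup.subgroupOfEquivOfLe hK).toEquiv, hc,
        h.factorization_centralizer hv hv']; norm_num), rfl⟩
  set R := (P : Subgroup G) ⊓ Subgroup.centralizer ({u} : Set G) with hR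
  set R' := (P : Subgroup G) ⊓ H with hR'
  have hgR : R.map (MulAut.conj g).toMonoidHom ≤ H := by
    rintro _ ⟨w, hw, rfl⟩
    refine Subgroup.mem_centralizer_singleton_iff.2 ?_
    rw [← hg]
    simp only [MulEquiv.coe_toMonoidHom, MulAut.conj_apply]
    calc g * w * g⁻¹ * (g * u * g⁻¹) = g * (w * u) * g⁻¹ := by group
      _ = g * (u * w) * g⁻¹ := by rw [Subgroup.mem_centralizer_singleton_iff.1 hw.2]
      _ = g * u * g⁻¹ * (g * w * g⁻¹) := by group
  obtain ⟨S1, hS1⟩ := hcard _ hgR (by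
    rw [Subgroup.card_map_of_injective (MulAut.conj g).injective]
    exact (h.card_inf_centralizer hu hu').1)
  obtain ⟨S2, hS2⟩ := hcard R' inf_le_right (h.card_inf_centralizer hv hv').1
  obtain ⟨c, hc⟩ := MulAction.exists_smul_eq H S1 S2
  set g' := (c : G) * g with hg'
  have hzR : z ∈ R := (h.pair_le hu) (Subgroup.subset_closure (by simp))
  have hg'z : g' * z * g'⁻¹ = z := by
    refine h.eq_of_conj_mem ?_
    have hz1 : (⟨g * z * g⁻¹, hgR ⟨z, hzR, rfl⟩⟩ : H) ∈ (S1 : Subgroup H) := by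
      rw [hS1, Subgroup.mem_subgroupOf]; exact ⟨z, hzR, rfl⟩
    have hz2 := Subgroup.smul_mem_pointwise_smul _ (MulAut.conj c) _ hz1
    rw [← Sylow.coe_subgroup_smul, hc, hS2, Subgroup.mem_subgroupOf] at hz2
    have := hz2.1
    show g' * z * g'⁻¹ ∈ (P : Subgroup G)
    convert this using 1
    simp [hg', mul_assoc] <;> exact Iff.rfl
  have hg'u : g' * u * g'⁻¹ = u' := by
    rw [hg', show (c : G) * g * u * ((c : G) * g)⁻¹ = (c : G) * (g * u * g⁻¹) * (c : G)⁻¹ by group,
      hg, Subgroup.mem_centralizer_singleton_iff.1 c.2, mul_inv_cancel_right]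
  -- the stabilizer of `z` and of the coset of `u'`
  let K : Subgroup G :=
    { carrier := {x | x * z * x⁻¹ = z ∧ ∃ i : ℕ, x * u' * x⁻¹ = z ^ i * u'}
      one_mem' := ⟨by simp, 0, by simp⟩
      mul_mem' := by
        rintro a b ⟨ha, i, hi⟩ ⟨hb, j, hj⟩
        refine ⟨by rw [show a * b * z * (a * b)⁻¹ = a * (b * z * b⁻¹) * a⁻¹ by group, hb, ha],
          i + j, ?_⟩
        rw [show a * b * u' * (a * b)⁻¹ = a * (b * u' * b⁻¹) * a⁻¹ by group, hj,
          show a * (z ^ j * u') * a⁻¹ = (a * z * a⁻¹) ^ j * (a * u' * a⁻¹) by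
            rw [conj_pow]; group, ha, hi, ← mul_assoc, ← pow_add, add_comm]
      inv_mem' := by
        rintro a ⟨ha, i, hi⟩
        have ha' : a⁻¹ * z * a⁻¹⁻¹ = z := by
          calc a⁻¹ * z * a⁻¹⁻¹ = a⁻¹ * (a * z * a⁻¹) * a := by rw [ha, inv_inv]
            _ = z := by group
        refine ⟨ha', 2 * i, ?_⟩
        have e1 : a⁻¹ * (z ^ i * u') * a⁻¹⁻¹ = u' := by rw [← hi]; group
        rw [show a⁻¹ * (z ^ i * u') * a⁻¹⁻¹ = (a⁻¹ * z * a⁻¹⁻¹) ^ i * (a⁻¹ * u' * a⁻¹⁻¹) by
          rw [conj_pow]; group, ha'] at e1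
        calc a⁻¹ * u' * a⁻¹⁻¹ = z ^ (2 * i) * (z ^ i * (a⁻¹ * u' * a⁻¹⁻¹)) := by
              rw [← mul_assoc, ← pow_add, show 2 * i + i = 3 * i by ring, pow_mul, h.z_cube,
                one_pow, one_mul]
          _ = z ^ (2 * i) * u' := by rw [e1] }
  have hPK : (P : Subgroup G) ≤ K := fun p hp =>
    ⟨by rw [h.central p hp, mul_inv_cancel_right], h.conjz p hp u' hv⟩
  have hgPK : (g' • P : Sylow 3 G) ≤ K := by
    intro x hx
    rw [Sylow.smul_def, Sylow.pointwise_smul_def, Subgroup.mem_pointwise_smul_iff_inv_smul_mem] at hx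
    simp only [map_inv, MulAut.smul_def, MulAut.conj_inv_apply] at hx
    set p := g'⁻¹ * x * g' with hp
    have hxp : x = g' * p * g'⁻¹ := by rw [hp]; group
    obtain ⟨i, hi⟩ := h.conjz p hx u hu
    refine ⟨?_, i, ?_⟩
    · rw [hxp, ← hg'z]
      calc g' * p * g'⁻¹ * (g' * z * g'⁻¹) * (g' * p * g'⁻¹)⁻¹ = g' * (p * z * p⁻¹) * g'⁻¹ := by group
        _ = g' * z * g'⁻¹ := by rw [h.central p hx, mul_inv_cancel_right]
    · rw [hxp, ← hg'u]
      calc g' * p * g'⁻¹ * (g' * u * g'⁻¹) * (g' * p * g'⁻¹)⁻¹ = g' * (p * u * p⁻¹) * g'⁻¹ := by group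
        _ = (g' * z * g'⁻¹) ^ i * (g' * u * g'⁻¹) := by rw [hi, conj_pow]; group
        _ = z ^ i * (g' * u * g'⁻¹) := by rw [hg'z]
  obtain ⟨d, hd⟩ := MulAction.exists_smul_eq K ((g' • P).subtype hgPK) (P.subtype hPK)
  rw [Sylow.smul_subtype] at hd
  have hd' : (d : G) • (g' • P) = P := Sylow.subtype_injective hd
  refine ⟨(d : G) * g', ?_, ?_⟩
  · exact Sylow.smul_eq_iff_mem_normalizer.1 ((mul_smul _ _ _).trans hd')
  · obtain ⟨-, i, hi⟩ := d.2
    refine ⟨i, ?_⟩
    rw [← hi, ← hg'u]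
    group

end Base

end CfsgLib.Blocks.Extraspecial27
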