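import Cfsg.Agent.Blocks.Extraspecial27.Lam

/-!
# Generalized characters on the central sections
-/

set_option autoImplicit false
set_option linter.style.haveILetI false
set_option linter.unusedSectionVars false

namespace CfsgLib.Blocks.Extraspecial27

open Cfsg CfsgLib CfsgLib.Blocks
open scoped ComplexConjugate

universe u

variable {K : Type u} [Group K] [Fintype K] {z : K} {M : Ideal AlgInt}

/-- The inner product of a generalized character with a character is an integer. -/
theorem exists_int_inner {a b : K → ℂ} (ha : IsGeneralizedCharacter K a) (hb : IsCharacter K b) :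
    ∃ n : ℤ, classInner a b = n := by
  obtain ⟨c, d, hc, hd, rfl⟩ := ha
  obtain ⟨k, hk⟩ := Chars.exists_nat_classInner' hc hb
  obtain ⟨l, hl⟩ := Chars.exists_nat_classInner' hd hb
  exact ⟨(k : ℤ) - l, by rw [Chars.classInner_sub_left, hk, hl]; push_cast; rfl⟩

/-- A sum invariant under a central element of order three. -/
theorem three_dvd_sum {A : Type u} [Group A] [Fintype A] {a : A} (hord : orderOf a = 3)
    (ha : a ∈ Subgroup.center A) (g : A → ℤ) (hg : ∀ t, g (a * t) = g t) : (3 : ℤ) ∣ ∑ t, g t := by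
  classical
  set Z := Subgroup.zpowers a
  have hpow : ∀ (i : ℕ) (t : A), g (a ^ i * t) = g t := fun i t => by
    induction i with
    | zero => simp
    | succ i ih => rw [pow_succ', mul_assoc, hg, ih]
  have h : ∑ t, g t = ∑ x : (A ⧸ Z) × Z, g x.1.out := by
    refine Fintype.sum_equiv (Subgroup.groupEquivQuotientProdSubgroup (s := Z)) _ _ fun t => ?_
    set x := Subgroup.groupEquivQuotientProdSubgroup (s := Z) t with hx
    have hmem : (x.1.out)⁻¹ * t ∈ Z := by
      rw [← QuotientGroup.eq, QuotientGroup.out_eq', hx]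
      rfl
    rw [mem_zpowers_iff_mem_range_orderOf] at hmem
    obtain ⟨i, -, hi⟩ := Finset.mem_image.1 hmem
    calc g t = g (x.1.out * a ^ i) := by rw [hi]; simp
      _ = g x.1.out := by
        rw [Subgroup.mem_center_iff.1 (pow_mem ha i) x.1.out, hpow]
  rw [h, Fintype.sum_prod_type]
  refine Finset.dvd_sum fun q _ => ?_
  simp only [Finset.sum_const, Finset.card_univ, nsmul_eq_mul]
  rw [← Nat.card_eq_fintype_card, Nat.card_zpowers, hord]
  exact dvd_mul_right _ _

theorem ppart_coe (E : Subgroup K) [Fintype E] (e : E) : ppart 3 (e : K) = ((ppart 3 e : E) : K) := by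
  haveI : Fact (Nat.Prime 3) := ⟨Nat.prime_three⟩
  obtain ⟨w, hw, hcomm, ⟨k, hk⟩, hreg⟩ := isPPart_ppart (p := 3) e
  refine ppart_eq ⟨(w : K), ?_, hcomm.map E.subtype, ⟨k, ?_⟩, ?_⟩
  · rw [← Subgroup.coe_mul, hw]
  · rw [Subgroup.orderOf_coe, hk]
  · simpa [IsPRegular, Subgroup.orderOf_coe] using hreg

theorem wt_coe (E : Subgroup K) [Fintype E] (hzE : z ∈ E) (c : Fin 3 → ℂ) (e : E) :
    wt z c (e : K) = wt (⟨z, hzE⟩ : E) c e := by
  classical
  simp only [wt]
  have h : ∀ w : E, ppart 3 (e : K) = (w : K) ↔ ppart 3 e = w := fun w => by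
    rw [ppart_coe, Subtype.ext_iff]
  have h0 := h 1
  have h1 := h ⟨z, hzE⟩
  have h2 := h (⟨z, hzE⟩ ^ 2)
  simp only [Subgroup.coe_one, SubgroupClass.coe_pow] at h0 h1 h2
  by_cases a0 : ppart 3 e = 1
  · rw [if_pos (h0.2 a0), if_pos a0]
  rw [if_neg (mt h0.1 a0), if_neg a0]
  by_cases a1 : ppart 3 e = ⟨z, hzE⟩
  · rw [if_pos (h1.2 a1), if_pos a1]
  rw [if_neg (mt h1.1 a1), if_neg a1]
  by_cases a2 : ppart 3 e = ⟨z, hzE⟩ ^ 2
  · rw [if_pos (h2.2 a2), if_pos a2]
  rw [if_neg (mt h2.1 a2), if_neg a2]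

namespace Classes

variable {P : Sylow 3 K} {m : ℕ} {xs : Fin m → K} (hc : Classes P z xs) (hz : z ∈ Subgroup.center K)
include hc hz

set_option maxHeartbeats 1000000 in
theorem phi_gen_nilpotent (hM : IsPModular 3 M) {ω : ℂ} (hω : IsPrimitiveRoot ω 3)
    (μ : IrrCharacter K → ℤ) (ν : Fin m → ℤ)
    (hν : ∀ j, ∑ ψ ∈ (bar M z).toFinite.toFinset, (μ ψ : ℂ) * (ψ : K → ℂ) (xs j) = 3 * (ν j : ℂ))
    (E : Subgroup K) [Fintype E] [Group.IsNilpotent E] (hzE : z ∈ E) :
    IsGeneralizedCharacter E (fun e : E => phi M z ![1, ω, ω ^ 2] μ e) := by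
  classical
  haveI : Fact (Nat.Prime 3) := ⟨Nat.prime_three⟩
  set zE : E := ⟨z, hzE⟩ with hzEdef
  have hzEc : zE ∈ Subgroup.center E :=
    Subgroup.mem_center_iff.2 fun g => Subtype.ext (Subgroup.mem_center_iff.1 hz g)
  have hoE : orderOf zE = 3 := by rw [hzEdef, Subgroup.orderOf_mk]; exact hc.base.ord
  set a := (Nat.card E).factorization 3
  set m' := Nat.card E / 3 ^ a
  have hm' : ¬ 3 ∣ m' := Nat.not_dvd_ordCompl Nat.prime_three Nat.card_pos.ne'
  have hcop : Nat.Coprime (3 ^ a) m' :=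
    Nat.Coprime.pow_left a ((Nat.prime_three.coprime_iff_not_dvd).mpr hm')
  have hEd : Nat.card E ∣ 3 ^ a * m' := (Nat.ordProj_mul_ordCompl_eq_self _ 3).symm.dvd
  set q : E →* E := Chars.Brauer.piHom hcop hEd with hq
  have hqreg : ∀ e : E, IsPRegular 3 (q e) := fun e h =>
    hm' (h.trans (orderOf_dvd_of_pow_eq_one (Chars.Brauer.pow_piExp_pow hcop hEd e)))
  have hqfix : ∀ e : E, IsPRegular 3 e → q e = e := fun e he =>
    Chars.Brauer.pow_piExp_of_pow_right hcop (Chars.Brauer.pow_right_of_coprime hEd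
      (Nat.Coprime.pow_right a ((Nat.prime_three.coprime_iff_not_dvd).mpr he).symm))
  have hqpp : ∀ e : E, (∃ k : ℕ, orderOf e = 3 ^ k) → q e = 1 := fun e ⟨k, hk⟩ =>
    Chars.Brauer.pow_piExp_of_pow_left hcop (Chars.Brauer.pow_left_of_coprime hEd
      (by rw [hk]; exact Nat.Coprime.pow_left k ((Nat.prime_three.coprime_iff_not_dvd).mpr hm')))
  have hsplit : ∀ e : E, ppart 3 e * q e = e := fun e => by
    obtain ⟨w, hw, -, hpp, hreg⟩ := isPPart_ppart (p := 3) e
    conv_lhs => arg 2; rw [← hw]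
    rw [map_mul, hqpp _ hpp, one_mul, hqfix w hreg, hw]
  have hker : ∀ t ∈ q.ker, ppart 3 t = t := fun t ht => by
    have := hsplit t
    rwa [MonoidHom.mem_ker.1 ht, mul_one] at this
  have hppker : ∀ e : E, ppart 3 e ∈ q.ker := fun e => by
    obtain ⟨w, -, -, hpp, -⟩ := isPPart_ppart (p := 3) e
    exact hqpp _ hpp
  have hpppow : ∀ t ∈ q.ker, ∃ k : ℕ, orderOf t = 3 ^ k := fun t ht => by
    obtain ⟨w, -, -, hpp, -⟩ := isPPart_ppart (p := 3) t
    rwa [hker t ht] at hpp
  have hppmul : ∀ t ∈ q.ker, ∀ u : E, IsPRegular 3 u → Commute t u := fun t ht u hu => by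
    have h1 : IsPRegular 3 (t * u * t⁻¹) := (isPRegular_conj_iff t u).2 hu
    have h2 := hqfix _ h1
    rw [map_mul, map_mul, map_inv, MonoidHom.mem_ker.1 ht, one_mul, inv_one, mul_one,
      hqfix u hu] at h2
    exact (mul_inv_eq_iff_eq_mul.1 h2.symm)
  -- sums over `E`
  have hsum : ∀ F : E → ℂ, ∑ e, F e = ∑ t : q.ker, ∑ u ∈ regSet 3 E, F ((t : E) * u) := by
    intro F
    rw [← Finset.sum_product' (s := (Finset.univ : Finset q.ker)) (t := regSet 3 E)
      (f := fun (t : q.ker) u => F ((t : E) * u))]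
    refine Finset.sum_bij' (fun e _ => (⟨ppart 3 e, hppker e⟩, q e)) (fun x _ => (x.1 : E) * x.2)
      (fun e _ => Finset.mem_product.2 ⟨Finset.mem_univ _, mem_regSet.2 (hqreg e)⟩)
      (fun _ _ => Finset.mem_univ _) (fun e _ => hsplit e) (fun x hx => ?_)
      (fun e _ => by rw [hsplit e])
    have hu : IsPRegular 3 x.2 := mem_regSet.1 (Finset.mem_product.1 hx).2
    refine Prod.ext (Subtype.ext ?_) ?_
    · exact ppart_mul (hppmul _ x.1.2 _ hu) (hpppow _ x.1.2) hu
    · show q ((x.1 : E) * x.2) = x.2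
      rw [map_mul, MonoidHom.mem_ker.1 x.1.2, one_mul, hqfix _ hu]
  -- the coefficient
  refine Chars.Brauer.gen_of_int_coeff (fun g h => ?_) fun η => ?_
  · show phi M z _ μ ((h * g * h⁻¹ : E) : K) = _
    simpa using phi_isClassFunction hz ![1, ω, ω ^ 2] μ (g : K) (h : K)
  set L : E → ℂ := fun e => lam M z μ e with hL
  have hphi : (fun e : E => phi M z ![1, ω, ω ^ 2] μ e) =
      fun e => wt zE ![1, ω, ω ^ 2] e * L e := by
    funext e; rw [phi, wt_coe E hzE]
  have hLz : ∀ (i : ℕ) (e : E), L (zE ^ i * e) = L e := fun i e => by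
    simp only [hL, Subgroup.coe_mul, SubgroupClass.coe_pow]
    exact lam_pow_mul hz μ i _
  set ρ := (η : E → ℂ) zE / (η : E → ℂ) 1
  have hmul : ∀ (i : ℕ) (g : E), (η : E → ℂ) (zE ^ i * g) = ρ ^ i * (η : E → ℂ) g := fun i g => by
    induction i with
    | zero => simp
    | succ i ih =>
      rw [pow_succ', mul_assoc, Chars.map_mul_of_mem_center η hzEc, ih, pow_succ', mul_assoc]
  have hzE3 : zE ^ 3 = 1 := hoE ▸ pow_orderOf_eq_one zE
  have hρ3 : ρ ^ 3 = 1 := by
    have h := hmul 3 1
    rw [hzE3, one_mul] at h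
    exact (mul_eq_right₀ (Chars.map_one_ne_zero η)).1 h.symm
  set S := ∑ u ∈ regSet 3 E, L u * conj ((η : E → ℂ) u) with hS
  have hmain : (Nat.card E : ℂ) * classInner (fun e : E => phi M z ![1, ω, ω ^ 2] μ e) (η : E → ℂ) =
      (∑ i : Fin 3, (ω * conj ρ) ^ (i : ℕ)) * S := by
    simp only [classInner]
    rw [mul_inv_cancel_left₀ Chars.natCard_ne_zero, Finset.sum_congr rfl fun e _ => by
      rw [congrFun hphi e, mul_assoc], sum_wt_mul hzEc hoE _ (fun e => L e * conj ((η : E → ℂ) e)),
      Finset.sum_mul]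
    refine Finset.sum_congr rfl fun i _ => ?_
    have hci : (![1, ω, ω ^ 2] : Fin 3 → ℂ) i = ω ^ (i : ℕ) := by fin_cases i <;> simp
    rw [hci, hS, Finset.mul_sum, Finset.mul_sum]
    refine Finset.sum_congr rfl fun u _ => ?_
    rw [hLz, hmul, map_mul, map_pow, mul_pow]
    ring
  have hρnorm : ρ * conj ρ = 1 := by
    rw [Complex.mul_conj, Complex.normSq_eq_norm_sq,
      Complex.norm_eq_one_of_pow_eq_one hρ3 (by norm_num)]
    norm_num
  by_cases hρω : ρ = ω
  swap
  · refine ⟨0, mul_left_cancel₀ (Chars.natCard_ne_zero (G := E)) ?_⟩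
    rw [hmain, Int.cast_zero, mul_zero]
    refine mul_eq_zero_of_left ?_ _
    set x := ω * conj ρ with hxdef
    have hx3 : x ^ 3 = 1 := by
      rw [hxdef, mul_pow, hω.pow_eq_one, ← map_pow, hρ3, map_one, one_mul]
    have hx1 : x ≠ 1 := fun e => hρω (by
      calc ρ = ρ * x := by rw [e, mul_one]
        _ = ω * (ρ * conj ρ) := by rw [hxdef]; ring
        _ = ω := by rw [hρnorm, mul_one])
    have : (x - 1) * (1 + x + x ^ 2) = 0 := by linear_combination hx3
    simp only [Fin.sum_univ_three, Fin.val_zero, Fin.val_one, Fin.val_two, pow_zero, pow_one]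
    exact (mul_eq_zero.1 this).resolve_left (sub_ne_zero.2 hx1)
  -- the case `ρ = ω`
  have hsum3 : (∑ i : Fin 3, (ω * conj ρ) ^ (i : ℕ)) = 3 := by
    rw [← hρω, hρnorm]; simp
  rw [hsum3] at hmain
  obtain ⟨N, hN⟩ := exists_int_inner (Chars.Brauer.gen_restrict (lam_gen μ) E)
    (Chars.isCharacter_comp (Chars.isCharacter_coe η) q)
  -- the noncentral part
  set f : E → ℂ := fun e => L e - wt zE (fun _ => 1) e * L e with hf
  have hfcases : ∀ e : E, (∃ i : Fin 3, ppart 3 e = zE ^ (i : ℕ)) ∧ f e = 0 ∨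
      (∀ i : Fin 3, ppart 3 e ≠ zE ^ (i : ℕ)) ∧
        ∃ j, IsConj (xs j) ((ppart 3 e : E) : K) ∧ f e = 3 * (ν j : ℂ) ∧
          f (ppart 3 e) = 3 * (ν j : ℂ) := by
    intro e
    by_cases h : ∃ i : Fin 3, ppart 3 e = zE ^ (i : ℕ)
    · refine Or.inl ⟨h, ?_⟩
      obtain ⟨i, hi⟩ := h
      have he : e = zE ^ (i : ℕ) * q e := by rw [← hi, hsplit]
      rw [hf]
      simp only
      rw [he, wt_pow_mul hzEc hoE _ i (hqreg e), one_mul, sub_self]
    · push Not at h
      refine Or.inr ⟨h, ?_⟩
      have hwt : ∀ d : E, ppart 3 d = ppart 3 e → wt zE (fun _ => (1 : ℂ)) d = 0 := fun d hd => by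
        have h0 := h 0; have h1 := h 1; have h2 := h 2
        simp at h0 h1 h2
        simp [wt, hd, h0, h1, h2]
      obtain ⟨j, hj⟩ := hc.exists_of_not_central hz (y := (e : K)) fun i hi => h i (Subtype.ext (by
        rw [← ppart_coe, hi]; rfl))
      rw [ppart_coe] at hj
      have hpe : ppart 3 (ppart 3 e) = ppart 3 e := hker _ (hppker e)
      refine ⟨j, hj, ?_, ?_⟩
      · rw [hf]; simp only
        rw [hwt e rfl, zero_mul, sub_zero, hL]
        simp only
        rw [hc.lam_of_conj hM μ (by rw [ppart_coe]; exact hj), hν j]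
      · rw [hf]; simp only
        rw [hwt _ hpe, zero_mul, sub_zero, hL]
        simp only
        rw [hc.lam_of_conj hM μ (by rw [ppart_coe, hpe]; exact hj), hν j]
  have hfp : ∀ e : E, f e = f (ppart 3 e) := fun e => by
    rcases hfcases e with ⟨⟨i, hi⟩, h0⟩ | ⟨-, j, -, h1, h2⟩
    · rcases hfcases (ppart 3 e) with ⟨-, h0'⟩ | ⟨hh, -⟩
      · rw [h0, h0']
      · exact absurd ((hker _ (hppker e)).trans hi) (hh i)
    · rw [h1, h2]
  have hf3 : ∀ e : E, ∃ n : ℤ, f e = 3 * (n : ℂ) := fun e => by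
    rcases hfcases e with ⟨-, h0⟩ | ⟨-, j, -, h1, -⟩
    · exact ⟨0, by rw [h0]; simp⟩
    · exact ⟨ν j, h1⟩
  choose n hn using hf3
  have hzker : zE ∈ q.ker := hqpp _ ⟨1, by rw [hoE, pow_one]⟩
  have hninv : ∀ t : q.ker, n ((⟨zE, hzker⟩ * t : q.ker) : E) = n (t : E) := by
    intro t
    have hft : f (zE * t) = f t := by
      rw [hf]
      simp only
      have e1 : L (zE * t) = L t := by simpa using hLz 1 t
      have e2 : wt zE (fun _ => (1 : ℂ)) (zE * t) = wt zE (fun _ => (1 : ℂ)) (t : E) := by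
        have hk : ∀ d ∈ q.ker, wt zE (fun _ => (1 : ℂ)) d =
            if d ∈ Subgroup.zpowers zE then 1 else 0 := by
          intro d hd
          rw [wt, hker d hd]
          have : d ∈ Subgroup.zpowers zE ↔ d = 1 ∨ d = zE ∨ d = zE ^ 2 := by
            constructor
            · intro hd'
              rw [mem_zpowers_iff_mem_range_orderOf, hoE] at hd'
              obtain ⟨i, hi, rfl⟩ := Finset.mem_image.1 hd'
              rw [Finset.mem_range] at hi
              interval_cases i
              exacts [Or.inl (pow_zero _), Or.inr (Or.inl (pow_one _)), Or.inr (Or.inr rfl)]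
            · rintro (rfl | rfl | rfl)
              exacts [one_mem _, Subgroup.mem_zpowers _, Subgroup.npow_mem_zpowers _ _]
          by_cases hdz : d ∈ Subgroup.zpowers zE
          · rw [if_pos hdz]
            rcases this.1 hdz with e | e | e
            · rw [if_pos e]
            · by_cases e0 : d = 1
              · rw [if_pos e0]
              · rw [if_neg e0, if_pos e]
            · by_cases e0 : d = 1
              · rw [if_pos e0]
              · by_cases e1 : d = zE
                · rw [if_neg e0, if_pos e1]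
                · rw [if_neg e0, if_neg e1, if_pos e]
          · rw [this] at hdz
            push Not at hdz
            rw [if_neg hdz.1, if_neg hdz.2.1, if_neg hdz.2.2,
              if_neg (fun h => absurd (this.1 h) (by tauto))]
        rw [hk _ (mul_mem hzker t.2), hk _ t.2]
        simp only [Subgroup.mul_mem_cancel_left _ (Subgroup.mem_zpowers zE)]
      rw [e1, e2]
    rw [Subgroup.coe_mul]
    exact_mod_cast mul_left_cancel₀ (by norm_num : (3 : ℂ) ≠ 0)
      ((hn _).symm.trans (hft.trans (hn _)))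
  obtain ⟨n', hn'⟩ := three_dvd_sum (A := q.ker) (a := ⟨zE, hzker⟩)
    (by rw [Subgroup.orderOf_mk]; exact hoE)
    (Subgroup.mem_center_iff.2 fun g => Subtype.ext (Subgroup.mem_center_iff.1 hzEc g))
    (fun t => n (t : E)) hninv
  set C := ∑ u ∈ regSet 3 E, conj ((η : E → ℂ) u) with hC
  have hinner : (Nat.card E : ℂ) * N = 3 * S + 9 * (n' : ℂ) * C := by
    rw [← hN]
    simp only [classInner]
    rw [mul_inv_cancel_left₀ Chars.natCard_ne_zero]
    calc ∑ e : E, lam M z μ e * conj ((η : E → ℂ) (q e))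
        = (∑ e : E, wt zE (fun _ => (1 : ℂ)) e * (L e * conj ((η : E → ℂ) (q e)))) +
            ∑ e : E, f e * conj ((η : E → ℂ) (q e)) := by
          rw [← Finset.sum_add_distrib]
          exact Finset.sum_congr rfl fun e _ => by rw [hf, hL]; ring
      _ = 3 * S + 9 * (n' : ℂ) * C := by
          congr 1
          · rw [sum_wt_mul hzEc hoE, Finset.sum_congr rfl fun i _ => by
              rw [Finset.sum_congr rfl fun u hu => by
                rw [hLz, map_mul q, map_pow, MonoidHom.mem_ker.1 hzker, one_pow, one_mul,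
                  hqfix u (mem_regSet.1 hu)], one_mul]]
            rw [Finset.sum_const, Finset.card_univ, Fintype.card_fin, nsmul_eq_mul, hS]
            norm_num
          · rw [hsum, Finset.sum_congr rfl fun t _ => Finset.sum_congr rfl fun u hu => by
              rw [map_mul q, MonoidHom.mem_ker.1 t.2, one_mul, hqfix u (mem_regSet.1 hu), hfp,
                ppart_mul (hppmul _ t.2 _ (mem_regSet.1 hu)) (hpppow _ t.2) (mem_regSet.1 hu), hn]]
            rw [Finset.sum_congr rfl fun t _ => (Finset.mul_sum _ _ _).symm, ← Finset.sum_mul,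
              ← Finset.mul_sum, ← Int.cast_sum, hn', hC]
            push_cast
            ring
  -- the regular sum
  have hrange : ∀ u : E, u ∈ regSet 3 E ↔ u ∈ q.range := fun u => by
    rw [mem_regSet]
    exact ⟨fun h => ⟨u, hqfix u h⟩, by rintro ⟨v, rfl⟩; exact hqreg v⟩
  have hnorm : q.range.Normal := ⟨fun x hx y => by
    rw [← hrange, mem_regSet] at hx ⊢
    exact (isPRegular_conj_iff y x).2 hx⟩
  haveI : Fintype q.range := Fintype.ofFinite _
  have hprod : Nat.card q.ker * Nat.card q.range = Nat.card E := by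
    have h1 := q.ker.card_mul_index
    rwa [Subgroup.index_ker] at h1
  have hp3 : IsPGroup 3 q.ker := fun t => by
    obtain ⟨k, hk⟩ := hpppow _ t.2
    exact ⟨k, Subtype.ext (by rw [Subgroup.coe_pow, Subgroup.coe_one, ← hk, pow_orderOf_eq_one])⟩
  obtain ⟨j, hj⟩ := IsPGroup.iff_card.mp hp3
  have hj3 : j ≤ 3 := by
    have h1 : 3 ^ j ∣ Nat.card K :=
      hj ▸ (Subgroup.card_subgroup_dvd_card _).trans (Subgroup.card_subgroup_dvd_card E)
    have h2 := (Nat.Prime.pow_dvd_iff_le_factorization Nat.prime_three Nat.card_pos.ne').1 h1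
    have h3 := hc.base.card
    rw [P.card_eq_multiplicity] at h3
    have h4 : (Nat.card K).factorization 3 = 3 :=
      Nat.pow_right_injective (le_refl 2) |> fun _ => (Nat.pow_right_injective (by norm_num : 2 ≤ 3)
        (h3.trans (by norm_num : 27 = 3 ^ 3)))
    omega
  have hQ0 : (Nat.card q.range : ℂ) ≠ 0 := Nat.cast_ne_zero.2 Nat.card_pos.ne'
  have hCq : C = ∑ u : q.range, conj ((η : E → ℂ) u) :=
    Finset.sum_subtype _ hrange _
  by_cases hk : q.range ≤ Chars.charKer (η : E → ℂ)
  swap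
  · have hC0 : C = 0 := by
      rw [hCq, ← map_sum]
      have := Chars.sum_coset_eq_zero q.range η hk 1
      simp only [one_mul] at this
      rw [this, map_zero]
    refine ⟨N, mul_left_cancel₀ (Chars.natCard_ne_zero (G := E)) ?_⟩
    rw [hmain, hinner, hC0]; ring
  have hηu : ∀ u ∈ regSet 3 E, (η : E → ℂ) u = (η : E → ℂ) 1 := fun u hu => by
    exact (Chars.mem_charKer_iff (Chars.isCharacter_coe η)).1 (hk ((hrange u).1 hu))
  set d := charDegree (η : E → ℂ) with hd
  have hd1 : (η : E → ℂ) 1 = (d : ℂ) := (Chars.coe_charDegree η).symm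
  have hRcard : ((regSet 3 E).card : ℂ) = (Nat.card q.range : ℂ) := by
    rw [Nat.card_eq_fintype_card, Fintype.card_of_subtype _ hrange]
  have hC1 : C = (Nat.card q.range : ℂ) * d := by
    rw [hC, Finset.sum_congr rfl fun u hu => by rw [hηu u hu, hd1], Finset.sum_const, nsmul_eq_mul,
      map_natCast, hRcard]
  -- divisibility
  obtain ⟨r, hr⟩ : ∃ r : ℤ, 9 * n' * (d : ℤ) = (3 ^ j : ℕ) * r := by
    rcases Nat.lt_or_ge j 3 with hlt | hge
    · obtain ⟨s, hs⟩ : 3 ^ j ∣ 9 := (Nat.pow_dvd_pow 3 (show j ≤ 2 by omega)).trans (by norm_num)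
      refine ⟨(s : ℤ) * n' * d, ?_⟩
      rw [show (9 : ℤ) = ((3 ^ j * s : ℕ) : ℤ) by rw [← hs]; rfl]
      push_cast; ring
    · have hj' : j = 3 := by omega
      subst hj'
      -- `η` vanishes off the centre of the Sylow subgroup
      set T := q.ker.map E.subtype with hT
      have hTc : Nat.card T = 27 := by
        rw [hT, Nat.card_congr (Subgroup.equivMapOfInjective q.ker E.subtype
          E.subtype_injective).symm.toEquiv, hj]
        norm_num
      let T' : Sylow 3 K := Sylow.ofCard T (by rw [hTc, ← hc.base.card, ← P.card_eq_multiplicity])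
      obtain ⟨c, hcT⟩ := MulAction.exists_smul_eq K T' P
      have hTP : ∀ t : K, t ∈ T ↔ c * t * c⁻¹ ∈ (P : Subgroup K) := fun t => by
        rw [← hcT]
        exact (Subgroup.smul_mem_pointwise_smul_iff (a := MulAut.conj c) (S := T) (x := t)).symm
      have hvan : ∀ t ∈ q.ker, t ∉ Subgroup.zpowers zE → ∀ u ∈ regSet 3 E,
          (η : E → ℂ) (t * u) = 0 := by
        intro t ht htn u hu
        have hcz : c * z * c⁻¹ = z := by rw [Subgroup.mem_center_iff.1 hz c, mul_inv_cancel_right]
        have hmemP : c * (t : K) * c⁻¹ ∈ (P : Subgroup K) := (hTP _).1 ⟨t, ht, rfl⟩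
        have hnot : c * (t : K) * c⁻¹ ∉ Subgroup.zpowers z := fun hm => by
          rw [mem_zpowers_iff_mem_range_orderOf] at hm
          obtain ⟨i, -, hi⟩ := Finset.mem_image.1 hm
          refine htn ?_
          have : (t : K) = z ^ i := by
            calc (t : K) = c⁻¹ * (c * t * c⁻¹) * c := by group
              _ = z ^ i := by
                rw [← hi, mul_assoc, ← Subgroup.mem_center_iff.1 (pow_mem hz i) c,
                  inv_mul_cancel_left]
          rw [show t = zE ^ i from Subtype.ext (by rw [this]; rfl)]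
          exact Subgroup.npow_mem_zpowers _ _
        obtain ⟨p, hp, hpt⟩ := hc.base.exists_conj_mul hmemP hnot 1
        rw [pow_one] at hpt
        obtain ⟨y, hy, hyp⟩ : c⁻¹ * p * c ∈ T := (hTP _).2 (by
          rw [show c * (c⁻¹ * p * c) * c⁻¹ = p by group]; exact hp)
        have hyt : y * t * y⁻¹ = zE * t := Subtype.ext (by
          simp only [Subgroup.coe_mul, Subgroup.coe_inv]
          rw [show (y : K) = c⁻¹ * p * c from hyp]
          calc c⁻¹ * p * c * t * (c⁻¹ * p * c)⁻¹ = c⁻¹ * (p * (c * t * c⁻¹) * p⁻¹) * c := by group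
            _ = z * t := by
              rw [hpt, show c⁻¹ * (z * (c * t * c⁻¹)) * c = c⁻¹ * z * c * t by group,
                mul_assoc c⁻¹, ← Subgroup.mem_center_iff.1 hz c, inv_mul_cancel_left])
        have hyu : y * u * y⁻¹ = u := by
          rw [(hppmul y hy u (mem_regSet.1 hu)).eq, mul_inv_cancel_right]
        have e : (η : E → ℂ) (t * u) = ω * (η : E → ℂ) (t * u) := by
          conv_lhs => rw [← irrCharacter_conj η (t * u) y,
            show y * (t * u) * y⁻¹ = y * t * y⁻¹ * (y * u * y⁻¹) by group, hyt, hyu, mul_assoc,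
            ← pow_one zE, hmul 1, pow_one, hρω]
        by_contra hne
        exact hω.ne_one (by norm_num) ((mul_eq_right₀ hne).1 e.symm)
      have hsq : (Nat.card E : ℂ) = 3 * ((Nat.card q.range : ℂ) * (d : ℂ) ^ 2) := by
        have h1 := Chars.classInner_self η
        simp only [classInner] at h1
        rw [inv_mul_eq_one₀ Chars.natCard_ne_zero] at h1
        rw [h1, hsum]
        rw [← Finset.sum_subset (Finset.subset_univ (Finset.univ.filter fun t : q.ker =>
          (t : E) ∈ Subgroup.zpowers zE)) fun t _ ht => Finset.sum_eq_zero fun u hu => by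
            rw [hvan t t.2 (fun h => ht (Finset.mem_filter.2 ⟨Finset.mem_univ _, h⟩)) u hu,
              zero_mul]]
        have hval : ∀ t : q.ker, (t : E) ∈ Subgroup.zpowers zE →
            ∑ u ∈ regSet 3 E, (η : E → ℂ) ((t : E) * u) * conj ((η : E → ℂ) ((t : E) * u)) =
              (Nat.card q.range : ℂ) * (d : ℂ) ^ 2 := by
          intro t ht
          rw [mem_zpowers_iff_mem_range_orderOf] at ht
          obtain ⟨i, -, hi⟩ := Finset.mem_image.1 ht
          rw [← hi, Finset.sum_congr rfl fun u hu => by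
            rw [hmul, hηu u hu, hd1, map_mul, map_pow, map_natCast,
              show ρ ^ i * (d : ℂ) * (conj ρ ^ i * d) = (ρ * conj ρ) ^ i * (d : ℂ) ^ 2 by ring,
              hρnorm, one_pow, one_mul], Finset.sum_const, nsmul_eq_mul, hRcard]
        rw [Finset.sum_congr rfl fun t ht => hval t (Finset.mem_filter.1 ht).2, Finset.sum_const,
          nsmul_eq_mul]
        congr 1
        rw [← Fintype.card_subtype, ← Nat.card_eq_fintype_card,
          Nat.card_congr ((Equiv.subtypeSubtypeEquivSubtype fun {t : E} (ht : t ∈ Subgroup.zpowers zE) =>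
            (Subgroup.zpowers_le.2 hzker) ht)), Nat.card_zpowers, hoE]
        norm_num
      have hd3 : 3 ∣ d := by
        rw [← hprod, hj] at hsq
        push_cast at hsq
        have : (d : ℂ) ^ 2 = 9 := by
          have h := mul_left_cancel₀ hQ0 (show (Nat.card q.range : ℂ) * (3 * (d : ℂ) ^ 2) =
            (Nat.card q.range : ℂ) * 27 by linear_combination -hsq)
          linear_combination h / 3
        have : d ^ 2 = 3 ^ 2 := by exact_mod_cast this
        rw [Nat.pow_left_injective (by norm_num : (2 : ℕ) ≠ 0) this]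
      obtain ⟨d', hd'⟩ := hd3
      exact ⟨n' * d', by rw [hd']; push_cast; ring⟩
  refine ⟨N - r, mul_left_cancel₀ (Chars.natCard_ne_zero (G := E)) ?_⟩
  have hr' : 9 * (n' : ℂ) * d = (3 ^ j : ℕ) * (r : ℂ) := by exact_mod_cast hr
  have hE' : (Nat.card E : ℂ) = (3 ^ j : ℕ) * (Nat.card q.range : ℂ) := by
    rw [← hprod, hj]; push_cast; ring
  rw [hmain, Int.cast_sub, mul_sub, hinner, hC1]
  rw [hE']
  linear_combination -(Nat.card q.range : ℂ) * hr'

/-- Brauer's criterion on the central sections. -/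
theorem phi_gen (hM : IsPModular 3 M) {ω : ℂ} (hω : IsPrimitiveRoot ω 3)
    (μ : IrrCharacter K → ℤ) (ν : Fin m → ℤ)
    (hν : ∀ j, ∑ ψ ∈ (bar M z).toFinite.toFinset, (μ ψ : ℂ) * (ψ : K → ℂ) (xs j) = 3 * (ν j : ℂ)) :
    IsGeneralizedCharacter K (phi M z ![1, ω, ω ^ 2] μ) := by
  classical
  refine Chars.Brauer.isGeneralizedCharacter_of_elementary (phi_isClassFunction hz _ μ)
    fun E p hp hE => ?_
  haveI := Chars.Brauer.isNilpotent_of_isElementary hp hE
  let g : E × Subgroup.zpowers z →* K :=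
    MonoidHom.noncommCoprod E.subtype (Subgroup.zpowers z).subtype fun e w =>
      (Subgroup.mem_center_iff.1 (Subgroup.zpowers_le.2 hz w.2) (e : K))
  haveI : Fact (Nat.Prime 3) := ⟨Nat.prime_three⟩
  haveI : Group.IsNilpotent (Subgroup.zpowers z) :=
    (IsPGroup.of_card (p := 3) (n := 1) (by rw [Nat.card_zpowers, hc.base.ord, pow_one])).isNilpotent
  haveI : Group.IsNilpotent g.range :=
    Group.nilpotent_of_surjective g.rangeRestrict g.rangeRestrict_surjective
  have hle : E ≤ g.range := fun e he => ⟨(⟨e, he⟩, 1), show e * (1 : K) = e from mul_one e⟩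
  haveI : Fintype g.range := Fintype.ofFinite _
  exact Chars.Brauer.gen_comp (hc.phi_gen_nilpotent hz hM hω μ ν hν g.range
    ⟨(1, ⟨z, Subgroup.mem_zpowers z⟩), show (1 : K) * z = z from one_mul z⟩) (Subgroup.inclusion hle)

end Classes

end CfsgLib.Blocks.Extraspecial27
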