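import Cfsg.Agent.Blocks.Extraspecial27.Gen
import Cfsg.Agent.Chars.Apps.TI

/-!
# From the centralizer of `z` to the group
-/

set_option autoImplicit false
set_option linter.style.haveILetI false
set_option linter.unusedSectionVars false

namespace CfsgLib.Blocks.Extraspecial27

open Cfsg CfsgLib CfsgLib.Blocks
open scoped ComplexConjugate

universe u

variable {G : Type u} [Group G] [Fintype G] {P : Sylow 3 G} {z : G} {m : ℕ} {xs : Fin m → G}
  {M : Ideal AlgInt}

/-- `z` in its centralizer. -/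
def zC (z : G) : Subgroup.centralizer ({z} : Set G) :=
  ⟨z, Subgroup.mem_centralizer_singleton_iff.2 rfl⟩

/-- The coefficient of a member in the transfer of a combination. -/
noncomputable def coef (M : Ideal AlgInt) (z : G) [Fintype (Subgroup.centralizer ({z} : Set G))]
    (c : Fin 3 → ℂ) (μ : IrrCharacter (Subgroup.centralizer ({z} : Set G)) → ℤ)
    (χ : IrrCharacter G) : ℂ :=
  classInner (phi M (zC z) c μ) (fun h : Subgroup.centralizer ({z} : Set G) => (χ : G → ℂ) h)

/-- The weights of the first transfer. -/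
def cA (ω : ℂ) : Fin 3 → ℂ := ![0, ω - 1, ω ^ 2 - 1]

/-- The weights of the second transfer. -/
def cB (ω : ℂ) : Fin 3 → ℂ := ![0, ω ^ 2 - 1, ω - 1]

theorem one_add_omega {ω : ℂ} (hω : IsPrimitiveRoot ω 3) : 1 + ω + ω ^ 2 = 0 := by
  have := hω.geom_sum_eq_zero (by norm_num)
  simpa [Finset.sum_range_succ] using this

theorem conj_omega {ω : ℂ} (hω : IsPrimitiveRoot ω 3) : conj ω = ω ^ 2 := by
  have h : ω * conj ω = 1 := by
    rw [Complex.mul_conj, Complex.normSq_eq_norm_sq,
      Complex.norm_eq_one_of_pow_eq_one hω.pow_eq_one (by norm_num)]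
    norm_num
  calc conj ω = ω ^ 3 * conj ω := by rw [hω.pow_eq_one, one_mul]
    _ = ω ^ 2 * (ω * conj ω) := by ring
    _ = ω ^ 2 := by rw [h, mul_one]

open scoped Classical in
/-- The powers giving the involution of the block. -/
theorem exists_pi (hP : Nat.card (P : Subgroup G) = 27) :
    ∃ k : ℕ, k.Coprime (Nat.card G) ∧ k % 27 = 26 ∧
      (∀ g : G, IsPRegular 3 g → g ^ k = g) ∧ ∀ g : G, g ^ (k * k) = g := by
  haveI : Fact (Nat.Prime 3) := ⟨Nat.prime_three⟩
  rw [P.card_eq_multiplicity] at hP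
  have hf : (Nat.card G).factorization 3 = 3 :=
    Nat.pow_right_injective (by norm_num : 2 ≤ 3) (hP.trans (by norm_num : 27 = 3 ^ 3))
  set n := Nat.card G / 3 ^ 3 with hn
  have hn3 : ¬ 3 ∣ n := by
    have := Nat.not_dvd_ordCompl (n := Nat.card G) Nat.prime_three Nat.card_pos.ne'
    rwa [hf] at this
  have hG : Nat.card G = 27 * n := by
    have := Nat.ordProj_mul_ordCompl_eq_self (Nat.card G) 3
    rw [hf] at this
    exact this.symm
  have hcop : Nat.Coprime 27 n :=
    Nat.Coprime.pow_left 3 ((Nat.prime_three.coprime_iff_not_dvd).mpr hn3)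
  obtain ⟨k, hk1, hk2⟩ := Nat.chineseRemainder hcop 26 1
  have hsq : k * k ≡ 1 [MOD Nat.card G] := by
    rw [hG]
    refine (Nat.modEq_and_modEq_iff_modEq_mul hcop).1 ⟨?_, hk2.mul hk2⟩
    exact (hk1.mul hk1).trans (by decide)
  refine ⟨k, Nat.Coprime.coprime_dvd_left (Dvd.intro k rfl : k ∣ k * k) ?_, ?_, fun g hg => ?_, fun g => ?_⟩
  · rw [Nat.coprime_iff_gcd_eq_one]
    exact hsq.gcd_eq.trans (Nat.gcd_one_left _)
  · exact Eq.trans hk1 (by norm_num)
  · have hd : orderOf g ∣ n := ((Nat.prime_three.coprime_iff_not_dvd).mpr hg).symm.pow_right 3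
      |>.dvd_of_dvd_mul_left (by
        show orderOf g ∣ 27 * n
        exact hG ▸ orderOf_dvd_natCard g)
    conv_rhs => rw [← pow_one g]
    exact pow_eq_pow_iff_modEq.2 (hk2.of_dvd hd)
  · conv_rhs => rw [← pow_one g]
    exact pow_eq_pow_iff_modEq.2 (hsq.of_dvd (orderOf_dvd_natCard g))

namespace Classes

variable [Fintype (Subgroup.centralizer ({z} : Set G))] (hc : Classes P z xs)
include hc

theorem zC_center : zC z ∈ Subgroup.center (Subgroup.centralizer ({z} : Set G)) := hc.z_mem_center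

theorem ord_zC : orderOf (zC z) = 3 := by rw [zC, Subgroup.orderOf_mk]; exact hc.base.ord

/-- The representatives in the centralizer. -/
def xC (j : Fin m) : Subgroup.centralizer ({z} : Set G) := ⟨xs j, hc.mem_centralizer j⟩

theorem classesC : Classes (P.subtype hc.base.le_centralizer) (zC z) hc.xC := hc.restrict

/-- The value sum of a combination at a representative. -/
noncomputable def val (M : Ideal AlgInt)
    (μ : IrrCharacter (Subgroup.centralizer ({z} : Set G)) → ℤ) (j : Fin m) : ℂ :=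
  ∑ ψ ∈ (bar M (zC z)).toFinite.toFinset,
    (μ ψ : ℂ) * (ψ : Subgroup.centralizer ({z} : Set G) → ℂ) (hc.xC j)

variable {μ μ' : IrrCharacter (Subgroup.centralizer ({z} : Set G)) → ℤ}

/-- The regular pairing of two combinations. -/
theorem three_mul_sum_lam (hM : IsPModular 3 M) (hμ : ∀ j, hc.val M μ j = 0)
    (F : Subgroup.centralizer ({z} : Set G) → ℂ)
    (hF : ∀ s, IsPRegular 3 s → ∀ i : Fin 3, F (zC z ^ (i : ℕ) * s) = F s) :
    3 * ∑ s ∈ regSet 3 (Subgroup.centralizer ({z} : Set G)), lam M (zC z) μ s * conj (F s) =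
      (Nat.card (Subgroup.centralizer ({z} : Set G)) : ℂ) * classInner (lam M (zC z) μ) F := by
  have e : lam M (zC z) μ = phi M (zC z) (fun _ => 1) μ := hc.classesC.lam_eq_phi_one hc.zC_center hM hμ
  conv_rhs => rw [e]
  rw [classInner_phi hc.zC_center hc.ord_zC, Fin.sum_univ_three]
  simp only [one_mul]
  have h : ∀ i : Fin 3, ∑ s ∈ regSet 3 (Subgroup.centralizer ({z} : Set G)),
      lam M (zC z) μ s * conj (F (zC z ^ (i : ℕ) * s)) =
      ∑ s ∈ regSet 3 (Subgroup.centralizer ({z} : Set G)), lam M (zC z) μ s * conj (F s) :=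
    fun i => Finset.sum_congr rfl fun s hs => by rw [hF s (mem_regSet.1 hs) i]
  rw [h 0, h 1, h 2]
  ring

omit hc in
open scoped Classical in
theorem classInner_lam (μ : IrrCharacter (Subgroup.centralizer ({z} : Set G)) → ℤ)
    (ψ : IrrCharacter (Subgroup.centralizer ({z} : Set G))) :
    classInner (lam M (zC z) μ) (ψ : Subgroup.centralizer ({z} : Set G) → ℂ) =
      if ψ ∈ bar M (zC z) then (μ ψ : ℂ) else 0 := by
  have e : lam M (zC z) μ = ∑ φ ∈ (bar M (zC z)).toFinite.toFinset,
      (μ φ : ℂ) • (φ : Subgroup.centralizer ({z} : Set G) → ℂ) := by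
    funext y; simp [lam]
  rw [e, Chars.classInner_sum_left]
  simp only [Chars.classInner_smul_left]
  split_ifs with h
  · rw [Finset.sum_eq_single_of_mem ψ ((Set.Finite.mem_toFinset _).2 h) fun φ _ hne => by
      rw [Chars.classInner_of_ne hne, mul_zero], Chars.classInner_self, mul_one]
  · refine Finset.sum_eq_zero fun φ hφ => ?_
    rw [Chars.classInner_of_ne (by rintro rfl; exact h ((Set.Finite.mem_toFinset _).1 hφ)), mul_zero]

omit hc in
open scoped Classical in
theorem classInner_lam_lam (μ μ' : IrrCharacter (Subgroup.centralizer ({z} : Set G)) → ℤ) :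
    classInner (lam M (zC z) μ) (lam M (zC z) μ') =
      ∑ ψ ∈ (bar M (zC z)).toFinite.toFinset, (μ ψ : ℂ) * (μ' ψ : ℂ) := by
  rw [Chars.classInner_eq_sum (lam_isClassFunction μ) (lam M (zC z) μ'),
    ← Finset.sum_subset (Finset.subset_univ (bar M (zC z)).toFinite.toFinset) fun ψ _ h => by
      rw [classInner_lam, if_neg fun e => h ((Set.Finite.mem_toFinset _).2 e), zero_mul]]
  refine Finset.sum_congr rfl fun ψ hψ => ?_
  rw [classInner_lam, classInner_lam, if_pos ((Set.Finite.mem_toFinset _).1 hψ),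
    if_pos ((Set.Finite.mem_toFinset _).1 hψ), map_intCast]

/-- An element carrying a central section into the centralizer lies in it. -/
theorem mem_centralizer_of_conj {x : G} {i k : ℕ} (hi : i = 1 ∨ i = 2) (hk : k = 1 ∨ k = 2)
    (h : x⁻¹ * z ^ k * x = z ^ i) : x ∈ Subgroup.centralizer ({z} : Set G) := by
  have hz2 : z ^ 2 = z⁻¹ := eq_inv_of_mul_eq_one_left (by rw [← pow_succ, hc.base.z_cube])
  have hconj : IsConj (z ^ k) (z ^ i) := isConj_iff.2 ⟨x⁻¹, by rw [inv_inv]; exact h⟩
  rw [Subgroup.mem_centralizer_singleton_iff]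
  rcases hi with rfl | rfl <;> rcases hk with rfl | rfl
  · rw [pow_one] at h
    calc x * z = x * (x⁻¹ * z * x) := by rw [h]
      _ = z * x := by group
  · rw [pow_one, hz2] at hconj
    exact absurd hconj.symm hc.not_isConj_z_inv
  · rw [pow_one, hz2] at hconj
    exact absurd hconj hc.not_isConj_z_inv
  · rw [hz2] at h
    have h' : x⁻¹ * z * x = z := by
      rw [← inv_inj]
      calc (x⁻¹ * z * x)⁻¹ = x⁻¹ * z⁻¹ * x := by group
        _ = z⁻¹ := h
    calc x * z = x * (x⁻¹ * z * x) := by rw [h']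
      _ = z * x := by group

theorem extendByZero_phi (c : Fin 3 → ℂ) (hc0 : c 0 = 0) {g : G}
    (hg : ∀ i : ℕ, i = 1 ∨ i = 2 → ppart 3 g ≠ z ^ i) :
    extendByZero (Subgroup.centralizer ({z} : Set G)) (phi M (zC z) c μ) g = 0 := by
  by_cases hmem : g ∈ Subgroup.centralizer ({z} : Set G)
  · rw [Chars.Induced.extendByZero_mem _ hmem, phi]
    have e : (⟨g, hmem⟩ : Subgroup.centralizer ({z} : Set G)).1 = g := rfl
    have hpc := ppart_coe (Subgroup.centralizer ({z} : Set G)) ⟨g, hmem⟩
    rw [e] at hpc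
    have h1 : ppart 3 (⟨g, hmem⟩ : Subgroup.centralizer ({z} : Set G)) ≠ zC z := fun h =>
      hg 1 (Or.inl rfl) (by rw [hpc, h, pow_one]; rfl)
    have h2 : ppart 3 (⟨g, hmem⟩ : Subgroup.centralizer ({z} : Set G)) ≠ zC z ^ 2 := fun h =>
      hg 2 (Or.inr rfl) (by rw [hpc, h]; rfl)
    by_cases h0 : ppart 3 (⟨g, hmem⟩ : Subgroup.centralizer ({z} : Set G)) = 1 <;>
      simp [wt, h0, h1, h2, hc0]
  · exact Chars.Induced.extendByZero_notMem _ hmem

/-- On the sections of `z` and `z⁻¹` induction changes nothing. -/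
theorem indFun_phi (c : Fin 3 → ℂ) (hc0 : c 0 = 0) (y : Subgroup.centralizer ({z} : Set G))
    {k : ℕ} (hk : k = 1 ∨ k = 2) (hy : ppart 3 (y : G) = z ^ k) :
    indFun (Subgroup.centralizer ({z} : Set G)) (phi M (zC z) c μ) (y : G) =
      phi M (zC z) c μ y := by
  classical
  have h : ∀ x : G, extendByZero (Subgroup.centralizer ({z} : Set G)) (phi M (zC z) c μ)
      (x⁻¹ * (y : G) * x) =
      if x ∈ Subgroup.centralizer ({z} : Set G) then phi M (zC z) c μ y else 0 := by
    intro x
    split_ifs with hx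
    · have hmem : x⁻¹ * (y : G) * x ∈ Subgroup.centralizer ({z} : Set G) :=
        mul_mem (mul_mem (inv_mem hx) y.2) hx
      rw [Chars.Induced.extendByZero_mem _ hmem]
      conv_rhs => rw [← phi_isClassFunction hc.zC_center c μ y (⟨x, hx⟩⁻¹)]
      congr 1
      exact Subtype.ext (by simp)
    · refine hc.extendByZero_phi c hc0 fun i hi hp => hx (hc.mem_centralizer_of_conj hi hk ?_)
      have e := ppart_conj (p := 3) x⁻¹ (y : G)
      rw [inv_inv, hy] at e
      exact e.symm.trans hp
  simp only [indFun, h]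
  rw [Finset.sum_ite, Finset.sum_const_zero, add_zero, Finset.sum_const, nsmul_eq_mul,
    ← Fintype.card_subtype, ← Nat.card_eq_fintype_card]
  exact inv_mul_cancel_left₀ (Chars.natCard_ne_zero (G := Subgroup.centralizer ({z} : Set G))) _

/-- The transfers form an isometry. -/
theorem gram (hM : IsPModular 3 M) (c c' : Fin 3 → ℂ) (hc0 : c 0 = 0) (hc0' : c' 0 = 0)
    (hμ : ∀ j, hc.val M μ j = 0) :
    ∑ χ : IrrCharacter G, coef M z c μ χ * conj (coef M z c' μ' χ) =
      (c 1 * conj (c' 1) + c 2 * conj (c' 2)) / 3 *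
        ∑ ψ ∈ (bar M (zC z)).toFinite.toFinset, (μ ψ : ℂ) * (μ' ψ : ℂ) := by
  classical
  have hcl := Chars.Induced.indFun_isClassFunction (Subgroup.centralizer ({z} : Set G)) (phi M (zC z) c μ)
  have hcl' := Chars.Induced.indFun_isClassFunction (Subgroup.centralizer ({z} : Set G)) (phi M (zC z) c' μ')
  have hcoef : ∀ (d : Fin 3 → ℂ) (ν : IrrCharacter (Subgroup.centralizer ({z} : Set G)) → ℤ) (χ : IrrCharacter G),
      coef M z d ν χ = classInner (indFun (Subgroup.centralizer ({z} : Set G)) (phi M (zC z) d ν)) (χ : G → ℂ) := fun d ν χ => by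
    rw [Chars.Apps.classInner_indFun_left (Subgroup.centralizer ({z} : Set G)) _ _ (Chars.isClassFunction_coe χ)]; rfl
  simp only [hcoef, ← Chars.classInner_eq_sum hcl]
  rw [Chars.Apps.classInner_indFun_left (Subgroup.centralizer ({z} : Set G)) _ _ hcl']
  refine mul_left_cancel₀ (Chars.natCard_ne_zero (G := (Subgroup.centralizer ({z} : Set G)))) ?_
  rw [classInner_phi hc.zC_center hc.ord_zC]
  have hval : ∀ (i : Fin 3), i ≠ 0 → ∀ s ∈ regSet 3 (Subgroup.centralizer ({z} : Set G)),
      indFun (Subgroup.centralizer ({z} : Set G)) (phi M (zC z) c' μ') ((zC z ^ (i : ℕ) * s : (Subgroup.centralizer ({z} : Set G))) : G) = c' i * lam M (zC z) μ' s := by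
    intro i hi s hs
    rw [hc.indFun_phi c' hc0' _ (k := (i : ℕ)) (by fin_cases i <;> simp_all) (by
      rw [ppart_coe, ppart_pow_mul hc.zC_center hc.ord_zC _ (mem_regSet.1 hs)]; rfl)]
    rw [phi, wt_pow_mul hc.zC_center hc.ord_zC c' i (mem_regSet.1 hs), lam_pow_mul hc.zC_center]
  have h3 := hc.three_mul_sum_lam hM hμ (lam M (zC z) μ')
    (fun s _ i => lam_pow_mul hc.zC_center μ' _ s)
  rw [classInner_lam_lam] at h3
  have hsum : ∀ i : Fin 3, i ≠ 0 → ∑ s ∈ regSet 3 (Subgroup.centralizer ({z} : Set G)),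
      lam M (zC z) μ s * conj (indFun (Subgroup.centralizer ({z} : Set G)) (phi M (zC z) c' μ')
        ((zC z ^ (i : ℕ) * s : (Subgroup.centralizer ({z} : Set G))) : G)) =
      conj (c' i) * ∑ s ∈ regSet 3 (Subgroup.centralizer ({z} : Set G)),
        lam M (zC z) μ s * conj (lam M (zC z) μ' s) := fun i hi => by
    rw [Finset.mul_sum]
    exact Finset.sum_congr rfl fun s hs => by rw [hval i hi s hs, map_mul, mul_left_comm]
  rw [Fin.sum_univ_three, hc0, zero_mul, zero_add, hsum 1 (by decide), hsum 2 (by decide)]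
  linear_combination ((c 1 * conj (c' 1) + c 2 * conj (c' 2)) / 3) * h3

/-- The transfers vanish at the representatives. -/
theorem sum_coef_mul_xs (c : Fin 3 → ℂ) (hc0 : c 0 = 0) (j : Fin m) :
    ∑ χ : IrrCharacter G, coef M z c μ χ * (χ : G → ℂ) (xs j) = 0 := by
  classical
  have hcl := Chars.Induced.indFun_isClassFunction (Subgroup.centralizer ({z} : Set G)) (phi M (zC z) c μ)
  have h := Chars.eq_sum_classInner_mul hcl (xs j)
  have h0 : indFun (Subgroup.centralizer ({z} : Set G)) (phi M (zC z) c μ) (xs j) = 0 := by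
    simp only [indFun]
    refine mul_eq_zero_of_right _ (Finset.sum_eq_zero fun x _ => ?_)
    refine hc.extendByZero_phi c hc0 fun i hi hp => ?_
    have e := ppart_conj (p := 3) x⁻¹ (xs j)
    haveI : Fact (Nat.Prime 3) := ⟨Nat.prime_three⟩
    rw [inv_inv, RankFourNine.ppart_of_pow (hc.pPower_xs j), hp] at e
    have hconj : IsConj (z ^ i) (xs j) := (isConj_iff.2 ⟨x⁻¹, by rw [inv_inv]; exact e.symm⟩).symm
    rcases hi with rfl | rfl
    · exact (hc.not_isConj_z_xs j).1 (by rwa [pow_one] at hconj)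
    · exact (hc.not_isConj_z_xs j).2 (by
        rwa [eq_inv_of_mul_eq_one_left (show z ^ 2 * z = 1 by rw [← pow_succ, hc.base.z_cube])] at hconj)
  rw [h0] at h
  rw [h]
  exact Finset.sum_congr rfl fun χ _ => by
    rw [Chars.Apps.classInner_indFun_left (Subgroup.centralizer ({z} : Set G)) _ _ (Chars.isClassFunction_coe χ)]; rfl

/-- The coefficient written on the regular elements. -/
theorem natCard_mul_coef (c : Fin 3 → ℂ) (hc0 : c 0 = 0) (χ : IrrCharacter G) :
    (Nat.card (Subgroup.centralizer ({z} : Set G)) : ℂ) * coef M z c μ χ =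
      c 1 * (∑ s ∈ regSet 3 (Subgroup.centralizer ({z} : Set G)),
          lam M (zC z) μ s * conj ((χ : G → ℂ) (z * s))) +
      c 2 * ∑ s ∈ regSet 3 (Subgroup.centralizer ({z} : Set G)),
          lam M (zC z) μ s * conj ((χ : G → ℂ) (z ^ 2 * s)) := by
  rw [coef, classInner_phi hc.zC_center hc.ord_zC, Fin.sum_univ_three, hc0, zero_mul, zero_add]
  congr 1
  · congr 1
    exact Finset.sum_congr rfl fun s _ => by simp [zC]

/-- The coefficient of the trivial character. -/
theorem coef_one (hM : IsPModular 3 M) (c : Fin 3 → ℂ) (hc0 : c 0 = 0) (hc12 : c 1 + c 2 = -3)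
    (hμ : ∀ j, hc.val M μ j = 0) :
    coef M z c μ (Chars.oneChar G) = -(μ (Chars.oneChar _) : ℂ) := by
  classical
  refine mul_left_cancel₀ (Chars.natCard_ne_zero (G := Subgroup.centralizer ({z} : Set G))) ?_
  have h3 := hc.three_mul_sum_lam hM hμ
    (Chars.oneChar (Subgroup.centralizer ({z} : Set G)) : Subgroup.centralizer ({z} : Set G) → ℂ)
    (fun s _ i => by simp only [Chars.oneChar_apply])
  rw [classInner_lam, if_pos ⟨PrincipalLinear.one_mem hM, by simp only [Chars.oneChar_apply]⟩] at h3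
  rw [hc.natCard_mul_coef c hc0]
  simp only [Chars.oneChar_apply, map_one, mul_one] at h3 ⊢
  rw [← add_mul, hc12]
  linear_combination -h3

/-- The transfers stay in the principal block. -/
theorem coef_eq_zero_of_notMem (hM : IsPModular 3 M) (c : Fin 3 → ℂ) (hc0 : c 0 = 0)
    {χ : IrrCharacter G} (hχ : χ ∉ principalBlock M G) : coef M z c μ χ = 0 := by
  classical
  have := isMaximal_of_isPModular hM
  have hb : IsPBlock M (principalBlock M (Subgroup.centralizer ({z} : Set G))) := PrincipalLinear.isPBlock_principal M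
  have hind : IsInducedBlock M (Subgroup.centralizer ({z} : Set G)) (principalBlock M (Subgroup.centralizer ({z} : Set G))) (principalBlock M G) :=
    (HeightZero.isInducedBlock_principal_iff hM hc.pPower_z hb).2 rfl
  have hne : ¬ IsInducedBlock M (Subgroup.centralizer ({z} : Set G)) (principalBlock M (Subgroup.centralizer ({z} : Set G))) (blockOf M (χ : G → ℂ)) := fun h => hχ (by
    rw [isInducedBlock_unique hM hind h]
    exact self_mem_blockOf χ)
  have hzero : ∀ u : G, (∃ e : ℕ, orderOf u = 3 ^ e) →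
      (Subgroup.centralizer ({z} : Set G)) = Subgroup.centralizer ({u} : Set G) →
      ∑ s ∈ regSet 3 (Subgroup.centralizer ({z} : Set G)), lam M (zC z) μ s * conj ((χ : G → ℂ) (u * s)) = 0 := by
    intro u hu hHu
    simp only [lam, Finset.sum_mul]
    rw [Finset.sum_comm]
    refine Finset.sum_eq_zero fun ψ hψ => ?_
    rw [Finset.sum_congr rfl fun s _ => mul_assoc _ _ _, ← Finset.mul_sum,
      sum_regSet_blockPart hM hb ((Set.Finite.mem_toFinset _).1 hψ).1
        (isClassFunction_translate hHu χ)]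
    refine mul_eq_zero_of_right _ (Finset.sum_eq_zero fun s hs => ?_)
    rw [blockPart_section_eq_zero hM hHu hu hb ⟨χ, rfl⟩ hne (self_mem_blockOf χ)
      (mem_regSet.1 hs), map_zero, mul_zero]
  refine mul_left_cancel₀ (Chars.natCard_ne_zero (G := (Subgroup.centralizer ({z} : Set G)))) ?_
  have hz2 : z ^ 2 = z⁻¹ := eq_inv_of_mul_eq_one_left (by rw [← pow_succ, hc.base.z_cube])
  rw [hc.natCard_mul_coef c hc0, hzero z hc.pPower_z rfl, hzero (z ^ 2) (hz2 ▸ hc.pPower_z_inv) (by
    rw [hz2]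
    ext g
    simp only [Subgroup.mem_centralizer_singleton_iff]
    exact ⟨fun h => (Commute.inv_right h).eq, fun h => (Commute.inv_right_iff.1 h).eq⟩)]
  simp

/-- The second transfer is the first one composed with the powers. -/
theorem coef_cB (ω : ℂ) {k : ℕ} (hk : k.Coprime (Nat.card G)) (hk27 : k % 27 = 26)
    (hreg : ∀ g : G, IsPRegular 3 g → g ^ k = g) (χ : IrrCharacter G) :
    coef M z (cB ω) μ χ = coef M z (cA ω) μ (Orth.powIrr hk χ) := by
  refine mul_left_cancel₀ (Chars.natCard_ne_zero (G := Subgroup.centralizer ({z} : Set G))) ?_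
  rw [hc.natCard_mul_coef (cB ω) rfl, hc.natCard_mul_coef (cA ω) rfl]
  have hzk : z ^ k = z ^ 2 := by
    rw [← pow_mod_orderOf, hc.base.ord, show k % 3 = 2 by omega]
  have hs : ∀ (i : ℕ) (s : Subgroup.centralizer ({z} : Set G)), IsPRegular 3 s →
      (z ^ i * (s : G)) ^ k = z ^ (2 * i) * (s : G) := fun i s hs => by
    rw [(Commute.pow_left (Subgroup.mem_centralizer_singleton_iff.1 s.2).symm i).mul_pow,
      hreg _ ((isPRegular_coe s).2 hs), ← pow_mul, mul_comm i k, pow_mul, hzk, ← pow_mul]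
  simp only [cA, cB, Matrix.cons_val_zero, Matrix.cons_val_one, Matrix.head_cons,
    Matrix.cons_val_two, Matrix.tail_cons, Orth.powIrr_apply]
  have e1 : ∀ s ∈ regSet 3 (Subgroup.centralizer ({z} : Set G)),
      (z * (s : G)) ^ k = z ^ 2 * (s : G) := fun s hs' => by
    rw [show z * (s : G) = z ^ 1 * (s : G) by rw [pow_one], hs 1 s (mem_regSet.1 hs')]
  have e2 : ∀ s ∈ regSet 3 (Subgroup.centralizer ({z} : Set G)),
      (z ^ 2 * (s : G)) ^ k = z * (s : G) := fun s hs' => by
    rw [hs 2 s (mem_regSet.1 hs'), pow_mul, show (z ^ 2) ^ 2 = z by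
      rw [← pow_mul, show 2 * 2 = 3 + 1 by norm_num, pow_add, hc.base.z_cube, one_mul, pow_one]]
  have f1 : ∑ s ∈ regSet 3 (Subgroup.centralizer ({z} : Set G)),
      lam M (zC z) μ s * conj ((χ : G → ℂ) ((z * (s : G)) ^ k)) =
      ∑ s ∈ regSet 3 (Subgroup.centralizer ({z} : Set G)),
        lam M (zC z) μ s * conj ((χ : G → ℂ) (z ^ 2 * (s : G))) :=
    Finset.sum_congr rfl fun s hs' => by rw [e1 s hs']
  have f2 : ∑ s ∈ regSet 3 (Subgroup.centralizer ({z} : Set G)),
      lam M (zC z) μ s * conj ((χ : G → ℂ) ((z ^ 2 * (s : G)) ^ k)) =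
      ∑ s ∈ regSet 3 (Subgroup.centralizer ({z} : Set G)),
        lam M (zC z) μ s * conj ((χ : G → ℂ) (z * (s : G))) :=
    Finset.sum_congr rfl fun s hs' => by rw [e2 s hs']
  rw [f1, f2]
  ring

/-- The members of the block are fixed by the powers at the representatives. -/
theorem powIrr_xs {k : ℕ} (hk : k.Coprime (Nat.card G)) (hk27 : k % 27 = 26) (χ : IrrCharacter G)
    (j : Fin m) : (Orth.powIrr hk χ : G → ℂ) (xs j) = (χ : G → ℂ) (xs j) := by
  obtain ⟨c, -, hcx⟩ := hc.inv j
  rw [Orth.powIrr_apply, ← pow_mod_orderOf, hc.ord_xs, show k % 3 = 2 by omega,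
    eq_inv_of_mul_eq_one_left (show xs j ^ 2 * xs j = 1 by
      rw [← pow_succ, hc.base.exp _ (hc.mem j)]), ← irrCharacter_conj χ (xs j)⁻¹ c, hcx]

omit hc in
/-- The transfers are linear. -/
theorem coef_sum {ι : Type*} (S : Finset ι) (n : ι → ℤ)
    (f : ι → IrrCharacter (Subgroup.centralizer ({z} : Set G)) → ℤ) (c : Fin 3 → ℂ)
    (χ : IrrCharacter G) :
    coef M z c (fun ψ => ∑ i ∈ S, n i * f i ψ) χ = ∑ i ∈ S, (n i : ℂ) * coef M z c (f i) χ := by
  have e : phi M (zC z) c (fun ψ => ∑ i ∈ S, n i * f i ψ) =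
      ∑ i ∈ S, (n i : ℂ) • phi M (zC z) c (f i) := by
    funext y
    simp only [phi, lam, Finset.sum_apply, Pi.smul_apply, smul_eq_mul, Finset.mul_sum,
      Int.cast_sum, Int.cast_mul, Finset.sum_mul]
    rw [Finset.sum_comm]
    exact Finset.sum_congr rfl fun i _ => Finset.sum_congr rfl fun ψ _ => by ring
  rw [coef, e, Chars.classInner_sum_left]
  simp only [Chars.classInner_smul_left, coef]

/-- The transfers take integral values. -/
theorem exists_int_coef (hM : IsPModular 3 M) {ω : ℂ} (hω : IsPrimitiveRoot ω 3)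
    (hμ : ∀ j, hc.val M μ j = 0) (χ : IrrCharacter G) :
    ∃ n : ℤ, coef M z (cA ω) μ χ = n := by
  have hg := hc.classesC.phi_gen hc.zC_center hM hω μ (fun _ => 0) (fun j => by
    rw [Int.cast_zero, mul_zero]; exact hμ j)
  have hres : IsCharacter (Subgroup.centralizer ({z} : Set G)) (fun h : (Subgroup.centralizer ({z} : Set G)) => (χ : G → ℂ) h) :=
    Chars.isCharacter_restrict (Chars.isCharacter_coe χ) (Subgroup.centralizer ({z} : Set G))
  obtain ⟨n1, h1⟩ := exists_int_inner hg hres
  obtain ⟨n2, h2⟩ := exists_int_inner (lam_gen (M := M) (z := zC z) μ) hres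
  refine ⟨n1 - n2, ?_⟩
  have e : phi M (zC z) (cA ω) μ = phi M (zC z) ![1, ω, ω ^ 2] μ - phi M (zC z) (fun _ => 1) μ := by
    funext y
    simp only [phi, Pi.sub_apply, ← sub_mul]
    congr 1
    simp only [wt, cA]
    split_ifs <;> simp
  rw [coef, e, Chars.classInner_sub_left, h1, ← hc.classesC.lam_eq_phi_one hc.zC_center hM hμ, h2,
    Int.cast_sub]

/-- The transfers modulo three. -/
theorem coef_congr (hM : IsPModular 3 M) {ω : ℂ} (hω : IsPrimitiveRoot ω 3)
    (hμ : ∀ j, hc.val M μ j = 0) {ν : IrrCharacter (Subgroup.centralizer ({z} : Set G)) → ℤ}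
    {c : ℤ} {j : Fin m}
    (hν : ∀ ψ ∈ bar M (zC z), (μ ψ : ℂ) =
      3 * (ν ψ : ℂ) + (c : ℂ) * (ψ : Subgroup.centralizer ({z} : Set G) → ℂ) (hc.xC j))
    {χ : IrrCharacter G} (hχ : χ ∈ principalBlock M G) :
    ∃ n : ℤ, coef M z (cA ω) μ χ = 3 * (n : ℂ) - (c : ℂ) * (χ : G → ℂ) (xs j) := by
  classical
  haveI : Fact (Nat.Prime 3) := ⟨Nat.prime_three⟩
  have hz := hc.zC_center
  set X : (Subgroup.centralizer ({z} : Set G)) → ℂ := fun y => ∑ ψ ∈ (bar M (zC z)).toFinite.toFinset,
    (ψ : (Subgroup.centralizer ({z} : Set G)) → ℂ) (hc.xC j) * (ψ : (Subgroup.centralizer ({z} : Set G)) → ℂ) y with hX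
  have hXy : ∀ y, X y = if IsConj (hc.xC j) (ppart 3 y) then 9 else 0 :=
    fun y => by
      convert hc.classesC.sum_bar_xs_mul hz hM j y
  have hlam : ∀ y, lam M (zC z) μ y = 3 * lam M (zC z) ν y + c * X y := fun y => by
    simp only [lam, hX, Finset.mul_sum, ← Finset.sum_add_distrib]
    exact Finset.sum_congr rfl fun ψ hψ => by
      rw [hν ψ ((Set.Finite.mem_toFinset _).1 hψ)]; ring
  have hcentral : ∀ (d : Fin 3 → ℂ) (y : (Subgroup.centralizer ({z} : Set G))), wt (zC z) d y * X y = 0 := fun d y => by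
    rw [hXy]
    split_ifs with hj
    · refine mul_eq_zero_of_left ?_ _
      obtain ⟨g, hg⟩ := isConj_iff.1 hj
      have hne : ∀ w ∈ Subgroup.center (Subgroup.centralizer ({z} : Set G)), w ∈ Subgroup.zpowers (zC z) → ppart 3 y ≠ w := by
        intro w hw hwz e
        rw [e] at hg
        have hxw : hc.xC j = w := by
          calc hc.xC j = g⁻¹ * (g * hc.xC j * g⁻¹) * g := by group
            _ = w := by rw [hg, mul_assoc, ← Subgroup.mem_center_iff.1 hw g, inv_mul_cancel_left]
        exact hc.classesC.nz j (hxw ▸ hwz)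
      simp [wt, hne 1 (one_mem _) (one_mem _), hne _ hz (Subgroup.mem_zpowers _),
        hne _ (pow_mem hz 2) (Subgroup.npow_mem_zpowers _ _)]
    · rw [mul_zero]
  have hphi : phi M (zC z) ![1, ω, ω ^ 2] μ = (3 : ℂ) • phi M (zC z) ![1, ω, ω ^ 2] ν := by
    funext y
    simp only [phi, Pi.smul_apply, smul_eq_mul, hlam, mul_add]
    rw [mul_left_comm _ (c : ℂ), hcentral, mul_zero, add_zero]
    ring
  have hνx : ∀ i, hc.val M ν i = 3 * ((if i = j then -c else 0 : ℤ) : ℂ) := fun i => by
    have h1 := hμ i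
    have h2 := hc.classesC.sum_bar_xs_xs hz hM j i
    simp only [Classes.val] at h1 ⊢
    rw [Finset.sum_congr rfl fun ψ hψ => by
      rw [hν ψ ((Set.Finite.mem_toFinset _).1 hψ), add_mul, mul_assoc, mul_assoc],
      Finset.sum_add_distrib, ← Finset.mul_sum, ← Finset.mul_sum] at h1
    rw [h2] at h1
    by_cases e : j = i
    · rw [if_pos e] at h1; rw [if_pos e.symm]; push_cast; linear_combination h1 / 3
    · rw [if_neg e] at h1; rw [if_neg (fun h => e h.symm)]; push_cast; linear_combination h1 / 3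
  have hg := hc.classesC.phi_gen hz hM hω ν (fun i => if i = j then -c else 0) hνx
  have hres : IsCharacter (Subgroup.centralizer ({z} : Set G)) (fun h : (Subgroup.centralizer ({z} : Set G)) => (χ : G → ℂ) h) :=
    Chars.isCharacter_restrict (Chars.isCharacter_coe χ) (Subgroup.centralizer ({z} : Set G))
  obtain ⟨n1, h1⟩ := exists_int_inner hg hres
  obtain ⟨n2, h2⟩ := exists_int_inner (lam_gen (M := M) (z := zC z) ν) hres
  -- the section against a member
  have hsec : ∀ y, X y * conj ((χ : G → ℂ) (y : (Subgroup.centralizer ({z} : Set G)))) = X y * (χ : G → ℂ) (xs j) := fun y => by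
    rw [hXy]
    split_ifs with hj
    · congr 1
      obtain ⟨g, hg⟩ := isConj_iff.1 hj
      rw [hc.apply_of_conj hM hχ (j := j) (y := ((y : (Subgroup.centralizer ({z} : Set G))) : G)) (isConj_iff.2 ⟨(g : G), by
        rw [ppart_coe, ← hg]; rfl⟩), hc.conj_apply_xs]
    · rw [zero_mul, zero_mul]
  have hX1 : classInner X (fun h : (Subgroup.centralizer ({z} : Set G)) => (χ : G → ℂ) h) = (χ : G → ℂ) (xs j) := by
    have hone : classInner X (Chars.oneChar (Subgroup.centralizer ({z} : Set G)) : (Subgroup.centralizer ({z} : Set G)) → ℂ) = 1 := by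
      have e : X = ∑ ψ ∈ (bar M (zC z)).toFinite.toFinset, (ψ : (Subgroup.centralizer ({z} : Set G)) → ℂ) (hc.xC j) • (ψ : (Subgroup.centralizer ({z} : Set G)) → ℂ) := by
        funext y; simp [hX]
      rw [e, Chars.classInner_sum_left]
      simp only [Chars.classInner_smul_left]
      have hmem : Chars.oneChar (Subgroup.centralizer ({z} : Set G)) ∈ (bar M (zC z)).toFinite.toFinset :=
        (Set.Finite.mem_toFinset _).2 ⟨PrincipalLinear.one_mem hM, by simp only [Chars.oneChar_apply]⟩
      rw [Finset.sum_eq_single_of_mem (Chars.oneChar (Subgroup.centralizer ({z} : Set G))) hmem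
        (fun φ _ hne => by rw [Chars.classInner_of_ne hne, mul_zero]), Chars.classInner_self, mul_one,
        Chars.oneChar_apply]
    simp only [classInner, Chars.oneChar_apply, map_one, mul_one] at hone ⊢
    rw [Finset.sum_congr rfl fun y _ => hsec y, ← Finset.sum_mul, ← mul_assoc, hone, one_mul]
  refine ⟨n1 - n2, ?_⟩
  have e : phi M (zC z) (cA ω) μ = phi M (zC z) ![1, ω, ω ^ 2] μ - phi M (zC z) (fun _ => 1) μ := by
    funext y
    simp only [phi, Pi.sub_apply, ← sub_mul]
    congr 1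
    simp only [wt, cA]
    split_ifs <;> simp
  have e2 : lam M (zC z) μ = (3 : ℂ) • lam M (zC z) ν + (c : ℂ) • X := by
    funext y; simp [hlam]
  rw [coef, e, Chars.classInner_sub_left, ← hc.classesC.lam_eq_phi_one hz hM hμ, hphi, e2,
    Chars.classInner_add_left, Chars.classInner_smul_left, Chars.classInner_smul_left,
    Chars.classInner_smul_left, h1, h2, hX1]
  push_cast
  ring

/-- No member of the block is orthogonal to all transfers. -/
theorem exists_coef_ne_zero (hM : IsPModular 3 M) {ω : ℂ} (hω : IsPrimitiveRoot ω 3) {ι : Type*}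
    (L : ι → IrrCharacter (Subgroup.centralizer ({z} : Set G)) → ℤ)
    (hspan : ∀ T : IrrCharacter (Subgroup.centralizer ({z} : Set G)) → ℂ,
      (∀ j, ∑ ψ ∈ (bar M (zC z)).toFinite.toFinset,
        (ψ : Subgroup.centralizer ({z} : Set G) → ℂ) (hc.xC j) * T ψ = 0) →
      (∀ i, ∑ ψ ∈ (bar M (zC z)).toFinite.toFinset, (L i ψ : ℂ) * T ψ = 0) →
      ∀ ψ ∈ bar M (zC z), T ψ = 0)
    {χ : IrrCharacter G} (hχ : χ ∈ principalBlock M G) :
    ∃ i, coef M z (cA ω) (L i) χ ≠ 0 ∨ coef M z (cB ω) (L i) χ ≠ 0 := by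
  classical
  haveI : Fact (Nat.Prime 3) := ⟨Nat.prime_three⟩
  have := isMaximal_of_isPModular hM
  by_contra hno
  push Not at hno
  have hz := hc.zC_center
  set φ : (Subgroup.centralizer ({z} : Set G)) → ℂ := fun s => (χ : G → ℂ) (z * (s : G)) with hφ
  have hφcl : IsClassFunction (Subgroup.centralizer ({z} : Set G)) φ := isClassFunction_translate rfl χ
  set T : IrrCharacter (Subgroup.centralizer ({z} : Set G)) → ℂ := fun ψ => ∑ s ∈ regSet 3 (Subgroup.centralizer ({z} : Set G)), (ψ : (Subgroup.centralizer ({z} : Set G)) → ℂ) s * conj (φ s) with hT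
  have hdet : (ω - 1) ^ 2 - (ω ^ 2 - 1) ^ 2 ≠ 0 := by
    have h1 := one_add_omega hω
    have h0 : ω ≠ 0 := hω.ne_zero (by norm_num)
    have h2 : ω - 1 ≠ 0 := sub_ne_zero.2 (hω.ne_one (by norm_num))
    rw [show (ω - 1) ^ 2 - (ω ^ 2 - 1) ^ 2 = -((ω - 1) ^ 2 * ω * (ω + 2)) by ring]
    refine neg_ne_zero.2 (mul_ne_zero (mul_ne_zero (pow_ne_zero _ h2) h0) fun e => ?_)
    rw [show ω = -2 by linear_combination e] at h1
    norm_num at h1
  have hTL : ∀ i, ∑ ψ ∈ (bar M (zC z)).toFinite.toFinset, (L i ψ : ℂ) * T ψ = 0 := by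
    intro i
    have hA := hc.natCard_mul_coef (M := M) (μ := L i) (cA ω) rfl χ
    have hB := hc.natCard_mul_coef (M := M) (μ := L i) (cB ω) rfl χ
    rw [(hno i).1, mul_zero] at hA
    rw [(hno i).2, mul_zero] at hB
    simp only [cA, cB, Matrix.cons_val_one, Matrix.head_cons, Matrix.cons_val_two, Matrix.tail_cons,
      Matrix.cons_val_zero] at hA hB
    have hcomb : ∑ ψ ∈ (bar M (zC z)).toFinite.toFinset, (L i ψ : ℂ) * T ψ =
        ∑ s ∈ regSet 3 (Subgroup.centralizer ({z} : Set G)), lam M (zC z) (L i) s * conj ((χ : G → ℂ) (z * s)) := by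
      simp only [hT, lam, Finset.mul_sum, Finset.sum_mul]
      rw [Finset.sum_comm]
      exact Finset.sum_congr rfl fun s _ => Finset.sum_congr rfl fun ψ _ => by rw [mul_assoc]
    rw [hcomb]
    refine (mul_eq_zero.1 (?_ : ((ω - 1) ^ 2 - (ω ^ 2 - 1) ^ 2) * _ = 0)).resolve_left hdet
    linear_combination -(ω - 1) * hA + (ω ^ 2 - 1) * hB
  have hTx : ∀ j, ∑ ψ ∈ (bar M (zC z)).toFinite.toFinset, (ψ : (Subgroup.centralizer ({z} : Set G)) → ℂ) (hc.xC j) * T ψ = 0 := by
    intro j
    simp only [hT, Finset.mul_sum]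
    rw [Finset.sum_comm]
    refine Finset.sum_eq_zero fun s hs => ?_
    rw [Finset.sum_congr rfl fun ψ _ => (mul_assoc _ _ _).symm, ← Finset.sum_mul,
      hc.classesC.sum_bar_xs_mul hz hM j s, if_neg fun hj => ?_, zero_mul]
    have e : ppart 3 s = 1 := by simpa using ppart_pow_mul hz hc.ord_zC 0 (mem_regSet.1 hs)
    rw [e] at hj
    obtain ⟨g, hg⟩ := isConj_iff.1 hj.symm
    exact hc.classesC.nz j (by rw [← hg]; simp)
  have hbar := hspan T hTx hTL
  -- the regular restriction is spanned by the members trivial on `z`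
  set F : (Subgroup.centralizer ({z} : Set G)) → ℂ := fun y => wt (zC z) (fun _ => 1) y * φ ((ppart 3 y)⁻¹ * y) with hF
  have hFreg : ∀ (i : Fin 3) (s : (Subgroup.centralizer ({z} : Set G))), IsPRegular 3 s → F (zC z ^ (i : ℕ) * s) = φ s := fun i s hs => by
    rw [hF]; simp only
    rw [wt_pow_mul hz hc.ord_zC _ i hs, ppart_pow_mul hz hc.ord_zC _ hs, inv_mul_cancel_left, one_mul]
  have hFcl : IsClassFunction (Subgroup.centralizer ({z} : Set G)) F := fun g h => by
    simp only [hF]
    rw [wt_isClassFunction hz _ g h, ppart_conj (p := 3) h g,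
      show (h * ppart 3 g * h⁻¹)⁻¹ * (h * g * h⁻¹) = h * ((ppart 3 g)⁻¹ * g) * h⁻¹ by group, hφcl]
  have hzero : ∀ ψ : IrrCharacter (Subgroup.centralizer ({z} : Set G)), classInner F (ψ : (Subgroup.centralizer ({z} : Set G)) → ℂ) * T ψ = 0 := by
    intro ψ
    by_cases hp : ψ ∈ principalBlock M (Subgroup.centralizer ({z} : Set G))
    · by_cases hzψ : (ψ : (Subgroup.centralizer ({z} : Set G)) → ℂ) (zC z) = (ψ : (Subgroup.centralizer ({z} : Set G)) → ℂ) 1
      · rw [hbar ψ ⟨hp, hzψ⟩, mul_zero]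
      refine mul_eq_zero_of_left ?_ _
      refine mul_left_cancel₀ (Chars.natCard_ne_zero (G := (Subgroup.centralizer ({z} : Set G)))) ?_
      rw [mul_zero]
      simp only [classInner, hF]
      rw [mul_inv_cancel_left₀ (Chars.natCard_ne_zero (G := (Subgroup.centralizer ({z} : Set G)))),
        Finset.sum_congr rfl fun y _ => mul_assoc _ _ _, sum_wt_mul hz hc.ord_zC]
      simp only [one_mul]
      set ρ := (ψ : (Subgroup.centralizer ({z} : Set G)) → ℂ) (zC z) / (ψ : (Subgroup.centralizer ({z} : Set G)) → ℂ) 1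
      have hmul : ∀ (i : ℕ) (g : (Subgroup.centralizer ({z} : Set G))), (ψ : (Subgroup.centralizer ({z} : Set G)) → ℂ) (zC z ^ i * g) = ρ ^ i * (ψ : (Subgroup.centralizer ({z} : Set G)) → ℂ) g := by
        intro i g
        induction i with
        | zero => simp
        | succ i ih =>
          rw [pow_succ', mul_assoc, Chars.map_mul_of_mem_center ψ hz, ih, pow_succ', mul_assoc]
      have hρ3 : ρ ^ 3 = 1 := by
        have h := hmul 3 1
        rw [hc.classesC.base.z_cube, one_mul] at h
        exact (mul_eq_right₀ (Chars.map_one_ne_zero ψ)).1 h.symm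
      have hρ1 : conj ρ ≠ 1 := fun e => hzψ (by
        have : ρ = 1 := by simpa using congrArg conj e
        exact (div_eq_one_iff_eq (Chars.map_one_ne_zero ψ)).1 this)
      have hgeo : 1 + conj ρ + conj ρ ^ 2 = 0 := by
        have : (conj ρ - 1) * (1 + conj ρ + conj ρ ^ 2) = 0 := by
          have h := congrArg conj hρ3
          rw [map_pow, map_one] at h
          linear_combination h
        exact (mul_eq_zero.1 this).resolve_left (sub_ne_zero.2 hρ1)
      rw [Finset.sum_congr rfl fun i _ => Finset.sum_congr rfl fun s hs => by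
        rw [ppart_pow_mul hz hc.ord_zC _ (mem_regSet.1 hs), inv_mul_cancel_left, hmul, map_mul,
          map_pow, mul_left_comm], Finset.sum_congr rfl fun i _ => (Finset.mul_sum _ _ _).symm,
        ← Finset.sum_mul]
      refine mul_eq_zero_of_left ?_ _
      simpa [Fin.sum_univ_three] using hgeo
    · refine mul_eq_zero_of_right _ ?_
      simp only [hT]
      set b := blockOf M (ψ : (Subgroup.centralizer ({z} : Set G)) → ℂ) with hbdef
      have hb : IsPBlock M b := ⟨ψ, rfl⟩
      have hne : ¬ IsInducedBlock M (Subgroup.centralizer ({z} : Set G)) b (principalBlock M G) := fun h => hp (by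
        rw [← (HeightZero.isInducedBlock_principal_iff hM hc.pPower_z hb).1 h]
        exact self_mem_blockOf ψ)
      rw [sum_regSet_blockPart hM hb (self_mem_blockOf ψ) hφcl]
      refine Finset.sum_eq_zero fun s hs => ?_
      rw [blockPart_section_eq_zero hM rfl hc.pPower_z hb isPBlock_principalBlock hne hχ
        (mem_regSet.1 hs), map_zero, mul_zero]
  have hsum : ∑ s ∈ regSet 3 (Subgroup.centralizer ({z} : Set G)), φ s * conj (φ s) = 0 := by
    have e : ∀ s ∈ regSet 3 (Subgroup.centralizer ({z} : Set G)), φ s * conj (φ s) =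
        ∑ ψ : IrrCharacter (Subgroup.centralizer ({z} : Set G)), classInner F
          (ψ : (Subgroup.centralizer ({z} : Set G)) → ℂ) *
          (ψ : (Subgroup.centralizer ({z} : Set G)) → ℂ) s * conj (φ s) := fun s hs => by
      rw [← Finset.sum_mul, ← Chars.eq_sum_classInner_mul hFcl s,
        show F s = φ s from (by simpa using hFreg 0 s (mem_regSet.1 hs))]
    rw [Finset.sum_congr rfl e]
    rw [Finset.sum_comm]
    refine Finset.sum_eq_zero fun ψ _ => ?_
    rw [Finset.sum_congr rfl fun s _ => mul_assoc _ _ _, ← Finset.mul_sum]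
    exact hzero ψ
  have hmaj : (Nat.card (Subgroup.centralizer ({z} : Set G))).factorization 3 = (Nat.card G).factorization 3 := by
    refine le_antisymm (Nat.factorization_le_iff_dvd Nat.card_pos.ne' Nat.card_pos.ne' |>.2
      (Subgroup.card_subgroup_dvd_card (Subgroup.centralizer ({z} : Set G))) 3) ?_
    refine (Nat.Prime.pow_dvd_iff_le_factorization Nat.prime_three Nat.card_pos.ne').1 ?_
    rw [← P.card_eq_multiplicity]
    exact Subgroup.card_dvd_of_le hc.base.le_centralizer
  obtain ⟨r, hr, hmat⟩ := RankFourNine.exists_mat_secInd_self_pos hM hc.pPower_z hmaj hχ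
  have h := RankFourNine.natCard_mul_mat_secInd hc.pPower_z χ χ
  rw [hmat] at h
  have h' : (Nat.card (Subgroup.centralizer ({z} : Set G)) : ℂ) * (r : ℂ) = 0 := by
    rw [h]
    convert hsum using 2
    ext
    simp [mem_regSet]
  exact mul_ne_zero (Chars.natCard_ne_zero (G := (Subgroup.centralizer ({z} : Set G)))) (Complex.ofReal_ne_zero.2 hr.ne') h'

end Classes

end CfsgLib.Blocks.Extraspecial27
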