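import Cfsg.Agent.Blocks.Extraspecial27.Bar
import Cfsg.Agent.Chars.Brauer.Defect

/-!
# Functions on the sections of the powers of `z`
-/

set_option autoImplicit false
set_option linter.style.haveILetI false
set_option linter.unusedSectionVars false

namespace CfsgLib.Blocks.Extraspecial27

open Cfsg CfsgLib CfsgLib.Blocks
open scoped ComplexConjugate

universe u

variable {K : Type u} [Group K] [Fintype K] {z : K} {M : Ideal AlgInt}

/-- The combination of the members trivial on `z`. -/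
noncomputable def lam (M : Ideal AlgInt) (z : K) (μ : IrrCharacter K → ℤ) : K → ℂ :=
  fun y => ∑ ψ ∈ (bar M z).toFinite.toFinset, (μ ψ : ℂ) * (ψ : K → ℂ) y

open scoped Classical in
/-- A weight on the three central sections. -/
noncomputable def wt (z : K) (c : Fin 3 → ℂ) (y : K) : ℂ :=
  if ppart 3 y = 1 then c 0 else if ppart 3 y = z then c 1
    else if ppart 3 y = z ^ 2 then c 2 else 0

/-- The combination, weighted on the three central sections. -/
noncomputable def phi (M : Ideal AlgInt) (z : K) (c : Fin 3 → ℂ) (μ : IrrCharacter K → ℤ) :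
    K → ℂ :=
  fun y => wt z c y * lam M z μ y

theorem lam_isClassFunction (μ : IrrCharacter K → ℤ) : IsClassFunction K (lam M z μ) := fun g h => by
  simp only [lam, Chars.isClassFunction_coe _ g h]

theorem lam_gen (μ : IrrCharacter K → ℤ) : IsGeneralizedCharacter K (lam M z μ) := by
  have e : lam M z μ = ∑ ψ ∈ (bar M z).toFinite.toFinset, μ ψ • (ψ : K → ℂ) := by
    funext y; simp [lam]
  rw [e]
  exact Chars.Exceptional.gen_sum _ _ fun ψ _ =>
    Chars.Exceptional.gen_zsmul _ (Chars.Exceptional.gen_of_char (Chars.isCharacter_coe ψ))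

theorem lam_pow_mul (hz : z ∈ Subgroup.center K) (μ : IrrCharacter K → ℤ) (i : ℕ) (g : K) :
    lam M z μ (z ^ i * g) = lam M z μ g :=
  Finset.sum_congr rfl fun ψ hψ => by
    rw [apply_zpow_mul hz ((Set.Finite.mem_toFinset _).1 hψ).2]

theorem ppart_pow_mul (hz : z ∈ Subgroup.center K) (ho : orderOf z = 3) (i : ℕ) {s : K}
    (hs : IsPRegular 3 s) : ppart 3 (z ^ i * s) = z ^ i := by
  haveI : Fact (Nat.Prime 3) := ⟨Nat.prime_three⟩
  refine ppart_mul (Commute.pow_left (Commute.symm (Subgroup.mem_center_iff.1 hz s)) i) ?_ hs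
  obtain ⟨k, -, hk⟩ := (Nat.dvd_prime_pow Nat.prime_three).1
    (show orderOf (z ^ i) ∣ 3 ^ 1 by
      rw [pow_one]
      exact orderOf_dvd_of_pow_eq_one (by
        rw [← pow_mul, mul_comm, pow_mul, show z ^ 3 = 1 from ho ▸ pow_orderOf_eq_one z, one_pow]))
  exact ⟨k, hk⟩

theorem pow_ne_of_lt (ho : orderOf z = 3) {i j : ℕ} (hi : i < 3) (hj : j < 3) (h : i ≠ j) :
    z ^ i ≠ z ^ j := fun e => h (pow_injOn_Iio_orderOf (by simp [ho, hi]) (by simp [ho, hj]) e)

theorem wt_pow_mul (hz : z ∈ Subgroup.center K) (ho : orderOf z = 3) (c : Fin 3 → ℂ) (i : Fin 3)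
    {s : K} (hs : IsPRegular 3 s) : wt z c (z ^ (i : ℕ) * s) = c i := by
  have h01 : z ≠ 1 := fun e => by simp [e] at ho
  have h02 : z ^ 2 ≠ 1 := by simpa using pow_ne_of_lt ho (i := 2) (j := 0) (by norm_num) (by norm_num) (by norm_num)
  have h12 : z ^ 2 ≠ z := by simpa using pow_ne_of_lt ho (i := 2) (j := 1) (by norm_num) (by norm_num) (by norm_num)
  unfold wt
  rw [ppart_pow_mul hz ho _ hs]
  fin_cases i <;> simp [h01, h02, h12]

open scoped Classical in
theorem wt_isClassFunction (hz : z ∈ Subgroup.center K) (c : Fin 3 → ℂ) :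
    IsClassFunction K (wt z c) := by
  intro g h
  have hk : ∀ w ∈ Subgroup.center K, (h * ppart 3 g * h⁻¹ = w ↔ ppart 3 g = w) := fun w hw => by
    constructor <;> intro e
    · calc ppart 3 g = h⁻¹ * (h * ppart 3 g * h⁻¹) * h := by group
        _ = w := by rw [e, mul_assoc, ← Subgroup.mem_center_iff.1 hw h, inv_mul_cancel_left]
    · rw [e, Subgroup.mem_center_iff.1 hw h, mul_inv_cancel_right]
  have e := ppart_conj (p := 3) h g
  unfold wt
  rw [e]
  exact if_congr (hk 1 (one_mem _)) rfl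
    (if_congr (hk z hz) rfl (if_congr (hk (z ^ 2) (pow_mem hz 2)) rfl rfl))

theorem phi_isClassFunction (hz : z ∈ Subgroup.center K) (c : Fin 3 → ℂ)
    (μ : IrrCharacter K → ℤ) : IsClassFunction K (phi M z c μ) := fun g h => by
  simp only [phi, wt_isClassFunction hz c g h, lam_isClassFunction μ g h]

open scoped Classical in
/-- The three central sections. -/
theorem sum_wt_mul (hz : z ∈ Subgroup.center K) (ho : orderOf z = 3) (c : Fin 3 → ℂ) (F : K → ℂ) :
    ∑ y, wt z c y * F y = ∑ i : Fin 3, c i * ∑ s ∈ regSet 3 K, F (z ^ (i : ℕ) * s) := by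
  rw [Finset.sum_congr rfl fun (i : Fin 3) _ => Finset.mul_sum (regSet 3 K) (fun s => F (z ^ (i : ℕ) * s)) (c i),
    ← Finset.sum_product' (f := fun (i : Fin 3) s => c i * F (z ^ (i : ℕ) * s))]
  symm
  refine Finset.sum_bij_ne_zero (fun x _ _ => z ^ (x.1 : ℕ) * x.2) (fun _ _ _ => Finset.mem_univ _)
    (fun a ha _ b hb _ e => ?_) (fun y _ hy => ?_) (fun x hx _ => ?_)
  · simp only [Finset.mem_product, Finset.mem_univ, true_and, mem_regSet] at ha hb
    have e' := congrArg (ppart 3) e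
    rw [ppart_pow_mul hz ho _ ha, ppart_pow_mul hz ho _ hb] at e'
    have hi : a.1 = b.1 := Fin.ext (pow_injOn_Iio_orderOf (by simp [ho]) (by simp [ho]) e')
    refine Prod.ext hi ?_
    rw [hi] at e
    exact mul_left_cancel e
  · obtain ⟨w, hw, -, -, hreg⟩ := isPPart_ppart (p := 3) y
    obtain ⟨i, hi⟩ : ∃ i : Fin 3, ppart 3 y = z ^ (i : ℕ) := by
      by_contra hno
      push Not at hno
      refine hy (mul_eq_zero_of_left ?_ _)
      have h0 := hno 0; have h1 := hno 1; have h2 := hno 2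
      simp at h0 h1 h2
      simp [wt, h0, h1, h2]
    have hys : y = z ^ (i : ℕ) * w := by rw [← hi, hw]
    refine ⟨(i, w), Finset.mem_product.2 ⟨Finset.mem_univ _, mem_regSet.2 hreg⟩, ?_, hys.symm⟩
    rw [hys, wt_pow_mul hz ho c i hreg] at hy
    exact hy
  · simp only [Finset.mem_product, Finset.mem_univ, true_and, mem_regSet] at hx
    rw [wt_pow_mul hz ho c x.1 hx]

theorem classInner_phi (hz : z ∈ Subgroup.center K) (ho : orderOf z = 3) (c : Fin 3 → ℂ)
    (μ : IrrCharacter K → ℤ) (F : K → ℂ) :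
    (Nat.card K : ℂ) * classInner (phi M z c μ) F =
      ∑ i : Fin 3, c i * ∑ s ∈ regSet 3 K, lam M z μ s * conj (F (z ^ (i : ℕ) * s)) := by
  classical
  simp only [classInner, phi]
  rw [mul_inv_cancel_left₀ Chars.natCard_ne_zero,
    Finset.sum_congr rfl fun y _ => mul_assoc _ _ _,
    sum_wt_mul hz ho c (fun y => lam M z μ y * conj (F y))]
  simp only [lam_pow_mul hz]

namespace Classes

variable {P : Sylow 3 K} {m : ℕ} {xs : Fin m → K} (hc : Classes P z xs) (hz : z ∈ Subgroup.center K)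
include hc hz

/-- Off the central sections the three-part is one of the representatives. -/
theorem exists_of_not_central {y : K} (h : ∀ i : Fin 3, ppart 3 y ≠ z ^ (i : ℕ)) :
    ∃ j, IsConj (xs j) (ppart 3 y) := by
  obtain ⟨-, -, -, hpp, -⟩ := isPPart_ppart (p := 3) y
  have hcen : ∀ w ∈ Subgroup.center K, IsConj (ppart 3 y) w → ppart 3 y = w := fun w hw hcw => by
    obtain ⟨d, hd⟩ := isConj_iff.1 hcw
    calc ppart 3 y = d⁻¹ * (d * ppart 3 y * d⁻¹) * d := by group
      _ = w := by rw [hd, mul_assoc, ← Subgroup.mem_center_iff.1 hw d, inv_mul_cancel_left]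
  rcases hc.exists_rep hpp with e | e | e | ⟨j, e⟩
  · exact absurd (hcen 1 (one_mem _) e) (by simpa using h 0)
  · exact absurd (hcen z hz e) (by simpa using h 1)
  · refine absurd ((hcen z⁻¹ (inv_mem hz) e).trans ?_) (h 2)
    exact inv_eq_of_mul_eq_one_right (show z * z ^ 2 = 1 by rw [← pow_succ', hc.base.z_cube])
  · exact ⟨j, e.symm⟩

omit hz in
theorem apply_of_conj (hM : IsPModular 3 M) {ψ : IrrCharacter K} (hψ : ψ ∈ principalBlock M K)
    {j : Fin m} {y : K} (h : IsConj (xs j) (ppart 3 y)) :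
    (ψ : K → ℂ) y = (ψ : K → ℂ) (xs j) := by
  obtain ⟨c, hcy⟩ := isConj_iff.1 h.symm
  obtain ⟨w, hw, hcomm, -, hreg⟩ := isPPart_ppart (p := 3) y
  rw [← irrCharacter_conj ψ y c, ← hw,
    show c * (ppart 3 y * w) * c⁻¹ = c * ppart 3 y * c⁻¹ * (c * w * c⁻¹) by group, hcy]
  refine hc.apply_xs_mul hM hψ j ((isPRegular_conj_iff c w).2 hreg) ?_
  rw [← hcy]
  exact (show c * ppart 3 y * c⁻¹ * (c * w * c⁻¹) = c * w * c⁻¹ * (c * ppart 3 y * c⁻¹) by
    rw [show c * ppart 3 y * c⁻¹ * (c * w * c⁻¹) = c * (ppart 3 y * w) * c⁻¹ by group, hcomm]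
    group)

omit hz in
theorem lam_of_conj (hM : IsPModular 3 M) (μ : IrrCharacter K → ℤ) {j : Fin m} {y : K}
    (h : IsConj (xs j) (ppart 3 y)) :
    lam M z μ y = ∑ ψ ∈ (bar M z).toFinite.toFinset, (μ ψ : ℂ) * (ψ : K → ℂ) (xs j) :=
  Finset.sum_congr rfl fun ψ hψ => by
    rw [hc.apply_of_conj hM ((Set.Finite.mem_toFinset _).1 hψ).1 h]

/-- A combination orthogonal to the columns lives on the three central sections. -/
theorem lam_eq_phi_one (hM : IsPModular 3 M) {μ : IrrCharacter K → ℤ}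
    (hμ : ∀ j, ∑ ψ ∈ (bar M z).toFinite.toFinset, (μ ψ : ℂ) * (ψ : K → ℂ) (xs j) = 0) :
    lam M z μ = phi M z (fun _ => 1) μ := by
  funext y
  by_cases h : ∀ i : Fin 3, ppart 3 y ≠ z ^ (i : ℕ)
  · obtain ⟨j, hj⟩ := hc.exists_of_not_central hz h
    rw [phi, hc.lam_of_conj hM μ hj, hμ j, mul_zero]
  · push Not at h
    obtain ⟨i, hi⟩ := h
    obtain ⟨w, hw, -, -, hreg⟩ := isPPart_ppart (p := 3) y
    rw [phi, show y = z ^ (i : ℕ) * w by rw [← hi, hw], wt_pow_mul hz hc.base.ord _ i hreg, one_mul]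

end Classes

end CfsgLib.Blocks.Extraspecial27
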