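import Cfsg.Agent.Blocks.Extraspecial27.Dot

/-!
# Ten characters: four columns and a lattice of rank two
-/

set_option autoImplicit false
set_option linter.unusedSectionVars false
set_option linter.unusedVariables false

namespace CfsgLib.Blocks.Extraspecial27

open Finset

variable {ι : Type*} [Fintype ι] [DecidableEq ι]

theorem Frame.card_eq_ten (F : Frame ι 4) (a c : ι → ℤ)
    (haa : dot a a = 4) (hab : dot a (a ∘ F.π) = 2) (hcc : dot c c = 10)
    (hao : a F.o = -1) (hco : c F.o = -1) (ha : F.Orth a) (hc : F.Orth c)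
    (hin : ∀ i ∈ F.S, (3 : ℤ) ∣ a i + c i - 1)
    (hout : ∀ i, i ∉ F.S → (3 : ℤ) ∣ a i + c i)
    (hnz : ∀ i, i ∉ F.S → a i ≠ 0 ∨ a (F.π i) ≠ 0 ∨ c i ≠ 0 ∨ c (F.π i) ≠ 0) :
    Fintype.card ι = 10 := by
  obtain ⟨w, hW⟩ := Finset.card_eq_one.1 (show F.W.card = 1 from F.card_W)
  have hconst : ∀ (f : ι → ℤ), F.Orth f → ∀ j, f (F.s j) = f (F.s 0) := fun f hf j => by
    have := hf j; have := hf 0; omega
  have eq : ∀ (f : ι → ℤ), F.Orth f →
      f F.o + f (F.s 0) + f w = 0 ∧
      dot f f = f F.o * f F.o + 4 * (f (F.s 0) * f (F.s 0)) + f w * f w + F.out f := fun f hf => by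
    have h1 := hf 0
    rw [F.sum_S, hW, Finset.sum_singleton, Finset.sum_congr rfl fun j _ => hconst f hf j] at h1
    refine ⟨by simp at h1; omega, ?_⟩
    rw [F.dot_self, hW, Finset.sum_singleton,
      Finset.sum_congr rfl (g := fun _ => f (F.s 0) * f (F.s 0)) fun j _ => by rw [hconst f hf j]]
    simp
  have hπw : F.π w = w := by
    have : w ∈ F.W := by simp [hW]
    simpa [hW] using F.π_W.1 this
  obtain ⟨ea, na⟩ := eq a ha
  have oa : 0 ≤ F.out a := sum_sq_nonneg _ _
  set h := a (F.s 0) with hh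
  have hh0 : h = 0 := by
    rw [haa, hao] at na
    have := abs_le_of_sq_lt (x := h) (n := 0) le_rfl (by nlinarith [mul_self_nonneg (a w)])
    omega
  have haw : a w = 1 := by omega
  have houta : F.out a = 2 := by rw [haa, hao, hh0, haw] at na; omega
  have hdisj := F.pair_disjoint houta (by
    rw [F.dot_eq, hW, Finset.sum_singleton] at hab
    simp only [Function.comp_apply, F.π_o, F.π_s, hπw, hao, haw] at hab
    rw [Finset.sum_eq_zero fun j _ => by rw [hconst a ha j, ← hh, hh0, mul_zero]] at hab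
    omega)
  obtain ⟨hTc, hTu⟩ := F.outSupp_units (n := 2) (by norm_num) houta
  set T := F.outSupp a with hT
  obtain ⟨ec, nc⟩ := eq c hc
  set g := c (F.s 0) with hg
  have hg1 : (3 : ℤ) ∣ g - 1 := by have := hin _ (F.s_mem 0); rw [← hh, hh0, zero_add] at this; exact this
  have oc : 0 ≤ F.out c := sum_sq_nonneg _ _
  have hgv : g = 1 := by
    rw [hcc, hco] at nc
    have := abs_le_of_sq_lt (x := g) (n := 1) (by norm_num) (by nlinarith [mul_self_nonneg (c w)])
    omega
  have houtc : F.out c = 5 := by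
    have hcw : c w = 0 := by omega
    rw [hcc, hco, hgv, hcw] at nc; omega
  have hcT : ∀ i, i ∉ F.S → i ∉ T → c i = 0 := fun i hi hiT => by
    have ha0 : a i = 0 := by
      by_contra hne; exact hiT (F.mem_outSupp.2 ⟨hi, hne⟩)
    have := hout i hi
    rw [ha0, zero_add] at this
    have : c i * c i ≤ F.out c := Finset.single_le_sum (f := fun j => c j * c j)
      (fun j _ => mul_self_nonneg _) (Finset.mem_compl.2 hi)
    have := abs_le_of_sq_lt (x := c i) (n := 2) (by norm_num) (by omega)
    omega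
  have hcov : (univ : Finset ι) ⊆ F.S ∪ (T ∪ T.image F.π) := fun i _ => by
    by_cases hi : i ∈ F.S
    · simp [hi]
    · have hπi : F.π i ∉ F.S := fun h => hi ((F.π_S i).2 h)
      have hT' : ∀ j, F.π j ∈ T → j ∈ T.image F.π := fun j hj =>
        Finset.mem_image.2 ⟨_, hj, F.invol j⟩
      simp only [Finset.mem_union, hi, false_or]
      by_contra hno
      obtain ⟨h1, h2⟩ := not_or.1 hno
      have h2' : F.π i ∉ T := fun h => h2 (hT' i h)
      rcases hnz i hi with e | e | e | e
      · exact h1 (F.mem_outSupp.2 ⟨hi, e⟩)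
      · exact h2' (F.mem_outSupp.2 ⟨hπi, e⟩)
      · exact e (hcT i hi h1)
      · exact e (hcT _ hπi h2')
  have hd1 : Disjoint T (T.image F.π) := Finset.disjoint_left.2 fun i hi hi' => by
    obtain ⟨j, hj, rfl⟩ := Finset.mem_image.1 hi'
    exact hdisj j hj hi
  have hd2 : Disjoint F.S (T ∪ T.image F.π) := Finset.disjoint_left.2 fun i hi hi' => by
    rcases Finset.mem_union.1 hi' with h' | h'
    · exact (F.mem_outSupp.1 h').1 hi
    · obtain ⟨j, hj, rfl⟩ := Finset.mem_image.1 h'
      exact (F.mem_outSupp.1 hj).1 ((F.π_S j).2 hi)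
  have hcard := congrArg Finset.card (Finset.eq_univ_of_forall fun i => hcov (mem_univ i))
  rw [Finset.card_union_of_disjoint hd2, Finset.card_union_of_disjoint hd1,
    Finset.card_image_of_injective _ F.π.injective, F.card_S, hTc, Finset.card_univ] at hcard
  omega

end CfsgLib.Blocks.Extraspecial27
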