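import Cfsg.Agent.Blocks.Extraspecial27.Transfer
import Cfsg.Agent.Blocks.Extraspecial27.Two
import Cfsg.Agent.Blocks.Extraspecial27.Four
import Cfsg.Agent.Blocks.Extraspecial27.Eight

/-!
# The number of characters in the principal block
-/

set_option autoImplicit false
set_option linter.style.haveILetI false
set_option linter.unusedSectionVars false

namespace CfsgLib.Blocks.Extraspecial27

open Cfsg CfsgLib CfsgLib.Blocks
open scoped ComplexConjugate

universe u

section Vectors

variable {ι : Type*} [Fintype ι] [DecidableEq ι]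

/-- A basis vector. -/
def dlt (a : ι) : ι → ℤ := fun i => if i = a then 1 else 0

theorem dot_dlt (a : ι) (g : ι → ℤ) : dot (dlt a) g = g a := by simp [dot, dlt]

theorem dot_dlt' (a : ι) (g : ι → ℤ) : dot g (dlt a) = g a := by rw [dot_comm, dot_dlt]

theorem sum_dlt_mul (a : ι) (T : ι → ℂ) : ∑ i, (dlt a i : ℂ) * T i = T a := by
  simp [dlt]

/-- A change of signs. -/
def tw (σ g : ι → ℤ) : ι → ℤ := fun i => σ i * g i

theorem dot_tw {σ : ι → ℤ} (hσ : ∀ i, σ i * σ i = 1) (f g : ι → ℤ) :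
    dot (tw σ f) (tw σ g) = dot f g :=
  Finset.sum_congr rfl fun i _ => by
    show σ i * f i * (σ i * g i) = f i * g i
    linear_combination (f i * g i) * hσ i

theorem tw_tw {σ : ι → ℤ} (hσ : ∀ i, σ i * σ i = 1) (f : ι → ℤ) : tw σ (tw σ f) = f :=
  funext fun i => by
    show σ i * (σ i * f i) = f i
    linear_combination (f i) * hσ i

theorem dot_tw_left {σ : ι → ℤ} (f g : ι → ℤ) : dot (tw σ f) g = dot f (tw σ g) :=
  Finset.sum_congr rfl fun i _ => by simp only [tw]; ring

theorem tw_comp {σ : ι → ℤ} {π : Equiv.Perm ι} (hσ : ∀ i, σ (π i) = σ i) (f : ι → ℤ) :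
    tw σ f ∘ π = tw σ (f ∘ π) := funext fun i => by simp [tw, hσ]

/-- Orthogonality to the normalised columns. -/
theorem Frame.orth_of_dot {m : ℕ} (F : Frame ι m) {σ : ι → ℤ} (hσ : ∀ i, σ i * σ i = 1)
    {X : Fin m → ι → ℤ} (hin : ∀ j i, i ∈ F.S → σ i * X j i = if i = F.s j then -2 else 1)
    (hout : ∀ j i, i ∉ F.S → X j i = 0) {f : ι → ℤ} (hf : ∀ j, dot f (X j) = 0) :
    F.Orth (tw σ f) := by
  intro j
  have h := hf j
  rw [← dot_tw hσ, dot_comm, dot_eq_sum F.S (tw σ f) (fun i hi => by simp [tw, hout j i hi]),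
    Finset.sum_congr rfl fun i hi => show tw σ (X j) i * tw σ f i =
        tw σ f i - if i = F.s j then 3 * tw σ f i else 0 by
      rw [show tw σ (X j) i = σ i * X j i from rfl, hin j i hi]; split_ifs <;> ring,
    Finset.sum_sub_distrib, Finset.sum_ite_eq', if_pos (F.s_mem j)] at h
  linear_combination h

/-- A normalised column is congruent to one on the frame. -/
theorem Frame.dvd_tw_sub_one {m : ℕ} (F : Frame ι m) {σ : ι → ℤ}
    {X : Fin m → ι → ℤ} (hin : ∀ j i, i ∈ F.S → σ i * X j i = if i = F.s j then -2 else 1)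
    {v : ι → ℤ} {j : Fin m} (hv : ∀ i, (3 : ℤ) ∣ v i - X j i) {i : ι} (hi : i ∈ F.S) :
    (3 : ℤ) ∣ σ i * v i - 1 := by
  obtain ⟨q, hq⟩ := hv i
  have := hin j i hi
  refine ⟨σ i * q + (if i = F.s j then -1 else 0), ?_⟩
  split_ifs with h
  · rw [if_pos h] at this
    linear_combination (σ i) * hq + this
  · rw [if_neg h] at this
    linear_combination (σ i) * hq + this

/-- The support of a column is the frame. -/
theorem Frame.supp_eq {m : ℕ} (F : Frame ι m) {σ : ι → ℤ} {X : Fin m → ι → ℤ}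
    (hin : ∀ j i, i ∈ F.S → σ i * X j i = if i = F.s j then -2 else 1)
    (hout : ∀ j i, i ∉ F.S → X j i = 0) (j : Fin m) : supp (X j) = F.S := by
  ext i
  rw [mem_supp]
  refine ⟨fun h => by_contra fun hi => h (hout j i hi), fun hi e => ?_⟩
  have := hin j i hi
  rw [e, mul_zero] at this
  split_ifs at this
  all_goals omega

theorem Frame.sum_univ_eq {m : ℕ} (F : Frame ι m) (hS : ∀ i, i ∈ F.S) (U : ι → ℂ) :
    ∑ i, U i = U F.o + ∑ j, U (F.s j) + ∑ i ∈ F.W, U i := by
  have hsub : insert F.o (Finset.univ.image F.s) ⊆ F.S := fun i _ => hS i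
  rw [← Finset.eq_univ_of_forall hS, ← Finset.sum_sdiff hsub,
    Finset.sum_insert (by simp [F.s_ne]), Finset.sum_image fun a _ b _ h => F.s_inj h]
  rw [Frame.W]; ring

/-- A twisted column against a vector of complex numbers. -/
theorem Frame.sum_col_mul {m : ℕ} (F : Frame ι m) (hS : ∀ i, i ∈ F.S) {σ : ι → ℤ}
    (hσ : ∀ i, σ i * σ i = 1) {X : Fin m → ι → ℤ}
    (hin : ∀ j i, i ∈ F.S → σ i * X j i = if i = F.s j then -2 else 1) (T : ι → ℂ) (j : Fin m) :
    ∑ i, (X j i : ℂ) * T i = (σ F.o : ℂ) * T F.o + ∑ k, (σ (F.s k) : ℂ) * T (F.s k) +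
      ∑ i ∈ F.W, (σ i : ℂ) * T i - 3 * ((σ (F.s j) : ℂ) * T (F.s j)) := by
  rw [← F.sum_univ_eq hS (fun i => (σ i : ℂ) * T i),
    show 3 * ((σ (F.s j) : ℂ) * T (F.s j)) =
      ∑ i, (if i = F.s j then 3 * ((σ i : ℂ) * T i) else 0) by
        rw [Finset.sum_ite_eq', if_pos (Finset.mem_univ _)],
    ← Finset.sum_sub_distrib]
  refine Finset.sum_congr rfl fun i _ => ?_
  have : X j i = σ i * (σ i * X j i) := by linear_combination -(X j i) * hσ i
  rw [this, hin j i (hS i)]
  split_ifs <;> push_cast <;> ring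

end Vectors

variable {G : Type u} [Group G] [Fintype G] {P : Sylow 3 G} {z : G} {m : ℕ}
  {M : Ideal AlgInt}

open scoped Classical in
/-- The height zero members are the points of a column. -/
theorem natCard_height {X : BI M G → ℤ}
    (h : ∀ i : BI M G, blockHeight 3 (principalBlock M G) (i.1 : G → ℂ) = 0 ↔ X i ≠ 0) :
    Nat.card {χ : IrrCharacter G // χ ∈ principalBlock M G ∧
      blockHeight 3 (principalBlock M G) (χ : G → ℂ) = 0} = (supp X).card := by
  rw [← Fintype.card_coe, ← Nat.card_eq_fintype_card]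
  refine Nat.card_congr
    ⟨fun x => ⟨⟨x.1, (Set.Finite.mem_toFinset _).2 x.2.1⟩, mem_supp.2 ((h _).1 x.2.2)⟩,
      fun i => ⟨i.1.1, (Set.Finite.mem_toFinset _).1 i.1.2, (h _).2 (mem_supp.1 i.2)⟩,
      fun _ => rfl, fun _ => rfl⟩

theorem natCard_principalBlock :
    Nat.card (principalBlock M G) = Fintype.card (BI M G) := by
  rw [← Nat.card_eq_fintype_card]
  exact Nat.card_congr (Equiv.subtypeEquivRight fun χ => (Set.Finite.mem_toFinset _).symm)

/-- The numbers in the case `e = 2`. -/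
theorem count_four {xs : Fin 4 → G} (hc : Classes P z xs) (hM : IsPModular 3 M) :
    Nat.card (principalBlock M G) = 10 ∧ Nat.card {χ : IrrCharacter G // χ ∈ principalBlock M G ∧
      blockHeight 3 (principalBlock M G) (χ : G → ℂ) = 0} = 6 := by
  classical
  haveI := Fintype.ofFinite (Subgroup.centralizer ({z} : Set G))
  obtain ⟨o', Y, o, π, X, A, hYc, hYo, hYg, hYn, -, hT⟩ := hc.exists_transfer hM (by norm_num)
  obtain ⟨F', τ, hFo', -, hτo, hτ, -, hYin, hYout⟩ := exists_frame (by norm_num)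
    (π := Equiv.refl (BZ M (zC z))) (fun i => rfl) rfl Y hYc hYo hYg (fun j i => rfl)
  have hS : ∀ i, i ∈ F'.S := fun i => by
    obtain ⟨j, hj⟩ := hYn i
    by_contra h
    exact hj (hYout j i h)
  have hY : ∀ j, tw τ (Y j) = fun i => if i = F'.s j then -2 else 1 := fun j =>
    funext fun i => hYin j i (hS i)
  obtain ⟨w, hW⟩ := Finset.card_eq_one.1 (show F'.W.card = 1 from F'.card_W)
  have hw := F'.mem_W.1 (hW ▸ Finset.mem_singleton_self w)
  have hall : ∀ i, i = F'.o ∨ i = w ∨ ∃ j, i = F'.s j := fun i => by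
    by_contra h
    push Not at h
    have : i ∈ F'.W := F'.mem_W.2 ⟨hS i, h.1, h.2.2⟩
    rw [hW, Finset.mem_singleton] at this
    exact h.2.1 this
  set g1 := dlt F'.o - dlt w with hg1
  set g2 := dlt F'.o - ∑ j, dlt (F'.s j) with hg2
  have hdot2 : ∀ g, dot g2 g = g F'.o - ∑ j, g (F'.s j) := fun g => by
    rw [hg2, dot_sub_left, dot_dlt]
    congr 1
    simp only [dot, Finset.sum_apply, Finset.sum_mul]
    rw [Finset.sum_comm]
    exact Finset.sum_congr rfl fun j _ => dot_dlt (F'.s j) g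
  have hdot1 : ∀ g, dot g1 g = g F'.o - g w := fun g => by
    rw [hg1, dot_sub_left, dot_dlt, dot_dlt]
  have hp1 : ∀ j, dot (tw τ g1) (Y j) = 0 := fun j => by
    rw [dot_tw_left, hdot1, hY]
    simp [(F'.s_ne j).symm, hw.2.2 j]
  have hp2 : ∀ j, dot (tw τ g2) (Y j) = 0 := fun j => by
    rw [dot_tw_left, hdot2, hY]
    simp only [F'.s_inj.eq_iff, if_neg (F'.s_ne j).symm, Fin.sum_univ_four]
    fin_cases j <;> simp
  have hv1 : g1 F'.o = 1 ∧ g1 w = -1 ∧ ∀ j, g1 (F'.s j) = 0 := by
    refine ⟨?_, ?_, fun j => ?_⟩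
    · simp [hg1, dlt, Ne.symm hw.2.1]
    · simp [hg1, dlt, hw.2.1]
    · simp [hg1, dlt, F'.s_ne j, Ne.symm (hw.2.2 j)]
  have hv2 : g2 F'.o = 1 ∧ g2 w = 0 ∧ ∀ j, g2 (F'.s j) = -1 := by
    refine ⟨?_, ?_, fun j => ?_⟩
    · simp [hg2, dlt, fun j => (F'.s_ne j).symm]
    · simp [hg2, dlt, hw.2.1, hw.2.2]
    · simp [hg2, dlt, F'.s_ne j, F'.s_inj.eq_iff]
  have h11 : dot (tw τ g1) (tw τ g1) = 2 := by
    rw [dot_tw hτ, hdot1, hv1.1, hv1.2.1]; norm_num
  have h22 : dot (tw τ g2) (tw τ g2) = 5 := by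
    rw [dot_tw hτ, hdot2, hv2.1, Finset.sum_congr rfl fun j _ => hv2.2.2 j]; simp
  set a := A (tw τ g1) with ha
  set c := A (tw τ g2) with hc'
  have hP : ∀ (r : Fin 2) (j : Fin 4), dot (![tw τ g1, tw τ g2] r) (Y j) = 0 := fun r j => by
    fin_cases r
    exacts [hp1 j, hp2 j]
  have hsum : ∀ i, (3 : ℤ) ∣ a i + c i - X 0 i := by
    have hcomb := hT.comb ![1, 1] ![tw τ g1, tw τ g2] hP
    intro i
    have h := hT.congA (fun i => ∑ r : Fin 2, (![1, 1] : Fin 2 → ℤ) r * ![tw τ g1, tw τ g2] r i)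
      (-1) 0 (fun j => by
        rw [show (fun i => ∑ r : Fin 2, (![1, 1] : Fin 2 → ℤ) r * ![tw τ g1, tw τ g2] r i) =
          tw τ g1 + tw τ g2 from funext fun i => by simp [Fin.sum_univ_two], dot_add_left, hp1, hp2,
          add_zero])
      (fun i => by
        have hci : τ i * Y 0 i = if i = F'.s 0 then -2 else 1 := hYin 0 i (hS i)
        have he : (∑ r : Fin 2, (![1, 1] : Fin 2 → ℤ) r * ![tw τ g1, tw τ g2] r i) - -1 * Y 0 i =
            τ i * (g1 i + g2 i + τ i * Y 0 i) := by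
          simp only [Fin.sum_univ_two, tw, Matrix.cons_val_zero, Matrix.cons_val_one, Matrix.head_cons]
          linear_combination -(Y 0 i) * hτ i
        rw [he]
        refine dvd_mul_of_dvd_right ?_ _
        rw [hci]
        rcases hall i with rfl | rfl | ⟨j, rfl⟩
        · rw [hv1.1, hv2.1, if_neg (F'.s_ne 0).symm]; norm_num
        · rw [hv1.2.1, hv2.2.1, if_neg (hw.2.2 0)]; norm_num
        · rw [hv1.2.2, hv2.2.2]; split_ifs <;> norm_num) i
    rw [hcomb] at h
    simpa [Fin.sum_univ_two, ← sub_eq_add_neg] using h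
  obtain ⟨F, σ, hFo, hFπ, hσo, hσ, hσπ, hXin, hXout⟩ := exists_frame (by norm_num) hT.invol hT.π_o X
    hT.col hT.orth hT.cong hT.πX
  have hspan := hT.nz ![tw τ g1, tw τ g2] hP fun T hy hl i => by
    set U : BZ M (zC z) → ℂ := fun i => (τ i : ℂ) * T i with hU
    have e1 : U F'.o - U w = 0 := by
      rw [← hl 0]
      simp [hU, tw, hg1, sub_mul, Finset.sum_sub_distrib, dlt, mul_sub]
    have e2 : U F'.o - ∑ j, U (F'.s j) = 0 := by
      rw [← hl 1]
      simp only [Matrix.cons_val_one, Matrix.head_cons, Matrix.cons_val_zero, tw, hg2, Pi.sub_apply,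
        Finset.sum_apply, Int.cast_mul, Int.cast_sub, Int.cast_sum]
      simp only [mul_sub, sub_mul, Finset.sum_sub_distrib, Finset.mul_sum, Finset.sum_mul]
      congr 1
      · simp [hU, dlt]
      · rw [Finset.sum_comm]; simp [hU, dlt]
    have e3 : ∀ j, U F'.o + ∑ k, U (F'.s k) + U w - 3 * U (F'.s j) = 0 := fun j => by
      rw [← hy j]
      have e : ∀ i, (Y j i : ℂ) * T i = U i - if i = F'.s j then 3 * U i else 0 := fun i => by
        have : Y j i = τ i * (τ i * Y j i) := by linear_combination -(Y j i) * hτ i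
        rw [this, hYin j i (hS i)]
        simp only [hU]
        split_ifs <;> push_cast <;> ring
      rw [Finset.sum_congr rfl fun i _ => e i, Finset.sum_sub_distrib, Finset.sum_ite_eq',
        if_pos (Finset.mem_univ _)]
      congr 1
      rw [show (Finset.univ : Finset (BZ M (zC z))) =
          insert F'.o (insert w (Finset.univ.image F'.s)) from (Finset.eq_univ_of_forall fun i => by
            rcases hall i with rfl | rfl | ⟨j, rfl⟩ <;> simp).symm,
        Finset.sum_insert (by simp [Ne.symm hw.2.1, F'.s_ne]),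
        Finset.sum_insert (by simp [fun j => Ne.symm (hw.2.2 j)]),
        Finset.sum_image fun a _ b _ h => F'.s_inj h]
      ring
    have es : ∀ j, U (F'.s j) = U F'.o := fun j => by
      have := e3 j
      linear_combination (-(1 : ℂ) / 3) * this + (-(1 : ℂ) / 3) * e1 + (-(1 : ℂ) / 3) * e2
    have eo : U F'.o = 0 := by
      rw [Finset.sum_congr rfl fun j _ => es j] at e2
      simp only [Finset.sum_const, Finset.card_univ, Fintype.card_fin, nsmul_eq_mul] at e2
      norm_num at e2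
      linear_combination (-(1 : ℂ) / 3) * e2
    have hU0 : U i = 0 := by
      rcases hall i with rfl | rfl | ⟨j, rfl⟩
      · exact eo
      · linear_combination eo - e1
      · rw [es, eo]
    exact (mul_eq_zero.1 hU0).resolve_left
      (Int.cast_ne_zero.2 fun e => by have := hτ i; rw [e] at this; simp at this)
  have hne : ∀ i, σ i ≠ 0 := fun i e => by have := hσ i; rw [e] at this; simp at this
  have hcard := F.card_eq_ten (tw σ a) (tw σ c)
    (by rw [dot_tw hσ, ha, (hT.gram _ _ hp1 hp1).1, h11]; norm_num)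
    (by rw [hFπ, tw_comp hσπ, dot_tw hσ, ha, (hT.gram _ _ hp1 hp1).2, h11])
    (by rw [dot_tw hσ, hc', (hT.gram _ _ hp2 hp2).1, h22]; norm_num)
    (by rw [hFo, tw, hσo, one_mul, ha, hT.value _ hp1, tw, ← hFo', hv1.1, hFo', hτo]; norm_num)
    (by rw [hFo, tw, hσo, one_mul, hc', hT.value _ hp2, tw, ← hFo', hv2.1, hFo', hτo]; norm_num)
    (F.orth_of_dot hσ hXin hXout (hT.perp _ hp1)) (F.orth_of_dot hσ hXin hXout (hT.perp _ hp2))
    (fun i hi => by
      have := F.dvd_tw_sub_one hXin (v := fun i => a i + c i) hsum hi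
      rwa [mul_add] at this)
    (fun i hi => by
      have h := hsum i
      rw [hXout 0 i hi, sub_zero] at h
      rw [tw, tw, ← mul_add]
      exact h.mul_left _)
    (fun i hi => by
      simp only [tw, hFπ, mul_ne_zero_iff, hne, ne_eq, not_false_eq_true, true_and]
      obtain ⟨r, hr⟩ := hspan i
      fin_cases r
      · exact hr.elim Or.inl fun h => Or.inr (Or.inl h)
      · exact hr.elim (fun h => Or.inr (Or.inr (Or.inl h))) fun h => Or.inr (Or.inr (Or.inr h)))
  refine ⟨by rw [natCard_principalBlock, hcard], ?_⟩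
  rw [natCard_height (hT.height 0), F.supp_eq hXin hXout, F.card_S]

/-- The numbers in the case `e = 4`. -/
theorem count_two {xs : Fin 2 → G} (hc : Classes P z xs) (hM : IsPModular 3 M) :
    Nat.card (principalBlock M G) = 14 ∧ Nat.card {χ : IrrCharacter G // χ ∈ principalBlock M G ∧
      blockHeight 3 (principalBlock M G) (χ : G → ℂ) = 0} = 6 := by
  classical
  haveI := Fintype.ofFinite (Subgroup.centralizer ({z} : Set G))
  obtain ⟨o', Y, o, π, X, A, hYc, hYo, hYg, hYn, -, hT⟩ := hc.exists_transfer hM (by norm_num)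
  obtain ⟨F', τ, hFo', -, hτo, hτ, -, hYin, hYout⟩ := exists_frame (by norm_num)
    (π := Equiv.refl (BZ M (zC z))) (fun i => rfl) rfl Y hYc hYo hYg (fun j i => rfl)
  have hS : ∀ i, i ∈ F'.S := fun i => by
    obtain ⟨j, hj⟩ := hYn i
    by_contra h
    exact hj (hYout j i h)
  have hY : ∀ j, tw τ (Y j) = fun i => if i = F'.s j then -2 else 1 := fun j =>
    funext fun i => hYin j i (hS i)
  let E := F'.W.equivFinOfCardEq (show F'.W.card = 3 from F'.card_W)
  set w : Fin 3 → BZ M (zC z) := fun r => (E.symm r).1 with hw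
  have hwW : ∀ r, w r ∈ F'.W := fun r => (E.symm r).2
  have hwinj : Function.Injective w := fun r t h => E.symm.injective (Subtype.ext h)
  have hwo : ∀ r, w r ≠ F'.o := fun r => (F'.mem_W.1 (hwW r)).2.1
  have hws : ∀ r j, w r ≠ F'.s j := fun r => (F'.mem_W.1 (hwW r)).2.2
  have hall : ∀ i, i = F'.o ∨ (∃ r, i = w r) ∨ ∃ j, i = F'.s j := fun i => by
    by_contra h
    push Not at h
    have hi : i ∈ F'.W := F'.mem_W.2 ⟨hS i, h.1, h.2.2⟩
    exact h.2.1 (E ⟨i, hi⟩) (by simp [hw])
  have hs : F'.s 1 ≠ F'.s 0 := fun e => by have := F'.s_inj e; simp at this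
  set g : Fin 3 → BZ M (zC z) → ℤ := fun r => dlt F'.o - dlt (w r) with hg
  set h := dlt F'.o + dlt (F'.s 0) + dlt (F'.s 1) with hh
  have hdg : ∀ r f, dot (g r) f = f F'.o - f (w r) := fun r f => by
    rw [hg, dot_sub_left, dot_dlt, dot_dlt]
  have hdh : ∀ f, dot h f = f F'.o + f (F'.s 0) + f (F'.s 1) := fun f => by
    rw [hh, dot_add_left, dot_add_left, dot_dlt, dot_dlt, dot_dlt]
  have hvo : (∀ r, g r F'.o = 1) ∧ h F'.o = 1 :=
    ⟨fun r => by simp [hg, dlt, Ne.symm (hwo r)],
      by simp [hh, dlt, (F'.s_ne 0).symm, (F'.s_ne 1).symm]⟩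
  have hvw : (∀ r t, g r (w t) = if r = t then -1 else 0) ∧ ∀ t, h (w t) = 0 := by
    refine ⟨fun r t => ?_, fun t => ?_⟩
    · by_cases e : r = t
      · subst e; simp [hg, dlt, hwo r]
      · simp [hg, dlt, hwo t, hwinj.eq_iff, e, Ne.symm e]
    · simp [hh, dlt, hwo t, hws t 0, hws t 1]
  have hvs : (∀ r j, g r (F'.s j) = 0) ∧ ∀ j, h (F'.s j) = 1 := by
    refine ⟨fun r j => by simp [hg, dlt, F'.s_ne j, Ne.symm (hws r j)], fun j => ?_⟩
    fin_cases j <;> simp [hh, dlt, F'.s_ne, hs, hs.symm]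
  have hpg : ∀ r j, dot (tw τ (g r)) (Y j) = 0 := fun r j => by
    rw [dot_tw_left, hdg, hY]
    simp [(F'.s_ne j).symm, hws r j]
  have hph : ∀ j, dot (tw τ h) (Y j) = 0 := fun j => by
    rw [dot_tw_left, hdh, hY]
    fin_cases j <;> simp [(F'.s_ne 0).symm, (F'.s_ne 1).symm, hs, hs.symm]
  have hgg : ∀ r t, dot (tw τ (g r)) (tw τ (g t)) = if r = t then 2 else 1 := fun r t => by
    rw [dot_tw hτ, hdg, hvo.1, hvw.1]
    by_cases e : r = t
    · subst e; simp
    · simp [e, Ne.symm e]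
  have hhh : dot (tw τ h) (tw τ h) = 3 := by
    rw [dot_tw hτ, hdh, hvo.2, hvs.2, hvs.2]; norm_num
  have hhg : ∀ r, dot (tw τ h) (tw τ (g r)) = 1 := fun r => by
    rw [dot_tw hτ, hdh, hvo.1, hvs.1, hvs.1]; norm_num
  set f : Fin 4 → BZ M (zC z) → ℤ :=
    ![tw τ (g 0), tw τ (g 1), tw τ (g 2), tw τ h] with hf
  have hP : ∀ r j, dot (f r) (Y j) = 0 := fun r j => by
    fin_cases r
    exacts [hpg 0 j, hpg 1 j, hpg 2 j, hph j]
  set a : Fin 3 → BI M G → ℤ := fun r => A (tw τ (g r)) with ha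
  set d := A (tw τ h) with hd
  have hsum : ∀ i, (3 : ℤ) ∣ a 0 i + a 1 i + a 2 i - d i - X 0 i := by
    have hcomb := hT.comb ![1, 1, 1, -1] f hP
    intro i
    have h' := hT.congA (fun i => ∑ r : Fin 4, (![1, 1, 1, -1] : Fin 4 → ℤ) r * f r i) (-1) 0
      (fun j => by
        rw [show (fun i => ∑ r : Fin 4, (![1, 1, 1, -1] : Fin 4 → ℤ) r * f r i) =
          tw τ (g 0) + tw τ (g 1) + tw τ (g 2) - tw τ h from funext fun i => by
            simp [Fin.sum_univ_four, hf, sub_eq_add_neg],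
          dot_sub_left, dot_add_left, dot_add_left, hpg, hpg, hpg, hph]
        ring)
      (fun i => by
        have hci : τ i * Y 0 i = if i = F'.s 0 then -2 else 1 := hYin 0 i (hS i)
        have he : (∑ r : Fin 4, (![1, 1, 1, -1] : Fin 4 → ℤ) r * f r i) - -1 * Y 0 i =
            τ i * (g 0 i + g 1 i + g 2 i - h i + τ i * Y 0 i) := by
          simp [Fin.sum_univ_four, hf, tw]
          linear_combination -(Y 0 i) * hτ i
        rw [he]
        refine dvd_mul_of_dvd_right ?_ _
        rw [hci]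
        rcases hall i with rfl | ⟨t, rfl⟩ | ⟨j, rfl⟩
        · rw [hvo.1, hvo.1, hvo.1, hvo.2, if_neg (F'.s_ne 0).symm]; norm_num
        · rw [hvw.1, hvw.1, hvw.1, hvw.2, if_neg (hws t 0)]
          fin_cases t <;> simp
        · rw [hvs.1, hvs.1, hvs.1, hvs.2]; split_ifs <;> norm_num) i
    rw [hcomb] at h'
    simpa [Fin.sum_univ_four, hf, ← sub_eq_add_neg] using h'
  obtain ⟨F, σ, hFo, hFπ, hσo, hσ, hσπ, hXin, hXout⟩ := exists_frame (by norm_num) hT.invol hT.π_o X
    hT.col hT.orth hT.cong hT.πX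
  have hspan := hT.nz f hP fun T hy hl i => by
    have hdl : ∀ v : BZ M (zC z), ∑ i, (τ i : ℂ) * (dlt v i : ℂ) * T i = (τ v : ℂ) * T v := fun v => by
      simp [dlt]
    set U : BZ M (zC z) → ℂ := fun i => (τ i : ℂ) * T i with hU
    have eg : ∀ r, ∑ i, ((tw τ (g r)) i : ℂ) * T i = U F'.o - U (w r) := fun r => by
      simp only [tw, hg, Pi.sub_apply, Int.cast_mul, Int.cast_sub, mul_sub, sub_mul,
        Finset.sum_sub_distrib, hdl]
      rfl
    have eh : ∑ i, ((tw τ h) i : ℂ) * T i = U F'.o + U (F'.s 0) + U (F'.s 1) := by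
      simp only [tw, hh, Pi.add_apply, Int.cast_mul, Int.cast_add, mul_add, add_mul,
        Finset.sum_add_distrib, hdl]
      rfl
    have ew : ∀ r, U (w r) = U F'.o := by
      intro r
      have : U F'.o - U (w r) = 0 := by
        rw [← eg r]
        fin_cases r
        exacts [hl 0, hl 1, hl 2]
      linear_combination -this
    have e4 : U F'.o + U (F'.s 0) + U (F'.s 1) = 0 := eh ▸ hl 3
    have e3 : ∀ j, U F'.o + (U (F'.s 0) + U (F'.s 1)) + ∑ i ∈ F'.W, U i - 3 * U (F'.s j) = 0 := by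
      intro j
      rw [← hy j, F'.sum_col_mul hS hτ hYin T j, Fin.sum_univ_two]
    have eW : ∑ i ∈ F'.W, U i = 3 * U F'.o := by
      rw [Finset.sum_congr rfl fun i hi => show U i = U F'.o by
        rw [show i = w (E ⟨i, hi⟩) by simp [hw], ew], Finset.sum_const, F'.card_W]
      norm_num
    have eo : U F'.o = 0 := by
      have h0 := e3 0
      have h1 := e3 1
      rw [eW] at h0 h1
      linear_combination (1 / 9 : ℂ) * h0 + (1 / 9 : ℂ) * h1 + (1 / 9 : ℂ) * e4
    have es : ∀ j, U (F'.s j) = 0 := fun j => by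
      have := e3 j
      rw [eW] at this
      linear_combination (-(1 : ℂ) / 3) * this + eo + (1 / 3 : ℂ) * e4
    have hU0 : U i = 0 := by
      rcases hall i with rfl | ⟨r, rfl⟩ | ⟨j, rfl⟩
      · exact eo
      · rw [ew, eo]
      · exact es j
    exact (mul_eq_zero.1 hU0).resolve_left
      (Int.cast_ne_zero.2 fun e => by have := hτ i; rw [e] at this; simp at this)
  have hne : ∀ i, σ i ≠ 0 := fun i e => by have := hσ i; rw [e] at this; simp at this
  have hao : ∀ (v : BZ M (zC z) → ℤ), (∀ j, dot (tw τ v) (Y j) = 0) → v F'.o = 1 →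
      tw σ (A (tw τ v)) F.o = -1 := fun v hv hv1 => by
    rw [hFo, tw, hσo, one_mul, hT.value _ hv, tw, ← hFo', hv1, hFo', hτo]; norm_num
  have hdata : FourData F (fun r => tw σ (a r)) (tw σ d) :=
    { aa := fun r t => by
        rw [dot_tw hσ, ha, (hT.gram _ _ (hpg r) (hpg t)).1, hgg]; split_ifs <;> rfl
      ab := fun r t => by
        rw [hFπ, tw_comp hσπ, dot_tw hσ, ha, (hT.gram _ _ (hpg r) (hpg t)).2, hgg]
      dd := by rw [dot_tw hσ, hd, (hT.gram _ _ hph hph).1, hhh]; rfl
      da := fun r => by rw [dot_tw hσ, hd, ha, (hT.gram _ _ hph (hpg r)).1, hhg]; rfl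
      db := fun r => by
        rw [hFπ, tw_comp hσπ, dot_tw hσ, hd, ha, (hT.gram _ _ hph (hpg r)).2, hhg]
      ao := fun r => hao _ (hpg r) (hvo.1 r)
      d_o := hao _ hph hvo.2
      orth_a := fun r => F.orth_of_dot hσ hXin hXout (hT.perp _ (hpg r))
      orth_d := F.orth_of_dot hσ hXin hXout (hT.perp _ hph)
      cin := fun i hi => by
        have := F.dvd_tw_sub_one hXin (v := fun i => a 0 i + a 1 i + a 2 i - d i) hsum hi
        simpa [tw, mul_add, mul_sub] using this
      cout := fun i hi => by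
        have h' := hsum i
        rw [hXout 0 i hi, sub_zero] at h'
        simpa [tw, mul_add, mul_sub] using h'.mul_left (σ i)
      nz := fun i hi => by
        simp only [tw, hFπ, mul_ne_zero_iff, hne, ne_eq, not_false_eq_true, true_and]
        obtain ⟨r, hr⟩ := hspan i
        fin_cases r
        exacts [Or.inl ⟨0, hr⟩, Or.inl ⟨1, hr⟩, Or.inl ⟨2, hr⟩, Or.inr hr] }
  refine ⟨by rw [natCard_principalBlock, hdata.card_eq], ?_⟩
  rw [natCard_height (hT.height 0), F.supp_eq hXin hXout, F.card_S]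

/-- The numbers in the case `e = 8`. -/
theorem count_one {xs : Fin 1 → G} (hc : Classes P z xs) (hM : IsPModular 3 M) :
    Nat.card (principalBlock M G) = 16 ∧ Nat.card {χ : IrrCharacter G // χ ∈ principalBlock M G ∧
      blockHeight 3 (principalBlock M G) (χ : G → ℂ) = 0} = 6 := by
  classical
  haveI := Fintype.ofFinite (Subgroup.centralizer ({z} : Set G))
  obtain ⟨o', Y, o, π, X, A, hYc, -, -, hYn, hYd, hT⟩ := hc.exists_transfer hM (by norm_num)
  have hy : ∀ i, Y 0 i ≠ 0 := fun i => by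
    obtain ⟨j, hj⟩ := hYn i
    rwa [Fin.fin_one_eq_zero j] at hj
  have hsupp : supp (Y 0) = Finset.univ := Finset.eq_univ_of_forall fun i => mem_supp.2 (hy i)
  have h9 := (hYc 0).card_supp
  rw [hsupp, Finset.card_univ] at h9
  have ho2 : o' ∉ twos (Y 0) := fun h => by
    have := mem_twos.1 h; rw [(hYc 0).one] at this; omega
  have ho1 : (twos (Y 0)).card + 1 ≤ Fintype.card (BZ M (zC z)) := by
    rw [← Finset.card_insert_of_notMem ho2]
    exact Finset.card_le_univ _
  have hbd : ∀ i, Y 0 i = 1 ∨ Y 0 i = -1 ∨ i ∈ twos (Y 0) := fun i => by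
    rw [mem_twos]
    rcases (hYc 0).bound i with e | e | e | e | e
    · exact absurd e (hy i)
    all_goals simp [e]
  -- common to both shapes
  have hrt : ∀ (τ : BZ M (zC z) → ℤ), (∀ i, τ i * τ i = 1) → τ o' = 1 →
      ∀ {n : ℕ} (w : Fin n → BZ M (zC z)), Function.Injective w → (∀ r, w r ≠ o') →
        ∀ r t, dot (tw τ (dlt o' - dlt (w r))) (tw τ (dlt o' - dlt (w t))) =
          if r = t then 2 else 1 := by
    intro τ hτ _ n w hw hwo r t
    rw [dot_tw hτ, dot_sub_left, dot_dlt, dot_dlt]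
    by_cases e : r = t
    · subst e; simp [dlt, hwo r, (hwo r).symm]
    · simp [dlt, e, hw.eq_iff, hwo r, (hwo t).symm]
  rcases Nat.lt_or_ge (twos (Y 0)).card 1 with h0 | h1
  · -- nine units
    exfalso
    have ht : twos (Y 0) = ∅ := Finset.card_eq_zero.1 (by omega)
    have hu : ∀ i, Y 0 i * Y 0 i = 1 := fun i => by
      rcases hbd i with e | e | e
      · simp [e]
      · simp [e]
      · simp [ht] at e
    have hcard : (Finset.univ.erase o').card = 8 := by
      rw [Finset.card_erase_of_mem (Finset.mem_univ _), Finset.card_univ]; omega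
    let E := (Finset.univ.erase o').equivFinOfCardEq hcard
    set w : Fin 8 → BZ M (zC z) := fun r => (E.symm r).1 with hw
    have hwo : ∀ r, w r ≠ o' := fun r => (Finset.mem_erase.1 (E.symm r).2).1
    have hwinj : Function.Injective w := fun r t h => E.symm.injective (Subtype.ext h)
    set f : Fin 8 → BZ M (zC z) → ℤ := fun r => tw (Y 0) (dlt o' - dlt (w r)) with hf
    have hP : ∀ r j, dot (f r) (Y j) = 0 := fun r j => by
      rw [Fin.fin_one_eq_zero j, hf, dot_tw_left,
        show tw (Y 0) (Y 0) = fun _ => 1 from funext hu, dot_sub_left, dot_dlt, dot_dlt, sub_self]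
    refine no_eight (a := fun r => A (f r)) (X := X 0) hT.invol hT.π_o
      (fun r t => ?_) (fun r t => ?_) (fun r => ?_) (hT.πX 0) fun i => ?_
    · rw [(hT.gram _ _ (hP r) (hP t)).1, hrt (Y 0) hu (hYc 0).one w hwinj hwo]; split_ifs <;> rfl
    · rw [(hT.gram _ _ (hP r) (hP t)).2, hrt (Y 0) hu (hYc 0).one w hwinj hwo]
    · rw [hT.value _ (hP r), hf]
      simp [tw, dlt, (hYc 0).one, Ne.symm (hwo r)]
    · have h := hT.congA (fun i => ∑ r : Fin 8, (1 : ℤ) * f r i) (-1) 0 (fun j => by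
          rw [dot, Finset.sum_congr rfl fun b _ => Finset.sum_mul _ _ _, Finset.sum_comm]
          refine Finset.sum_eq_zero fun r _ => ?_
          simp only [one_mul]
          exact hP r j) (fun i => by
          have he : (∑ r : Fin 8, (1 : ℤ) * f r i) - -1 * Y 0 i =
              Y 0 i * ((∑ r : Fin 8, (dlt o' i - dlt (w r) i)) + 1) := by
            simp only [hf, tw, Pi.sub_apply, one_mul, mul_add, Finset.mul_sum]
            ring
          rw [he]
          refine dvd_mul_of_dvd_right ?_ _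
          by_cases hi : i = o'
          · subst hi
            simp [dlt, Ne.symm (hwo _)]
          · obtain ⟨t, rfl⟩ : ∃ t, i = w t :=
              ⟨E ⟨i, Finset.mem_erase.2 ⟨hi, Finset.mem_univ _⟩⟩,
                (congrArg Subtype.val (E.symm_apply_apply ⟨i, _⟩)).symm⟩
            simp [dlt, hi, hwinj.eq_iff]) i
      rw [hT.comb (fun _ => 1) f hP] at h
      simpa [← sub_eq_add_neg] using h
  obtain h2 | h2 : (twos (Y 0)).card = 1 ∨ 2 ≤ (twos (Y 0)).card := by omega
  swap
  · -- parity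
    exfalso
    have h3 : Fintype.card (BZ M (zC z)) = 3 ∧ (twos (Y 0)).card = 2 := by omega
    obtain ⟨d, hd1, hd⟩ := hYd 0
    have huniv : insert o' (twos (Y 0)) = Finset.univ :=
      Finset.eq_univ_of_card _ (by rw [Finset.card_insert_of_notMem ho2, h3.2, h3.1])
    rw [← huniv, Finset.sum_insert ho2, (hYc 0).one, hd1] at hd
    obtain ⟨q, hq⟩ : (2 : ℤ) ∣ ∑ i ∈ twos (Y 0), Y 0 i * d i := Finset.dvd_sum fun i hi =>
      dvd_mul_of_dvd_left (by rcases mem_twos.1 hi with e | e <;> simp [e]) _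
    omega
  -- six points
  obtain ⟨s, hs⟩ := Finset.card_eq_one.1 h2
  have hsv : Y 0 s = 2 ∨ Y 0 s = -2 := mem_twos.1 (by rw [hs]; exact Finset.mem_singleton_self s)
  have hso : s ≠ o' := fun e => ho2 (by rw [hs, e]; exact Finset.mem_singleton_self _)
  set τ : BZ M (zC z) → ℤ := fun i => if Y 0 i = 1 ∨ Y 0 i = -2 then 1 else -1 with hτdef
  have hτ : ∀ i, τ i * τ i = 1 := fun i => by simp only [hτdef]; split_ifs <;> norm_num
  have hτo : τ o' = 1 := by simp [hτdef, (hYc 0).one]
  have hY : ∀ i, τ i * Y 0 i = if i = s then -2 else 1 := fun i => by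
    by_cases hi : i = s
    · subst hi; rw [if_pos rfl]
      rcases hsv with e | e <;> simp [hτdef, e]
    · rw [if_neg hi]
      rcases hbd i with e | e | e
      · simp [hτdef, e]
      · simp [hτdef, e]
      · rw [hs, Finset.mem_singleton] at e; exact absurd e hi
  have hcard : ((Finset.univ.erase o').erase s).card = 4 := by
    rw [Finset.card_erase_of_mem (Finset.mem_erase.2 ⟨hso, Finset.mem_univ _⟩),
      Finset.card_erase_of_mem (Finset.mem_univ _), Finset.card_univ]
    omega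
  let E := ((Finset.univ.erase o').erase s).equivFinOfCardEq hcard
  set w : Fin 4 → BZ M (zC z) := fun r => (E.symm r).1 with hw
  have hws : ∀ r, w r ≠ s := fun r => (Finset.mem_erase.1 (E.symm r).2).1
  have hwo : ∀ r, w r ≠ o' := fun r => (Finset.mem_erase.1 (Finset.mem_erase.1 (E.symm r).2).2).1
  have hwinj : Function.Injective w := fun r t h => E.symm.injective (Subtype.ext h)
  have hall : ∀ i, i = o' ∨ i = s ∨ ∃ t, i = w t := fun i => by
    by_cases h1 : i = o'
    · exact Or.inl h1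
    by_cases h2 : i = s
    · exact Or.inr (Or.inl h2)
    exact Or.inr (Or.inr
      ⟨E ⟨i, Finset.mem_erase.2 ⟨h2, Finset.mem_erase.2 ⟨h1, Finset.mem_univ _⟩⟩⟩,
        (congrArg Subtype.val (E.symm_apply_apply ⟨i, _⟩)).symm⟩)
  set g : Fin 4 → BZ M (zC z) → ℤ := fun r => dlt o' - dlt (w r) with hg
  set h := dlt o' + dlt (w 3) + dlt s with hh
  have hdh : ∀ f, dot h f = f o' + f (w 3) + f s := fun f => by
    rw [hh, dot_add_left, dot_add_left, dot_dlt, dot_dlt, dot_dlt]
  have hvg : ∀ r, g r o' = 1 ∧ g r s = 0 ∧ ∀ t, g r (w t) = if r = t then -1 else 0 := fun r => by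
    refine ⟨by simp [hg, dlt, Ne.symm (hwo r)], by simp [hg, dlt, hso, Ne.symm (hws r)], fun t => ?_⟩
    by_cases e : r = t
    · subst e; simp [hg, dlt, hwo r]
    · simp [hg, dlt, hwo t, hwinj.eq_iff, e, Ne.symm e]
  have hvh : h o' = 1 ∧ h s = 1 ∧ ∀ t, h (w t) = if t = 3 then 1 else 0 := by
    refine ⟨by simp [hh, dlt, Ne.symm hso, Ne.symm (hwo 3)],
      by simp [hh, dlt, hso, Ne.symm (hws 3)], fun t => ?_⟩
    by_cases e : t = 3
    · subst e; simp [hh, dlt, hwo, hws]
    · simp [hh, dlt, hwo, hws, hwinj.eq_iff, e]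
  have hYtw : tw τ (Y 0) = fun i => if i = s then -2 else 1 := funext hY
  have hpg : ∀ r j, dot (tw τ (g r)) (Y j) = 0 := fun r j => by
    rw [Fin.fin_one_eq_zero j, dot_tw_left, hg, dot_sub_left, dot_dlt, dot_dlt, hYtw]
    simp [hws r, Ne.symm hso]
  have hph : ∀ j, dot (tw τ h) (Y j) = 0 := fun j => by
    rw [Fin.fin_one_eq_zero j, dot_tw_left, hdh, hYtw]
    simp [hws 3, Ne.symm hso]
  have hgg : ∀ r t, dot (tw τ (g r)) (tw τ (g t)) = if r = t then 2 else 1 :=
    hrt τ hτ hτo w hwinj hwo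
  have hhh : dot (tw τ h) (tw τ h) = 3 := by
    rw [dot_tw hτ, hdh, hvh.1, hvh.2.1, hvh.2.2, if_pos rfl]; norm_num
  have hhg : ∀ r, dot (tw τ h) (tw τ (g r)) = if r = 3 then 0 else 1 := fun r => by
    rw [dot_tw hτ, hdh, (hvg r).1, (hvg r).2.1, (hvg r).2.2]
    split_ifs <;> norm_num
  set f : Fin 5 → BZ M (zC z) → ℤ :=
    ![tw τ (g 0), tw τ (g 1), tw τ (g 2), tw τ h, tw τ (g 3)] with hf
  have hP : ∀ r j, dot (f r) (Y j) = 0 := fun r j => by
    fin_cases r
    exacts [hpg 0 j, hpg 1 j, hpg 2 j, hph j, hpg 3 j]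
  set a : Fin 4 → BI M G → ℤ := fun r => A (tw τ (g r)) with ha
  set d := A (tw τ h) with hd
  have hsum : ∀ i, (3 : ℤ) ∣ a 0 i + a 1 i + a 2 i - d i - X 0 i := by
    have hcomb := hT.comb ![1, 1, 1, -1, 0] f hP
    intro i
    have h' := hT.congA (fun i => ∑ r : Fin 5, (![1, 1, 1, -1, 0] : Fin 5 → ℤ) r * f r i) (-1) 0
      (fun j => by
        rw [show (fun i => ∑ r : Fin 5, (![1, 1, 1, -1, 0] : Fin 5 → ℤ) r * f r i) =
          tw τ (g 0) + tw τ (g 1) + tw τ (g 2) - tw τ h from funext fun i => by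
            simp [Fin.sum_univ_five, hf, sub_eq_add_neg],
          dot_sub_left, dot_add_left, dot_add_left, hpg, hpg, hpg, hph]
        ring)
      (fun i => by
        have he : (∑ r : Fin 5, (![1, 1, 1, -1, 0] : Fin 5 → ℤ) r * f r i) - -1 * Y 0 i =
            τ i * (g 0 i + g 1 i + g 2 i - h i + τ i * Y 0 i) := by
          simp [Fin.sum_univ_five, hf, tw]
          linear_combination -(Y 0 i) * hτ i
        rw [he]
        refine dvd_mul_of_dvd_right ?_ _
        rw [hY i]
        rcases hall i with rfl | rfl | ⟨t, rfl⟩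
        · rw [(hvg 0).1, (hvg 1).1, (hvg 2).1, hvh.1, if_neg (Ne.symm hso)]; norm_num
        · rw [(hvg 0).2.1, (hvg 1).2.1, (hvg 2).2.1, hvh.2.1, if_pos rfl]; norm_num
        · rw [(hvg 0).2.2, (hvg 1).2.2, (hvg 2).2.2, hvh.2.2, if_neg (hws t)]
          fin_cases t <;> simp) i
    rw [hcomb] at h'
    simpa [Fin.sum_univ_five, hf, ← sub_eq_add_neg] using h'
  have hspan := hT.nz f hP fun T hTy hl i => by
    have hdl : ∀ v : BZ M (zC z), ∑ i, (τ i : ℂ) * (dlt v i : ℂ) * T i = (τ v : ℂ) * T v := fun v => by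
      simp [dlt]
    set U : BZ M (zC z) → ℂ := fun i => (τ i : ℂ) * T i with hU
    have eg : ∀ r, ∑ i, ((tw τ (g r)) i : ℂ) * T i = U o' - U (w r) := fun r => by
      simp only [tw, hg, Pi.sub_apply, Int.cast_mul, Int.cast_sub, mul_sub, sub_mul,
        Finset.sum_sub_distrib, hdl]
      rfl
    have eh : ∑ i, ((tw τ h) i : ℂ) * T i = U o' + U (w 3) + U s := by
      simp only [tw, hh, Pi.add_apply, Int.cast_mul, Int.cast_add, mul_add, add_mul,
        Finset.sum_add_distrib, hdl]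
      rfl
    have ew : ∀ r, U (w r) = U o' := by
      intro r
      have : U o' - U (w r) = 0 := by
        rw [← eg r]
        fin_cases r
        exacts [hl 0, hl 1, hl 2, hl 4]
      linear_combination -this
    have e4 : U o' + U (w 3) + U s = 0 := eh ▸ hl 3
    have e5 : (U o' + ∑ t, U (w t)) + U s - 3 * U s = 0 := by
      rw [← hTy 0]
      have e : ∀ i, (Y 0 i : ℂ) * T i = U i - if i = s then 3 * U i else 0 := fun i => by
        have : Y 0 i = τ i * (τ i * Y 0 i) := by linear_combination -(Y 0 i) * hτ i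
        rw [this, hY i]
        simp only [hU]
        split_ifs <;> push_cast <;> ring
      rw [Finset.sum_congr rfl fun i _ => e i, Finset.sum_sub_distrib, Finset.sum_ite_eq',
        if_pos (Finset.mem_univ _)]
      congr 1
      rw [show (Finset.univ : Finset (BZ M (zC z))) =
          insert o' (insert s (Finset.univ.image w)) from (Finset.eq_univ_of_forall fun i => by
            rcases hall i with rfl | rfl | ⟨j, rfl⟩ <;> simp).symm,
        Finset.sum_insert (by simp [Ne.symm hso, hwo]),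
        Finset.sum_insert (by simp [hws]),
        Finset.sum_image fun a _ b _ h => hwinj h]
      ring
    rw [Finset.sum_congr rfl fun t _ => ew t] at e5
    simp only [Finset.sum_const, Finset.card_univ, Fintype.card_fin, nsmul_eq_mul] at e5
    norm_num at e5
    rw [ew 3] at e4
    have eo : U o' = 0 := by linear_combination (1 / 9 : ℂ) * e5 + (2 / 9 : ℂ) * e4
    have hU0 : U i = 0 := by
      rcases hall i with rfl | rfl | ⟨r, rfl⟩
      · exact eo
      · linear_combination e4 - 2 * eo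
      · rw [ew, eo]
    exact (mul_eq_zero.1 hU0).resolve_left
      (Int.cast_ne_zero.2 fun e => by have := hτ i; rw [e] at this; simp at this)
  have hao : ∀ (v : BZ M (zC z) → ℤ), (∀ j, dot (tw τ v) (Y j) = 0) → v o' = 1 →
      A (tw τ v) o = -1 := fun v hv hv1 => by
    rw [hT.value _ hv, tw, hv1, hτo]; norm_num
  have hdata : EightData (π := π) o a d (X 0) :=
    { invol := hT.invol
      π_o := hT.π_o
      aa := fun r t => by rw [ha, (hT.gram _ _ (hpg r) (hpg t)).1, hgg]; split_ifs <;> rfl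
      ab := fun r t => by rw [ha, (hT.gram _ _ (hpg r) (hpg t)).2, hgg]
      dd := by rw [hd, (hT.gram _ _ hph hph).1, hhh]; rfl
      da := fun r => by rw [hd, ha, (hT.gram _ _ hph (hpg r)).1, hhg]; split_ifs <;> rfl
      db := fun r => by rw [hd, ha, (hT.gram _ _ hph (hpg r)).2, hhg]
      ao := fun r => hao _ (hpg r) (hvg r).1
      d_o := hao _ hph hvh.1
      col := hT.col 0
      πX := hT.πX 0
      aX := fun r => hT.perp _ (hpg r) 0
      cong := hsum
      nz := fun i _ => by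
        obtain ⟨r, hr⟩ := hspan i
        fin_cases r
        exacts [Or.inl ⟨0, hr⟩, Or.inl ⟨1, hr⟩, Or.inl ⟨2, hr⟩, Or.inr hr, Or.inl ⟨3, hr⟩] }
  obtain ⟨hk, hk0⟩ := hdata.card_eq
  exact ⟨by rw [natCard_principalBlock, hk], by rw [natCard_height (hT.height 0), hk0]⟩

end CfsgLib.Blocks.Extraspecial27
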