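import Cfsg.Agent.Blocks.Extraspecial27.Main
import Cfsg.Agent.Blocks.ThreeChars.Tools
import Cfsg.Agent.Transfer.NilpotentHall
import Cfsg.Agent.Glauberman.Count

/-!
# The invariants of the principal block
-/

set_option autoImplicit false
set_option linter.style.haveILetI false
set_option linter.unusedSectionVars false

namespace CfsgLib.Blocks.Extraspecial27

open Cfsg CfsgLib CfsgLib.Blocks

universe u

variable {G : Type u} [Group G] [Fintype G] {P : Sylow 3 G} {z : G} {m : ℕ} {xs : Fin m → G}
  {M : Ideal AlgInt}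

/-- The centralizer of a central element has the rank of the group. -/
theorem rank_centralizer_of_central (hM : IsPModular 3 M) {x : G}
    (hx : ∃ e : ℕ, orderOf x = 3 ^ e) (hxc : x ∈ Subgroup.center G) :
    blockRank 3 (principalBlock M (Subgroup.centralizer ({x} : Set G))) =
      blockRank 3 (principalBlock M G) := by
  haveI : Fact (Nat.Prime 3) := ⟨Nat.prime_three⟩
  have := isMaximal_of_isPModular hM
  haveI := Fintype.ofFinite (Subgroup.centralizer ({x} : Set G))
  have hB : IsPBlock M (principalBlock M G) := PrincipalLinear.isPBlock_principal M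
  rw [← KleinFour.sum_rank_central hM hB hx hxc]
  have hset : {b : Set (IrrCharacter (Subgroup.centralizer ({x} : Set G))) |
      IsInducedBlock M (Subgroup.centralizer ({x} : Set G)) b (principalBlock M G)} =
      {principalBlock M (Subgroup.centralizer ({x} : Set G))} := by
    ext b
    rw [Set.mem_singleton_iff, Set.mem_setOf_eq]
    exact ⟨fun h => (HeightZero.isInducedBlock_principal_iff hM hx h.1).1 h,
      fun h => h ▸ (HeightZero.isInducedBlock_principal_iff hM hx isPBlock_principalBlock).2 rfl⟩
  rw [hset, finsum_mem_singleton]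

/-- The count in the group gives the rank. -/
theorem Classes.rank_eq (hc : Classes P z xs) (hM : IsPModular 3 M) {n : ℕ}
    (hn : ∀ (K : Type u) [Group K] [Fintype K] (Q : Sylow 3 K) (w : K) (ys : Fin m → K),
      Classes Q w ys → Nat.card (principalBlock M K) = n) :
    3 * blockRank 3 (principalBlock M G) + 2 * n = 3 * n - m := by
  classical
  haveI := Fintype.ofFinite (Subgroup.centralizer ({z} : Set G))
  have hG := hc.natCard_block_eq hM
  have hH := hc.classesC.natCard_block_eq hM
  rw [rank_centralizer_of_central hM ⟨1, by rw [hc.ord_zC, pow_one]⟩ hc.zC_center,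
    hn _ _ _ _ hc.classesC] at hH
  rw [hn G P z xs hc] at hG
  omega

/-- The invariants for a nontrivial inertial quotient. -/
theorem Classes.invariants (hc : Classes P z xs) (hM : IsPModular 3 M) :
    (m = 4 → Nat.card (principalBlock M G) = 10 ∧
      Nat.card {χ : IrrCharacter G // χ ∈ principalBlock M G ∧
        blockHeight 3 (principalBlock M G) (χ : G → ℂ) = 0} = 6 ∧
      blockRank 3 (principalBlock M G) = 2) ∧
    (m = 2 → Nat.card (principalBlock M G) = 14 ∧
      Nat.card {χ : IrrCharacter G // χ ∈ principalBlock M G ∧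
        blockHeight 3 (principalBlock M G) (χ : G → ℂ) = 0} = 6 ∧
      blockRank 3 (principalBlock M G) = 4) ∧
    (m = 1 → Nat.card (principalBlock M G) = 16 ∧
      Nat.card {χ : IrrCharacter G // χ ∈ principalBlock M G ∧
        blockHeight 3 (principalBlock M G) (χ : G → ℂ) = 0} = 6 ∧
      blockRank 3 (principalBlock M G) = 5) := by
  refine ⟨fun h => ?_, fun h => ?_, fun h => ?_⟩ <;> subst h
  · refine ⟨(count_four hc hM).1, (count_four hc hM).2, ?_⟩
    have := hc.rank_eq hM (n := 10) fun K _ _ Q w ys h => (count_four h hM).1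
    omega
  · refine ⟨(count_two hc hM).1, (count_two hc hM).2, ?_⟩
    have := hc.rank_eq hM (n := 14) fun K _ _ Q w ys h => (count_two h hM).1
    omega
  · refine ⟨(count_one hc hM).1, (count_one hc hM).2, ?_⟩
    have := hc.rank_eq hM (n := 16) fun K _ _ Q w ys h => (count_one h hM).1
    omega

/-- Without inertia there is a normal complement. -/
theorem Base.hasNormalPComplement (h : Base P z)
    (he : ((P : Subgroup G) ⊔ Subgroup.centralizer ((P : Subgroup G) : Set G)).relIndex
      (Subgroup.normalizer ((P : Subgroup G) : Set G)) = 1) :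
    HasNormalPComplement 3 G := by
  haveI : Fact (Nat.Prime 3) := ⟨Nat.prime_three⟩
  refine Transfer.hasNormalPComplement_of_self_control P fun x hx g hg => ?_
  have hback : ∀ {u v c : G}, c * u * c⁻¹ = v → c⁻¹ * v * c⁻¹⁻¹ = u := fun {u v c} e => by
    rw [← e]; group
  by_cases hxz : x ∈ Subgroup.zpowers z
  · refine ⟨1, one_mem _, ?_⟩
    rw [one_mul, inv_one, mul_one]
    symm
    rcases h.mem_zpowers_iff'.1 hxz with rfl | rfl | rfl
    · group
    · by_cases hy : g * x * g⁻¹ ∈ Subgroup.zpowers x
      · rcases h.mem_zpowers_iff'.1 hy with e | e | e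
        · exfalso
          rw [conj_eq_one_iff] at e
          have := h.ord
          rw [e, orderOf_one] at this
          omega
        · exact e
        · exact absurd e (h.not_conj_inv g)
      · exact absurd rfl (h.not_conj_noncentral hg hy g)
    · have hinv : (g * z⁻¹ * g⁻¹)⁻¹ = g * z * g⁻¹ := by group
      by_cases hy : g * z⁻¹ * g⁻¹ ∈ Subgroup.zpowers z
      · rcases h.mem_zpowers_iff'.1 hy with e | e | e
        · exfalso
          rw [conj_eq_one_iff, inv_eq_one] at e
          have := h.ord
          rw [e, orderOf_one] at this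
          omega
        · exact absurd (hinv.symm.trans (by rw [e])) (h.not_conj_inv g)
        · exact e
      · exact absurd rfl (h.not_conj_noncentral' hg hy g)
  · have hy : g * x * g⁻¹ ∉ Subgroup.zpowers z := fun hy => by
      rcases h.mem_zpowers_iff'.1 hy with e | e | e
      · rw [conj_eq_one_iff] at e
        exact hxz (e ▸ one_mem _)
      · exact h.not_conj_noncentral hx hxz g⁻¹ (hback e)
      · exact h.not_conj_noncentral' hx hxz g⁻¹ (hback e)
    obtain ⟨n, hn, i, hni⟩ := h.exists_normalizer_conj hx hxz hg hy rfl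
    obtain ⟨-, k, hk⟩ := h.core_le_cosetStab hx ((Subgroup.relIndex_eq_one.1 he) hn)
    obtain ⟨v, hv, hvx⟩ := h.exists_conj_mul hx hxz (k + 2 * i)
    refine ⟨v, hv, hvx.trans ?_⟩
    calc z ^ (k + 2 * i) * x = z ^ (2 * i) * (z ^ k * x) := by rw [add_comm, pow_add, mul_assoc]
      _ = z ^ (2 * i) * (z ^ i * (g * x * g⁻¹)) := by rw [← hk, hni]
      _ = g * x * g⁻¹ := by
        rw [← mul_assoc, ← pow_add, show 2 * i + i = 3 * i by ring, pow_mul, h.z_cube, one_pow,
          one_mul]

/-- The invariants with a normal complement. -/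
theorem invariants_of_complement (hM : IsPModular 3 M) (hG : HasNormalPComplement 3 G)
    (hE : IsExtraspecial 3 ↥(P : Subgroup G)) (h27 : Nat.card ↥(P : Subgroup G) = 27) :
    Nat.card (principalBlock M G) = 11 ∧
      Nat.card {χ : IrrCharacter G // χ ∈ principalBlock M G ∧
        blockHeight 3 (principalBlock M G) (χ : G → ℂ) = 0} = 9 ∧
      blockRank 3 (principalBlock M G) = 1 := by
  classical
  haveI : Fact (Nat.Prime 3) := ⟨Nat.prime_three⟩
  refine ⟨?_, ?_, PrincipalPair.rank_one_of_hasNormalPComplement hM hG⟩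
  all_goals
    obtain ⟨P', K, hK, hKP⟩ := hG
    obtain ⟨c, hc⟩ := MulAction.exists_smul_eq G P P'
    let e : (G ⧸ K) ≃* (P : Subgroup G) :=
      hKP.symm.QuotientMulEquiv.trans ((MulEquiv.subgroupCongr (by rw [← hc, Sylow.coe_subgroup_smul]; rfl)).trans
        ((MulAut.conj c).subgroupMap (P : Subgroup G)).symm)
    have hcard : Nat.card (G ⧸ K) = 27 := (Nat.card_congr e.toEquiv).trans h27
    have hidx : (commutator (G ⧸ K)).index = 9 := by
      have h1 : (commutator (G ⧸ K)).index = (commutator (P : Subgroup G)).index :=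
        Nat.card_congr (MulEquiv.abelianizationCongr e).toEquiv
      have h2 : Nat.card (commutator (P : Subgroup G)) = 3 := by
        rw [show commutator (P : Subgroup G) = Subgroup.center (P : Subgroup G) from hE.1.2.2]
        exact hE.2
      have h3 := (commutator (P : Subgroup G)).card_mul_index
      rw [h2, h27] at h3
      omega
    have hK3 : ¬ 3 ∣ Nat.card K := by
      rw [← hKP.index_eq_card]
      exact P'.not_dvd_index
    have hidx' : ∃ k : ℕ, K.index = 3 ^ k := ⟨3, by rw [Subgroup.index_eq_card, hcard]; norm_num⟩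
  · -- eleven characters
    rw [ThreeChars.card_principalBlock_eq hM hK3 hidx', ← Chars.card_irrCharacter]
    have hsum := Chars.sum_nonlinear_sq (G := G ⧸ K)
    rw [hidx, hcard] at hsum
    have hdeg : ∀ χ : IrrCharacter (G ⧸ K), (χ : G ⧸ K → ℂ) 1 ≠ 1 →
        charDegree (χ : G ⧸ K → ℂ) ^ 2 = 9 := by
      intro χ hχ
      have hd := Chars.charDegree_dvd_card χ
      rw [hcard] at hd
      obtain ⟨j, hj, hj'⟩ := (Nat.dvd_prime_pow Nat.prime_three (m := 3)).1 hd
      have hle : charDegree (χ : G ⧸ K → ℂ) ^ 2 ≤ 18 := by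
        have hm : χ ∈ Finset.univ.filter (fun χ : IrrCharacter (G ⧸ K) => (χ : G ⧸ K → ℂ) 1 ≠ 1) :=
          Finset.mem_filter.2 ⟨Finset.mem_univ χ, hχ⟩
        have := Finset.single_le_sum
          (f := fun χ : IrrCharacter (G ⧸ K) => charDegree (χ : G ⧸ K → ℂ) ^ 2)
          (fun _ _ => Nat.zero_le _) hm
        omega
      rw [hj'] at hle ⊢
      interval_cases j
      · exact absurd ((Chars.charDegree_eq_one_iff χ).1 (by simpa using hj')) hχ
      all_goals first | (norm_num; done) | norm_num at hle
    rw [Finset.sum_congr rfl fun χ hχ => hdeg χ (Finset.mem_filter.1 hχ).2, Finset.sum_const,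
      smul_eq_mul] at hsum
    have hlin := Chars.card_linear_irr (G := G ⧸ K)
    rw [hidx, Nat.card_eq_fintype_card, Fintype.card_subtype] at hlin
    rw [Nat.card_eq_fintype_card, ← Finset.card_univ,
      ← Finset.card_filter_add_card_filter_not (fun χ : IrrCharacter (G ⧸ K) => (χ : G ⧸ K → ℂ) 1 = 1),
      hlin]
    simp only [ne_eq] at hsum
    omega
  · -- nine of height zero
    rw [← hidx, ← Chars.card_charDegree_eq_one]
    symm
    refine Nat.card_congr ((Equiv.subtypeEquiv
      (p := fun ψ : IrrCharacter (G ⧸ K) => charDegree (ψ : G ⧸ K → ℂ) = 1)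
      (q := fun χ : {χ : IrrCharacter G // K ≤ Chars.charKer (χ : G → ℂ)} =>
        charDegree ((χ : IrrCharacter G) : G → ℂ) = 1)
      (Chars.inflateEquiv K) fun ψ => Iff.rfl).trans
        ((Equiv.subtypeSubtypeEquivSubtypeInter _
          (fun χ : IrrCharacter G => charDegree (χ : G → ℂ) = 1)).trans
          (Equiv.subtypeEquivRight fun χ => ?_)))
    rw [← ThreeChars.mem_principalBlock_iff_le_charKer hM hK3 hidx', PrincipalLinear.blockHeight_eq_zero_iff hM]
    refine and_congr_right fun hmem => ⟨fun h => by rw [h]; norm_num, fun h => ?_⟩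
    exact PrincipalLinear.degree_eq_one_of_complement hM ⟨P', K, hK, hKP⟩ hmem h

end CfsgLib.Blocks.Extraspecial27
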