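import Cfsg.Agent.Blocks.Extraspecial27.Classes
import Cfsg.Agent.Blocks.RankFourNine.SectionFn
import Cfsg.Agent.Blocks.KleinFour.Count
import Cfsg.Agent.Blocks.HeightZero.RegularPair
import Cfsg.Agent.Blocks.PrincipalPair
import Cfsg.Agent.Blocks.Orth.PrincipalGalois
import Cfsg.Agent.Blocks.ThreeChars.Main
import Cfsg.Agent.Transfer.NormalPComplement

/-!
# The columns at noncentral elements
-/

set_option autoImplicit false
set_option linter.style.haveILetI false
set_option linter.unusedSectionVars false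

namespace CfsgLib.Blocks.Extraspecial27

open Cfsg CfsgLib CfsgLib.Blocks
open scoped ComplexConjugate

universe u

variable {G : Type u} [Group G] [Fintype G] {P : Sylow 3 G} {z : G} {m : ℕ} {xs : Fin m → G}
  {M : Ideal AlgInt}

theorem isPRegular_coe {H : Subgroup G} (s : H) : IsPRegular 3 (s : G) ↔ IsPRegular 3 s := by
  simp [IsPRegular, Subgroup.orderOf_coe]

/-- Only the part in a block meets its members on regular elements. -/
theorem sum_regSet_blockPart (hM : IsPModular 3 M) {b : Set (IrrCharacter G)} (hb : IsPBlock M b)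
    {η : IrrCharacter G} (hη : η ∈ b) {φ : G → ℂ} (hφ : IsClassFunction G φ) :
    ∑ s ∈ regSet 3 G, (η : G → ℂ) s * conj (φ s) =
      ∑ s ∈ regSet 3 G, (η : G → ℂ) s * conj (blockPart b φ s) := by
  classical
  have e : ∀ s, φ s = ∑ ψ : IrrCharacter G, classInner φ (ψ : G → ℂ) * (ψ : G → ℂ) s :=
    fun s => Chars.eq_sum_classInner_mul hφ s
  have e2 : ∀ s, blockPart b φ s = ∑ ψ ∈ b.toFinite.toFinset,
      classInner φ (ψ : G → ℂ) * (ψ : G → ℂ) s := fun s => by
    rw [blockPart_apply_eq]; simp [Finset.sum_apply]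
  simp only [e, e2, map_sum, map_mul, Finset.mul_sum]
  rw [Finset.sum_comm, Finset.sum_comm (t := b.toFinite.toFinset)]
  refine (Finset.sum_subset (Finset.subset_univ _) fun ψ _ hψ => ?_).symm
  rw [Finset.sum_congr rfl fun s _ => mul_left_comm _ _ _, ← Finset.mul_sum]
  refine mul_eq_zero_of_right _ ?_
  have h0 := HeightZero.regPair_eq_zero_of_ne_block hM hb hη
    fun h => hψ ((Set.Finite.mem_toFinset _).2 h)
  rw [HeightZero.regPair_symm, HeightZero.regPair_eq_sum] at h0
  rw [← h0, regSet, Finset.sum_filter]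
  refine Finset.sum_congr rfl fun s _ => ?_
  by_cases hs : 3 ∣ orderOf s
  · simp [IsPRegular, hs]
  · simp [IsPRegular, hs, Chars.map_inv_eq_conj (Chars.isCharacter_coe ψ)]

/-- The regular sum of a member of the principal block is not zero. -/
theorem sum_regSet_ne_zero (hM : IsPModular 3 M) {ψ : IrrCharacter G}
    (hψ : ψ ∈ principalBlock M G) : ∑ s ∈ regSet 3 G, (ψ : G → ℂ) s ≠ 0 := by
  classical
  have := isMaximal_of_isPModular hM
  intro h0
  refine HeightZero.not_memLocalIdeal_regPair_of_height_zero hM isPBlock_principalBlock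
    (PrincipalLinear.one_mem (G := G) hM) ?_ hψ ?_
  · rw [PrincipalLinear.blockHeight_eq_zero_iff hM]
    rw [show Chars.oneChar G = Chars.linChar 1 from rfl, Chars.charDegree_linChar]
    norm_num
  · rw [HeightZero.regPair_symm, HeightZero.regPair_eq_sum]
    rw [regSet, Finset.sum_filter] at h0
    rw [show (∑ x : G, if 3 ∣ orderOf x then (0 : ℂ) else
      (ψ : G → ℂ) x * (Chars.oneChar G : G → ℂ) x⁻¹) = 0 from (Finset.sum_congr rfl fun x _ => by
        by_cases hx : 3 ∣ orderOf x <;> simp [IsPRegular, hx]).trans h0, zero_div]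
    exact memLocalIdeal_zero

namespace Classes

variable (hc : Classes P z xs)
include hc

theorem ord_xs (j : Fin m) : orderOf (xs j) = 3 := hc.base.orderOf_eq (hc.mem j) (hc.nz j)

theorem pPower_xs (j : Fin m) : ∃ e : ℕ, orderOf (xs j) = 3 ^ e :=
  ⟨1, by rw [hc.ord_xs j, pow_one]⟩

theorem isConj_inv (j : Fin m) : IsConj (xs j)⁻¹ (xs j) :=
  let ⟨c, _, h⟩ := hc.inv j
  isConj_iff.2 ⟨c, h⟩

theorem rank_xs (hM : IsPModular 3 M) (j : Fin m) :
    blockRank 3 (principalBlock M (Subgroup.centralizer ({xs j} : Set G))) = 1 :=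
  PrincipalPair.rank_one_of_hasNormalPComplement hM
    (hc.base.hasNormalPComplement_centralizer (hc.mem j) (hc.nz j))

/-- Characters of the principal block are constant on the section of a noncentral element. -/
theorem apply_xs_mul (hM : IsPModular 3 M) {χ : IrrCharacter G} (hχ : χ ∈ principalBlock M G)
    (j : Fin m) {s : G} (hs : IsPRegular 3 s) (hcs : Commute (xs j) s) :
    (χ : G → ℂ) (xs j * s) = (χ : G → ℂ) (xs j) := by
  classical
  have := isMaximal_of_isPModular hM
  set H := Subgroup.centralizer ({xs j} : Set G)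
  set f : H → ℂ := fun c => (χ : G → ℂ) (xs j * (c : G))
  set t : H := ⟨s, Subgroup.mem_centralizer_singleton_iff.2 hcs.eq.symm⟩
  have ht : ¬ 3 ∣ orderOf t := (isPRegular_coe t).1 hs
  have h1 : ¬ 3 ∣ orderOf (1 : H) := by simp
  have hconst : blockPart (principalBlock M H) f t = blockPart (principalBlock M H) f 1 := by
    simp only [blockPart_apply_eq, Finset.sum_apply, Pi.smul_apply]
    refine Finset.sum_congr rfl fun η hη => ?_
    rw [PrincipalPair.eq_oneChar_smul_of_rank_one hM (hc.rank_xs hM j)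
      ((Set.Finite.mem_toFinset _).1 hη) ht]
  exact ((HeightZero.apply_section_eq_blockPart hM (hc.pPower_xs j) hχ ht).trans hconst).trans
    ((HeightZero.apply_section_eq_blockPart hM (hc.pPower_xs j) hχ h1).symm.trans
      (by rw [Subgroup.coe_one, mul_one]))

theorem exists_int_xs (j : Fin m) (χ : IrrCharacter G) : ∃ n : ℤ, (χ : G → ℂ) (xs j) = n := by
  refine ThreeChars.exists_int_of_conj_powers (fun k hk => ?_) χ
  have h3 : 3 ∣ Nat.card G := hc.ord_xs j ▸ orderOf_dvd_natCard (xs j)
  have hk3 : ¬ 3 ∣ k := fun h => by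
    have := Nat.dvd_gcd h h3
    rw [hk.gcd_eq_one] at this
    omega
  rw [← pow_mod_orderOf (xs j) k, hc.ord_xs]
  rcases (show k % 3 = 1 ∨ k % 3 = 2 by omega) with e | e <;> rw [e]
  · rw [pow_one]
  · rw [eq_inv_of_mul_eq_one_left (show xs j ^ 2 * xs j = 1 by
      rw [← pow_succ, hc.base.exp _ (hc.mem j)])]
    exact hc.isConj_inv j

theorem conj_apply_xs (j : Fin m) (χ : IrrCharacter G) :
    conj ((χ : G → ℂ) (xs j)) = (χ : G → ℂ) (xs j) := by
  obtain ⟨n, hn⟩ := hc.exists_int_xs j χ
  rw [hn, map_intCast]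

open scoped Classical in
/-- The section of `xs j` is a ninth of its centralizer. -/
theorem card_regSet_xs (j : Fin m) :
    Nat.card (Subgroup.centralizer ({xs j} : Set G)) =
      9 * (regSet 3 (Subgroup.centralizer ({xs j} : Set G))).card := by
  classical
  haveI : Fact (Nat.Prime 3) := ⟨Nat.prime_three⟩
  set H := Subgroup.centralizer ({xs j} : Set G) with hH
  obtain ⟨N, hN, hcop, k, hk⟩ := Transfer.hasNormalPComplement_iff_exists.1
    (hc.base.hasNormalPComplement_centralizer (hc.mem j) (hc.nz j))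
  have hidx : N.index = 9 := by
    have e1 := hc.base.factorization_centralizer (hc.mem j) (hc.nz j)
    rw [← N.card_mul_index, Nat.factorization_mul Nat.card_pos.ne' (by rw [hk]; exact pow_ne_zero _ (by norm_num)),
      Finsupp.add_apply, Nat.factorization_eq_zero_of_not_dvd (Transfer.not_dvd_of_coprime hcop),
      zero_add, hk, Nat.prime_three.factorization_pow, Finsupp.single_eq_same] at e1
    rw [hk, e1]; norm_num
  have e : (regSet 3 H).card = Nat.card N := by
    rw [← Fintype.card_coe, ← Nat.card_eq_fintype_card]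
    refine Nat.card_congr (Equiv.subtypeEquivRight fun s => ?_)
    rw [mem_regSet, Transfer.mem_iff_coprime_of_pPower_index hcop hk]
    exact ⟨Transfer.coprime_of_not_dvd, Transfer.not_dvd_of_coprime⟩
  rw [e, ← N.card_mul_index, hidx, mul_comm]

/-- The columns have norm nine and are orthogonal. -/
theorem sum_xs_mul_xs (hM : IsPModular 3 M) (i j : Fin m) :
    ∑ χ ∈ (principalBlock M G).toFinite.toFinset,
      (χ : G → ℂ) (xs i) * (χ : G → ℂ) (xs j) = if i = j then 9 else 0 := by
  classical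
  haveI : Fact (Nat.Prime 3) := ⟨Nat.prime_three⟩
  have := isMaximal_of_isPModular hM
  have hB : IsPBlock M (principalBlock M G) := PrincipalLinear.isPBlock_principal M
  by_cases hij : i = j
  · subst hij
    rw [if_pos rfl]
    set H := Subgroup.centralizer ({xs i} : Set G) with hH
    have h := sum_block_section (H := H) hM hH (hc.pPower_xs i) hB
    have hset : {b : Set (IrrCharacter H) | IsInducedBlock M H b (principalBlock M G)} =
        {principalBlock M H} := by
      ext b
      rw [Set.mem_singleton_iff, Set.mem_setOf_eq]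
      exact ⟨fun h => (HeightZero.isInducedBlock_principal_iff hM (hc.pPower_xs i) h.1).1 h,
        fun h => h ▸ (HeightZero.isInducedBlock_principal_iff hM (hc.pPower_xs i)
          isPBlock_principalBlock).2 rfl⟩
    rw [hset, finsum_mem_singleton, hc.rank_xs hM i, Nat.cast_one, mul_one] at h
    rw [Finset.sum_congr rfl fun χ hχ => Finset.sum_congr rfl fun s hs => by
      rw [hc.apply_xs_mul hM ((Set.Finite.mem_toFinset _).1 hχ) i
        ((isPRegular_coe s).2 (mem_regSet.1 hs))
        (Subgroup.mem_centralizer_singleton_iff.1 s.2).symm, hc.conj_apply_xs]] at h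
    simp only [Finset.sum_const, nsmul_eq_mul, ← Finset.mul_sum] at h
    rw [hc.card_regSet_xs i, Nat.cast_mul, mul_comm ((9 : ℕ) : ℂ)] at h
    refine mul_left_cancel₀ (fun h0 => ?_) (h.trans (by rw [hH]; norm_num))
    rw [Nat.cast_eq_zero] at h0
    have := Nat.card_pos (α := H)
    rw [hc.card_regSet_xs i, h0] at this
    omega
  · rw [if_neg hij]
    have hp : ∀ j, IsPPart 3 (xs j) (xs j) := fun j =>
      ⟨1, mul_one _, Commute.one_right _, hc.pPower_xs j, by simp [IsPRegular]⟩
    have h := finsum_block_mul_conj_eq_zero_of_pPart hM hB (hp i) (hp j)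
      fun hcj => hij (hc.sep j i hcj).symm
    rw [finsum_block_eq_sum] at h
    rw [← h]
    exact Finset.sum_congr rfl fun χ _ => by rw [hc.conj_apply_xs]

theorem one_apply_xs (j : Fin m) : (Chars.oneChar G : G → ℂ) (xs j) = 1 := by
  rw [Chars.oneChar_apply]

/-- Values and degrees are congruent. -/
theorem congr_xs_one (hM : IsPModular 3 M) (j : Fin m) (χ : IrrCharacter G) {n : ℤ}
    (hn : (χ : G → ℂ) (xs j) = n) : (3 : ℤ) ∣ n - charDegree (χ : G → ℂ) := by
  have := isMaximal_of_isPModular hM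
  have h := HeightZero.congr_apply_mul (p := 3) hM (Chars.isCharacter_coe χ)
    (Commute.one_right (xs j)) (k := 1) (by rw [hc.ord_xs, pow_one]) (y := 1) (by simp)
  rw [mul_one, hn, ← Chars.coe_charDegree] at h
  rw [Congr, show ((n : ℂ) - ((charDegree (χ : G → ℂ) : ℕ) : ℂ)) =
    (((n - charDegree (χ : G → ℂ) : ℤ)) : ℂ) by push_cast; ring] at h
  rcases Int.eq_nat_or_neg (n - charDegree (χ : G → ℂ)) with ⟨k, e | e⟩ <;> rw [e] at h ⊢
  · rw [Int.cast_natCast, memLocalIdeal_natCast_iff hM] at h
    exact Int.natCast_dvd_natCast.2 h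
  · have h' := memLocalIdeal_neg h
    rw [Int.cast_neg, neg_neg, Int.cast_natCast, memLocalIdeal_natCast_iff hM] at h'
    exact dvd_neg.2 (Int.natCast_dvd_natCast.2 h')

/-- A `3`-element is trivial, central in the Sylow subgroup, or one of the representatives. -/
theorem exists_rep {g : G} (hg : ∃ e : ℕ, orderOf g = 3 ^ e) :
    IsConj g 1 ∨ IsConj g z ∨ IsConj g z⁻¹ ∨ ∃ j, IsConj g (xs j) := by
  haveI : Fact (Nat.Prime 3) := ⟨Nat.prime_three⟩
  obtain ⟨k, hk⟩ := hg
  obtain ⟨Q, hQ⟩ := (IsPGroup.of_card (n := k) (by rw [Nat.card_zpowers, hk] :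
    Nat.card (Subgroup.zpowers g) = 3 ^ k)).exists_le_sylow
  obtain ⟨c, hcQ⟩ := MulAction.exists_smul_eq G Q P
  have hmem : c * g * c⁻¹ ∈ (P : Subgroup G) := by
    rw [← hcQ]
    exact Subgroup.smul_mem_pointwise_smul g (MulAut.conj c) _ (hQ (Subgroup.mem_zpowers g))
  have hgx : IsConj g (c * g * c⁻¹) := isConj_iff.2 ⟨c, rfl⟩
  by_cases hz : c * g * c⁻¹ ∈ Subgroup.zpowers z
  · rcases hc.base.mem_zpowers_iff'.1 hz with e | e | e <;> rw [e] at hgx
    exacts [Or.inl hgx, Or.inr (Or.inl hgx), Or.inr (Or.inr (Or.inl hgx))]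
  · obtain ⟨j, d, -, hd⟩ := hc.cover _ hmem hz
    exact Or.inr (Or.inr (Or.inr ⟨j, hgx.trans (isConj_iff.2 ⟨d, hd⟩)⟩))

theorem not_isConj_z_inv : ¬ IsConj z z⁻¹ := fun h => by
  obtain ⟨g, hg⟩ := isConj_iff.1 h
  exact hc.base.not_conj_inv g hg

theorem not_isConj_z_xs (j : Fin m) : ¬ IsConj z (xs j) ∧ ¬ IsConj z⁻¹ (xs j) :=
  ⟨fun h => by
    obtain ⟨g, hg⟩ := isConj_iff.1 h
    exact hc.base.not_conj_noncentral (hc.mem j) (hc.nz j) g hg,
  fun h => by
    obtain ⟨g, hg⟩ := isConj_iff.1 h
    exact hc.base.not_conj_noncentral' (hc.mem j) (hc.nz j) g hg⟩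

theorem pPower_z : ∃ e : ℕ, orderOf z = 3 ^ e := ⟨1, by rw [hc.base.ord, pow_one]⟩

theorem pPower_z_inv : ∃ e : ℕ, orderOf z⁻¹ = 3 ^ e := ⟨1, by rw [orderOf_inv, hc.base.ord, pow_one]⟩

/-- **Brauer's count.** -/
theorem natCard_block_eq (hM : IsPModular 3 M) :
    Nat.card (principalBlock M G) = blockRank 3 (principalBlock M G) +
      2 * blockRank 3 (principalBlock M (Subgroup.centralizer ({z} : Set G))) + m := by
  classical
  have := isMaximal_of_isPModular hM
  haveI : Fact (Nat.Prime 3) := ⟨Nat.prime_three⟩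
  have hB : IsPBlock M (principalBlock M G) := PrincipalLinear.isPBlock_principal M
  have hfin : ∀ {u : G}, (∃ e : ℕ, orderOf u = 3 ^ e) →
      (∑ᶠ b ∈ {b : Set (IrrCharacter (Subgroup.centralizer ({u} : Set G))) |
        IsInducedBlock M (Subgroup.centralizer ({u} : Set G)) b (principalBlock M G)},
          blockRank 3 b : ℕ) =
      blockRank 3 (principalBlock M (Subgroup.centralizer ({u} : Set G))) := by
    intro u hu
    have hset : {b : Set (IrrCharacter (Subgroup.centralizer ({u} : Set G))) |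
        IsInducedBlock M (Subgroup.centralizer ({u} : Set G)) b (principalBlock M G)} =
        {principalBlock M (Subgroup.centralizer ({u} : Set G))} := by
      ext b
      rw [Set.mem_singleton_iff, Set.mem_setOf_eq]
      exact ⟨fun h => (HeightZero.isInducedBlock_principal_iff hM hu h.1).1 h,
        fun h => h ▸ (HeightZero.isInducedBlock_principal_iff hM hu isPBlock_principalBlock).2 rfl⟩
    rw [hset, finsum_mem_singleton]
  have h1 : ∀ u : G, IsConj (1 : G) u → u = 1 := fun u h => by
    obtain ⟨d, hd⟩ := isConj_iff.1 h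
    rw [← hd]; group
  have hz1 : z ≠ 1 := fun e => by have := hc.base.ord; rw [e, orderOf_one] at this; omega
  have hx1 : ∀ j, xs j ≠ 1 := fun j e => hc.nz j (e ▸ one_mem _)
  have hxz : ∀ j, xs j ≠ z := fun j e => hc.nz j (e ▸ Subgroup.mem_zpowers z)
  have hxz' : ∀ j, xs j ≠ z⁻¹ := fun j e => hc.nz j (e ▸ inv_mem (Subgroup.mem_zpowers z))
  have hinj : Function.Injective xs := fun i j e => hc.sep i j (e ▸ IsConj.refl _)
  set X : Finset G := insert 1 (insert z (insert z⁻¹ (Finset.univ.image xs))) with hX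
  have hpow : ∀ x ∈ X, ∃ k : ℕ, orderOf x = 3 ^ k := by
    intro x hx
    simp only [hX, Finset.mem_insert, Finset.mem_image, Finset.mem_univ, true_and] at hx
    rcases hx with rfl | rfl | rfl | ⟨j, rfl⟩
    exacts [⟨0, orderOf_one⟩, hc.pPower_z, hc.pPower_z_inv, hc.pPower_xs j]
  have hne : ∀ x ∈ X, ∀ y ∈ X, IsConj x y → x = y := by
    intro x hx y hy h
    simp only [hX, Finset.mem_insert, Finset.mem_image, Finset.mem_univ, true_and] at hx hy
    rcases hx with rfl | rfl | rfl | ⟨i, rfl⟩ <;> rcases hy with rfl | rfl | rfl | ⟨j, rfl⟩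
    all_goals first
      | rfl
      | exact (h1 _ h).symm
      | exact h1 _ h.symm
      | exact absurd h hc.not_isConj_z_inv
      | exact absurd h.symm hc.not_isConj_z_inv
      | exact absurd h (hc.not_isConj_z_xs _).1
      | exact absurd h (hc.not_isConj_z_xs _).2
      | exact absurd h.symm (hc.not_isConj_z_xs _).1
      | exact absurd h.symm (hc.not_isConj_z_xs _).2
      | rw [hc.sep _ _ h]
  have hrep : ∀ g : G, (∃ k : ℕ, orderOf g = 3 ^ k) → ∃! x, x ∈ X ∧ IsConj g x := by
    intro g hg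
    obtain ⟨x, hx, hgx⟩ : ∃ x ∈ X, IsConj g x := by
      rcases hc.exists_rep hg with h | h | h | ⟨j, h⟩
      exacts [⟨1, by simp [hX], h⟩, ⟨z, by simp [hX], h⟩, ⟨z⁻¹, by simp [hX], h⟩,
        ⟨xs j, by simp [hX], h⟩]
    exact ⟨x, ⟨hx, hgx⟩, fun y hy => hne y hy.1 x hx (hy.2.symm.trans hgx)⟩
  have hcz : Subgroup.centralizer ({z⁻¹} : Set G) = Subgroup.centralizer ({z} : Set G) := by
    ext g
    simp only [Subgroup.mem_centralizer_singleton_iff]
    exact ⟨fun h => (Commute.inv_right_iff.1 h).eq, fun h => (Commute.inv_right h).eq⟩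
  have hcz' : blockRank 3 (principalBlock M (Subgroup.centralizer ({z⁻¹} : Set G))) =
      blockRank 3 (principalBlock M (Subgroup.centralizer ({z} : Set G))) := by
    have e : ∀ H H' : Subgroup G, H = H' →
        blockRank 3 (principalBlock M H) = blockRank 3 (principalBlock M H') := by
      rintro H _ rfl; rfl
    exact e _ _ hcz
  rw [natCard_block_eq_sum_blockRank hM hB X hpow hrep, hX,
    Finset.sum_insert (by simp [hz1, hz1.symm, hx1]),
    Finset.sum_insert (by simp [hc.base.z_ne_inv, hxz]),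
    Finset.sum_insert (by simp [hxz']),
    Finset.sum_image fun a _ b _ e => hinj e,
    KleinFour.sum_rank_central hM hB ⟨0, orderOf_one⟩ (Subgroup.one_mem _),
    hfin hc.pPower_z, hfin hc.pPower_z_inv, hcz',
    Finset.sum_congr rfl fun j _ => (hfin (hc.pPower_xs j)).trans (hc.rank_xs hM j)]
  simp
  ring

end Classes

end CfsgLib.Blocks.Extraspecial27
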