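import Cfsg.Agent.Blocks.Extraspecial27.Dot

/-!
# Four roots form a sunflower
-/

set_option autoImplicit false
set_option linter.unusedSectionVars false
set_option linter.unusedVariables false

namespace CfsgLib.Blocks.Extraspecial27

open Finset

variable {ι : Type*} [Fintype ι] [DecidableEq ι]

/-- Triples pairwise of product one, dual to their images under an involution. -/
structure Petals (n : ℕ) (π : Equiv.Perm ι) (u : Fin n → ι → ℤ) : Prop where
  invol : ∀ i, π (π i) = i
  uu : ∀ i j, dot (u i) (u j) = if i = j then 3 else 1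
  uv : ∀ i j, dot (u i) (u j ∘ π) = if i = j then 1 else 0

theorem supp_units {f : ι → ℤ} (h : dot f f = 3) :
    (supp f).card = 3 ∧ ∀ i ∈ supp f, f i = 1 ∨ f i = -1 := by
  have hu := fun i (hi : i ∈ (univ : Finset ι)) => abs_one_of_sum_sq (f := f) (n := 3) (by norm_num) h hi
  refine ⟨card_filter_of_units (n := 3) h hu, fun i hi => ?_⟩
  rcases hu i (mem_univ i) with e | e | e
  · exact absurd e (mem_supp.1 hi)
  · exact Or.inl e
  · exact Or.inr e

theorem eq_zero_of_notMem_supp {f : ι → ℤ} {i : ι} (h : i ∉ supp f) : f i = 0 := by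
  simpa [mem_supp] using h

theorem dot_inter (f g : ι → ℤ) : dot f g = ∑ i ∈ supp f ∩ supp g, f i * g i :=
  (Finset.sum_subset (subset_univ _) fun i _ hi => by
    simp only [Finset.mem_inter, mem_supp, not_and_or, not_not] at hi
    rcases hi with e | e <;> simp [e]).symm

/-- Two triples of product one, separated by parity, share exactly one point. -/
theorem single_of_parity {f g z : ι → ℤ} (hf : dot f f = 3) (hg : dot g g = 3) (hfg : dot f g = 1)
    (hz : ¬ (2 : ℤ) ∣ dot f z - dot g z) :
    ∃ t, supp f ∩ supp g = {t} ∧ f t = g t := by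
  obtain ⟨cf, uf⟩ := supp_units hf
  obtain ⟨cg, ug⟩ := supp_units hg
  rw [dot_inter] at hfg
  have hle : (supp f ∩ supp g).card ≤ 3 := cf ▸ Finset.card_le_card Finset.inter_subset_left
  have hu : ∀ i ∈ supp f ∩ supp g, f i * g i = 1 ∨ f i * g i = -1 := fun i hi => by
    obtain ⟨h1, h2⟩ := Finset.mem_inter.1 hi
    rcases uf i h1 with e | e <;> rcases ug i h2 with e' | e' <;> simp [e, e']
  have hne3 : (supp f ∩ supp g).card ≠ 3 := fun h3 => hz <| by
    have e1 : supp f ∩ supp g = supp f :=
      Finset.eq_of_subset_of_card_le Finset.inter_subset_left (by omega)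
    have e2 : supp f ∩ supp g = supp g :=
      Finset.eq_of_subset_of_card_le Finset.inter_subset_right (by omega)
    rw [← dot_sub_left]
    refine Finset.dvd_sum fun i _ => Dvd.dvd.mul_right ?_ _
    by_cases hi : i ∈ supp f
    · have := uf i hi; have := ug i (e2 ▸ e1.symm ▸ hi); simp only [Pi.sub_apply]; omega
    · have h1 : f i = 0 := eq_zero_of_notMem_supp hi
      have h2 : g i = 0 := eq_zero_of_notMem_supp (e2 ▸ e1.symm ▸ hi)
      simp [h1, h2]
  interval_cases hc : (supp f ∩ supp g).card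
  · rw [Finset.card_eq_zero.1 hc, Finset.sum_empty] at hfg; omega
  · obtain ⟨t, ht⟩ := Finset.card_eq_one.1 hc
    refine ⟨t, ht, ?_⟩
    rw [ht, Finset.sum_singleton] at hfg
    obtain ⟨h1, h2⟩ := Finset.mem_inter.1 (ht ▸ Finset.mem_singleton_self t)
    rcases uf t h1 with e | e <;> rcases ug t h2 with e' | e' <;> rw [e, e'] at hfg ⊢ <;> omega
  · obtain ⟨x, y, hxy, ht⟩ := Finset.card_eq_two.1 hc
    rw [ht, Finset.sum_pair hxy] at hfg
    rcases hu x (by simp [ht]) with e | e <;> rcases hu y (by simp [ht]) with e' | e' <;> omega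
  · exact absurd rfl hne3

variable {n : ℕ} {π : Equiv.Perm ι} {u : Fin n → ι → ℤ}

theorem Petals.vv (h : Petals n π u) (i j : Fin n) :
    dot (u i ∘ π) (u j ∘ π) = if i = j then 3 else 1 := by rw [dot_perm, h.uu]

theorem Petals.share (h : Petals n π u) {i j : Fin n} (hij : i ≠ j) :
    ∃ t, supp (u i) ∩ supp (u j) = {t} ∧ u i t = u j t := by
  refine single_of_parity (z := u i ∘ π) (by simpa using h.uu i i) (by simpa using h.uu j j)
    (by simpa [hij] using h.uu i j) ?_
  rw [h.uv, h.uv, if_pos rfl, if_neg (Ne.symm hij)]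
  norm_num

theorem Petals.unique {i j : Fin n} (h : Petals n π u) (hij : i ≠ j) {t t' : ι}
    (h1 : t ∈ supp (u i)) (h2 : t ∈ supp (u j)) (h3 : t' ∈ supp (u i)) (h4 : t' ∈ supp (u j)) :
    t = t' := by
  obtain ⟨p, hp, -⟩ := h.share hij
  have a1 : t ∈ ({p} : Finset ι) := hp ▸ Finset.mem_inter.2 ⟨h1, h2⟩
  have a2 : t' ∈ ({p} : Finset ι) := hp ▸ Finset.mem_inter.2 ⟨h3, h4⟩
  exact (Finset.mem_singleton.1 a1).trans (Finset.mem_singleton.1 a2).symm

theorem Petals.value {i j : Fin n} (h : Petals n π u) (hij : i ≠ j) {t : ι}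
    (h1 : t ∈ supp (u i)) (h2 : t ∈ supp (u j)) : u i t = u j t := by
  obtain ⟨p, hp, hv⟩ := h.share hij
  have a1 : t ∈ ({p} : Finset ι) := hp ▸ Finset.mem_inter.2 ⟨h1, h2⟩
  rw [Finset.mem_singleton.1 a1, hv]

theorem Petals.own (h : Petals n π u) (hn : 1 < n) (i : Fin n) :
    ∃ c, supp (u i) ∩ supp (u i ∘ π) = {c} ∧ π c = c := by
  have : Nontrivial (Fin n) := Fin.nontrivial_iff_two_le.2 hn
  obtain ⟨j, hj⟩ := exists_ne i
  obtain ⟨c, hc, hv⟩ := single_of_parity (f := u i) (g := u i ∘ π) (z := u j)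
    (by simpa using h.uu i i) (by simpa using h.vv i i) (by simpa using h.uv i i) (by
      rw [h.uu, dot_comm (u i ∘ π), h.uv, if_neg (Ne.symm hj), if_neg hj]; norm_num)
  refine ⟨c, hc, ?_⟩
  have hm := Finset.mem_inter.1 (hc ▸ Finset.mem_singleton_self c)
  simp only [mem_supp, Function.comp_apply] at hm
  have : π c ∈ supp (u i) ∩ supp (u i ∘ π) :=
    Finset.mem_inter.2 ⟨mem_supp.2 hm.2, mem_supp.2 (by simp only [Function.comp_apply, h.invol]; exact hm.1)⟩
  rw [hc, Finset.mem_singleton] at this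
  exact this

/-- All vectors of length seven with entries `0`, `±1`. -/
def cube : ℕ → List (List ℤ)
  | 0 => [[]]
  | k + 1 => (cube k).flatMap fun v => [(-1) :: v, 0 :: v, 1 :: v]

theorem mem_cube : ∀ {v : List ℤ}, (∀ x ∈ v, x = -1 ∨ x = 0 ∨ x = 1) → v ∈ cube v.length
  | [], _ => by simp [cube]
  | x :: v, h => by
    have hv : v ∈ cube v.length := mem_cube fun y hy => h y (List.mem_cons_of_mem _ hy)
    show x :: v ∈ (cube v.length).flatMap fun v => [(-1) :: v, 0 :: v, 1 :: v]
    refine List.mem_flatMap.2 ⟨v, hv, ?_⟩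
    rcases h x List.mem_cons_self with rfl | rfl | rfl <;> simp

/-- The candidates for the image of the `k`-th petal. -/
def cand (k : ℕ) : List (List ℤ) :=
  (cube 7).filter fun v => match v with
    | [a, b, c, d, e, f, g] => a * a + b * b + c * c + d * d + e * e + f * f + g * g ≤ 3 &&
        a + b + e == (if k = 0 then 1 else 0) && a + c + f == (if k = 1 then 1 else 0) &&
        a + d + g == (if k = 2 then 1 else 0) && b + c + d == (if k = 3 then 1 else 0)
    | _ => false

/-- Two images may share one point. -/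
def compat (v w : List ℤ) : Bool :=
  let s := (v.zip w).filter fun x => x.1 != 0 && x.2 != 0
  s.length ≤ 1 && s.all (fun x => x.1 == x.2) && (s.length == 1 ||
    ((v.filter (· != 0)).length < 3 && (w.filter (· != 0)).length < 3))

theorem no_images : ((cand 0).all fun a => (cand 1).all fun b => (cand 2).all fun c =>
    (cand 3).all fun d => !(compat a b && compat a c && compat a d && compat b c && compat b d &&
      compat c d)) = true := by
  decide +kernel

/-- Seven positions seen from the images. -/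
theorem Petals.restrict {u : Fin 4 → ι → ℤ} (h : Petals 4 π u) {P : List ι} (hP : P.Nodup) (hlen : P.length = 7)
    (ε : ι → ℤ) (hε : ∀ i, ε i = 1 ∨ ε i = -1)
    (hu : ∀ k, ∀ i, i ∈ supp (u k) → i ∈ P ∧ u k i = ε i)
    (hA : ∀ k : Fin 4, (P.map fun i => if i ∈ supp (u k) then (1 : ℤ) else 0) =
      if k = 0 then [1, 1, 0, 0, 1, 0, 0] else if k = 1 then [1, 0, 1, 0, 0, 1, 0]
      else if k = 2 then [1, 0, 0, 1, 0, 0, 1] else [0, 1, 1, 1, 0, 0, 0]) : False := by
  set v : Fin 4 → List ℤ := fun k => P.map fun i => ε i * u k (π i) with hv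
  have hcand : ∀ k : Fin 4, v k ∈ cand (k : ℕ) := by
    intro k
    have hent : ∀ x ∈ v k, x = -1 ∨ x = 0 ∨ x = 1 := fun x hx => by
      obtain ⟨i, -, rfl⟩ := List.mem_map.1 hx
      by_cases e : π i ∈ supp (u k)
      · rcases (supp_units (by simpa using h.uu k k)).2 _ e with a | a <;>
          rcases hε i with b | b <;> simp [a, b]
      · simp [eq_zero_of_notMem_supp e]
    have hl : (v k).length = 7 := by simp [hv, hlen]
    refine List.mem_filter.2 ⟨hl ▸ mem_cube hent, ?_⟩
    match P, hlen with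
    | [p1, p2, p3, p4, p5, p6, p7], _ =>
      have hdot : ∀ j, dot (u j) (u k ∘ π) = ∑ i ∈ [p1, p2, p3, p4, p5, p6, p7].toFinset,
          (if i ∈ supp (u j) then (1 : ℤ) else 0) * (ε i * u k (π i)) := fun j => by
        rw [dot_eq_sum [p1, p2, p3, p4, p5, p6, p7].toFinset _ fun i hi => ?_]
        · refine Finset.sum_congr rfl fun i _ => ?_
          by_cases e : i ∈ supp (u j)
          · rw [if_pos e, one_mul, Function.comp_apply, (hu j i e).2]
          · rw [if_neg e, eq_zero_of_notMem_supp e, zero_mul, zero_mul]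
        · exact eq_zero_of_notMem_supp fun e => hi (List.mem_toFinset.2 (hu j i e).1)
      have hexp : ∀ f : ι → ℤ, ∑ i ∈ [p1, p2, p3, p4, p5, p6, p7].toFinset, f i =
          f p1 + f p2 + f p3 + f p4 + f p5 + f p6 + f p7 := fun f => by
        rw [List.sum_toFinset _ hP]; simp [add_assoc]
      have hn : ∑ i ∈ [p1, p2, p3, p4, p5, p6, p7].toFinset, (ε i * u k (π i)) * (ε i * u k (π i)) ≤ 3 := by
        calc _ = ∑ i ∈ [p1, p2, p3, p4, p5, p6, p7].toFinset, (u k ∘ π) i * (u k ∘ π) i :=
              Finset.sum_congr rfl fun i _ => by rcases hε i with b | b <;> simp [b]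
          _ ≤ dot (u k ∘ π) (u k ∘ π) := Finset.sum_le_sum_of_subset_of_nonneg (subset_univ _)
              fun i _ _ => mul_self_nonneg _
          _ = 3 := by simpa using h.vv k k
      have e0 := hdot 0; have e1 := hdot 1; have e2 := hdot 2; have e3 := hdot 3
      have a0 := hA 0; have a1 := hA 1; have a2 := hA 2; have a3 := hA 3
      simp at a0 a1 a2 a3
      rw [h.uv, hexp] at e0 e1 e2 e3
      rw [hexp] at hn
      simp only [mem_supp] at a0 a1 a2 a3 e0 e1 e2 e3
      simp [a0, a1, a2, a3] at e0 e1 e2 e3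
      fin_cases k <;> simp at e0 e1 e2 e3 hn <;>
        simp [hv, Bool.and_eq_true] <;> omega
  have hcompat : ∀ k l : Fin 4, k ≠ l → compat (v k) (v l) = true := by
    intro k l hkl
    obtain ⟨t, ht, htv⟩ := h.share hkl
    have htm := Finset.mem_inter.1 (ht ▸ Finset.mem_singleton_self t)
    have hz : ∀ i, ε i * u k (π i) ≠ 0 → ε i * u l (π i) ≠ 0 → π i = t := fun i h1 h2 => by
      have : π i ∈ supp (u k) ∩ supp (u l) := Finset.mem_inter.2
        ⟨mem_supp.2 (right_ne_zero_of_mul h1), mem_supp.2 (right_ne_zero_of_mul h2)⟩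
      rw [ht, Finset.mem_singleton] at this
      exact this
    have heps : ∀ i, ε i ≠ 0 := fun i => by rcases hε i with b | b <;> simp [b]
    have hs : ((v k).zip (v l)).filter (fun x => x.1 != 0 && x.2 != 0) =
        (P.filter fun i => π i = t).map fun i => (ε i * u k (π i), ε i * u l (π i)) := by
      rw [hv, List.zip_map', List.filter_map]
      refine congrArg _ (List.filter_congr fun i _ => ?_)
      rw [Bool.eq_iff_iff]
      simp only [Function.comp_apply, Bool.and_eq_true, bne_iff_ne, decide_eq_true_eq]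
      refine ⟨fun h' => hz i h'.1 h'.2, fun e => ⟨mul_ne_zero (heps i) ?_, mul_ne_zero (heps i) ?_⟩⟩
      · rw [e]; exact mem_supp.1 htm.1
      · rw [e]; exact mem_supp.1 htm.2
    have hfilt : (P.filter fun i => π i = t) = if π t ∈ P then [π t] else [] := by
      have e : ∀ i, (π i = t) ↔ i = π t := fun i =>
        ⟨fun q => by rw [← q, h.invol], fun q => by rw [q, h.invol]⟩
      rw [List.filter_congr (q := fun i => i == π t) fun i _ => by rw [Bool.eq_iff_iff]; simp [e i],
        List.filter_beq]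
      split_ifs with hm
      · rw [List.count_eq_one_of_mem hP hm]; rfl
      · rw [List.count_eq_zero_of_not_mem hm]; rfl
    rw [compat]
    simp only [hs, hfilt]
    by_cases hm : π t ∈ P
    · simp [hm, h.invol, htv]
    · have hcnt : ∀ j, t ∈ supp (u j) → ((v j).filter (· != 0)).length < 3 := fun j hj => by
        rw [hv, List.filter_map, List.length_map]
        have hnd := (hP.filter fun i => ((fun x : ℤ => x != 0) ∘ fun i => ε i * u j (π i)) i)
        rw [← List.toFinset_card_of_nodup hnd,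
          ← Finset.card_image_of_injective _ π.injective]
        calc _ ≤ ((supp (u j)).erase t).card := Finset.card_le_card fun x hx => by
              obtain ⟨i, hi, rfl⟩ := Finset.mem_image.1 hx
              rw [List.mem_toFinset, List.mem_filter] at hi
              simp only [Function.comp_apply, bne_iff_ne] at hi
              exact Finset.mem_erase.2 ⟨fun e => hm (by rw [← e, h.invol]; exact hi.1),
                mem_supp.2 (right_ne_zero_of_mul hi.2)⟩
          _ < 3 := by
              rw [Finset.card_erase_of_mem hj, (supp_units (by simpa using h.uu j j)).1]; norm_num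
      simp [hm, hcnt k htm.1, hcnt l htm.2]
  have := no_images
  rw [List.all_eq_true] at this
  have := this _ (hcand 0)
  rw [List.all_eq_true] at this
  have := this _ (hcand 1)
  rw [List.all_eq_true] at this
  have := this _ (hcand 2)
  rw [List.all_eq_true] at this
  have := this _ (hcand 3)
  simp [hcompat 0 1 (by decide), hcompat 0 2 (by decide), hcompat 0 3 (by decide),
    hcompat 1 2 (by decide), hcompat 1 3 (by decide), hcompat 2 3 (by decide)] at this

/-- Permuting the petals. -/
theorem Petals.comp (h : Petals n π u) (σ : Equiv.Perm (Fin n)) : Petals n π (u ∘ σ) where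
  invol := h.invol
  uu i j := by simp only [Function.comp_apply, h.uu, σ.injective.eq_iff]
  uv i j := by simp only [Function.comp_apply]; rw [h.uv]; simp only [σ.injective.eq_iff]

/-- **Four petals have a common point.** -/
theorem Petals.exists_center {u : Fin 4 → ι → ℤ} (h : Petals 4 π u) : ∃ p, ∀ k, p ∈ supp (u k) := by
  by_cases hthree : ∃ i j k : Fin 4, i ≠ j ∧ i ≠ k ∧ j ≠ k ∧
      ∃ p, p ∈ supp (u i) ∧ p ∈ supp (u j) ∧ p ∈ supp (u k)
  · obtain ⟨i, j, k, hij, hik, hjk, p, hpi, hpj, hpk⟩ := hthree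
    by_contra hno
    push_neg at hno
    obtain ⟨l, hl⟩ := hno p
    have hli : l ≠ i := fun e => hl (e ▸ hpi)
    have hlj : l ≠ j := fun e => hl (e ▸ hpj)
    have hlk : l ≠ k := fun e => hl (e ▸ hpk)
    obtain ⟨σ, hσ0, hσ1, hσ2, hσ3⟩ : ∃ σ : Equiv.Perm (Fin 4), σ 0 = i ∧ σ 1 = j ∧ σ 2 = k ∧ σ 3 = l := by
      refine ⟨Equiv.ofBijective ![i, j, k, l] (Finite.injective_iff_bijective.1 ?_), rfl, rfl, rfl, rfl⟩
      intro a b hab
      fin_cases a <;> fin_cases b <;> simp at hab ⊢ <;>
        first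
        | exact hij hab | exact hij hab.symm | exact hik hab | exact hik hab.symm
        | exact hjk hab | exact hjk hab.symm | exact hli hab | exact hli hab.symm
        | exact hlj hab | exact hlj hab.symm | exact hlk hab | exact hlk hab.symm
    have h' := h.comp σ
    set w := u ∘ σ with hw
    have hp : ∀ a : Fin 4, p ∈ supp (w a) ↔ a ≠ 3 := fun a => by
      fin_cases a <;> simp [hw, hσ0, hσ1, hσ2, hσ3, hpi, hpj, hpk, hl]
    have hq : ∀ a : Fin 4, ∃ q, a = 3 ∨ (q ∈ supp (w a) ∧ q ∈ supp (w 3)) := fun a => by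
      by_cases e : a = 3
      · exact ⟨p, Or.inl e⟩
      · obtain ⟨q, hq, -⟩ := h'.share e
        exact ⟨q, Or.inr (Finset.mem_inter.1 (hq ▸ Finset.mem_singleton_self q))⟩
    choose q hq using hq
    have hq' : ∀ a, a ≠ 3 → q a ∈ supp (w a) ∧ q a ∈ supp (w 3) := fun a ha => (hq a).resolve_left ha
    have hqp : ∀ a, a ≠ 3 → q a ≠ p := fun a ha e => (hp 3).1 (e ▸ (hq' a ha).2) rfl
    have hqmem : ∀ a b, a ≠ 3 → b ≠ 3 → (q a ∈ supp (w b) ↔ a = b) := fun a b ha hb => by
      refine ⟨fun hm => ?_, fun e => e ▸ (hq' a ha).1⟩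
      by_contra hab
      exact hqp a ha (h'.unique hab (hq' a ha).1 hm ((hp a).2 ha) ((hp b).2 hb))
    have hr : ∀ a, ∃ r, a = 3 ∨ (supp (w a) = {p, q a, r} ∧ r ≠ p ∧ r ≠ q a) := fun a => by
      by_cases e : a = 3
      · exact ⟨p, Or.inl e⟩
      · obtain ⟨c3, -⟩ := supp_units (f := w a) (by simpa using h'.uu a a)
        have h2 : (((supp (w a)).erase p).erase (q a)).card = 1 := by
          rw [Finset.card_erase_of_mem (Finset.mem_erase.2 ⟨hqp a e, (hq' a e).1⟩),
            Finset.card_erase_of_mem ((hp a).2 e), c3]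
        obtain ⟨r, hr⟩ := Finset.card_eq_one.1 h2
        have hrm : r ∈ ((supp (w a)).erase p).erase (q a) := hr ▸ Finset.mem_singleton_self r
        refine ⟨r, Or.inr ⟨?_, Finset.ne_of_mem_erase (Finset.mem_of_mem_erase hrm),
          Finset.ne_of_mem_erase hrm⟩⟩
        rw [← Finset.insert_erase ((hp a).2 e),
          ← Finset.insert_erase (Finset.mem_erase.2 ⟨hqp a e, (hq' a e).1⟩), hr]
    choose r hr using hr
    have hr' : ∀ a, a ≠ 3 → supp (w a) = {p, q a, r a} ∧ r a ≠ p ∧ r a ≠ q a :=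
      fun a ha => (hr a).resolve_left ha
    have hrm : ∀ a, a ≠ 3 → r a ∈ supp (w a) := fun a ha => by simp [(hr' a ha).1]
    have hrmem : ∀ a b, a ≠ 3 → (r a ∈ supp (w b) ↔ a = b) := fun a b ha => by
      refine ⟨fun hm => ?_, fun e => e ▸ hrm a ha⟩
      by_contra hab
      by_cases hb : b = 3
      · subst hb
        exact (hr' a ha).2.2 (h'.unique ha (hrm a ha) hm (hq' a ha).1 (hq' a ha).2)
      · exact (hr' a ha).2.1 (h'.unique hab (hrm a ha) hm ((hp a).2 ha) ((hp b).2 hb))
    have h30 : (0 : Fin 4) ≠ 3 := by decide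
    have h31 : (1 : Fin 4) ≠ 3 := by decide
    have h32 : (2 : Fin 4) ≠ 3 := by decide
    have h01 : (0 : Fin 4) ≠ 1 := by decide
    have h02 : (0 : Fin 4) ≠ 2 := by decide
    have h12 : (1 : Fin 4) ≠ 2 := by decide
    have hq01 : q 0 ≠ q 1 := fun e => h01 ((hqmem 0 1 h30 h31).1 (e ▸ (hq' 1 h31).1))
    have hq02 : q 0 ≠ q 2 := fun e => h02 ((hqmem 0 2 h30 h32).1 (e ▸ (hq' 2 h32).1))
    have hq12 : q 1 ≠ q 2 := fun e => h12 ((hqmem 1 2 h31 h32).1 (e ▸ (hq' 2 h32).1))
    have hS3 : supp (w 3) = {q 0, q 1, q 2} := (Finset.eq_of_subset_of_card_le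
      (by simp [Finset.insert_subset_iff, (hq' 0 h30).2, (hq' 1 h31).2, (hq' 2 h32).2])
      (by rw [(supp_units (f := w 3) (by simpa using h'.uu 3 3)).1,
        Finset.card_insert_of_notMem (by simp [hq01, hq02]), Finset.card_pair hq12])).symm
    have hnd : [p, q 0, q 1, q 2, r 0, r 1, r 2].Nodup := by
      have qr : ∀ a b, a ≠ 3 → b ≠ 3 → q a ≠ r b := fun a b ha hb e => by
        by_cases hab : a = b
        · exact (hr' b hb).2.2 (by rw [← e, hab])
        · exact hab ((hqmem a b ha hb).1 (e ▸ hrm b hb))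
      have rr : ∀ a b, a ≠ 3 → b ≠ 3 → a ≠ b → r a ≠ r b := fun a b ha hb hab e =>
        hab ((hrmem a b ha).1 (e ▸ hrm b hb))
      simp [Ne.symm (hqp 0 h30), Ne.symm (hqp 1 h31), Ne.symm (hqp 2 h32),
        Ne.symm (hr' 0 h30).2.1, Ne.symm (hr' 1 h31).2.1, Ne.symm (hr' 2 h32).2.1,
        hq01, hq02, hq12, qr 0 0 h30 h30, qr 0 1 h30 h31, qr 0 2 h30 h32, qr 1 0 h31 h30,
        qr 1 1 h31 h31, qr 1 2 h31 h32, qr 2 0 h32 h30, qr 2 1 h32 h31, qr 2 2 h32 h32,
        rr 0 1 h30 h31 h01, rr 0 2 h30 h32 h02, rr 1 2 h31 h32 h12]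
    let ε : ι → ℤ := fun i => if ∃ a, w a i = -1 then -1 else 1
    refine h'.restrict hnd rfl ε (fun i => ?_) (fun a i hi => ?_) fun a => ?_
    · simp only [ε]; split_ifs <;> simp
    · refine ⟨?_, ?_⟩
      · have : a = 0 ∨ a = 1 ∨ a = 2 ∨ a = 3 :=
          (by decide : ∀ b : Fin 4, b = 0 ∨ b = 1 ∨ b = 2 ∨ b = 3) a
        rcases this with rfl | rfl | rfl | rfl
        · rw [(hr' 0 h30).1] at hi; simp at hi ⊢; tauto
        · rw [(hr' 1 h31).1] at hi; simp at hi ⊢; tauto
        · rw [(hr' 2 h32).1] at hi; simp at hi ⊢; tauto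
        · rw [hS3] at hi; simp at hi ⊢; tauto
      · simp only [ε]
        rcases (supp_units (f := w a) (by simpa using h'.uu a a)).2 i hi with e | e
        · rw [if_neg, e]
          rintro ⟨b, hb⟩
          by_cases hab : a = b
          · rw [← hab, e] at hb; norm_num at hb
          · have := h'.value hab hi (mem_supp.2 (by rw [hb]; norm_num))
            rw [e, hb] at this; norm_num at this
        · rw [if_pos ⟨a, e⟩, e]
    · have q3 : ∀ b, b ≠ 3 → q b ∈ supp (w 3) := fun b hb => (hq' b hb).2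
      have r3 : ∀ b, b ≠ 3 → r b ∉ supp (w 3) := fun b hb hm => hb ((hrmem b 3 hb).1 hm)
      fin_cases a <;>
        simp [hp, hqmem, hrmem, h30, h31, h32, h01, h02, h12, h01.symm, h02.symm, h12.symm,
          q3, r3]
  · push_neg at hthree
    exfalso
    have hcov : ∀ k i, i ∈ supp (u k) → ∃ l, l ≠ k ∧ i ∈ supp (u l) := by
      intro k i hi
      have : ∀ l, ∃ t, l = k ∨ (t ∈ supp (u k) ∧ t ∈ supp (u l)) := fun l => by
        by_cases e : l = k
        · exact ⟨i, Or.inl e⟩
        · obtain ⟨t, ht, -⟩ := h.share (Ne.symm e)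
          exact ⟨t, Or.inr (Finset.mem_inter.1 (ht ▸ Finset.mem_singleton_self t))⟩
      choose t ht using this
      have ht' : ∀ l ∈ univ.erase k, t l ∈ supp (u k) ∧ t l ∈ supp (u l) := fun l hl =>
        (ht l).resolve_left (Finset.ne_of_mem_erase hl)
      have hinj : Set.InjOn t (univ.erase k : Finset (Fin 4)) := fun a ha b hb e => by
        by_contra hab
        have ha' := Finset.ne_of_mem_erase ha; have hb' := Finset.ne_of_mem_erase hb
        exact hthree k a b ha'.symm hb'.symm hab (t a) (ht' a ha).1 (ht' a ha).2 (e ▸ (ht' b hb).2)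
      have himg : (univ.erase k).image t = supp (u k) := Finset.eq_of_subset_of_card_le
        (Finset.image_subset_iff.2 fun l hl => (ht' l hl).1)
        (by rw [Finset.card_image_of_injOn hinj, (supp_units (by simpa using h.uu k k)).1]; simp)
      rw [← himg] at hi
      obtain ⟨l, hl, rfl⟩ := Finset.mem_image.1 hi
      exact ⟨l, Finset.ne_of_mem_erase hl, (ht' l hl).2⟩
    have heven : ∀ i, (2 : ℤ) ∣ ∑ k, u k i := by
      intro i
      by_cases hex : ∃ k, i ∈ supp (u k)
      · obtain ⟨k, hk⟩ := hex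
        obtain ⟨l, hlk, hl⟩ := hcov k i hk
        have hrest : ∀ m, m ≠ k → m ≠ l → u m i = 0 := fun m hmk hml =>
          eq_zero_of_notMem_supp fun hm =>
            hthree k l m hlk.symm hmk.symm hml.symm i hk hl hm
        rw [← Finset.sum_subset (subset_univ {k, l}) fun m _ hm => by
          simp only [Finset.mem_insert, Finset.mem_singleton, not_or] at hm
          exact hrest m hm.1 hm.2, Finset.sum_pair hlk.symm, h.value hlk.symm hk hl]
        exact ⟨u l i, by ring⟩
      · simp only [not_exists] at hex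
        rw [Finset.sum_eq_zero fun k _ => eq_zero_of_notMem_supp (hex k)]
        exact dvd_zero _
    have h1 : (2 : ℤ) ∣ ∑ k, dot (u k) (u 0 ∘ π) := by
      simp only [dot]
      rw [Finset.sum_comm]
      refine Finset.dvd_sum fun i _ => ?_
      rw [← Finset.sum_mul]
      exact Dvd.dvd.mul_right (heven i) _
    simp [h.uv] at h1

end CfsgLib.Blocks.Extraspecial27
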