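import Cfsg.Agent.Blocks.Extraspecial27.Iso

/-!
# The transfer in integer coordinates
-/

set_option autoImplicit false
set_option linter.style.haveILetI false
set_option linter.unusedSectionVars false

namespace CfsgLib.Blocks.Extraspecial27

open Cfsg CfsgLib CfsgLib.Blocks
open scoped ComplexConjugate

universe u

/-- The members of the principal block. -/
abbrev BI (M : Ideal AlgInt) (G : Type u) [Group G] [Finite G] : Type u :=
  {χ : IrrCharacter G // χ ∈ (principalBlock M G).toFinite.toFinset}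

/-- The members of the principal block trivial on `z`. -/
abbrev BZ {K : Type u} [Group K] [Finite K] (M : Ideal AlgInt) (z : K) : Type u :=
  {ψ : IrrCharacter K // ψ ∈ (bar M z).toFinite.toFinset}

open scoped Classical in
/-- Extension by zero of integral coordinates. -/
noncomputable def extZ {K : Type u} [Group K] [Finite K] {M : Ideal AlgInt} {z : K}
    (f : BZ M z → ℤ) (ψ : IrrCharacter K) : ℤ :=
  if h : ψ ∈ (bar M z).toFinite.toFinset then f ⟨ψ, h⟩ else 0

open scoped Classical in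
theorem sum_extZ {K : Type u} [Group K] [Finite K] {M : Ideal AlgInt} {z : K}
    [Fintype (BZ M z)] (f : BZ M z → ℤ) (F : IrrCharacter K → ℂ) :
    ∑ ψ ∈ (bar M z).toFinite.toFinset, (extZ f ψ : ℂ) * F ψ = ∑ i : BZ M z, (f i : ℂ) * F i.1 := by
  rw [← Finset.sum_coe_sort (bar M z).toFinite.toFinset]
  refine Finset.sum_congr (Finset.ext fun x => by simp) fun i _ => ?_
  rw [extZ, dif_pos i.2]

section Bar

variable {K : Type u} [Group K] [Fintype K] {P : Sylow 3 K} {z : K} {m : ℕ} {xs : Fin m → K}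
  {M : Ideal AlgInt}

open scoped Classical in
/-- The columns on the members trivial on `z`, in integers. -/
theorem Classes.exists_bar_cols (hc : Classes P z xs) (hz : z ∈ Subgroup.center K)
    (hM : IsPModular 3 M) (hm : 0 < m) :
    ∃ (o : BZ M z) (Y : Fin m → BZ M z → ℤ), o.1 = Chars.oneChar K ∧
      (∀ j i, (i.1 : K → ℂ) (xs j) = (Y j i : ℂ)) ∧ (∀ j, IsCol o (Y j)) ∧
      (∀ j k, j ≠ k → dot (Y j) (Y k) = 0) ∧ (∀ j k i, (3 : ℤ) ∣ Y j i - Y k i) ∧
      (∀ i, ∃ j, Y j i ≠ 0) ∧ ∀ j, ∑ i, Y j i * (charDegree (i.1 : K → ℂ) : ℤ) = 0 := by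
  haveI : Fact (Nat.Prime 3) := ⟨Nat.prime_three⟩
  choose Y hY using fun (j : Fin m) (i : BZ M z) => hc.exists_int_xs j i.1
  have hdot : ∀ j k, dot (Y j) (Y k) = if j = k then 9 else 0 := fun j k => by
    have h := hc.sum_bar_xs_xs hz hM j k
    rw [← Finset.sum_coe_sort (bar M z).toFinite.toFinset] at h
    simp only [hY] at h
    have h' : ((dot (Y j) (Y k) : ℤ) : ℂ) = ((if j = k then 9 else 0 : ℤ) : ℂ) := by
      rw [dot, Int.cast_sum]
      simp only [Int.cast_mul, Int.cast_ite, Int.cast_ofNat, Int.cast_zero]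
      exact h
    exact_mod_cast h'
  refine ⟨⟨Chars.oneChar K, (Set.Finite.mem_toFinset _).2
    ⟨PrincipalLinear.one_mem hM, by simp only [Chars.oneChar_apply]⟩⟩, Y, rfl, hY,
    fun j => ⟨by rw [hdot, if_pos rfl], ?_⟩, fun j k h => by rw [hdot, if_neg h],
    fun j k i => ?_, fun i => ?_, fun j => ?_⟩
  · have h := hY j ⟨Chars.oneChar K, (Set.Finite.mem_toFinset _).2
      ⟨PrincipalLinear.one_mem hM, by simp only [Chars.oneChar_apply]⟩⟩
    simp only [Chars.oneChar_apply] at h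
    exact_mod_cast h.symm
  · have h1 := hc.congr_xs_one hM j i.1 (hY j i)
    have h2 := hc.congr_xs_one hM k i.1 (hY k i)
    have := dvd_sub h1 h2
    simpa using this
  · obtain ⟨j, hj⟩ := hc.exists_xs_ne_zero hz hM hm ((Set.Finite.mem_toFinset _).1 i.2)
    exact ⟨j, fun e => hj (by rw [hY, e, Int.cast_zero])⟩
  · have h := hc.sum_bar_xs_mul hz hM j 1
    rw [if_neg fun hj => ?_, ← Finset.sum_coe_sort (bar M z).toFinite.toFinset] at h
    · simp only [hY, ← Chars.coe_charDegree] at h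
      exact_mod_cast h
    · rw [RankFourNine.ppart_of_pow (p := 3) ⟨0, by simp⟩] at hj
      obtain ⟨g, hg⟩ := isConj_iff.1 hj.symm
      exact hc.nz j (by rw [← hg]; simp)

end Bar

variable {G : Type u} [Group G] [Fintype G] {P : Sylow 3 G} {z : G} {m : ℕ} {xs : Fin m → G}
  {M : Ideal AlgInt} [Fintype (Subgroup.centralizer ({z} : Set G))]

/-- The properties of the transfer. -/
structure IsTransfer (hc : Classes P z xs) (o' : BZ M (zC z)) (Y : Fin m → BZ M (zC z) → ℤ)
    [Fintype (BI M G)] [DecidableEq (BI M G)] [Fintype (BZ M (zC z))] (o : BI M G)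
    (π : Equiv.Perm (BI M G)) (X : Fin m → BI M G → ℤ)
    (A : (BZ M (zC z) → ℤ) → BI M G → ℤ) : Prop where
  invol : ∀ i, π (π i) = i
  π_o : π o = o
  col : ∀ j, IsCol o (X j)
  orth : ∀ j k, j ≠ k → dot (X j) (X k) = 0
  cong : ∀ j k i, (3 : ℤ) ∣ X j i - X k i
  πX : ∀ j i, X j (π i) = X j i
  gram : ∀ f g, (∀ j, dot f (Y j) = 0) → (∀ j, dot g (Y j) = 0) →
    dot (A f) (A g) = 2 * dot f g ∧ dot (A f) (A g ∘ π) = dot f g
  value : ∀ f, (∀ j, dot f (Y j) = 0) → A f o = -f o'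
  perp : ∀ f, (∀ j, dot f (Y j) = 0) → ∀ j, dot (A f) (X j) = 0
  congA : ∀ f c j, (∀ i', dot f (Y i') = 0) → (∀ i, (3 : ℤ) ∣ f i - c * Y j i) →
    ∀ i, (3 : ℤ) ∣ A f i + c * X j i
  comb : ∀ {n : ℕ} (c : Fin n → ℤ) (f : Fin n → BZ M (zC z) → ℤ), (∀ r j, dot (f r) (Y j) = 0) →
    A (fun i => ∑ r, c r * f r i) = fun i => ∑ r, c r * A (f r) i
  nz : ∀ {n : ℕ} (f : Fin n → BZ M (zC z) → ℤ), (∀ r j, dot (f r) (Y j) = 0) →
    (∀ T : BZ M (zC z) → ℂ, (∀ j, ∑ i, (Y j i : ℂ) * T i = 0) →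
      (∀ r, ∑ i, (f r i : ℂ) * T i = 0) → ∀ i, T i = 0) →
    ∀ i, ∃ r, A (f r) i ≠ 0 ∨ A (f r) (π i) ≠ 0
  height : ∀ j i, blockHeight 3 (principalBlock M G) (i.1 : G → ℂ) = 0 ↔ X j i ≠ 0

open scoped Classical in
theorem Classes.exists_transfer (hc : Classes P z xs) (hM : IsPModular 3 M) (hm : 0 < m) :
    ∃ (o' : BZ M (zC z)) (Y : Fin m → BZ M (zC z) → ℤ) (o : BI M G) (π : Equiv.Perm (BI M G))
      (X : Fin m → BI M G → ℤ) (A : (BZ M (zC z) → ℤ) → BI M G → ℤ),
      (∀ j, IsCol o' (Y j)) ∧ (∀ j k, j ≠ k → dot (Y j) (Y k) = 0) ∧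
      (∀ j k i, (3 : ℤ) ∣ Y j i - Y k i) ∧ (∀ i, ∃ j, Y j i ≠ 0) ∧
      (∀ j, ∃ d : BZ M (zC z) → ℤ, d o' = 1 ∧ ∑ i, Y j i * d i = 0) ∧
      IsTransfer hc o' Y o π X A := by
  haveI : Fact (Nat.Prime 3) := ⟨Nat.prime_three⟩
  have hmax := isMaximal_of_isPModular hM
  obtain ⟨o', Y, ho', hY, hYc, hYo, hYg, hYn, hYd⟩ :=
    hc.classesC.exists_bar_cols hc.zC_center hM hm
  obtain ⟨ω, hω⟩ : ∃ ω : ℂ, IsPrimitiveRoot ω 3 := ⟨_, Complex.isPrimitiveRoot_exp 3 (by norm_num)⟩
  have h1ω := one_add_omega hω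
  have hcω := conj_omega hω
  obtain ⟨k, hk, hk27, hkreg, hksq⟩ := exists_pi (G := G) (P := P) hc.base.card
  choose X hX using fun (j : Fin m) (i : BI M G) => hc.exists_int_xs j i.1
  set perp : (BZ M (zC z) → ℤ) → Prop := fun f => ∀ j, dot f (Y j) = 0 with hperp
  have hval : ∀ f, perp f → ∀ j, hc.val M (extZ f) j = 0 := fun f hf j => by
    rw [Classes.val, sum_extZ]
    simp only [hY]
    exact_mod_cast hf j
  have hint : ∀ (f : BZ M (zC z) → ℤ) (i : BI M G), ∃ n : ℤ, perp f →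
      coef M z (cA ω) (extZ f) i.1 = (n : ℂ) := fun f i => by
    by_cases hf : perp f
    · obtain ⟨n, hn⟩ := hc.exists_int_coef hM hω (hval f hf) i.1
      exact ⟨n, fun _ => hn⟩
    · exact ⟨0, fun h => absurd h hf⟩
  choose A hA using hint
  have hmem : ∀ i : BI M G, Orth.powIrr hk i.1 ∈ (principalBlock M G).toFinite.toFinset := fun i =>
    (Set.Finite.mem_toFinset _).2 (Orth.powIrr_mem_principalBlock hk ((Set.Finite.mem_toFinset _).1 i.2))
  let π0 : BI M G → BI M G := fun i => ⟨Orth.powIrr hk i.1, hmem i⟩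
  have hinv : ∀ i, π0 (π0 i) = i := fun i => Subtype.ext (Subtype.ext (funext fun g => by
    show (i.1 : G → ℂ) ((g ^ k) ^ k) = _
    rw [← pow_mul, hksq]))
  let π : Equiv.Perm (BI M G) := ⟨π0, π0, hinv, hinv⟩
  let o : BI M G := ⟨Chars.oneChar G, (Set.Finite.mem_toFinset _).2 (PrincipalLinear.one_mem hM)⟩
  have hsumB : ∀ F : IrrCharacter G → ℂ, (∀ χ, χ ∉ principalBlock M G → F χ = 0) →
      ∑ i : BI M G, F i.1 = ∑ χ, F χ := fun F hF => by
    rw [Finset.sum_coe_sort (principalBlock M G).toFinite.toFinset]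
    exact Finset.sum_subset (Finset.subset_univ _) fun χ _ h =>
      hF χ fun e => h ((Set.Finite.mem_toFinset _).2 e)
  have hB : ∀ f, perp f → ∀ i, coef M z (cB ω) (extZ f) i.1 = (A f (π i) : ℂ) := fun f hf i => by
    rw [hc.coef_cB ω hk hk27 hkreg, ← hA f (π i) hf]
    rfl
  have hXdot : ∀ j l, dot (X j) (X l) = if j = l then 9 else 0 := fun j l => by
    have h := hc.sum_xs_mul_xs hM j l
    rw [← Finset.sum_coe_sort (principalBlock M G).toFinite.toFinset] at h
    simp only [hX] at h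
    have h' : ((dot (X j) (X l) : ℤ) : ℂ) = ((if j = l then 9 else 0 : ℤ) : ℂ) := by
      rw [dot, Int.cast_sum]
      simp only [Int.cast_mul, Int.cast_ite, Int.cast_ofNat, Int.cast_zero]
      exact h
    exact_mod_cast h'
  have hcol : ∀ j, IsCol o (X j) := fun j => ⟨by rw [hXdot, if_pos rfl], by
    have h := hX j o
    rw [show (o.1 : G → ℂ) = (Chars.oneChar G : G → ℂ) from rfl, Chars.oneChar_apply] at h
    exact_mod_cast h.symm⟩
  refine ⟨o', Y, o, π, X, A, hYc, hYo, hYg, hYn, fun j => ⟨_, ?_, hYd j⟩, hinv, ?_, hcol,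
    fun j l h => by rw [hXdot, if_neg h], fun j l i => ?_, fun j i => ?_, ?_, ?_, ?_, ?_, ?_, ?_, ?_⟩
  · rw [ho']
    simp [charDegree, Chars.oneChar_apply]
  · exact Subtype.ext (Subtype.ext (funext fun g => by
      show (Chars.oneChar G : G → ℂ) (g ^ k) = (Chars.oneChar G : G → ℂ) g
      rw [Chars.oneChar_apply, Chars.oneChar_apply]))
  · have := dvd_sub (hc.congr_xs_one hM j i.1 (hX j i)) (hc.congr_xs_one hM l i.1 (hX l i))
    simpa using this
  · have h := hc.powIrr_xs hk hk27 i.1 j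
    rw [hX j i, show (Orth.powIrr hk i.1 : G → ℂ) = ((π i).1 : G → ℂ) from rfl, hX j (π i)] at h
    exact_mod_cast h
  · intro f g hf hg
    have hip : ∑ ψ ∈ (bar M (zC z)).toFinite.toFinset, (extZ f ψ : ℂ) * (extZ g ψ : ℂ) =
        (dot f g : ℤ) := by
      rw [sum_extZ, dot, Int.cast_sum]
      exact Finset.sum_congr rfl fun i _ => by rw [Int.cast_mul, extZ, dif_pos i.2]
    have e : ∀ c' : Fin 3 → ℂ, c' 0 = 0 → ∑ i : BI M G,
        coef M z (cA ω) (extZ f) i.1 * conj (coef M z c' (extZ g) i.1) =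
        ((ω - 1) * conj (c' 1) + (ω ^ 2 - 1) * conj (c' 2)) / 3 * (dot f g : ℤ) := fun c' hc' => by
      rw [hsumB (fun χ => coef M z (cA ω) (extZ f) χ * conj (coef M z c' (extZ g) χ))
        fun χ h => by rw [hc.coef_eq_zero_of_notMem hM _ rfl h, zero_mul],
        hc.gram hM (cA ω) c' rfl hc' (hval f hf), hip]
      simp [cA]
    constructor
    · have h := e (cA ω) rfl
      simp only [hA f _ hf, hA g _ hg, map_intCast] at h
      have h2 : ((ω - 1) * conj ((cA ω) 1) + (ω ^ 2 - 1) * conj ((cA ω) 2)) / 3 = 2 := by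
        simp only [cA, Matrix.cons_val_one, Matrix.cons_val_two, Matrix.head_cons, Matrix.tail_cons,
          Matrix.cons_val_zero, map_sub, map_one, map_pow, hcω]
        have h3 := hω.pow_eq_one
        linear_combination (1 / 3 : ℂ) * ((ω ^ 3 + 2 - ω) * h3 - 2 * h1ω)
      rw [h2] at h
      rw [dot]
      exact_mod_cast h
    · have h := e (cB ω) rfl
      simp only [hA f _ hf, hB g hg, map_intCast] at h
      have h2 : ((ω - 1) * conj ((cB ω) 1) + (ω ^ 2 - 1) * conj ((cB ω) 2)) / 3 = 1 := by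
        simp only [cB, Matrix.cons_val_one, Matrix.cons_val_two, Matrix.head_cons, Matrix.tail_cons,
          Matrix.cons_val_zero, map_sub, map_one, map_pow, hcω]
        have h3 := hω.pow_eq_one
        linear_combination (1 / 3 : ℂ) * (ω ^ 2 * h3 - h1ω)
      rw [h2, one_mul] at h
      rw [dot]
      exact_mod_cast h
  · intro f hf
    have h := hA f o hf
    rw [show (o.1 : IrrCharacter G) = Chars.oneChar G from rfl,
      hc.coef_one hM (cA ω) rfl (by
        simp only [cA, Matrix.cons_val_one, Matrix.cons_val_two, Matrix.head_cons, Matrix.tail_cons,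
          Matrix.cons_val_zero]
        linear_combination h1ω) (hval f hf), extZ, dif_pos (ho' ▸ o'.2)] at h
    rw [show (⟨Chars.oneChar _, ho' ▸ o'.2⟩ : BZ M (zC z)) = o' from Subtype.ext ho'.symm] at h
    exact_mod_cast h.symm
  · intro f hf j
    have h := hc.sum_coef_mul_xs (M := M) (μ := extZ f) (cA ω) rfl j
    rw [← hsumB (fun χ => coef M z (cA ω) (extZ f) χ * (χ : G → ℂ) (xs j))
      fun χ h' => by rw [hc.coef_eq_zero_of_notMem hM _ rfl h', zero_mul]] at h
    simp only [hA f _ hf, hX] at h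
    rw [dot]
    exact_mod_cast h
  · intro f c j hf hdvd i
    choose q hq using hdvd
    obtain ⟨n, hn⟩ := hc.coef_congr hM hω (hval f hf) (ν := extZ q) (c := c) (j := j)
      (fun ψ hψ => by
        have hψ' := (Set.Finite.mem_toFinset (bar M (zC z)).toFinite).2 hψ
        rw [extZ, extZ, dif_pos hψ', dif_pos hψ', hY j ⟨ψ, hψ'⟩,
          show f ⟨ψ, hψ'⟩ = 3 * q ⟨ψ, hψ'⟩ + c * Y j ⟨ψ, hψ'⟩ by linear_combination hq ⟨ψ, hψ'⟩]
        push_cast; rfl)
      ((Set.Finite.mem_toFinset _).1 i.2)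
    rw [hA f i hf, hX j i] at hn
    refine ⟨n, ?_⟩
    have : A f i = 3 * n - c * X j i := by exact_mod_cast hn
    omega
  · intro n c f hf
    funext i
    have hf' : perp (fun b => ∑ r, c r * f r b) := fun j => by
      rw [dot, Finset.sum_congr rfl fun b _ => Finset.sum_mul _ _ _, Finset.sum_comm]
      refine Finset.sum_eq_zero fun r _ => ?_
      rw [Finset.sum_congr rfl fun b _ => mul_assoc _ _ _, ← Finset.mul_sum]
      exact mul_eq_zero_of_right _ (hf r j)
    have e : (extZ fun b => ∑ r, c r * f r b) = fun ψ => ∑ r, c r * extZ (f r) ψ := by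
      funext ψ
      by_cases h : ψ ∈ (bar M (zC z)).toFinite.toFinset
      · simp only [extZ, dif_pos h]
      · simp only [extZ, dif_neg h, mul_zero, Finset.sum_const_zero]
    have h := hA _ i hf'
    rw [e, Classes.coef_sum, Finset.sum_congr rfl fun r _ => by rw [hA _ i (hf r)]] at h
    exact_mod_cast h.symm
  · intro n f hf hspan i
    obtain ⟨r, hr⟩ := hc.exists_coef_ne_zero hM hω (fun r => extZ (f r)) (fun T h1 h2 ψ hψ => by
      have := hspan (fun b => T b.1) (fun j => by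
        have := h1 j
        rw [← Finset.sum_coe_sort (bar M (zC z)).toFinite.toFinset] at this
        simp only [← hY]
        exact this) (fun r => by
        have := h2 r
        rw [sum_extZ] at this
        exact this) ⟨ψ, (Set.Finite.mem_toFinset _).2 hψ⟩
      exact this) ((Set.Finite.mem_toFinset _).1 i.2)
    refine ⟨r, hr.imp (fun h e => h ?_) fun h e => h ?_⟩
    · rw [hA _ i (hf r), e, Int.cast_zero]
    · rw [hB _ (hf r), e, Int.cast_zero]
  · intro j i
    rw [PrincipalLinear.blockHeight_eq_zero_iff hM]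
    have h1 := hc.congr_xs_one hM j i.1 (hX j i)
    have h2 := (hcol j).bound i
    constructor
    · intro h e
      rw [e, zero_sub, dvd_neg] at h1
      exact h (Int.natCast_dvd_natCast.1 h1)
    · intro h h3
      have h4 : (3 : ℤ) ∣ X j i := (dvd_sub_left (Int.natCast_dvd_natCast.2 h3)).1 h1
      omega

end CfsgLib.Blocks.Extraspecial27
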